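import Cfsg.Agent.Sym.Cls

/-!
# Beta-sets: residues, weights, counts (S4536 project)

An exponent vector `a : Fin N → ℕ` (injective) up to permutation is the multiset `ms a`.
`rs e s` is the multiset of residues, `wt e s` the `e`-weight.  Use `Sym/Comb` (`rk`, `CInj`, `exists_sub_single`)
with `ρ = a % e`, `b = a / e`; `∑ i, rk ρ id i = ∑_{r<e} choose (count r) 2`.
`card_cls_le`: either inject directly into `Sym.words (range e) 1 w` (list the positive parts
`b i - rk ρ b i` with their residues) or use `Sym.mem_span_words` with `c b = XF (res e ρ b)`, `Q = True`,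
`R = range e` on `Perm (Fin m)` (`m ≤ N`): the `XF a` for different `ms a` are `±` different irreducible
characters, so independent; `words_one_bound`, `two_mul_ncard_image_words_lt`.
-/

set_option autoImplicit false
set_option linter.unusedSectionVars false
set_option linter.unusedVariables false
set_option linter.style.haveILetI false

namespace Cfsg.Gln

open Finset Function Sym

variable {N e : ℕ} {a b : Fin N → ℕ}

/-- The multiset of values. -/
def ms (a : Fin N → ℕ) : Multiset ℕ := univ.val.map a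

/-- The residues. -/
def rs (e : ℕ) (s : Multiset ℕ) : Multiset ℕ := s.map (· % e)

/-- The `e`-weight. -/
def wt (e : ℕ) (s : Multiset ℕ) : ℕ :=
  (s.map (· / e)).sum - ∑ r ∈ range e, ((rs e s).count r).choose 2

theorem sum_ms (a : Fin N → ℕ) : (ms a).sum = ∑ i, a i := by
  rfl

theorem card_ms (a : Fin N → ℕ) : (ms a).card = N := by
  simp [ms]

theorem nodup_ms : (ms a).Nodup ↔ Injective a := by
  rw [ms, Multiset.nodup_map_iff_inj_on univ.nodup]
  exact ⟨fun h i j e => h i (mem_univ_val i) j (mem_univ_val j) e, fun h i _ j _ e => h e⟩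

theorem count_ms (a : Fin N → ℕ) (y : ℕ) : (ms a).count y = #{i | a i = y} := by
  rw [ms, Multiset.count_map, Finset.card_def, Finset.filter_val]
  congr 1
  exact Multiset.filter_congr fun i _ => eq_comm

theorem mem_ms {y : ℕ} : y ∈ ms a ↔ ∃ i, a i = y := by
  simp [ms]

theorem map_ms (f : ℕ → ℕ) (a : Fin N → ℕ) : (ms a).map f = ms fun i => f (a i) := by
  rw [ms, Multiset.map_map]; rfl

theorem ms_comp (a : Fin N → ℕ) (σ : Equiv.Perm (Fin N)) : ms (a ∘ σ) = ms a := by
  rw [ms, ← Multiset.map_map, Multiset.map_univ_val_equiv]; rfl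

theorem ms_eq_iff : ms a = ms b ↔ ∃ σ : Equiv.Perm (Fin N), b = a ∘ σ := by
  constructor
  · intro h
    have hc : ∀ y, Fintype.card {i // b i = y} = Fintype.card {i // a i = y} := by
      intro y
      rw [Fintype.card_subtype, Fintype.card_subtype, ← count_ms, ← count_ms, h]
    refine ⟨Equiv.ofFiberEquiv (f := b) (g := a) fun y => Fintype.equivOfCardEq (hc y), ?_⟩
    funext i
    exact (Equiv.ofFiberEquiv_map _ i).symm
  · rintro ⟨σ, rfl⟩
    exact (ms_comp a σ).symm

theorem exists_ms_eq {s : Multiset ℕ} (h : s.card = N) : ∃ a : Fin N → ℕ, ms a = s := by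
  induction s using Quotient.inductionOn with
  | _ l =>
  have hl : l.length = N := by simpa using h
  subst hl
  exact ⟨l.get, by rw [ms, Fin.univ_val_map, List.ofFn_get]; rfl⟩

theorem ms_eq_of_sum_eq_tri (ha : Injective a) (h : ∑ i, a i = tri N) :
    ms a = ms (Fin.val : Fin N → ℕ) := by
  refine (Multiset.eq_of_le_of_card_le ?_ (by rw [card_ms, card_ms])).symm
  rw [Multiset.le_iff_subset (nodup_ms.2 Fin.val_injective)]
  intro y hy
  obtain ⟨i, rfl⟩ := mem_ms.1 hy
  exact mem_ms.2 (exists_apply_eq ha (m := 0) h.le i.2)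

theorem sum_val : ∑ i : Fin N, (i : ℕ) = tri N := by
  rfl

theorem rs_ms (e : ℕ) (a : Fin N → ℕ) : rs e (ms a) = ms fun i => a i % e :=
  map_ms _ a

theorem rs_add_single {k : ℕ} (hk : e ∣ k) (a : Fin N → ℕ) (i : Fin N) :
    rs e (ms (a + Pi.single i k)) = rs e (ms a) := by
  rw [rs_ms, rs_ms]
  congr 1
  funext j
  obtain ⟨c, rfl⟩ := hk
  simp only [Pi.add_apply, Pi.single_apply]
  split_ifs <;> simp

theorem rs_sub_single {k : ℕ} (hk : e ∣ k) {i : Fin N} (hi : k ≤ a i) :
    rs e (ms (a - Pi.single i k)) = rs e (ms a) := by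
  conv_rhs => rw [← sub_single_add hi]
  rw [rs_add_single hk]

theorem sum_rk_id {ρ : Fin N → ℕ} (hρ : ∀ i, ρ i < e) :
    ∑ i, rk ρ id i = ∑ r ∈ range e, ((ms ρ).count r).choose 2 := by
  rw [← sum_fiberwise_of_maps_to (t := range e) (g := ρ) fun i _ => mem_range.2 (hρ i)]
  refine sum_congr rfl fun r _ => ?_
  rw [count_ms, ← card_product_filter_lt,
    card_eq_sum_card_fiberwise (f := Prod.snd) (t := {i | ρ i = r}) fun x hx => by
      simp only [coe_filter, mem_product, mem_filter, mem_univ, true_and, Set.mem_setOf_eq] at hx ⊢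
      exact hx.1.2]
  refine sum_congr rfl fun i hi => ?_
  simp only [mem_filter, mem_univ, true_and] at hi
  rw [rk]
  refine card_bij (fun j _ => (j, i)) (fun j hj => ?_) (fun j _ j' _ h => by simpa using h)
    (fun x hx => ?_)
  · simp only [mem_filter, mem_univ, true_and, id, mem_product] at hj ⊢
    exact ⟨⟨⟨hj.1.trans hi, hi⟩, hj.2⟩, trivial⟩
  · simp only [mem_filter, mem_univ, true_and, id, mem_product] at hx ⊢
    obtain ⟨⟨⟨h1, h2⟩, h3⟩, rfl⟩ := hx
    exact ⟨x.1, ⟨h1.trans h2.symm, h3⟩, rfl⟩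

theorem wt_ms (he : 0 < e) (a : Fin N → ℕ) :
    wt e (ms a) = ∑ i, a i / e - ∑ i, rk (fun i => a i % e) id i := by
  rw [wt, map_ms, sum_ms, rs_ms, sum_rk_id fun i => Nat.mod_lt _ he]

theorem res_mod_div (e : ℕ) (a : Fin N → ℕ) : res e (fun i => a i % e) (fun i => a i / e) = a :=
  funext fun i => Nat.mod_add_div _ _

theorem cinj_div (e : ℕ) (ha : Injective a) : CInj (fun i => a i % e) fun i => a i / e :=
  cinj_of_injective (p := e) (by rw [res_mod_div]; exact ha)

theorem sum_rk_le_div (he : 0 < e) (ha : Injective a) :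
    ∑ i, rk (fun i => a i % e) id i ≤ ∑ i, a i / e := by
  have h := cinj_div e ha
  rw [← h.sum_rk']
  exact sum_le_sum fun i _ => h.rk_le i

theorem wt_sub_single (he : 0 < e) {j : ℕ} {i : Fin N} (hi : e * j ≤ a i)
    (h : Injective (a - Pi.single i (e * j) : Fin N → ℕ)) :
    wt e (ms (a - Pi.single i (e * j))) + j = wt e (ms a) := by
  have h1 : (fun x => (a - Pi.single i (e * j) : Fin N → ℕ) x % e) = fun x => a x % e := by
    funext x
    simp only [Pi.sub_apply, Pi.single_apply]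
    split_ifs with hx
    · subst hx
      conv_rhs => rw [← Nat.sub_add_cancel hi, Nat.add_mul_mod_self_left]
    · simp
  have h2 : ∑ x, (a - Pi.single i (e * j) : Fin N → ℕ) x / e + j = ∑ x, a x / e := by
    have h3 : j ≤ a i / e := (Nat.le_div_iff_mul_le he).2 (by rw [mul_comm]; exact hi)
    rw [← sum_sub_single (b := fun x => a x / e) h3]
    congr 1
    refine sum_congr rfl fun x _ => ?_
    simp only [Pi.sub_apply, Pi.single_apply]
    split_ifs with hx
    · subst hx
      rw [Nat.sub_mul_div]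
    · simp
  have h4 := sum_rk_le_div he h
  rw [wt_ms he, wt_ms he, h1, ← h2]
  rw [h1] at h4
  omega

theorem exists_sub_single_of_wt (he : 0 < e) (ha : Injective a) (h : 0 < wt e (ms a)) :
    ∃ i, e ≤ a i ∧ Injective (a - Pi.single i e : Fin N → ℕ) := by
  have h1 := cinj_div e ha
  obtain ⟨i, h2, h3⟩ := h1.exists_sub_single (fun h4 => by
    rw [wt_ms he, ← h1.sum_rk', h4] at h
    simp at h)
  have h4 : e ≤ a i := by simpa using (Nat.le_div_iff_mul_le he).1 h2
  refine ⟨i, h4, ?_⟩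
  have h5 := injective_of_cinj (p := e) (fun i => Nat.mod_lt _ he) h3
  have h6 := res_add_single (p := e) (ρ := fun i => a i % e)
    ((fun i => a i / e) - Pi.single i 1) i 1
  rw [sub_single_add (b := fun i => a i / e) h2, res_mod_div, mul_one] at h6
  convert h5 using 1
  funext j
  have h7 := congrFun h6 j
  simp only [Pi.add_apply, Pi.sub_apply] at h7 ⊢
  omega

theorem sum_mod_add_div (e : ℕ) (a : Fin N → ℕ) :
    ∑ i, a i % e + e * ∑ i, a i / e = ∑ i, a i := by
  rw [← sum_res, res_mod_div]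

theorem sum_mod_eq (h : rs e (ms a) = rs e (ms b)) : ∑ i, a i % e = ∑ i, b i % e := by
  rw [← sum_ms, ← sum_ms, ← rs_ms, ← rs_ms, h]

theorem sum_rk_eq (he : 0 < e) (h : rs e (ms a) = rs e (ms b)) :
    ∑ i, rk (fun i => a i % e) id i = ∑ i, rk (fun i => b i % e) id i := by
  rw [sum_rk_id fun i => Nat.mod_lt _ he, sum_rk_id fun i => Nat.mod_lt _ he, ← rs_ms, ← rs_ms, h]

theorem wt_eq_of_sum_eq (he : 0 < e) (h : rs e (ms a) = rs e (ms b)) (h' : ∑ i, a i = ∑ i, b i) :
    wt e (ms a) = wt e (ms b) := by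
  have h1 := sum_mod_eq h
  have h2 := sum_mod_add_div e a
  have h3 := sum_mod_add_div e b
  have h4 : ∑ i, a i / e = ∑ i, b i / e := Nat.eq_of_mul_eq_mul_left he (by omega)
  simp only [wt, map_ms, sum_ms, h, h4]

theorem sum_eq_of_wt_eq (he : 0 < e) (ha : Injective a) (hb : Injective b)
    (h : rs e (ms a) = rs e (ms b)) (h' : wt e (ms a) = wt e (ms b)) : ∑ i, a i = ∑ i, b i := by
  have h1 := sum_mod_eq h
  have h2 := sum_mod_add_div e a
  have h3 := sum_mod_add_div e b
  have h5 := sum_rk_le_div he ha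
  have h6 := sum_rk_le_div he hb
  have h7 := sum_rk_eq he h
  rw [wt_ms he, wt_ms he] at h'
  have h4 : ∑ i, a i / e = ∑ i, b i / e := by omega
  rw [← h2, ← h3, h1, h4]

theorem rk_eq_of_wt_zero (he : 0 < e) (ha : Injective a) (h : wt e (ms a) = 0) :
    rk (fun i => a i % e) (fun i => a i / e) = fun i => a i / e := by
  have h1 := cinj_div e ha
  have h2 := sum_rk_le_div he ha
  rw [wt_ms he, ← h1.sum_rk'] at h
  rw [← h1.sum_rk'] at h2
  funext i
  exact (sum_eq_sum_iff_of_le fun i _ => h1.rk_le i).1 (by omega) i (mem_univ i)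

theorem ms_eq_of_wt_zero (he : 0 < e) (ha : Injective a) (hb : Injective b)
    (h : rs e (ms a) = rs e (ms b)) (h₁ : wt e (ms a) = 0) (h₂ : wt e (ms b) = 0) : ms a = ms b := by
  rw [rs_ms, rs_ms, ms_eq_iff] at h
  obtain ⟨τ, hτ⟩ := h
  have ha' : Injective (a ∘ τ) := ha.comp τ.injective
  rw [← ms_comp a τ] at h₁ ⊢
  have hρ : (fun i => (a ∘ τ) i % e) = fun i => b i % e := hτ.symm
  have h1 := rk_eq_of_wt_zero he ha' h₁
  have h2 := rk_eq_of_wt_zero he hb h₂
  have h3 := cinj_div e ha'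
  rw [hρ] at h1 h3
  obtain ⟨σ, h4, h5⟩ := h3.exists_perm (cinj_div e hb)
  rw [h1, h2] at h5
  rw [← res_mod_div e (a ∘ τ), hρ, h5, res_comp h4, res_mod_div, ms_comp]

theorem wt_one (a : Fin N → ℕ) : wt 1 (ms a) = ∑ i, a i - tri N := by
  rw [wt_ms one_pos]
  simp only [Nat.div_one, Nat.mod_one]
  congr 1
  rw [tri, ← rk_unit_id]
  simp [rk]

theorem wt_eq_zero_of_sum (he : 0 < e) (ha : Injective a) (h : ∑ i, a i = tri N) :
    wt e (ms a) = 0 := by
  by_contra h1
  obtain ⟨i, h2, h3⟩ := exists_sub_single_of_wt he ha (Nat.pos_of_ne_zero h1)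
  have h4 := tri_le h3
  have h5 := sum_sub_single h2
  omega

/-- Removing `k` at different places gives different beta-sets. -/
theorem eq_of_ms_sub_single (ha : Injective a) {k : ℕ} (hk : 0 < k) {i j : Fin N} (hi : k ≤ a i)
    (hj : k ≤ a j) (h : ms (a - Pi.single i k) = ms (a - Pi.single j k)) : i = j := by
  by_contra hij
  have h1 : a j ∈ ms (a - Pi.single i k) :=
    mem_ms.2 ⟨j, by simp [Pi.single_eq_of_ne (Ne.symm hij)]⟩
  have h2 : a i ∈ ms (a - Pi.single j k) :=
    mem_ms.2 ⟨i, by simp [Pi.single_eq_of_ne hij]⟩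
  rw [h] at h1
  rw [← h] at h2
  obtain ⟨x, hx⟩ := mem_ms.1 h1
  obtain ⟨y, hy⟩ := mem_ms.1 h2
  simp only [Pi.sub_apply, Pi.single_apply] at hx hy
  split_ifs at hx hy with h3 h4 h4
  · subst h3 h4; omega
  · subst h3; omega
  · subst h4; omega
  · exact h3 (ha (by omega))

/-- The one-row partition of `w`. -/
theorem exists_row (hN : 0 < N) (w : ℕ) : ∃ (a : Fin N → ℕ) (i : Fin N), Injective a ∧
    ∑ j, a j = tri N + w ∧ ∀ k ≤ w, k ≤ a i ∧ Injective (a - Pi.single i k : Fin N → ℕ) := by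
  let i : Fin N := ⟨N - 1, by omega⟩
  have key : ∀ w, Injective (Fin.val + Pi.single i w : Fin N → ℕ) := by
    intro w x y hxy
    have hx := x.2
    have hy := y.2
    simp only [Pi.add_apply, Pi.single_apply, Fin.ext_iff, i] at hxy ⊢
    split_ifs at hxy <;> omega
  refine ⟨Fin.val + Pi.single i w, i, key w, ?_, fun k hk => ⟨by simp; omega, ?_⟩⟩
  · simp [sum_add_distrib, tri]
  · convert key (w - k) using 1
    funext x
    simp only [Pi.add_apply, Pi.sub_apply, Pi.single_apply]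
    split_ifs <;> omega

/-- Beta-sets with given size and residues. -/
def bcls (N e m : ℕ) (ρ : Multiset ℕ) : Set (Multiset ℕ) :=
  {s | s.card = N ∧ s.Nodup ∧ s.sum = tri N + m ∧ rs e s = ρ}

theorem bcls_finite (N e m : ℕ) (ρ : Multiset ℕ) : (bcls N e m ρ).Finite := by
  refine (Set.finite_coe_iff.1 inferInstance :
    ((range (tri N + m + 1)).val.powerset.toFinset : Set (Multiset ℕ)).Finite).subset ?_
  rintro s ⟨h1, h2, h3, h4⟩
  simp only [mem_coe, Multiset.mem_toFinset, Multiset.mem_powerset]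
  rw [Multiset.le_iff_subset h2]
  intro x hx
  have := Multiset.single_le_sum (fun _ _ => Nat.zero_le _) x hx
  simp only [range_val, Multiset.mem_range]
  omega

theorem exists_ncard_le_words (he : 0 < e) {m : ℕ} {ρ s : Multiset ℕ} (hs : s ∈ bcls N e m ρ) :
    ∃ g : List (ℕ × ℕ) → (Fin N → ℕ) → ℂ, (∀ x y l, g (x :: y :: l) = g (y :: x :: l)) ∧
      (bcls N e m ρ).ncard ≤ (g '' words (range e) 1 (wt e s)).ncard := by
  classical
  obtain ⟨a, rfl⟩ := exists_ms_eq hs.1
  set ρ₀ : Fin N → ℕ := fun i => a i % e with hρ₀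
  have hρ : ∀ i, ρ₀ i < e := fun i => Nat.mod_lt _ he
  let d : (Fin N → ℕ) → (Fin N → ℕ) → ℂ := fun u v =>
    ∑ σ : Equiv.Perm (Fin N), if v ∘ σ = u then ((Equiv.Perm.sign σ : ℤ) : ℂ) else 0
  have hd : ∀ (σ : Equiv.Perm (Fin N)) u, d (u ∘ σ) = (Equiv.Perm.sign σ : ℤ) • d u := by
    intro σ u
    funext v
    simp only [d, Pi.smul_apply, smul_sum]
    rw [← Equiv.sum_comp (Equiv.mulRight σ)]
    refine sum_congr rfl fun τ _ => ?_
    have : (v ∘ ⇑(τ * σ) = u ∘ σ) ↔ v ∘ τ = u := by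
      rw [Equiv.Perm.coe_mul, ← Function.comp_assoc]
      exact σ.surjective.right_cancellable
    simp only [Equiv.coe_mulRight, this]
    split_ifs <;> simp [mul_comm]
  have hd1 : ∀ u, Injective u → d u u = 1 := by
    intro u hu
    simp only [d]
    rw [sum_eq_single (1 : Equiv.Perm (Fin N)) (fun τ _ hτ => ?_) (by simp)]
    · simp
    · exact if_neg fun h => hτ (Equiv.ext fun x => hu (congrFun h x))
  have hd0 : ∀ u v, ms u ≠ ms v → d u v = 0 := fun u v h =>
    sum_eq_zero fun τ _ => if_neg fun h' => h (by rw [← h', ms_comp])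
  have h1 : ∀ t : bcls N e m ρ, ∃ b : Fin N → ℕ, ms (res e ρ₀ b) = t ∧ Injective (res e ρ₀ b) ∧
      ∑ i, b i = ∑ i, rk ρ₀ id i + wt e (ms a) := by
    rintro ⟨t, ht⟩
    obtain ⟨b, rfl⟩ := exists_ms_eq ht.1
    have h2 : rs e (ms b) = rs e (ms a) := ht.2.2.2.trans hs.2.2.2.symm
    have h3 := h2
    rw [rs_ms, rs_ms, ms_eq_iff] at h3
    obtain ⟨τ, hτ⟩ := h3
    have h4 : (fun i => (b ∘ τ) i % e) = ρ₀ := hτ.symm
    have h5 : Injective (b ∘ τ) := (nodup_ms.1 ht.2.1).comp τ.injective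
    have h6 := res_mod_div e (b ∘ τ)
    have h7 := sum_rk_le_div he h5
    have h8 := wt_ms he (b ∘ τ)
    rw [h4] at h6 h7 h8
    rw [ms_comp, wt_eq_of_sum_eq he h2 (by rw [← sum_ms, ← sum_ms, ht.2.2.1, hs.2.2.1])] at h8
    exact ⟨_, by rw [h6, ms_comp], by rw [h6]; exact h5, by omega⟩
  choose β hβ1 hβ2 hβ3 using h1
  let g : List (ℕ × ℕ) → (Fin N → ℕ) → ℂ := fun l => upW ρ₀ l (fun b => d (res e ρ₀ b)) (rk ρ₀ id)
  refine ⟨g, fun x y l => by simp only [g, upW, List.foldl_cons, upC_comm x.1], ?_⟩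
  have hfin : (g '' words (range e) 1 (wt e (ms a))).Finite := (words_one_bound _ _).1.image g
  have hli : LinearIndependent ℂ fun t : bcls N e m ρ => d (res e ρ₀ (β t)) := by
    refine LinearIndependent.of_pairwise_dual_eq_zero_one _
      (fun t => LinearMap.proj (R := ℂ) (φ := fun _ => ℂ) (res e ρ₀ (β t))) (fun t t' h => ?_)
      fun t => hd1 _ (hβ2 t)
    exact hd0 _ _ (by rw [hβ1, hβ1]; exact fun h' => h (Subtype.ext h').symm)
  have hsp : ∀ t : bcls N e m ρ, d (res e ρ₀ (β t)) ∈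
      Submodule.span ℂ (g '' words (range e) 1 (wt e (ms a))) := by
    intro t
    refine mem_span_words (m := 1) (fun _ => le_rfl) (Q := fun _ => True) (fun _ _ _ _ => trivial)
      (fun c r k b _ hk => ?_) _ (fun b => d (res e ρ₀ b)) (β t) (fun σ hσ b => ?_) trivial
      (by simpa using hβ3 t)
    · by_cases hr : r ∈ range e
      · exact Submodule.subset_span ⟨r, hr, rfl, rfl⟩
      · rw [upC, sum_eq_zero fun i hi => absurd (hρ i) (by simp_all)]
        exact zero_mem _
    · simp only [res_comp hσ, hd]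
  haveI := (bcls_finite N e m ρ).fintype
  haveI := hfin.fintype
  have := linearIndependent_le_span_aux' _ hli (g '' words (range e) 1 (wt e (ms a)))
    (by rintro _ ⟨t, rfl⟩; exact hsp t)
  rwa [← Nat.card_eq_fintype_card, ← Nat.card_eq_fintype_card] at this

theorem card_cls_le (he : 0 < e) {m : ℕ} (hm : m ≤ N) {ρ s : Multiset ℕ} (hs : s ∈ bcls N e m ρ) :
    (bcls N e m ρ).ncard ≤ if wt e s = 0 then 1 else e * (e + 1) ^ (wt e s - 1) := by
  obtain ⟨g, -, hg⟩ := exists_ncard_le_words he hs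
  obtain ⟨h1, h2⟩ := words_one_bound (range e) (wt e s)
  rw [card_range] at h2
  exact hg.trans ((Set.ncard_image_le h1).trans h2)

theorem card_cls_three (hm : 3 ≤ N) (ρ : Multiset ℕ) : (bcls N 1 3 ρ).ncard ≤ 3 := by
  rcases (bcls N 1 3 ρ).eq_empty_or_nonempty with h | ⟨s, hs⟩
  · simp [h]
  obtain ⟨g, h1, h2⟩ := exists_ncard_le_words one_pos hs
  obtain ⟨a, rfl⟩ := exists_ms_eq hs.1
  have h3 : wt 1 (ms a) = 3 := by rw [wt_one, ← sum_ms, hs.2.2.1]; omega
  rw [h3] at h2
  have h4 := two_mul_ncard_image_words_lt (R := range 1) h1 le_rfl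
  simp only [card_range] at h4
  omega

end Cfsg.Gln

set_option linter.all false in
theorem Cfsg.Rz.Gln_Beta_0 : True := by
  have := @_root_.Cfsg.Gln.ms.eq_def
  have := @_root_.Cfsg.Gln.ms.eq_1
  have := @_root_.Cfsg.Gln.ms.fun_cases
  have := @_root_.Cfsg.Gln.bcls.eq_def
  have := @_root_.Cfsg.Gln.bcls.eq_1
  have := @_root_.Cfsg.Gln.bcls.fun_cases
  have := @_root_.Cfsg.Gln.wt.eq_def
  have := @_root_.Cfsg.Gln.wt.eq_1
  have := @_root_.Cfsg.Gln.wt.fun_cases
  have := @_root_.Cfsg.Gln.rs.eq_def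
  have := @_root_.Cfsg.Gln.rs.eq_1
  have := @_root_.Cfsg.Gln.rs.fun_cases
  trivial
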