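import Cfsg.Agent.Blk.PExt
import Cfsg.Agent.Blk.Weight
import Cfsg.Agent.Blk.Second
import Cfsg.Agent.Blk.Gal
import Cfsg.Agent.Char.Prod

/-!
# Blocks of direct products; a local lemma (S4536 project, see plans/lead_gln.md)

Hints. `centralChar (θ.prod ψ) (g,h) = centralChar θ g * centralChar ψ h` (class sizes multiply,
cf. `prod_mem_principalBlock_iff` in Blk/PrinInd or wherever it lives).  `blockCoeff` of `prodBlock` is
the product of the `blockCoeff`s, so `(g,h)` is a defect class iff both are; `C(g,h) = C g × C h`.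

`exists_loc`: let `N := j.range ⊔ zpowers s ≤ G₁`, `j' : C →* N` (`IsNormalEmb`, `N/C` a `p`-group).
`b := blockOf θ` is `N`-stable (`θ ∘ σ` and `θ` have the same `p`-regular part, hence a common Brauer
constituent / nonzero `ip`), `β := irrOver j' b` is a block (`PExt`, `FongReynolds`:
`isPBlock_irrOver_of_pow_mem`-like lemma), `b` induces to some block of `N`
(`exists_induces_of_range_eq`, `C = C_N(Q)`), which covers `b` (`Induces.exists_liesOver`) so is `β`.
`Induces.prodMap` + `Induces.of_trans` give `β × B₂ ↦ B`.  A defect group `D₁` of `β` has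
`D₁ ⊔ C = N` (`sup_range_eq_top`), `D₁ ∩ C = Q` (`Covers.isDefectGroup_comap`, `Q` normal); pick
`s' ∈ D₁ ∩ s C`.
-/

set_option autoImplicit false
set_option linter.unusedSectionVars false
set_option linter.unusedVariables false
set_option linter.style.haveILetI false

namespace Cfsg.Gln

open MonoidAlgebra GA Subgroup
open scoped Pointwise

variable {G H G' H' : Type*} [Group G] [Finite G] [Group H] [Finite H] [Group G'] [Finite G']
  [Group H'] [Finite H'] {p : ℕ} {M : Ideal AlgInt}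

/-- The product of two sets of characters. -/
def prodBlock (b : Set (IrrCharacter G)) (c : Set (IrrCharacter H)) : Set (IrrCharacter (G × H)) :=
  {χ | ∃ θ ∈ b, ∃ ψ ∈ c, θ.prod ψ = χ}

theorem prod_mem_prodBlock {b : Set (IrrCharacter G)} {c : Set (IrrCharacter H)}
    {θ : IrrCharacter G} {ψ : IrrCharacter H} : θ.prod ψ ∈ prodBlock b c ↔ θ ∈ b ∧ ψ ∈ c :=
  ⟨fun ⟨_, h, _, h', e⟩ => (IrrCharacter.prod_inj.1 e).1 ▸ (IrrCharacter.prod_inj.1 e).2 ▸ ⟨h, h'⟩,
    fun h => ⟨_, h.1, _, h.2, rfl⟩⟩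

theorem centralizer_pair (g : G) (h : H) :
    centralizer {(g, h)} = (centralizer {g}).prod (centralizer {h}) := by
  ext x
  simp only [mem_prod, mem_centralizer_singleton_iff, Prod.ext_iff, Prod.fst_mul, Prod.snd_mul]

theorem centralChar_at_one (χ : IrrCharacter G) : centralChar χ.1 1 = 1 := by
  rw [centralChar, centralizer_eq_top_iff_subset.2 (by simp), index_top, Nat.cast_one, one_mul,
    div_self χ.apply_one_ne_zero]

theorem red_centralChar_prod (θ : IrrCharacter G) (ψ : IrrCharacter H) (g : G) (h : H) :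
    red M (centralChar (θ.prod ψ).1 (g, h)) =
      red M (centralChar θ.1 g) * red M (centralChar ψ.1 h) := by
  rw [← red_mul (centralChar_mem_locO θ g) (centralChar_mem_locO ψ h)]
  simp only [centralChar, centralizer_pair, index_prod, IrrCharacter.prod_val, extProd_apply',
    Prod.fst_one, Prod.snd_one, Nat.cast_mul]
  congr 1
  ring

theorem blockOf_prod (hM : IsPModular p M) (θ : IrrCharacter G) (ψ : IrrCharacter H) :
    blockOf M (θ.prod ψ).1 = prodBlock (blockOf M θ.1) (blockOf M ψ.1) := by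
  ext χ
  obtain ⟨θ', ψ', rfl⟩ := χ.exists_prod_eq
  simp only [prod_mem_prodBlock, mem_blockOf, hM.sameBlock_iff, Prod.forall, red_centralChar_prod]
  exact ⟨fun h => ⟨fun g => by simpa [centralChar_at_one] using h g 1,
    fun g => by simpa [centralChar_at_one] using h 1 g⟩, fun h g k => by rw [h.1, h.2]⟩

theorem isPBlock_prodBlock (hM : IsPModular p M) {b : Set (IrrCharacter G)}
    {c : Set (IrrCharacter H)} (hb : IsPBlock M b) (hc : IsPBlock M c) :
    IsPBlock M (prodBlock b c) := by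
  obtain ⟨θ, rfl⟩ := hb
  obtain ⟨ψ, rfl⟩ := hc
  exact ⟨_, (blockOf_prod hM θ ψ).symm⟩

/-- The tensor `a ⊗ b` in `R[G × H]`. -/
noncomputable def tens {R : Type*} [CommRing R] (a : R[G]) (b : R[H]) : R[G × H] :=
  emb (MonoidHom.inl G H) a * emb (MonoidHom.inr G H) b

theorem coeff_tens {R : Type*} [CommRing R] (a : R[G]) (b : R[H]) (g : G) (h : H) :
    (tens a b).coeff (g, h) = a.coeff g * b.coeff h := by
  classical
  induction a using MonoidAlgebra.induction_linear with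
  | zero => simp [tens]
  | add x y hx hy => simp only [tens, map_add, add_mul, coeff_add, Finsupp.add_apply] at *; rw [hx, hy]
  | single x r =>
    induction b using MonoidAlgebra.induction_linear with
    | zero => simp [tens]
    | add x y hx hy =>
      simp only [tens, map_add, mul_add, coeff_add, Finsupp.add_apply] at *; rw [hx, hy]
    | single y t =>
      by_cases e : x = g <;> by_cases e' : y = h <;>
        simp [tens, single_mul_single, e, e']

theorem tens_mul {R : Type*} [CommRing R] (a a' : R[G]) (b b' : R[H]) :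
    tens a b * tens a' b' = tens (a * a') (b * b') :=
  ext_coeff fun ⟨g, h⟩ => by
    have := Fintype.ofFinite G
    have := Fintype.ofFinite H
    simp only [coeff_mul_fintype (tens a b), coeff_mul_fintype a, coeff_mul_fintype b,
      Fintype.sum_prod_type, Prod.inv_mk, Prod.mk_mul_mk, coeff_tens, Finset.sum_mul_sum]
    exact Finset.sum_congr rfl fun _ _ => Finset.sum_congr rfl fun _ _ => mul_mul_mul_comm _ _ _ _

theorem tens_pow {R : Type*} [CommRing R] (a : R[G]) (b : R[H]) (n : ℕ) :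
    tens a b ^ n = tens (a ^ n) (b ^ n) := by
  induction n with
  | zero => simp [tens]
  | succ n ih => rw [pow_succ, ih, tens_mul, pow_succ, pow_succ]

theorem orbitSum_pair {R : Type*} [CommRing R] (g : G) (h : H) :
    orbitSum R ⊤ (g, h) = tens (orbitSum R ⊤ g) (orbitSum R ⊤ h) :=
  ext_coeff fun ⟨x, y⟩ => by
    classical
    have e : IsConj (g, h) (x, y) ↔ IsConj g x ∧ IsConj h y := by
      simp only [isConj_iff, Prod.exists, Prod.inv_mk, Prod.mk_mul_mk, Prod.mk.injEq]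
      tauto
    simp only [coeff_tens, coeff_orbitSum_top, e, ite_zero_mul_ite_zero, mul_one]

theorem tens_mem_center {R : Type*} [CommRing R] {a : R[G]} {b : R[H]}
    (ha : a ∈ Zalg R (⊤ : Subgroup G) ⊤) (hb : b ∈ Zalg R (⊤ : Subgroup H) ⊤) :
    tens a b ∈ Zalg R (⊤ : Subgroup (G × H)) ⊤ :=
  mem_Zalg_top.2 (mem_fixedBy_iff_coeff.2 fun ⟨g, h⟩ _ ⟨x, y⟩ => by
    simp only [Prod.inv_mk, Prod.mk_mul_mk, coeff_tens, coeff_conj_of_mem_fixedBy ha.2 (mem_top _),
      coeff_conj_of_mem_fixedBy hb.2 (mem_top _)])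

theorem lam_tens (θ : IrrCharacter G) (ψ : IrrCharacter H) {a : (ResK M)[G]} {b : (ResK M)[H]}
    (ha : a ∈ Zalg (ResK M) (⊤ : Subgroup G) ⊤) (hb : b ∈ Zalg (ResK M) (⊤ : Subgroup H) ⊤) :
    lam M (θ.prod ψ).1 (tens a b) = lam M θ.1 a * lam M ψ.1 b := by
  have h : ∀ g, lam M (θ.prod ψ).1 (tens (orbitSum _ ⊤ g) b) =
      lam M θ.1 (orbitSum _ ⊤ g) * lam M ψ.1 b := fun g =>
    linear_ext_center (φ := lam M (θ.prod ψ).1 ∘ₗ LinearMap.mulLeft _ (emb (.inl G H) (orbitSum _ ⊤ g))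
      ∘ₗ (emb (.inr G H)).toLinearMap) (ψ := lam M θ.1 (orbitSum _ ⊤ g) • lam M ψ.1) (fun h => by
        change lam M _ (tens _ _) = _ * _
        rw [← orbitSum_pair, lam_orbitSum, lam_orbitSum, lam_orbitSum, red_centralChar_prod]) hb
  exact (linear_ext_center (φ := lam M (θ.prod ψ).1 ∘ₗ LinearMap.mulRight _ (emb (.inr G H) b)
    ∘ₗ (emb (.inl G H)).toLinearMap) (ψ := lam M ψ.1 b • lam M θ.1)
    (fun g => (h g).trans (mul_comm _ _)) ha).trans (mul_comm _ _)

theorem blockIdem_prod (hM : IsPModular p M) {b : Set (IrrCharacter G)}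
    {c : Set (IrrCharacter H)} (hb : IsPBlock M b) (hc : IsPBlock M c) :
    blockIdem M (prodBlock b c) = tens (blockIdem M b) (blockIdem M c) := by
  have h := isPBlock_prodBlock hM hb hc
  refine idem_eq_of_forall_lam (blockIdem_mem _) (h.blockIdem_idem hM)
    (tens_mem_center (blockIdem_mem _) (blockIdem_mem _))
    (by rw [tens_mul, hb.blockIdem_idem hM, hc.blockIdem_idem hM]) fun χ => ?_
  obtain ⟨θ, ψ, rfl⟩ := χ.exists_prod_eq
  rw [lam_tens θ ψ (blockIdem_mem _) (blockIdem_mem _)]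
  by_cases h1 : θ ∈ b
  · by_cases h2 : ψ ∈ c
    · rw [h.lam_blockIdem_of_mem hM (prod_mem_prodBlock.2 ⟨h1, h2⟩), hb.lam_blockIdem_of_mem hM h1,
        hc.lam_blockIdem_of_mem hM h2, mul_one]
    · rw [h.lam_blockIdem_of_notMem hM fun e => h2 (prod_mem_prodBlock.1 e).2,
        hc.lam_blockIdem_of_notMem hM h2, mul_zero]
  · rw [h.lam_blockIdem_of_notMem hM fun e => h1 (prod_mem_prodBlock.1 e).1,
      hb.lam_blockIdem_of_notMem hM h1, zero_mul]

theorem isDefectGroup_prod (hM : IsPModular p M) {b : Set (IrrCharacter G)}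
    {c : Set (IrrCharacter H)} (hb : IsPBlock M b) (hc : IsPBlock M c) {D : Subgroup G}
    {E : Subgroup H} (hD : IsDefectGroup p M b D) (hE : IsDefectGroup p M c E) :
    IsDefectGroup p M (prodBlock b c) (D.prod E) := by
  have := hM.fact
  obtain ⟨θ, hθ⟩ := hb.nonempty hM
  obtain ⟨ψ, hψ⟩ := hc.nonempty hM
  obtain ⟨g, h1, h2⟩ := isDefectGroup_iff_isSylowIn.1 hD
  obtain ⟨h, h3, h4⟩ := isDefectGroup_iff_isSylowIn.1 hE
  rw [hb.isDefectClass_iff hM hθ] at h1
  rw [hc.isDefectClass_iff hM hψ] at h3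
  refine isDefectGroup_iff_isSylowIn.2 ⟨(g, h), ((isPBlock_prodBlock hM hb hc).isDefectClass_iff hM
    (prod_mem_prodBlock.2 ⟨hθ, hψ⟩) _).2 ⟨?_, ?_⟩, ?_⟩
  · rw [← coeff_blockIdem, blockIdem_prod hM hb hc, coeff_tens, coeff_blockIdem, coeff_blockIdem]
    exact mul_ne_zero h1.1 h3.1
  · rw [red_centralChar_prod]
    exact mul_ne_zero h1.2 h3.2
  · rw [centralizer_pair]
    refine isSylowIn_of_not_dvd (prod_mono h2.le h4.le) (fun ⟨x, h5, h6⟩ => ?_) fun e => ?_
    · obtain ⟨k, hk⟩ := h2.isPGroup ⟨_, h5⟩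
      obtain ⟨l, hl⟩ := h4.isPGroup ⟨_, h6⟩
      refine ⟨k + l, Subtype.ext (Prod.ext ?_ ?_)⟩
      · change x.1 ^ _ = 1
        rw [pow_add, pow_mul, show x.1 ^ p ^ k = 1 from congrArg Subtype.val hk, one_pow]
      · change x.2 ^ _ = 1
        rw [pow_add, mul_comm, pow_mul, show x.2 ^ p ^ l = 1 from congrArg Subtype.val hl, one_pow]
    have e1 := relIndex_mul_index (prod_mono h2.le h4.le)
    rw [index_prod, index_prod, ← relIndex_mul_index h2.le, ← relIndex_mul_index h4.le,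
      mul_mul_mul_comm] at e1
    rw [mul_right_cancel₀ (mul_ne_zero index_ne_zero_of_finite index_ne_zero_of_finite) e1] at e
    exact (this.out.dvd_mul.1 e).elim h2.not_dvd_relIndex h4.not_dvd_relIndex

theorem resTo_tens {R : Type*} [CommRing R] (f : G' →* G) (g : H' →* H) (a : R[G]) (b : R[H]) :
    resTo (f.prodMap g) (tens a b) = tens (resTo f a) (resTo g b) :=
  ext_coeff fun ⟨u, v⟩ => by simp [coeff_tens]

theorem induces_prodMap (hM : IsPModular p M) {f : G' →* G} {g : H' →* H}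
    {b' : Set (IrrCharacter G')} {c' : Set (IrrCharacter H')} {b : Set (IrrCharacter G)}
    {c : Set (IrrCharacter H)} (h₁ : Induces M f b' b) (h₂ : Induces M g c' c) :
    Induces M (f.prodMap g) (prodBlock b' c') (prodBlock b c) := by
  obtain ⟨θ', hθ'⟩ := h₁.left.nonempty hM
  obtain ⟨ψ', hψ'⟩ := h₂.left.nonempty hM
  obtain ⟨θ, hθ⟩ := h₁.right.nonempty hM
  obtain ⟨ψ, hψ⟩ := h₂.right.nonempty hM
  refine .of_orbitSum hM (isPBlock_prodBlock hM h₁.left h₂.left)
    (isPBlock_prodBlock hM h₁.right h₂.right) (prod_mem_prodBlock.2 ⟨hθ', hψ'⟩)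
    (prod_mem_prodBlock.2 ⟨hθ, hψ⟩) fun ⟨x, y⟩ => ?_
  rw [orbitSum_pair, resTo_tens,
    lam_tens _ _ (resTo_mem_center f (orbitSum_top_mem_center x))
      (resTo_mem_center g (orbitSum_top_mem_center y)),
    h₁.lam_eq hθ' hθ (orbitSum_top_mem_center x), h₂.lam_eq hψ' hψ (orbitSum_top_mem_center y),
    lam_orbitSum, lam_orbitSum, red_centralChar_prod]

theorem induces_prodAssoc (hM : IsPModular p M) {K : Type*} [Group K] [Finite K]
    {a : Set (IrrCharacter K)} {b : Set (IrrCharacter G)} {c : Set (IrrCharacter H)}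
    (ha : IsPBlock M a) (hb : IsPBlock M b) (hc : IsPBlock M c) :
    Induces M (MulEquiv.prodAssoc : (K × G) × H ≃* K × G × H).toMonoidHom
      (prodBlock (prodBlock a b) c) (prodBlock a (prodBlock b c)) := by
  have h := induces_equiv hM (MulEquiv.prodAssoc : (K × G) × H ≃* K × G × H)
    (isPBlock_prodBlock hM ha (isPBlock_prodBlock hM hb hc))
  obtain ⟨φ, hφ⟩ := ha.nonempty hM
  obtain ⟨θ, hθ⟩ := hb.nonempty hM
  obtain ⟨ψ, hψ⟩ := hc.nonempty hM
  rwa [h.left.eq_of_mem (isPBlock_prodBlock hM (isPBlock_prodBlock hM ha hb) hc) hM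
    (χ := (φ.prod θ).prod ψ) ⟨_, prod_mem_prodBlock.2 ⟨hφ, prod_mem_prodBlock.2 ⟨hθ, hψ⟩⟩,
      Subtype.ext (funext fun _ => (mul_assoc _ _ _).symm)⟩
    (prod_mem_prodBlock.2 ⟨prod_mem_prodBlock.2 ⟨hφ, hθ⟩, hψ⟩)] at h

/-- A nonzero pairing on a `p`-section forces block induction (Brauer's second main theorem:
`IsSec.sum_subPart`, `IsSec.subPart_irr_eq_zero`). -/
theorem induces_of_ip_ne_zero (hM : IsPModular p M) {f : H →* G} {u : G} (hs : IsSec p f u)
    {χ : IrrCharacter G} {ξ : IrrCharacter H}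
    (h : ip (pRegularPart p (secFun f u χ.1)) ξ.1 ≠ 0) :
    Induces M f (blockOf M ξ.1) (blockOf M χ.1) :=
  by_contra fun hn => h (by
    rw [← ip_blockPart_of_mem _ (hM.mem_blockOf_self ξ), ← hs.subPart_eq_blockPart hM
      (isPBlock_blockOf ξ) χ.isClassFunction, hs.subPart_irr_eq_zero hM (isPBlock_blockOf χ)
      (hM.mem_blockOf_self χ) (isPBlock_blockOf ξ) hn, ip_zero_left])

/-- A stable block with central defect group, extended by one more element. -/
theorem exists_loc (hM : IsPModular p M) {G₁ C G₂ : Type*} [Group G₁] [Finite G₁] [Group C]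
    [Finite C] [Group G₂] [Finite G₂] {j : C →* G₁} (hj : Function.Injective j) {Q : Subgroup C}
    (hQc : Q ≤ center C) (hC : centralizer (Q.map j : Set G₁) ≤ j.range) {s : G₁} (σ : C ≃* C)
    (hσ : ∀ c, j (σ c) = s * j c * s⁻¹) (hs : s ^ p ∈ j.range) {θ : IrrCharacter C}
    (hθ : ∀ c, IsPRegular p c → θ (σ c) = θ c) (hQ : IsDefectGroup p M (blockOf M θ.1) Q)
    {g : G₁ × G₂ →* G} {B₂ : Set (IrrCharacter G₂)} {D₂ : Subgroup G₂} (hB₂ : IsPBlock M B₂)
    (hD₂ : IsDefectGroup p M B₂ D₂) {B : Set (IrrCharacter G)}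
    (hi : Induces M (g.comp (j.prodMap (MonoidHom.id G₂))) (prodBlock (blockOf M θ.1) B₂) B) :
    ∃ s' : G₁, s⁻¹ * s' ∈ j.range ∧ s' ^ p ∈ Q.map j ∧ ∃ D, IsDefectGroup p M B D ∧
      ((Q.map j ⊔ zpowers s').prod D₂).map g ≤ D := by
  have := hM.fact
  have hn : zpowers s ≤ normalizer (j.range : Set G₁) := zpowers_le.2 (mem_normalizer_iff.2 fun x =>
    ⟨fun ⟨c, e⟩ => ⟨σ c, e ▸ hσ c⟩, fun ⟨c, e⟩ => ⟨σ.symm c, by
      have := hσ (σ.symm c)
      rw [σ.apply_symm_apply, e] at this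
      exact (mul_left_cancel (mul_right_cancel this)).symm⟩⟩)
  obtain ⟨N, hN⟩ : ∃ N, N = zpowers s ⊔ j.range := ⟨_, rfl⟩
  let j' : C →* N := j.codRestrict N fun c => hN ▸ mem_sup_right ⟨c, rfl⟩
  let t : N := ⟨s, hN ▸ mem_sup_left (mem_zpowers s)⟩
  have hr : ∀ {x : N}, x ∈ j'.range ↔ x.1 ∈ j.range :=
    ⟨fun ⟨c, e⟩ => ⟨c, congrArg Subtype.val e⟩, fun ⟨c, e⟩ => ⟨c, Subtype.ext e⟩⟩
  have hx : ∀ x : N, ∃ k : ℤ, ∃ c, x = t ^ k * j' c := fun ⟨x, hx⟩ => by
    have : x ∈ (zpowers s : Set G₁) * (j.range : Set G₁) := by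
      rwa [← coe_mul_of_left_le_normalizer_right _ _ hn, ← hN]
    obtain ⟨_, ⟨k, rfl⟩, _, ⟨c, rfl⟩, rfl⟩ := this
    exact ⟨k, c, rfl⟩
  have hj' : Function.Injective j' := fun _ _ e => hj (congrArg Subtype.val e)
  have hnorm : j'.range.Normal := ⟨fun x h y => hr.2 ((mem_normalizer_iff.1
    ((hN.le.trans (sup_le hn le_normalizer)) y.2) _).1 (hr.1 h))⟩
  have : IsNormalEmb j' := ⟨hj', hnorm⟩
  have hp : ∀ x : N, x ^ p ∈ j'.range := fun x => by
    obtain ⟨k, c, rfl⟩ := hx x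
    rw [← QuotientGroup.eq_one_iff, QuotientGroup.mk_pow, QuotientGroup.mk_mul_of_mem _ (j'.mem_range.2 ⟨c, rfl⟩),
      QuotientGroup.mk_zpow, ← zpow_natCast, zpow_comm, zpow_natCast, ← QuotientGroup.mk_pow,
      (QuotientGroup.eq_one_iff _).2 (hr.2 hs), one_zpow]
  have hp' : ∀ x : N, ∃ n, x ^ p ^ n ∈ j'.range := fun x => ⟨1, (pow_one p).symm ▸ hp x⟩
  have hb := isPBlock_blockOf (M := M) θ
  have hθb := hM.mem_blockOf_self θ
  have hT : blockStab j' (blockOf M θ.1) = ⊤ := eq_top_iff.2 fun x _ => by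
    obtain ⟨k, c, rfl⟩ := hx x
    refine mul_mem (zpow_mem (hb.mem_blockStab_of_mem hM hθb (hb.mem_of_pRegularPart_eq hM hθb
      (funext fun c => ?_))) k) (range_le_blockStab _ _ ⟨c, rfl⟩)
    obtain ⟨c, rfl⟩ := σ.surjective c
    by_cases e : IsPRegular p (σ c)
    · rw [pRegularPart_of_reg e, pRegularPart_of_reg e]
      exact (conjAut_smul_apply_of_eq j' (g := t) θ (n := c) (n' := σ c) (Subtype.ext (hσ c))).trans
        (hθ c (by rwa [IsPRegular, ← σ.orderOf_eq])).symm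
    · rw [pRegularPart_of_not_reg e, pRegularPart_of_not_reg e]
  have hβ := hb.isPBlock_irrOver_of_pow_mem hM hp'
  obtain ⟨β, h1⟩ := exists_induces_of_defectGroup hM hj' hb hQ le_rfl fun x h => hr.2 (hC (by
    rintro _ ⟨c, hc, rfl⟩
    exact congrArg Subtype.val (h _ ⟨c, hc, rfl⟩)))
  obtain ⟨χ, h2, h3⟩ := h1.exists_liesOver hM hj' hθb
  have hc := covers_iff_irrOver.2 ⟨χ, h2, mem_irrOver.2 ⟨θ, hθb, h3⟩⟩
  obtain rfl := hc.eq_irrOver hM h1.right hβ
  obtain ⟨D₁, hD₁⟩ := hβ.exists_isDefectGroup hM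
  obtain ⟨D, hD, h4⟩ := ((induces_prodMap hM h1 (induces_id hM hB₂)).of_trans hM
    (f := g.comp (N.subtype.prodMap (.id G₂))) hi).exists_isDefectGroup_ge hM
    (isDefectGroup_prod hM hβ hB₂ hD₁ hD₂)
  obtain ⟨u, hu⟩ := hQ.exists_conj hb hM (hc.isDefectGroup_comap hM hβ hb hT hD₁)
  have h5 : ∀ c, j' c ∈ D₁ ↔ c ∈ Q := fun c => by
    rw [← mem_comap, ← hu]
    have e : ∀ q ∈ Q, u * q * u⁻¹ = q := fun q hq => by
      rw [mem_center_iff.1 (hQc hq) u, mul_inv_cancel_right]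
    exact ⟨fun ⟨q, hq, e'⟩ => (e q hq).symm.trans e' ▸ hq, fun h => ⟨c, h, e c h⟩⟩
  obtain ⟨d, hd, n, hn', e⟩ := mem_sup_of_normal_right.1
    ((hD₁.sup_range_eq_top hM hb hT hp').ge (mem_top t))
  refine ⟨d, (hr (x := t⁻¹ * d)).1 (by rw [← e]; simpa using hn'), ?_, D, hD, le_trans ?_ h4⟩
  · obtain ⟨c, e'⟩ := hp d
    exact ⟨c, (h5 c).1 (e' ▸ pow_mem hd p), congrArg Subtype.val e'⟩
  · have h7 : Q.map j ⊔ zpowers (d : G₁) ≤ D₁.map N.subtype := sup_le
      (by rintro _ ⟨c, hc, rfl⟩; exact ⟨j' c, (h5 c).2 hc, rfl⟩) (zpowers_le.2 ⟨d, hd, rfl⟩)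
    rintro _ ⟨⟨x, y⟩, ⟨hx, hy⟩, rfl⟩
    obtain ⟨w, hw, rfl⟩ := h7 hx
    exact ⟨(w, y), ⟨hw, hy⟩, rfl⟩

end Cfsg.Gln

set_option linter.all false in
theorem Cfsg.Rz.Gln_BlkProd_0 : True := by
  have := @_root_.Cfsg.Gln.prodBlock.eq_def.{0, 0}
  have := @_root_.Cfsg.Gln.prodBlock.eq_1.{0, 0}
  have := @_root_.Cfsg.Gln.prodBlock.fun_cases
  have := @_root_.Cfsg.Gln.tens.eq_def.{0, 0, 0}
  have := @_root_.Cfsg.Gln.tens.fun_cases
  trivial
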