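import Cfsg.Agent.Gln.Sim

/-!
# Determinants of endomorphisms commuting with a given one (S4536 project)
-/

set_option autoImplicit false
set_option linter.unusedSectionVars false
set_option linter.unusedVariables false
set_option linter.style.haveILetI false

namespace Cfsg.Gln

open Module Finset LinearMap

variable {K V W : Type*} [Field K] [AddCommGroup V] [Module K V] [Module.Finite K V]
  [AddCommGroup W] [Module K W] [Module.Finite K W]

theorem Sim.det_eq {x : End K V} {y : End K W} (h : Sim x y) : LinearMap.det x = LinearMap.det y := by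
  obtain ⟨e, h⟩ := h
  rw [← LinearMap.det_conj x e]
  congr 1
  ext w
  simp [h]

open Classical in
/-- The determinant on an invariant subspace. -/
noncomputable def dR (g : End K V) (U : Submodule K V) : K :=
  if h : ∀ v ∈ U, g v ∈ U then LinearMap.det (g.restrict h) else 1

theorem dR_eq {g : End K V} {U : Submodule K V} (h : ∀ v ∈ U, g v ∈ U) :
    dR g U = LinearMap.det (g.restrict h) := dif_pos h

theorem dR_eq_of_inj {g : End K V} {U : Submodule K V} {y : End K W} (φ : W →ₗ[K] V)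
    (hφ : Function.Injective φ) (hr : range φ = U) (h : ∀ w, φ (y w) = g (φ w)) :
    dR g U = LinearMap.det y := by
  subst hr
  have hU : ∀ v ∈ range φ, g v ∈ range φ := by
    rintro _ ⟨w, rfl⟩
    exact ⟨y w, h w⟩
  rw [dR_eq hU]
  exact (Sim.det_eq (x := y) (y := g.restrict hU)
    ⟨LinearEquiv.ofInjective φ hφ, fun w => Subtype.ext (h w)⟩).symm

theorem dR_top (g : End K V) : dR g ⊤ = LinearMap.det g :=
  dR_eq_of_inj LinearMap.id Function.injective_id range_id fun _ => rfl

theorem dR_eq_one {g : End K V} {U : Submodule K V} (h : ∀ v ∈ U, g v = v) : dR g U = 1 := by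
  rw [dR_eq_of_inj (y := 1) U.subtype U.injective_subtype U.range_subtype fun w => (h w w.2).symm,
    map_one]

theorem dR_congr {g g' : End K V} {U : Submodule K V} (h : ∀ v ∈ U, g v = g' v) :
    dR g U = dR g' U := by
  by_cases hU : ∀ v ∈ U, g v ∈ U
  · rw [dR_eq hU]
    exact (dR_eq_of_inj U.subtype U.injective_subtype U.range_subtype fun w => h w w.2).symm
  · rw [dR, dR, dif_neg hU, dif_neg fun h' => hU fun v hv => h v hv ▸ h' v hv]

theorem dR_ne_zero {g : End K V} (hg : Function.Injective g) (U : Submodule K V) : dR g U ≠ 0 := by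
  by_cases hU : ∀ v ∈ U, g v ∈ U
  · rw [dR_eq hU, ← isUnit_iff_ne_zero, ← LinearMap.isUnit_iff_isUnit_det,
      LinearMap.isUnit_iff_ker_eq_bot, ker_eq_bot]
    intro a b h
    exact Subtype.ext (hg (congrArg Subtype.val h))
  · rw [dR, dif_neg hU]; exact one_ne_zero

theorem dR_eq_mul {g φ : End K V} (hc : g * φ = φ * g) {U : Submodule K V} (hU : ∀ v ∈ U, g v ∈ U) :
    dR g U = dR g (U ⊓ ker φ) * dR g (U.map φ) := by
  have hc' : ∀ v, g (φ v) = φ (g v) := fun v => LinearMap.congr_fun hc v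
  let ψ : U →ₗ[K] V := φ ∘ₗ U.subtype
  have hW : ker ψ ≤ (ker ψ).comap (g.restrict hU) := by
    intro v hv
    change φ (g v) = 0
    rw [← hc', show φ v = 0 from hv, map_zero]
  rw [dR_eq hU, LinearMap.det_eq_det_mul_det (ker ψ) _ hW]
  congr 1
  · refine (dR_eq_of_inj (U.subtype ∘ₗ (ker ψ).subtype)
      (U.injective_subtype.comp (ker ψ).injective_subtype) ?_ fun w => rfl).symm
    ext v
    constructor
    · rintro ⟨w, rfl⟩
      exact ⟨w.1.2, w.2⟩
    · rintro ⟨h1, h2⟩
      exact ⟨⟨⟨v, h1⟩, h2⟩, rfl⟩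
  · refine (dR_eq_of_inj ((ker ψ).liftQ ψ le_rfl) ?_ ?_ fun w => ?_).symm
    · rw [← ker_eq_bot]
      exact Submodule.ker_liftQ_eq_bot _ _ _ le_rfl
    · rw [Submodule.range_liftQ, range_comp, U.range_subtype]
    · obtain ⟨u, rfl⟩ := Submodule.Quotient.mk_surjective _ w
      exact (hc' u).symm

/-- A Jordan block of size `k + 1` gives a commuting endomorphism of determinant `c ^ (k + 1)`. -/
theorem exists_comm_det (ν : End K V) {k : ℕ} {v : V} (h0 : (ν ^ (k + 1)) v = 0)
    (h1 : (ν ^ k) v ∉ range (ν ^ (k + 1))) (c : K) :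
    ∃ g : End K V, g * ν = ν * g ∧ LinearMap.det g = c ^ (k + 1) := by
  classical
  obtain ⟨l₀, hl₀, hl₀'⟩ := Submodule.exists_dual_map_eq_bot_of_notMem h1 inferInstance
  let l : V →ₗ[K] K := (l₀ ((ν ^ k) v))⁻¹ • l₀
  have hl1 : l ((ν ^ k) v) = 1 := by simp [l, inv_mul_cancel₀ hl₀]
  have hl0 : ∀ j w, l ((ν ^ (k + 1 + j)) w) = 0 := by
    intro j w
    have : l₀ ((ν ^ (k + 1)) ((ν ^ j) w)) ∈ Submodule.map l₀ (range (ν ^ (k + 1))) :=
      ⟨_, ⟨_, rfl⟩, rfl⟩
    rw [hl₀', Submodule.mem_bot] at this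
    rw [pow_add, Module.End.mul_apply]
    simp only [l, LinearMap.smul_apply, this, smul_zero]
  let B : V →ₗ[K] (Fin (k + 1) → K) := LinearMap.pi fun i => l ∘ₗ ν ^ (i : ℕ)
  let A : (Fin (k + 1) → K) →ₗ[K] V :=
    ∑ i : Fin (k + 1), (LinearMap.proj i : _ →ₗ[K] K).smulRight ((ν ^ (k - i)) v)
  have hA : ∀ a, A a = ∑ i : Fin (k + 1), a i • (ν ^ (k - i)) v := fun a => by
    simp [A, LinearMap.sum_apply]
  refine ⟨1 + ((c - 1) • A) ∘ₗ B, ?_, ?_⟩
  · ext w
    have key : A (B (ν w)) = ν (A (B w)) := by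
      rw [hA, hA, map_sum]
      simp only [B, LinearMap.pi_apply, LinearMap.comp_apply, map_smul]
      rw [Fin.sum_univ_castSucc, Fin.sum_univ_succ]
      have e1 : l ((ν ^ ((Fin.last k : Fin (k + 1)) : ℕ)) (ν w)) = 0 := by
        have := hl0 0 w
        rwa [add_zero, pow_succ, Module.End.mul_apply] at this
      have e2 : ν ((ν ^ (k - ((0 : Fin (k + 1)) : ℕ))) v) = 0 := by
        rwa [pow_succ', Module.End.mul_apply] at h0
      rw [e1, e2, zero_smul, smul_zero, add_zero, zero_add]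
      refine Finset.sum_congr rfl fun i _ => ?_
      simp only [Fin.val_castSucc, Fin.val_succ]
      rw [pow_succ, Module.End.mul_apply, ← Module.End.mul_apply ν, ← pow_succ']
      congr 3
      omega
    simp [key]
  · let b := Module.finBasis K V
    let b' := Pi.basisFun K (Fin (k + 1))
    have hent : ∀ i j : Fin (k + 1), LinearMap.toMatrix b' b' (B ∘ₗ ((c - 1) • A)) i j =
        (c - 1) * l ((ν ^ ((i : ℕ) + (k - j))) v) := by
      intro i j
      rw [LinearMap.toMatrix_apply, Pi.basisFun_repr, Pi.basisFun_apply, LinearMap.comp_apply,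
        LinearMap.smul_apply, map_smul, hA,
        Finset.sum_eq_single j (fun i _ hj => by simp [Pi.single_apply, hj]) (by simp),
        Pi.single_eq_same, one_smul, pow_add]
      rfl
    rw [← LinearMap.det_toMatrix b, map_add, LinearMap.toMatrix_one, LinearMap.toMatrix_comp b b' b,
      Matrix.det_one_add_mul_comm, ← LinearMap.toMatrix_comp, Matrix.det_of_isUpperTriangular]
    · rw [Finset.prod_eq_pow_card (b := c), card_univ, Fintype.card_fin]
      intro i _
      rw [Matrix.add_apply, Matrix.one_apply_eq, hent, show (i : ℕ) + (k - i) = k by omega, hl1]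
      ring
    · intro i j hij
      have hij' : (j : ℕ) < i := hij
      have hne : i ≠ j := fun h => by rw [h] at hij'; exact lt_irrefl _ hij'
      rw [Matrix.add_apply, Matrix.one_apply_ne hne, hent,
        show (i : ℕ) + (k - j) = k + 1 + ((i : ℕ) - j - 1) by omega, hl0]
      ring

/-- All nilpotent Jordan blocks have size divisible by `r`. -/
def Dvb (r : ℕ) (ν : End K V) : Prop :=
  ∀ k, ¬ r ∣ k + 1 → ∀ v, (ν ^ (k + 1)) v = 0 → (ν ^ k) v ∈ range (ν ^ (k + 1))

theorem Dvb.dR_ker {r : ℕ} {ν g : End K V} (h : Dvb r ν) (hc : g * ν = ν * g)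
    (hg : Function.Injective g) (T : Submonoid K) (hT : ∀ t : K, t ≠ 0 → t ^ r ∈ T) (j : ℕ) :
    dR g (ker (ν ^ (r * j))) ∈ T := by
  have hck : ∀ k, g * ν ^ k = ν ^ k * g := fun k => (Commute.pow_right hc k).eq
  have hinv : ∀ k, ∀ v ∈ ker (ν ^ k), g v ∈ ker (ν ^ k) := by
    intro k v hv
    rw [mem_ker, ← Module.End.mul_apply, ← hck, Module.End.mul_apply, mem_ker.1 hv, map_zero]
  let I : ℕ → Submodule K V := fun k => (ker (ν ^ (k + 1))).map (ν ^ k)
  have h1 : ∀ k, dR g (ker (ν ^ (k + 1))) = dR g (ker (ν ^ k)) * dR g (I k) := by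
    intro k
    rw [dR_eq_mul (hck k) (hinv (k + 1)), inf_eq_right.2]
    intro v hv
    rw [mem_ker, pow_succ', Module.End.mul_apply, mem_ker.1 hv, map_zero]
  have h2 : ∀ k, ¬ r ∣ k + 1 → I (k + 1) = I k := by
    intro k hk
    apply le_antisymm
    · rintro _ ⟨v, hv, rfl⟩
      refine ⟨ν v, ?_, ?_⟩
      · have : (ν ^ (k + 1 + 1)) v = 0 := hv
        rwa [pow_succ, Module.End.mul_apply] at this
      · rw [pow_succ, Module.End.mul_apply]
    · rintro _ ⟨v, hv, rfl⟩
      obtain ⟨w, hw⟩ := h k hk v hv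
      refine ⟨w, ?_, hw⟩
      change (ν ^ (k + 1 + 1)) w = 0
      rw [pow_succ', Module.End.mul_apply, hw, ← Module.End.mul_apply, ← pow_succ']
      exact hv
  have h3 : ∀ j i, i < r → I (r * j + i) = I (r * j) := by
    intro j i
    induction i with
    | zero => intro _; rfl
    | succ i ih =>
      intro hi
      rw [← add_assoc, h2, ih (by omega)]
      rw [add_assoc, Nat.dvd_add_right (dvd_mul_right _ _)]
      exact fun hd => absurd (Nat.le_of_dvd (by omega) hd) (by omega)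
  have h4 : ∀ j i, i ≤ r → dR g (ker (ν ^ (r * j + i))) =
      dR g (ker (ν ^ (r * j))) * dR g (I (r * j)) ^ i := by
    intro j i
    induction i with
    | zero => intro _; simp
    | succ i ih =>
      intro hi
      rw [← add_assoc, h1, ih (by omega), h3 j i (by omega), pow_succ, mul_assoc]
  induction j with
  | zero =>
    rw [dR_eq_one fun v hv => ?_]
    · exact T.one_mem
    · have : v = 0 := by simpa using hv
      rw [this, map_zero]
  | succ j ih =>
    rw [mul_add, mul_one, h4 j r le_rfl]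
    exact T.mul_mem ih (hT _ (dR_ne_zero hg _))

theorem Dvb.prodMap {r : ℕ} {ν : End K V} {μ : End K W} (h : Dvb r ν) (h' : Dvb r μ) :
    Dvb r (ν.prodMap μ : End K (V × W)) := by
  have hp : ∀ n : ℕ, (ν.prodMap μ : End K (V × W)) ^ n = (ν ^ n).prodMap (μ ^ n) := fun n => by
    induction n with
    | zero => rfl
    | succ n ih => rw [pow_succ, pow_succ, pow_succ, ih]; rfl
  intro k hk v hv
  rw [hp] at hv ⊢
  rw [hp]
  obtain ⟨a, ha⟩ := h k hk v.1 (congrArg Prod.fst hv)
  obtain ⟨b, hb⟩ := h' k hk v.2 (congrArg Prod.snd hv)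
  exact ⟨(a, b), Prod.ext ha hb⟩

/-- The determinant of an automorphism commuting with `ν ⊕ μ`, `ν` nilpotent. -/
theorem det_mem_of_dvb {r : ℕ} (hr : 0 < r) {ν : End K V} {μ : End K W} (hν : IsNilpotent ν)
    (h : Dvb r ν) (h' : Dvb r μ) (T : Submonoid K) (hT : ∀ t : K, t ≠ 0 → t ^ r ∈ T)
    (hμ : ∀ g : End K W, g * μ = μ * g → LinearMap.det g ≠ 0 → LinearMap.det g ∈ T)
    {g : End K (V × W)} (hc : g * ν.prodMap μ = ν.prodMap μ * g) (hg : Function.Injective g) :
    LinearMap.det g ∈ T := by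
  have hp : ∀ n : ℕ, (ν.prodMap μ : End K (V × W)) ^ n = (ν ^ n).prodMap (μ ^ n) := fun n => by
    induction n with
    | zero => rfl
    | succ n ih => rw [pow_succ, pow_succ, pow_succ, ih]; rfl
  obtain ⟨a, ha⟩ := hν
  obtain ⟨b, hb⟩ := Filter.eventually_atTop.1 (LinearMap.eventually_isCompl_ker_pow_range_pow μ)
  have hn : a + b ≤ r * (a + b) := Nat.le_mul_of_pos_left _ hr
  generalize hn' : r * (a + b) = n at hn
  have hνn : ν ^ n = 0 := pow_eq_zero_of_le (by omega) ha
  have hcm := hb n (by omega)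
  have hck : g * (ν.prodMap μ : End K (V × W)) ^ n = (ν.prodMap μ : End K (V × W)) ^ n * g :=
    (Commute.pow_right hc n).eq
  rw [← dR_top, dR_eq_mul hck fun _ _ => Submodule.mem_top, top_inf_eq, Submodule.map_top]
  refine T.mul_mem (hn' ▸ (h.prodMap h').dR_ker hc hg T hT _) ?_
  let s : End K W := LinearMap.snd K V W ∘ₗ g ∘ₗ LinearMap.inr K V W
  have hs : ∀ w, s (μ w) = μ (s w) := fun w => by
    have := congrArg Prod.snd (LinearMap.congr_fun hc (0, w))
    simpa [s] using this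
  have hsn : ∀ w, g (0, (μ ^ n) w) = (0, (μ ^ n) (s w)) := fun w => by
    have := LinearMap.congr_fun hck (0, w)
    rw [hp, hνn] at this
    simpa [s] using this
  have hsn' : ∀ w, s ((μ ^ n) w) = (μ ^ n) (s w) := fun w => congrArg Prod.snd (hsn w)
  let g' : End K W := LinearMap.ofIsCompl hcm (ker (μ ^ n)).subtype (s ∘ₗ (range (μ ^ n)).subtype)
  have hg1 : ∀ w ∈ ker (μ ^ n), g' w = w := fun w hw =>
    LinearMap.ofIsCompl_apply_left hcm (⟨w, hw⟩ : ker (μ ^ n))
  have hg2 : ∀ w ∈ range (μ ^ n), g' w = s w := fun w hw =>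
    LinearMap.ofIsCompl_apply_right hcm (⟨w, hw⟩ : range (μ ^ n))
  have hμn : ∀ w, μ ((μ ^ n) w) = (μ ^ n) (μ w) := fun w => by
    rw [← Module.End.mul_apply, ← pow_succ', pow_succ, Module.End.mul_apply]
  have hg' : g' * μ = μ * g' := by
    ext w
    have : w ∈ ker (μ ^ n) ⊔ range (μ ^ n) := hcm.sup_eq_top ▸ Submodule.mem_top
    obtain ⟨x, hx, y, hy, rfl⟩ := Submodule.mem_sup.1 this
    simp only [Module.End.mul_apply, map_add]
    rw [hg1 x hx, hg2 y hy, hg1 (μ x) (by rw [mem_ker, ← hμn, mem_ker.1 hx, map_zero]), hg2, hs]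
    obtain ⟨z, rfl⟩ := hy
    exact ⟨μ z, (hμn z).symm⟩
  have hdet : LinearMap.det g' = dR g (range ((ν.prodMap μ : End K (V × W)) ^ n)) := by
    rw [← dR_top, dR_eq_mul (Commute.pow_right hg' n).eq fun _ _ => Submodule.mem_top, top_inf_eq,
      Submodule.map_top, dR_eq_one hg1, one_mul, dR_congr hg2]
    have hsi : ∀ w ∈ range (μ ^ n), s w ∈ range (μ ^ n) := by
      rintro _ ⟨w, rfl⟩
      exact ⟨_, (hsn' w).symm⟩
    rw [dR_eq hsi]
    refine (dR_eq_of_inj (LinearMap.inr K V W ∘ₗ (range (μ ^ n)).subtype)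
      (LinearMap.inr_injective.comp (range (μ ^ n)).injective_subtype) ?_ ?_).symm
    · rw [hp, hνn]
      ext v
      constructor
      · rintro ⟨⟨_, w, rfl⟩, rfl⟩
        exact ⟨(0, w), by simp⟩
      · rintro ⟨w, rfl⟩
        exact ⟨⟨_, w.2, rfl⟩, by simp⟩
    · rintro ⟨_, w, rfl⟩
      change ((0 : V), s ((μ ^ n) w)) = g (0, (μ ^ n) w)
      rw [hsn, hsn']
  rw [← hdet]
  exact hμ g' hg' (hdet ▸ dR_ne_zero hg _)

theorem sum_digits_lt {b m : ℕ} {a : ℕ → ℕ} (ha : ∀ j, a j < b) :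
    ∑ j ∈ range m, a j * b ^ j < b ^ m := by
  induction m with
  | zero => simp
  | succ m ih =>
    rw [Finset.sum_range_succ, pow_succ]
    have := Nat.mul_le_mul_right (b ^ m) (Nat.succ_le_of_lt (ha m))
    rw [Nat.succ_mul] at this
    rw [mul_comm (b ^ m)]
    omega

theorem top_digit_le {b m : ℕ} {a c : ℕ → ℕ} (hc : ∀ j, c j < b)
    (h : ∑ j ∈ range (m + 1), a j * b ^ j ≤ ∑ j ∈ range (m + 1), c j * b ^ j) : a m ≤ c m := by
  rw [Finset.sum_range_succ, Finset.sum_range_succ] at h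
  have := sum_digits_lt (m := m) hc
  by_contra hlt
  push Not at hlt
  have h2 := Nat.mul_le_mul_right (b ^ m) (Nat.succ_le_of_lt hlt)
  rw [Nat.succ_mul] at h2
  omega

theorem digits_eq {b m : ℕ} {a c : ℕ → ℕ} (ha : ∀ j, a j < b) (hc : ∀ j, c j < b)
    (h : ∑ j ∈ range m, a j * b ^ j = ∑ j ∈ range m, c j * b ^ j) : ∀ j < m, a j = c j := by
  induction m with
  | zero => simp
  | succ m ih =>
    have e : a m = c m := le_antisymm (top_digit_le hc h.le) (top_digit_le ha h.ge)
    rw [Finset.sum_range_succ, Finset.sum_range_succ, e, add_left_inj] at h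
    intro j hj
    rcases Nat.lt_succ_iff_lt_or_eq.1 hj with hj | rfl
    · exact ih h j hj
    · exact e

end Cfsg.Gln

set_option linter.all false in
theorem Cfsg.Rz.Gln_CentA_0 : True := by
  have := @_root_.Cfsg.Gln.Dvb.eq_def.{0, 0}
  have := @_root_.Cfsg.Gln.Dvb.eq_1.{0, 0}
  have := @_root_.Cfsg.Gln.Dvb.fun_cases
  have := @_root_.Cfsg.Gln.dR.eq_def.{0, 0}
  have := @_root_.Cfsg.Gln.dR.fun_cases.{0, 0}
  trivial
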