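import Cfsg.Agent.Gln.Hall
import Cfsg.Agent.Gln.CentA

/-!
# The embedding `GL_{F'}(V₁) × GL_F(V₂) → GL_F(V)`, unipotent types, centralisers (S4536 project)

`iot N x = ∑_{k ≤ N} dim ker (x-1)^k (N+1)^k`; for `dim V ≤ N` the digits are `≤ N`, so `iot` determines all
`dim ker (x-1)^k` (kernels are stable from `k = dim V` on), the top digit is maximal iff `x` is unipotent.
`isConj_of_iot`: `y₁` is unipotent with the same `F`-dimensions, hence `F'`-dimensions, of `ker (·-1)^k`:
`sim_of_isNilpotent`; then `Sim.cancel`.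
`cent_le`: let `r = orderOf δ` (`Fˣ` cyclic so `δ c ^ j = 1 ∀ c ↔ r ∣ j`).  Call `ν` `r`-divisible if
`dim ker ν^(k+2) + dim ker ν^k = 2 dim ker ν^(k+1)` whenever `r ∤ k+1` (additive in direct sums, same over `F`
and `F'`).  (D1) if all units commuting with `x` have `δ (det) = 1` then `x - 1` is `r`-divisible: by
`exists_decomp`, a scalar `c` on a summand `F[X]/(X-1)^j` has determinant `c ^ j` (over `F'`: `det_F = N(c)^j`,
norm onto: `FiniteField.norm_surjective`, `Algebra.norm`, `LinearMap.det_restrictScalars`); other summands have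
`x - 1` invertible.  (D2) if `ν` is nilpotent and `r`-divisible and `g` commutes with `ν` then `det g` is an
`r`-th power: `det g = ∏_k det (g on ker ν^(k+1)/ker ν^k)` and `ν` induces isomorphisms between consecutive
quotients when `r ∤ k+1`.  (D3) Fitting: `V₂ = ker (x₂-1)^n ⊕ range (x₂-1)^n`; `g` preserves
`V₁ ⊕ ker` and `range`, and its restriction to `range` extended by `1` commutes with `x₂`.
-/

set_option autoImplicit false
set_option linter.unusedSectionVars false
set_option linter.unusedVariables false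
set_option linter.style.haveILetI false

namespace Cfsg.Gln

open Module Finset Subgroup

universe u

variable {F : Type u} [Field F] [Finite F] {F' : Type*} [Field F'] [Finite F'] [Algebra F F']
  {V V₁ V₂ : Type*} [AddCommGroup V] [Module F V] [Finite V] [AddCommGroup V₁] [Module F V₁]
  [Module F' V₁] [IsScalarTower F F' V₁] [Finite V₁] [AddCommGroup V₂] [Module F V₂] [Finite V₂]

variable (F) in
/-- Restriction of scalars. -/
def rsHom : GLV F' V₁ →* GLV F V₁ :=
  Units.map { toFun := fun x => x.restrictScalars F, map_one' := rfl, map_mul' := fun _ _ => rfl }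

@[simp] theorem rsHom_apply (x : GLV F' V₁) (v : V₁) : (rsHom F x : End F V₁) v = (x : End F' V₁) v :=
  rfl

theorem rsHom_injective : Function.Injective (rsHom F : GLV F' V₁ → GLV F V₁) := by
  intro x y h
  ext v
  exact congrArg (fun g : GLV F V₁ => (g : End F V₁) v) h

/-- Block diagonal embedding along `e`. -/
def blkHom {A B : Type*} [AddCommGroup A] [Module F A] [AddCommGroup B] [Module F B]
    (e : (A × B) ≃ₗ[F] V) : GLV F A × GLV F B →* GLV F V :=
  (Units.map
    { toFun := fun x : End F A × End F B => e.conj (x.1.prodMap x.2)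
      map_one' := by ext; simp [LinearEquiv.conj_apply]
      map_mul' := fun _ _ => by ext; simp [LinearEquiv.conj_apply] }).comp
    MulEquiv.prodUnits.symm.toMonoidHom

theorem blkHom_apply (e : (V₁ × V₂) ≃ₗ[F] V) (x : GLV F V₁) (y : GLV F V₂) (v : V₁) (w : V₂) :
    (blkHom e (x, y) : End F V) (e (v, w)) = e ((x : End F V₁) v, (y : End F V₂) w) := by
  simp [blkHom, LinearEquiv.conj_apply, MulEquiv.prodUnits]

theorem blkHom_injective (e : (V₁ × V₂) ≃ₗ[F] V) : Function.Injective (blkHom e) := by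
  rintro ⟨x, y⟩ ⟨x', y'⟩ h
  have key : ∀ v w, ((x : End F V₁) v, (y : End F V₂) w) = ((x' : End F V₁) v, (y' : End F V₂) w) := by
    intro v w
    apply e.injective
    rw [← blkHom_apply, ← blkHom_apply, h]
  refine Prod.ext ?_ ?_
  · ext v; exact congrArg Prod.fst (key v 0)
  · ext w; exact congrArg Prod.snd (key 0 w)

theorem sim_blkHom (e : (V₁ × V₂) ≃ₗ[F] V) (x : GLV F V₁) (y : GLV F V₂) :
    Sim ((x : End F V₁).prodMap (y : End F V₂)) (blkHom e (x, y) : End F V) :=
  ⟨e, fun v => (blkHom_apply e x y v.1 v.2).symm⟩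

theorem cls_blkHom (e : (V₁ × V₂) ≃ₗ[F] V) (x : GLV F V₁) (y : GLV F V₂) :
    cls (blkHom e (x, y) : End F V) = cls (x : End F V₁) + cls (y : End F V₂) := by
  rw [← cls_prodMap, cls_eq_iff]
  exact (sim_blkHom e x y).symm

/-- The determinant. -/
noncomputable def dt : GLV F V →* Fˣ := Units.map LinearMap.det

theorem dt_val (x : GLV F V) : (dt x : F) = LinearMap.det (x : End F V) := rfl

theorem dt_blkHom (e : (V₁ × V₂) ≃ₗ[F] V) (x : GLV F V₁) (y : GLV F V₂) :
    dt (blkHom e (x, y)) = dt x * dt y := by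
  ext
  rw [Units.val_mul, dt_val, dt_val, dt_val, ← (sim_blkHom e x y).det_eq, LinearMap.det_prodMap]

theorem exists_unit_of_det {K W : Type*} [Field K] [AddCommGroup W] [Module K W] [Module.Finite K W]
    {g : End K W} (h : LinearMap.det g ≠ 0) : ∃ u : GLV K W, (u : End K W) = g :=
  (LinearMap.isUnit_iff_isUnit_det g).2 (isUnit_iff_ne_zero.2 h)

theorem dt_surjective [Nontrivial V] : Function.Surjective (dt : GLV F V → Fˣ) := by
  intro c
  obtain ⟨v, hv⟩ := exists_ne (0 : V)
  obtain ⟨g, -, hg⟩ := exists_comm_det (0 : End F V) (k := 0) (v := v) (by simp) (by simpa using hv) c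
  rw [zero_add, pow_one] at hg
  obtain ⟨u, rfl⟩ := exists_unit_of_det (hg ▸ c.ne_zero)
  exact ⟨u, Units.ext hg⟩

variable (V₁) in
/-- Scalars. -/
def scal : F'ˣ →* GLV F' V₁ := Units.map (algebraMap F' (End F' V₁)).toMonoidHom

@[simp] theorem scal_apply (c : F'ˣ) (v : V₁) : (scal V₁ c : End F' V₁) v = (c : F') • v := rfl

theorem scal_injective [Nontrivial V₁] : Function.Injective (scal V₁ : F'ˣ → GLV F' V₁) := by
  intro c d h
  obtain ⟨v, hv⟩ := exists_ne (0 : V₁)
  have : (c : F') • v = (d : F') • v := congrArg (fun g : GLV F' V₁ => (g : End F' V₁) v) h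
  exact Units.ext (smul_left_injective F' hv this)

theorem scal_mem_center (c : F'ˣ) : scal V₁ c ∈ center (GLV F' V₁) := by
  rw [mem_center_iff]
  intro g
  ext v
  simp [Module.End.mul_apply]

theorem dt_rsHom_scal (c : F'ˣ) :
    ((dt (rsHom F (scal V₁ c)) : Fˣ) : F) = Algebra.norm F (c : F') ^ finrank F' V₁ := by
  have : (scal V₁ c : End F' V₁) = (c : F') • (1 : End F' V₁) := by ext v; simp
  change LinearMap.det ((scal V₁ c : End F' V₁).restrictScalars F) = _
  rw [LinearMap.det_restrictScalars, this, LinearMap.det_smul, map_one, mul_one, map_pow]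

/-- The embedding of the centraliser of `(ζ, 1)`. -/
def stepHom (e : (V₁ × V₂) ≃ₗ[F] V) : GLV F' V₁ × GLV F V₂ →* GLV F V :=
  (blkHom e).comp ((rsHom F).prodMap (MonoidHom.id _))

theorem centralizer_rsHom_scal {ζ : F'ˣ} (hζ : Algebra.adjoin F {(ζ : F')} = ⊤) :
    centralizer {rsHom F (scal V₁ ζ)} = (rsHom F : GLV F' V₁ →* GLV F V₁).range := by
  have key : ∀ g : GLV F V₁, g ∈ centralizer {rsHom F (scal V₁ ζ)} → ∀ (c : F') v,
      (g : End F V₁) (c • v) = c • (g : End F V₁) v := by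
    intro g hg c
    have hc : c ∈ Algebra.adjoin F {(ζ : F')} := hζ ▸ Algebra.mem_top
    rw [mem_centralizer_singleton_iff] at hg
    induction hc using Algebra.adjoin_induction with
    | mem x hx =>
      intro v
      rw [Set.mem_singleton_iff.1 hx]
      exact congrArg (fun g : GLV F V₁ => (g : End F V₁) v) hg
    | algebraMap r => intro v; simp
    | add x y _ _ hx hy => intro v; simp [add_smul, hx, hy]
    | mul x y _ _ hx hy => intro v; simp [mul_smul, hx, hy]
  ext g
  constructor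
  · intro hg
    let a : End F' V₁ := ⟨⟨(g : End F V₁), map_add _⟩, key g hg⟩
    let b : End F' V₁ := ⟨⟨((g⁻¹ : GLV F V₁) : End F V₁), map_add _⟩, key g⁻¹ (inv_mem hg)⟩
    refine ⟨⟨a, b, ?_, ?_⟩, rfl⟩
    · ext v; exact LinearMap.congr_fun g.mul_inv v
    · ext v; exact LinearMap.congr_fun g.inv_mul v
  · rintro ⟨g, rfl⟩
    rw [mem_centralizer_singleton_iff, ← map_mul, ← map_mul, mem_center_iff.1 (scal_mem_center ζ)]

theorem mem_range_stepHom (e : (V₁ × V₂) ≃ₗ[F] V) {ζ : F'ˣ} (hζ : Algebra.adjoin F {(ζ : F')} = ⊤)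
    (h1 : ζ ≠ 1) (g : GLV F V) : g ∈ (stepHom e : GLV F' V₁ × GLV F V₂ →* GLV F V).range ↔
      stepHom e (scal V₁ ζ, 1) * g = g * stepHom e (scal V₁ ζ, 1) := by
  have hs : ∀ v w, (stepHom e (scal V₁ ζ, (1 : GLV F V₂)) : End F V) (e (v, w)) =
      e ((ζ : F') • v, w) := fun v w => blkHom_apply e (rsHom F (scal V₁ ζ)) 1 v w
  have hζ1 : (ζ : F') - 1 ≠ 0 := fun h => h1 (Units.ext (sub_eq_zero.1 h))
  constructor
  · rintro ⟨⟨x, y⟩, rfl⟩
    rw [← map_mul, ← map_mul, Prod.mk_mul_mk, Prod.mk_mul_mk, one_mul, mul_one,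
      mem_center_iff.1 (scal_mem_center ζ)]
  · intro hg
    have key : ∀ g : GLV F V, stepHom e (scal V₁ ζ, 1) * g = g * stepHom e (scal V₁ ζ, 1) →
        ∃ (a : End F V₁) (b : End F V₂), (∀ v, a ((ζ : F') • v) = (ζ : F') • a v) ∧
          ∀ v w, (g : End F V) (e (v, w)) = e (a v, b w) := by
      intro g hg
      let t : End F (V₁ × V₂) := e.symm.conj (g : End F V)
      have ht : ∀ u, e (t u) = (g : End F V) (e u) := fun u => by simp [t, LinearEquiv.conj_apply]
      have hc : ∀ v w, t ((ζ : F') • v, w) = ((ζ : F') • (t (v, w)).1, (t (v, w)).2) := by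
        intro v w
        apply e.injective
        rw [ht, ← hs, ← hs, ht]
        exact (congrArg (fun g : GLV F V => (g : End F V) (e (v, w))) hg).symm
      have h2 : ∀ w, (t (0, w)).1 = 0 := by
        intro w
        have := congrArg Prod.fst (hc 0 w)
        rw [smul_zero] at this
        have h3 : ((ζ : F') - 1) • (t (0, w)).1 = 0 := by
          rw [sub_smul, one_smul]; exact sub_eq_zero.2 this.symm
        exact (smul_eq_zero.1 h3).resolve_left hζ1
      have h3 : ∀ v, (t (v, 0)).2 = 0 := by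
        intro v
        obtain ⟨u, rfl⟩ : ∃ u, v = ((ζ : F') - 1) • u :=
          ⟨((ζ : F') - 1)⁻¹ • v, by rw [smul_smul, mul_inv_cancel₀ hζ1, one_smul]⟩
        have : ((((ζ : F') - 1) • u, 0) : V₁ × V₂) = ((ζ : F') • u, 0) - (u, 0) := by
          simp [sub_smul]
        rw [this, map_sub, hc]
        simp
      refine ⟨LinearMap.fst F V₁ V₂ ∘ₗ t ∘ₗ LinearMap.inl F V₁ V₂,
        LinearMap.snd F V₁ V₂ ∘ₗ t ∘ₗ LinearMap.inr F V₁ V₂, fun v => ?_, fun v w => ?_⟩
      · exact congrArg Prod.fst (hc v 0)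
      · rw [← ht]
        congr 1
        have : ((v, w) : V₁ × V₂) = (v, 0) + (0, w) := by simp
        rw [this, map_add]
        refine Prod.ext ?_ ?_
        · simp [h2]
        · simp [h3]
    obtain ⟨a, b, ha, hab⟩ := key g hg
    obtain ⟨a', b', -, hab'⟩ := key g⁻¹ (Commute.inv_right hg).eq
    have i1 : ∀ v w, (a (a' v), b (b' w)) = (v, w) := fun v w => e.injective (by
      rw [← hab, ← hab']; exact LinearMap.congr_fun g.mul_inv _)
    have i2 : ∀ v w, (a' (a v), b' (b w)) = (v, w) := fun v w => e.injective (by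
      rw [← hab', ← hab]; exact LinearMap.congr_fun g.inv_mul _)
    let x : GLV F V₁ := ⟨a, a', LinearMap.ext fun v => congrArg Prod.fst (i1 v 0),
      LinearMap.ext fun v => congrArg Prod.fst (i2 v 0)⟩
    let y : GLV F V₂ := ⟨b, b', LinearMap.ext fun w => congrArg Prod.snd (i1 0 w),
      LinearMap.ext fun w => congrArg Prod.snd (i2 0 w)⟩
    have hx : x ∈ centralizer {rsHom F (scal V₁ ζ)} := by
      rw [mem_centralizer_singleton_iff]
      ext v
      exact ha v
    rw [centralizer_rsHom_scal hζ] at hx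
    obtain ⟨x', hx'⟩ := hx
    refine ⟨(x', y), ?_⟩
    change blkHom e (rsHom F x', y) = g
    rw [hx']
    ext u
    obtain ⟨⟨v, w⟩, rfl⟩ := e.surjective u
    rw [blkHom_apply, hab]

/-- Unipotent type, encoded in base `N + 1`. -/
noncomputable def iot (N : ℕ) (x : GLV F V) : ℕ :=
  ∑ j ∈ range (N + 1), finrank F (LinearMap.ker (((x : End F V) - 1) ^ j)) * (N + 1) ^ j

theorem Sim.finrank_ker_sub_pow {K A B : Type*} [Field K] [AddCommGroup A] [Module K A]
    [AddCommGroup B] [Module K B] {x : End K A} {y : End K B} (h : Sim x y) (j : ℕ) :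
    finrank K (LinearMap.ker ((x - 1) ^ j)) = finrank K (LinearMap.ker ((y - 1) ^ j)) := by
  have := (h.aeval ((Polynomial.X - 1) ^ j)).finrank_ker
  rwa [map_pow, map_pow, map_sub, map_sub, Polynomial.aeval_X, Polynomial.aeval_X, map_one,
    map_one] at this

theorem iot_conj (N : ℕ) {x y : GLV F V} (h : IsConj x y) : iot N x = iot N y := by
  refine Finset.sum_congr rfl fun j _ => ?_
  rw [(sim_iff_isConj.2 h).finrank_ker_sub_pow]

theorem iot_blkHom (N : ℕ) (e : (V₁ × V₂) ≃ₗ[F] V) (x : GLV F V₁) (y : GLV F V₂) :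
    iot N (blkHom e (x, y)) = iot N x + iot N y := by
  rw [iot, iot, iot, ← Finset.sum_add_distrib]
  refine Finset.sum_congr rfl fun j _ => ?_
  rw [← (sim_blkHom e x y).finrank_ker_sub_pow, ← add_mul, ← finrank_ker_prodMap]
  have := aeval_prodMap (x : End F V₁) (y : End F V₂) ((Polynomial.X - 1) ^ j)
  simp only [map_pow, map_sub, Polynomial.aeval_X, map_one] at this
  rw [this]

theorem pow_eq_zero_of_isNilpotent {K A : Type*} [Field K] [AddCommGroup A] [Module K A]
    [Module.Finite K A] {x : End K A} (hx : IsNilpotent x) {N : ℕ} (hN : finrank K A ≤ N) :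
    x ^ N = 0 := by
  have := LinearMap.aeval_self_charpoly x
  rw [hx.charpoly_eq_X_pow_finrank, map_pow, Polynomial.aeval_X] at this
  exact pow_eq_zero_of_le hN this

theorem isNilpotent_of_iot_le {N : ℕ} (hN : finrank F V ≤ N) {x y : GLV F V}
    (hy : IsNilpotent ((y : End F V) - 1)) (h : iot N y ≤ iot N x) :
    IsNilpotent ((x : End F V) - 1) := by
  have := top_digit_le (fun j => Nat.lt_succ_of_le ((Submodule.finrank_le _).trans hN)) h
  rw [pow_eq_zero_of_isNilpotent hy hN, LinearMap.ker_zero, finrank_top] at this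
  refine ⟨N, LinearMap.ker_eq_top.1 (Submodule.eq_top_of_finrank_eq ?_)⟩
  exact le_antisymm (Submodule.finrank_le _) this

theorem dt_eq_one_of_isNilpotent {x : GLV F V} (hx : IsNilpotent ((x : End F V) - 1)) :
    dt x = 1 := by
  ext
  have h1 : IsNilpotent (1 - (x : End F V)) := by simpa using hx.neg
  have := LinearMap.eval_charpoly (1 - (x : End F V)) 1
  rw [h1.charpoly_eq_X_pow_finrank, map_one, sub_sub_cancel] at this
  rw [dt_val, ← this]
  simp

theorem rsHom_sub_pow (x : GLV F' V₁) (j : ℕ) (v : V₁) :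
    (((rsHom F x : End F V₁) - 1) ^ j) v = (((x : End F' V₁) - 1) ^ j) v := by
  induction j generalizing v with
  | zero => rfl
  | succ j ih => rw [pow_succ, pow_succ, Module.End.mul_apply, Module.End.mul_apply, ih]; rfl

theorem isNilpotent_of_rsHom {x : GLV F' V₁} (hx : IsNilpotent ((rsHom F x : End F V₁) - 1)) :
    IsNilpotent ((x : End F' V₁) - 1) := by
  obtain ⟨n, hn⟩ := hx
  exact ⟨n, LinearMap.ext fun v => by rw [← rsHom_sub_pow (F := F), hn]; rfl⟩

theorem finrank_ker_rsHom (x : GLV F' V₁) (j : ℕ) :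
    finrank F (LinearMap.ker (((rsHom F x : End F V₁) - 1) ^ j)) =
      finrank F F' * finrank F' (LinearMap.ker (((x : End F' V₁) - 1) ^ j)) := by
  rw [Module.finrank_mul_finrank]
  have : LinearMap.ker (((rsHom F x : End F V₁) - 1) ^ j) =
      (LinearMap.ker (((x : End F' V₁) - 1) ^ j)).restrictScalars F := by
    ext v
    rw [Submodule.restrictScalars_mem, LinearMap.mem_ker, LinearMap.mem_ker, rsHom_sub_pow]
  rw [this]
  rfl

theorem isConj_of_iot {N : ℕ} (hN : finrank F V₁ ≤ N) (e : (V₁ × V₂) ≃ₗ[F] V) {x₁ y₁ : GLV F' V₁}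
    {x₂ y₂ : GLV F V₂} (hx : IsNilpotent ((rsHom F x₁ : End F V₁) - 1))
    (h : iot N (rsHom F y₁) = iot N (rsHom F x₁))
    (hc : IsConj (stepHom e (y₁, y₂)) (stepHom e (x₁, x₂))) : IsConj y₁ x₁ ∧ IsConj y₂ x₂ := by
  have hy := isNilpotent_of_iot_le hN hx h.ge
  have hd := digits_eq (fun j => Nat.lt_succ_of_le ((Submodule.finrank_le _).trans hN))
    (fun j => Nat.lt_succ_of_le ((Submodule.finrank_le _).trans hN)) h
  have hk : ∀ j, finrank F (LinearMap.ker (((rsHom F y₁ : End F V₁) - 1) ^ j)) =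
      finrank F (LinearMap.ker (((rsHom F x₁ : End F V₁) - 1) ^ j)) := by
    intro j
    by_cases hj : j < N + 1
    · exact hd j hj
    · rw [pow_eq_zero_of_isNilpotent hx (hN.trans (by omega)),
        pow_eq_zero_of_isNilpotent hy (hN.trans (by omega))]
  have h1 : IsConj y₁ x₁ := by
    obtain ⟨φ, hφ⟩ := sim_of_isNilpotent (isNilpotent_of_rsHom hy) (isNilpotent_of_rsHom hx) fun j => by
      have := hk j
      rw [finrank_ker_rsHom, finrank_ker_rsHom] at this
      exact Nat.eq_of_mul_eq_mul_left Module.finrank_pos this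
    exact sim_iff_isConj.1 ⟨φ, fun v => by simpa using hφ v⟩
  refine ⟨h1, sim_iff_isConj.1 (Sim.cancel (x := (rsHom F y₁ : End F V₁))
    (y := (rsHom F x₁ : End F V₁)) ?_ (sim_iff_isConj.2 ((rsHom F).map_isConj h1)))⟩
  exact ((sim_blkHom e _ _).trans (sim_iff_isConj.2 hc)).trans (sim_blkHom e _ _).symm

theorem cent_le {A : Type*} [CommGroup A] (δ : Fˣ →* A) (e : (V₁ × V₂) ≃ₗ[F] V) {x₁ : GLV F' V₁}
    {x₂ : GLV F V₂} (hx : IsNilpotent ((rsHom F x₁ : End F V₁) - 1))
    (h₁ : centralizer {x₁} ≤ ((δ.comp dt).comp (rsHom F)).ker)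
    (h₂ : centralizer {x₂} ≤ (δ.comp dt).ker) :
    centralizer {stepHom e (x₁, x₂)} ≤ (δ.comp dt).ker := by
  have hr : 0 < orderOf δ := by
    rw [orderOf_pos_iff, isOfFinOrder_iff_pow_eq_one]
    refine ⟨Nat.card Fˣ, Nat.card_pos, ?_⟩
    ext c
    rw [MonoidHom.pow_apply, ← map_pow, pow_card_eq_one', map_one, MonoidHom.one_apply]
  let T : Submonoid F := δ.ker.toSubmonoid.map (Units.coeHom F)
  have hTm : ∀ u : Fˣ, (u : F) ∈ T ↔ δ u = 1 := fun u =>
    ⟨fun ⟨w, hw, h⟩ => (Units.ext h : w = u) ▸ hw, fun h => ⟨u, h, rfl⟩⟩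
  have hT : ∀ t : F, t ≠ 0 → t ^ orderOf δ ∈ T := by
    intro t ht
    refine (hTm (Units.mk0 t ht ^ orderOf δ)).2 ?_
    rw [map_pow, ← MonoidHom.pow_apply, pow_orderOf_eq_one, MonoidHom.one_apply]
  have hdvd : ∀ k, (∀ t : F, t ≠ 0 → t ^ k ∈ T) → orderOf δ ∣ k := by
    intro k hk
    rw [orderOf_dvd_iff_pow_eq_one]
    ext c
    rw [MonoidHom.pow_apply, ← map_pow, MonoidHom.one_apply]
    exact (hTm _).1 (hk c c.ne_zero)
  have hμ : ∀ g : End F V₂, g * ((x₂ : End F V₂) - 1) = ((x₂ : End F V₂) - 1) * g →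
      LinearMap.det g ≠ 0 → LinearMap.det g ∈ T := by
    intro g hg h0
    obtain ⟨u, rfl⟩ := exists_unit_of_det h0
    refine (hTm (dt u)).2 (h₂ (mem_centralizer_singleton_iff.2 (Units.ext ?_)))
    simpa [mul_sub, sub_mul] using hg
  have d₂ : Dvb (orderOf δ) ((x₂ : End F V₂) - 1) := by
    intro k hk v hv
    by_contra hne
    refine hk (hdvd _ fun t ht => ?_)
    obtain ⟨g, hg, hg'⟩ := exists_comm_det _ hv hne t
    exact hg' ▸ hμ g hg (hg' ▸ pow_ne_zero _ ht)
  have d₁ : Dvb (orderOf δ) ((rsHom F x₁ : End F V₁) - 1) := by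
    intro k hk v hv
    by_contra hne
    refine hk (hdvd _ fun t ht => ?_)
    obtain ⟨c, rfl⟩ := FiniteField.norm_surjective F F' t
    have hc : c ≠ 0 := by rintro rfl; exact ht (Algebra.norm_zero)
    obtain ⟨g, hg, hg'⟩ := exists_comm_det ((x₁ : End F' V₁) - 1) (k := k) (v := v)
      (by rw [← rsHom_sub_pow (F := F), hv])
      (fun ⟨w, hw⟩ => hne ⟨w, by rw [rsHom_sub_pow, rsHom_sub_pow, hw]⟩) c
    obtain ⟨u, rfl⟩ := exists_unit_of_det (hg' ▸ pow_ne_zero _ hc)
    have h3 := (hTm (dt (rsHom F u))).2 (h₁ (mem_centralizer_singleton_iff.2 (Units.ext (by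
      simpa [mul_sub, sub_mul] using hg))))
    change LinearMap.det ((u : End F' V₁).restrictScalars F) ∈ T at h3
    rwa [LinearMap.det_restrictScalars, hg', map_pow] at h3
  intro g hg
  rw [mem_centralizer_singleton_iff] at hg
  let t : End F (V₁ × V₂) := e.symm.conj (g : End F V)
  have ht : ∀ u, e (t u) = (g : End F V) (e u) := fun u => by simp [t, LinearEquiv.conj_apply]
  refine (hTm (dt g)).1 ?_
  rw [dt_val, ← Sim.det_eq (x := t) ⟨e, ht⟩]
  refine det_mem_of_dvb hr hx d₁ d₂ T hT hμ (LinearMap.ext fun u => e.injective ?_) ?_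
  · have hs : ∀ u : V₁ × V₂, e ((((rsHom F x₁ : End F V₁) - 1).prodMap ((x₂ : End F V₂) - 1)) u) =
        (stepHom e (x₁, x₂) : End F V) (e u) - e u := fun u => by
      rw [show (stepHom e (x₁, x₂) : End F V) (e u) = _ from blkHom_apply e (rsHom F x₁) x₂ u.1 u.2,
        ← map_sub]
      rfl
    rw [Module.End.mul_apply, Module.End.mul_apply, ht, hs, hs, ht, map_sub]
    congr 1
    exact congrArg (fun g : GLV F V => (g : End F V) (e u)) hg
  · intro a b h
    apply e.injective
    apply (LinearMap.GeneralLinearGroup.toLinearEquiv g).injective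
    change (g : End F V) _ = (g : End F V) _
    rw [← ht, ← ht, h]

end Cfsg.Gln

set_option linter.all false in
theorem Cfsg.Rz.Gln_Cent_0 : True := by
  have := @_root_.Cfsg.Gln.blkHom.eq_def.{0, 0, 0, 0}
  have := @_root_.Cfsg.Gln.blkHom.eq_1.{0, 0, 0, 0}
  have := @_root_.Cfsg.Gln.blkHom.fun_cases
  have := @_root_.Cfsg.Gln.stepHom.congr_simp.{0, 0, 0, 0, 0}
  have := @_root_.Cfsg.Gln.stepHom.eq_def.{0, 0, 0, 0, 0}
  have := @_root_.Cfsg.Gln.stepHom.eq_1.{0, 0, 0, 0, 0}
  have := @_root_.Cfsg.Gln.stepHom.fun_cases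
  have := @_root_.Cfsg.Gln.rsHom.congr_simp.{0, 0, 0}
  have := @_root_.Cfsg.Gln.rsHom.eq_def.{0, 0, 0}
  have := @_root_.Cfsg.Gln.rsHom.eq_1.{0, 0, 0}
  have := @_root_.Cfsg.Gln.rsHom.fun_cases
  have := @_root_.Cfsg.Gln.dt.eq_def.{0, 0}
  have := @_root_.Cfsg.Gln.dt.eq_1.{0, 0}
  have := @_root_.Cfsg.Gln.dt.fun_cases
  have := @_root_.Cfsg.Gln.scal.eq_def.{0, 0}
  have := @_root_.Cfsg.Gln.scal.eq_1.{0, 0}
  have := @_root_.Cfsg.Gln.scal.fun_cases
  have := @_root_.Cfsg.Gln.iot.eq_def.{0, 0}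
  have := @_root_.Cfsg.Gln.iot.eq_1.{0, 0}
  have := @_root_.Cfsg.Gln.iot.fun_cases
  trivial
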