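import Cfsg.Agent.Gln.ClifA

/-!
# Counting Brauer characters below a block with abelian quotient (S4536 project)

`f : G →* Gt` normal embedding with abelian quotient `A = Gt/G`, `Bt` covers `B`.
Proof of `clif`.  Let `𝒪 = ⋃ ibrOf b'` over the conjugates `b'` of `B`; `|𝒪| = [Gt : blockStab] * l(B)` and
`X1.ncard ≤ [Gt : blockStab]` (duality for the abelian group `Gt ⧸ blockStab`).  For `θ ∈ 𝒪` with
stabiliser `S ⊇ f.range` the orbit has `[Gt:S] = #{y | y = 1 on S} = #{p-elements y} * #{p-regular y}`.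
* `y` trivial on `S` ⇒ `∃ χ ∈ Bt, χ y = χ`: `∑_g y(g)⁻¹ θ^g ≠ 0`; write `θ = ∑ a_ψ ψ°`
  (`exists_int_comb`), so some `ψ ∈ b'` has `∑_g y(g)⁻¹ ψ^g ≠ 0`, i.e. `y = 1` on the inertia group `T`
  of `ψ`; `χ ∈ Bt` over `ψ` (`Covers.exists_liesOver`) is induced from the normal subgroup `T`, so
  vanishes off `T`.  Hence the `p`-elements number `≤ κ`.
* modular Clifford: `θ` is a constituent (`decNum (φ ∘ f) θ ≠ 0`) of some `φ ∈ ibrOf Bt`.  The radical
  `J = {a | ∀ θ', θ'.rep a = 0}` of `k[G]` (nilpotent elements, conjugation-stable two-sided ideal) acts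
  as `0` on the simple module `φ.rep` (`V J` is a proper submodule).  With
  `IBr.exists_asAlgebraHom_eq` take `b ∈ k[G]` acting on `θ^g` as `red (y g)^{±1}` and as `0` outside
  the orbit, and `e` acting as `1` on the orbit, `0` outside: `φ.rep e` is a nonzero idempotent
  commuting with `Gt`, so `1` (this shows `φ` determines the orbit); `T = φ.rep b` is invertible and
  `T g T⁻¹ = red (y g)^{±1} g`, so `φ(g) = y(g) φ(g)` for `p`-regular `y` (roots of `charpoly`, `teich_mul`).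
* trace argument: `E°` and `IBr` are two bases of the `p`-regular class functions, both permuted by
  multiplication with `y` (twist `φ.rep ⊗ red y`), both compatible with `blockPart Bt`; compare
  the traces of `blockPart Bt ∘ (· * y)`.
-/

set_option autoImplicit false
set_option linter.unusedSectionVars false
set_option linter.unusedVariables false
set_option linter.style.haveILetI false

namespace Cfsg.Gln

open scoped commutatorElement Pointwise

variable {G Gt : Type*} [Group G] [Finite G] [Group Gt] [Finite Gt] {p : ℕ} {M : Ideal AlgInt}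

/-- `χ'` is the twist of `χ` by the linear character `y`. -/
def IsTw (y : G →* ℂˣ) (χ χ' : G → ℂ) : Prop := ∀ g, χ' g = χ g * (y g : ℂ)

theorem exists_isTw (y : G →* ℂˣ) (χ : IrrCharacter G) : ∃ χ' : IrrCharacter G, IsTw y χ.1 χ'.1 :=
  ⟨y • χ, fun g => by rw [IrrCharacter.linear_smul_apply, mul_comm]⟩

theorem isTw_iff {y : G →* ℂˣ} {χ χ' : IrrCharacter G} : IsTw y χ.1 χ'.1 ↔ y • χ = χ' := by
  constructor
  · intro h
    exact Subtype.ext (funext fun g => by rw [h g, IrrCharacter.linear_smul_apply, mul_comm])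
  · rintro rfl g
    rw [IrrCharacter.linear_smul_apply, mul_comm]

/-- Two bases permuted (up to scalars) by the same linear map give the same trace. -/
theorem sum_fixed_eq {V ι κ : Type*} [AddCommGroup V] [Module ℂ V] [Fintype ι] [Fintype κ]
    [DecidableEq ι] [DecidableEq κ] {a : ι → V} {b : κ → V} (ha : LinearIndependent ℂ a)
    (hb : LinearIndependent ℂ b)
    (hab : Submodule.span ℂ (Set.range a) = Submodule.span ℂ (Set.range b)) (L : V →ₗ[ℂ] V)
    {σ : ι → ι} {τ : κ → κ} {ε : ι → ℂ} {δ : κ → ℂ} (hL : ∀ i, L (a i) = ε i • a (σ i))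
    (hL' : ∀ k, L (b k) = δ k • b (τ k)) :
    ∑ i with σ i = i, ε i = ∑ k with τ k = k, δ k := by
  have key : ∀ {ι : Type _} [Fintype ι] [DecidableEq ι] {W : Submodule ℂ V} (hW : ∀ x ∈ W, L x ∈ W)
      (β : Module.Basis ι ℂ W) {σ : ι → ι} {ε : ι → ℂ}, (∀ i, L (β i) = ε i • (β (σ i) : V)) →
      LinearMap.trace ℂ W (L.restrict hW) = ∑ i with σ i = i, ε i := by
    intro ι _ _ W hW β σ ε h
    rw [LinearMap.trace_eq_matrix_trace ℂ β, Matrix.trace, Finset.sum_filter]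
    refine Finset.sum_congr rfl fun i _ => ?_
    have : L.restrict hW (β i) = ε i • β (σ i) := Subtype.ext (h i)
    rw [Matrix.diag_apply, LinearMap.toMatrix_apply, this, map_smul, β.repr_self]
    simp [Finsupp.single_apply]
  have hW : ∀ x ∈ Submodule.span ℂ (Set.range a), L x ∈ Submodule.span ℂ (Set.range a) := by
    intro x hx
    have : Submodule.span ℂ (Set.range a) ≤ (Submodule.span ℂ (Set.range a)).comap L := by
      rw [Submodule.span_le]
      rintro _ ⟨i, rfl⟩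
      change L (a i) ∈ Submodule.span ℂ (Set.range a)
      rw [hL]
      exact Submodule.smul_mem _ _ (Submodule.subset_span ⟨_, rfl⟩)
    exact this hx
  have k1 := key hW (Module.Basis.span ha) (σ := σ) (ε := ε) (fun i => by simpa using hL i)
  have k2 : LinearMap.trace ℂ _ (L.restrict hW) = ∑ k with τ k = k, δ k := by
    let β := (Module.Basis.span hb).map (LinearEquiv.ofEq _ _ hab.symm)
    have hβ : ∀ k, (β k : V) = b k := fun k => by simp [β]
    rw [LinearMap.trace_eq_matrix_trace ℂ β, Matrix.trace, Finset.sum_filter]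
    refine Finset.sum_congr rfl fun i _ => ?_
    have : L.restrict hW (β i) = δ i • β (τ i) := Subtype.ext (by
      change L (β i) = δ i • (β (τ i) : V)
      rw [hβ, hβ, hL'])
    rw [Matrix.diag_apply, LinearMap.toMatrix_apply, this, map_smul, β.repr_self]
    simp [Finsupp.single_apply]
  rw [← k1, k2]

theorem card_fixed_ibr_eq (hM : IsPModular p M) {B : Set (IrrCharacter G)} (hB : IsPBlock M B)
    {E : Set (IrrCharacter G)}
    (hE₁ : LinearIndependent ℂ fun χ : E => pRegularPart p χ.1.1)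
    (hE₂ : ∀ χ : IrrCharacter G, pRegularPart p χ.1 ∈
      Submodule.span ℂ ((fun χ : IrrCharacter G => pRegularPart p χ.1) '' E))
    {y : G →* ℂˣ} (hE₃ : ∀ χ ∈ E, y • χ ∈ E) :
    {φ : IBr p M G | φ ∈ ibrOf p M B ∧ ∀ g, φ g * (y g : ℂ) = φ g}.ncard =
      {χ : IrrCharacter G | χ ∈ E ∧ χ ∈ B ∧ IsTw y χ.1 χ.1}.ncard := by
  classical
  let L : (G → ℂ) →ₗ[ℂ] (G → ℂ) :=
    { toFun := fun v => blockPart B fun g => v g * (y g : ℂ)
      map_add' := fun u v => by
        rw [← blockPart_add]; congr 1; funext g; simp [add_mul]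
      map_smul' := fun c v => by
        rw [RingHom.id_apply, ← blockPart_smul]; congr 1; funext g; simp [mul_assoc] }
  let τ : IBr p M G → IBr p M G := fun φ => ⟨_, isIBr_tw hM y φ⟩
  have hspan : Submodule.span ℂ (Set.range fun χ : E => pRegularPart p χ.1.1) =
      Submodule.span ℂ (Set.range fun φ : IBr p M G => (φ : G → ℂ)) := by
    apply le_antisymm
    · rw [Submodule.span_le]
      rintro _ ⟨χ, rfl⟩
      exact χ.1.isClassFunction.pRegularPart_mem_span hM
    · rw [Submodule.span_le]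
      rintro _ ⟨φ, rfl⟩
      obtain ⟨a, ha⟩ := φ.exists_int_comb hM
      change φ.1 ∈ _
      rw [ha]
      refine Submodule.sum_mem _ fun χ _ => Submodule.smul_mem _ _ ?_
      have := hE₂ χ
      rwa [Set.image_eq_range] at this
  have := sum_fixed_eq hE₁ (IBr.linearIndependent hM) hspan L
    (σ := fun χ => ⟨y • χ.1, hE₃ _ χ.2⟩) (τ := τ)
    (ε := fun χ => if y • χ.1 ∈ B then 1 else 0) (δ := fun φ => if τ φ ∈ ibrOf p M B then 1 else 0)
    (fun χ => by
      have e1 : (fun g => pRegularPart p χ.1.1 g * (y g : ℂ)) = pRegularPart p (y • χ.1).1 := by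
        funext g
        by_cases hg : IsPRegular p g
        · rw [pRegularPart_of_reg hg, pRegularPart_of_reg hg, IrrCharacter.linear_smul_apply, mul_comm]
        · rw [pRegularPart_of_not_reg hg, pRegularPart_of_not_reg hg, zero_mul]
      change blockPart B (fun g => pRegularPart p χ.1.1 g * (y g : ℂ)) = _
      rw [e1, hB.blockPart_pRegularPart hM (y • χ.1).isClassFunction]
      split_ifs with h
      · rw [blockPart_irr_of_mem h, one_smul]
      · rw [blockPart_irr_of_notMem h, zero_smul, pRegularPart_zero])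
    (fun φ => by
      change blockPart B (τ φ).1 = _
      split_ifs with h
      · rw [hB.blockPart_ibr_of_mem hM h, one_smul]
      · rw [hB.blockPart_ibr_of_notMem hM h, zero_smul])
  simp only [Finset.sum_boole, Finset.filter_filter, Nat.cast_inj] at this
  have e1 : {φ : IBr p M G | φ ∈ ibrOf p M B ∧ ∀ g, φ g * (y g : ℂ) = φ g} =
      ((Finset.univ.filter fun φ => τ φ = φ ∧ τ φ ∈ ibrOf p M B : Finset _) : Set _) := by
    ext φ
    simp only [Set.mem_setOf_eq, Finset.coe_filter, Finset.mem_univ, true_and]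
    constructor
    · rintro ⟨h1, h2⟩
      have : τ φ = φ := Subtype.ext (funext h2)
      exact ⟨this, this.symm ▸ h1⟩
    · rintro ⟨h1, h2⟩
      exact ⟨h1 ▸ h2, congrFun (congrArg Subtype.val h1)⟩
  have e2 : {χ : IrrCharacter G | χ ∈ E ∧ χ ∈ B ∧ IsTw y χ.1 χ.1} = Subtype.val ''
      ((Finset.univ.filter fun χ : E => (⟨y • χ.1, hE₃ _ χ.2⟩ : E) = χ ∧ y • χ.1 ∈ B : Finset _) :
        Set E) := by
    ext χ
    simp only [Set.mem_setOf_eq, Finset.coe_filter, Finset.mem_univ, true_and, Set.mem_image, isTw_iff]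
    constructor
    · rintro ⟨h1, h2, h3⟩
      exact ⟨⟨χ, h1⟩, ⟨Subtype.ext h3, h3.symm ▸ h2⟩, rfl⟩
    · rintro ⟨ψ, ⟨h1, h2⟩, rfl⟩
      have h3 : y • ψ.1 = ψ.1 := congrArg Subtype.val h1
      exact ⟨ψ.2, h3 ▸ h2, h3⟩
  rw [e1, e2, Set.ncard_image_of_injective _ Subtype.val_injective, Set.ncard_coe_finset,
    Set.ncard_coe_finset, this]

theorem exists_ibr_over (hM : IsPModular p M) {f : G →* Gt} [IsNormalEmb f]
    {Bt : Set (IrrCharacter Gt)} {B : Set (IrrCharacter G)}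
    (hBt : IsPBlock M Bt) (hB : IsPBlock M B) (hc : Covers f Bt B) {θ : IBr p M G}
    (hθ : θ ∈ ibrOf p M B) : ∃ φ ∈ ibrOf p M Bt, decNum (φ.1 ∘ f) θ ≠ 0 := by
  obtain ⟨ψ, hψ, hd⟩ := mem_ibrOf.1 hθ
  obtain ⟨χ, hχ, hl⟩ := hc.exists_liesOver hM hBt hB hψ
  have hcf : IsCharacter G (χ.1 ∘ f) := χ.isCharacter.comp f
  have h1 : ip (χ.1 ∘ f) (Phi θ) ≠ 0 := by
    refine hcf.ip_ne_zero_of_common_constituent (Phi_isCharacter θ) ψ hl ?_
    rw [ip_Phi_irr]; exact_mod_cast hd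
  by_contra hne
  push Not at hne
  refine h1 ?_
  rw [← ip_pRegularPart_of_vanish (p := p) fun g hg => Phi_apply_of_not_reg hM θ hg,
    ← pRegularPart_comp_of_injective f IsNormalEmb.injective, χ.isCharacter.pRegularPart_eq_sum hM]
  have : (∑ φ : IBr p M Gt, (decNum χ.1 φ : ℂ) • φ.1) ∘ f =
      ∑ φ : IBr p M Gt, (decNum χ.1 φ : ℂ) • (φ.1 ∘ f) := by
    funext g; simp [Finset.sum_apply]
  rw [this, ip_sum_left]
  refine Finset.sum_eq_zero fun φ _ => ?_
  rw [ip_smul_left, (φ.isBrauerChar.comp_of_injective f IsNormalEmb.injective).ip_Phi hM]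
  by_cases h : decNum χ.1 φ = 0
  · rw [h]; simp
  · rw [hne φ (mem_ibrOf.2 ⟨χ, hχ, h⟩)]; simp

theorem commutator_le_of_range {f : G →* Gt} (hab : ∀ x y : Gt, ⁅x, y⁆ ∈ f.range)
    {S : Subgroup Gt} (hS : f.range ≤ S) : commutator Gt ≤ S := by
  rw [commutator_def, Subgroup.commutator_le]
  exact fun x _ y _ => hS (hab x y)

theorem exists_tw_fixed (hM : IsPModular p M) {f : G →* Gt} [IsNormalEmb f]
    (hab : ∀ x y : Gt, ⁅x, y⁆ ∈ f.range) {Bt : Set (IrrCharacter Gt)} {B : Set (IrrCharacter G)}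
    (hBt : IsPBlock M Bt) (hB : IsPBlock M B) (hc : Covers f Bt B) {θ : IBr p M G}
    (hθ : θ ∈ ibrOf p M B) {y : Gt →* ℂˣ} (hy : ∀ g, conjAut f g • θ = θ → y g = 1) :
    ∃ χ ∈ Bt, IsTw y χ.1 χ.1 := by
  classical
  letI := Fintype.ofFinite Gt
  haveI := Fact.mk hM.1
  obtain ⟨a, ha0, ha⟩ := hB.exists_int_comb hM hθ
  have h1 : ∃ ψ ∈ B, ∑ g : Gt, (y g : ℂ) • (conjAut f g • ψ).1 ≠ 0 := by
    by_contra hne
    push Not at hne
    have e1 : ∑ g : Gt, (y g : ℂ) • (conjAut f g • θ).1 = 0 := by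
      funext n
      simp only [Finset.sum_apply, Pi.smul_apply, smul_eq_mul, IBr.mulAut_smul_apply, Pi.zero_apply]
      by_cases hn : IsPRegular p n
      · have hn' : ∀ g, IsPRegular p ((conjAut f g)⁻¹ n) := fun g =>
          hn.map ((conjAut f g)⁻¹ : MulAut G).toMonoidHom
        simp only [ha, Finset.sum_apply, Pi.smul_apply, smul_eq_mul, pRegularPart_of_reg (hn' _),
          Finset.mul_sum]
        rw [Finset.sum_comm]
        refine Finset.sum_eq_zero fun ψ _ => ?_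
        by_cases hψ : ψ ∈ B
        · have := congrFun (hne ψ hψ) n
          simp only [Finset.sum_apply, Pi.smul_apply, smul_eq_mul, IrrCharacter.mulAut_smul_apply,
            Pi.zero_apply] at this
          simp only [mul_left_comm _ (a ψ : ℂ)]
          rw [← Finset.mul_sum, this, mul_zero]
        · simp [ha0 ψ hψ]
      · refine Finset.sum_eq_zero fun g _ => ?_
        rw [θ.apply_of_not_reg, mul_zero]
        intro h
        have := h.map (conjAut f g).toMonoidHom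
        simp only [MulEquiv.coe_toMonoidHom, MulAut.apply_inv_self] at this
        exact hn this
    have e2 := congrArg (fun v => ip v (Phi θ)) e1
    simp only [ip_sum_left, ip_smul_left, ip_ibr_Phi hM, ip_zero_left] at e2
    have e3 : ∀ g : Gt, ((y g : ℂ) * if conjAut f g • θ = θ then 1 else 0) =
        if conjAut f g • θ = θ then 1 else 0 := by
      intro g
      split_ifs with h
      · rw [hy g h]; simp
      · simp
    simp only [e3, Finset.sum_boole, Nat.cast_eq_zero, Finset.card_eq_zero] at e2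
    have : (1 : Gt) ∈ Finset.univ.filter fun g => conjAut f g • θ = θ := by simp
    rw [e2] at this
    simp at this
  obtain ⟨ψ, hψ, hne⟩ := h1
  have h2 : ∀ t ∈ inertia f ψ, y t = 1 := by
    intro t ht
    by_contra hyt
    refine hne ?_
    have e1 : ∑ g : Gt, (y g : ℂ) • (conjAut f g • ψ).1 =
        (y t : ℂ) • ∑ g : Gt, (y g : ℂ) • (conjAut f g • ψ).1 := by
      rw [Finset.smul_sum, ← Equiv.sum_comp (Equiv.mulRight t)]
      refine Finset.sum_congr rfl fun g _ => ?_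
      rw [Equiv.coe_mulRight, map_mul, map_mul, mul_smul (conjAut f g), mem_inertia.1 ht,
        Units.val_mul, smul_smul, mul_comm]
    have e2 : (1 - (y t : ℂ)) • ∑ g : Gt, (y g : ℂ) • (conjAut f g • ψ).1 = 0 := by
      rw [sub_smul, one_smul, ← e1, sub_self]
    refine (smul_eq_zero.1 e2).resolve_left fun h => hyt ?_
    exact Units.ext (sub_eq_zero.1 h).symm
  obtain ⟨χ, hχ, hl⟩ := hc.exists_liesOver hM hBt hB hψ
  refine ⟨χ, hχ, fun g => ?_⟩
  by_cases hg : g ∈ inertia f ψ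
  · rw [h2 g hg]; simp
  · obtain ⟨η, -, hη⟩ := hl.exists_inertia_ind_eq
    haveI : (inertia f ψ).Normal :=
      Subgroup.Normal.of_commutator_le _ (commutator_le_of_range hab (range_le_inertia f ψ))
    rw [← hη, ind_apply_eq_zero_of_normal _ _ (by rw [Subgroup.range_subtype]) hg, zero_mul]

theorem ibr_smul_mem (hM : IsPModular p M) {B : Set (IrrCharacter G)} {θ : IBr p M G}
    (hθ : θ ∈ ibrOf p M B) (σ : MulAut G) : σ • θ ∈ ibrOf p M (σ • B) := by
  rw [smul_irrSet_eq, ibrOf_image_comapEquiv hM]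
  exact ⟨θ, hθ, rfl⟩

/-- The bound for the constituents in `B` of one Brauer character above. -/
theorem card_under_le (hM : IsPModular p M) {f : G →* Gt} [IsNormalEmb f]
    (hab : ∀ x y : Gt, ⁅x, y⁆ ∈ f.range) {Bt : Set (IrrCharacter Gt)} {B : Set (IrrCharacter G)}
    (hBt : IsPBlock M Bt) (hB : IsPBlock M B) (hc : Covers f Bt B) {κ : ℕ}
    (hκ : {y : Gt →* ℂˣ | (∀ g, y (f g) = 1) ∧ IsPElt p y ∧ ∃ χ ∈ Bt, IsTw y χ.1 χ.1}.ncard ≤ κ)
    (φ : IBr p M Gt) :
    {θ : IBr p M G | θ ∈ ibrOf p M B ∧ decNum (φ.1 ∘ f) θ ≠ 0}.ncard * (blockStab f B).index ≤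
      κ * {y : Gt →* ℂˣ | (∀ g, y (f g) = 1) ∧ IsPRegular p y ∧
        ∀ g, φ g * (y g : ℂ) = φ g}.ncard := by
  classical
  haveI := Fact.mk hM.1
  rcases Set.eq_empty_or_nonempty
    {θ : IBr p M G | θ ∈ ibrOf p M B ∧ decNum (φ.1 ∘ f) θ ≠ 0} with h0 | ⟨θ, hθB, hθ⟩
  · rw [h0]; simp
  letI : MulAction Gt (IBr p M G) := MulAction.compHom _ (conjAut f)
  have hsm : ∀ (g : Gt) (θ : IBr p M G), g • θ = conjAut f g • θ := fun _ _ => rfl
  let S := MulAction.stabilizer Gt θ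
  let T := blockStab f B
  have hT : ∀ g, conjAut f g • θ ∈ ibrOf p M B → g ∈ T := fun g hg =>
    mem_blockStab.2 ((hB.mulAut_smul _).eq_of_mem_ibrOf hM hB (ibr_smul_mem hM hθB _) hg)
  have hST : S ≤ T := fun g hg => hT g (by rw [← hsm, MulAction.mem_stabilizer_iff.1 hg]; exact hθB)
  have hfS : f.range ≤ S := by
    rintro _ ⟨n, rfl⟩
    rw [MulAction.mem_stabilizer_iff, hsm, conjAut_map]
    refine Subtype.ext (funext fun g => ?_)
    rw [IBr.mulAut_smul_apply]
    simpa using θ.isClassFunction g n⁻¹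
  have h1 : {θ : IBr p M G | θ ∈ ibrOf p M B ∧ decNum (φ.1 ∘ f) θ ≠ 0}.ncard ≤ S.relIndex T := by
    have e1 : S.subgroupOf T = MulAction.stabilizer T θ := by
      ext g; rfl
    rw [Subgroup.relIndex, e1, MulAction.index_stabilizer]
    refine Set.ncard_le_ncard (fun θ' h => ?_) (Set.toFinite _)
    obtain ⟨g, rfl⟩ := (clif_mod hM f φ hθ).1 θ' h.2
    exact ⟨⟨g, hT g h.1⟩, rfl⟩
  have h2 : S.index ≤ κ * {y : Gt →* ℂˣ | (∀ g, y (f g) = 1) ∧ IsPRegular p y ∧
        ∀ g, φ g * (y g : ℂ) = φ g}.ncard := by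
    rw [← card_linear_trivial_on_of_commutator_le (commutator_le_of_range hab hfS)]
    refine le_trans ?_ (Nat.mul_le_mul_right _ hκ)
    rw [← Set.ncard_prod]
    change Nat.card {y : Gt →* ℂˣ | ∀ x ∈ S, y x = 1} ≤ _
    rw [Nat.card_coe_set_eq]
    refine Set.ncard_le_ncard_of_injOn (fun y => (pPart p y, pPrimePart p y)) (fun y hy => ?_)
      (fun y _ y' _ h => ?_) (Set.toFinite _)
    · have hpow : ∀ k : ℕ, ∀ g ∈ S, (y ^ k) g = 1 := fun k g hg => by
        rw [MonoidHom.pow_apply, hy g hg, one_pow]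
      obtain ⟨k, hk⟩ := exists_pPart_eq_pow p y
      obtain ⟨l, hl⟩ := exists_pPrimePart_eq_pow p y
      refine ⟨⟨fun g => ?_, isPElt_pPart p y, ?_⟩, fun g => ?_, isPRegular_pPrimePart p y, ?_⟩
      · change pPart p y (f g) = 1
        rw [hk]; exact hpow k _ (hfS ⟨g, rfl⟩)
      · refine exists_tw_fixed hM hab hBt hB hc hθB fun g hg => ?_
        change pPart p y g = 1
        rw [hk]; exact hpow k _ hg
      · change pPrimePart p y (f g) = 1
        rw [hl]; exact hpow l _ (hfS ⟨g, rfl⟩)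
      · refine tw_eq_of_stab hM f φ hθ fun g hg => ?_
        change pPrimePart p y g = 1
        rw [hl]; exact hpow l _ hg
    · simp only [Prod.mk.injEq] at h
      rw [← pPart_mul_pPrimePart p y, ← pPart_mul_pPrimePart p y', h.1, h.2]
  calc _ ≤ S.relIndex T * T.index := Nat.mul_le_mul_right _ h1
    _ = S.index := Subgroup.relIndex_mul_index hST
    _ ≤ _ := h2

theorem ncard_prod_eq_sum_fst {α β : Type*} [Fintype α] [Finite β] (P : α → β → Prop) :
    {x : α × β | P x.1 x.2}.ncard = ∑ a, {b | P a b}.ncard := by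
  classical
  letI := Fintype.ofFinite β
  simp only [Set.ncard_eq_toFinset_card', Set.toFinset_setOf, Finset.card_filter]
  rw [Fintype.sum_prod_type]

theorem ncard_prod_eq_sum_snd {α β : Type*} [Finite α] [Fintype β] (P : α → β → Prop) :
    {x : α × β | P x.1 x.2}.ncard = ∑ b, {a | P a b}.ncard := by
  classical
  letI := Fintype.ofFinite α
  simp only [Set.ncard_eq_toFinset_card', Set.toFinset_setOf, Finset.card_filter]
  rw [Fintype.sum_prod_type_right]

theorem clif (hM : IsPModular p M) {f : G →* Gt} [IsNormalEmb f]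
    (hab : ∀ x y : Gt, ⁅x, y⁆ ∈ f.range) {Bt : Set (IrrCharacter Gt)} {B : Set (IrrCharacter G)}
    (hBt : IsPBlock M Bt) (hB : IsPBlock M B) (hc : Covers f Bt B) {E : Set (IrrCharacter Gt)}
    (hE₁ : LinearIndependent ℂ fun χ : E => pRegularPart p χ.1.1)
    (hE₂ : ∀ χ : IrrCharacter Gt, pRegularPart p χ.1 ∈
      Submodule.span ℂ ((fun χ : IrrCharacter Gt => pRegularPart p χ.1) '' E))
    (hE₃ : ∀ y : Gt →* ℂˣ, (∀ g, y (f g) = 1) → IsPRegular p y → ∀ χ ∈ E,
      ∀ χ' : IrrCharacter Gt, IsTw y χ.1 χ'.1 → χ' ∈ E)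
    {X : Set (Gt →* ℂˣ)} (hX : ∀ z ∈ X, ∀ g ∈ blockStab f B, z g = 1) {κ : ℕ}
    (hκ : {y : Gt →* ℂˣ | (∀ g, y (f g) = 1) ∧ IsPElt p y ∧ ∃ χ ∈ Bt, IsTw y χ.1 χ.1}.ncard ≤ κ) :
    blockRank p B * X.ncard ≤ κ * {x : (Gt →* ℂˣ) × IrrCharacter Gt | (∀ g, x.1 (f g) = 1) ∧
      IsPRegular p x.1 ∧ x.2 ∈ E ∧ x.2 ∈ Bt ∧ IsTw x.1 x.2.1 x.2.1}.ncard := by
  classical
  letI := Fintype.ofFinite (Gt →* ℂˣ)
  have h0 : X.ncard ≤ (blockStab f B).index := by
    rw [← card_linear_trivial_on_of_commutator_le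
      (commutator_le_of_range hab (range_le_blockStab f B))]
    change _ ≤ Nat.card {y : Gt →* ℂˣ | ∀ x ∈ blockStab f B, y x = 1}
    rw [Nat.card_coe_set_eq]
    exact Set.ncard_le_ncard hX (Set.toFinite _)
  have h1 : blockRank p B ≤ ∑ φ : IBr p M Gt, {θ : IBr p M G | φ ∈ ibrOf p M Bt ∧
      θ ∈ ibrOf p M B ∧ decNum (φ.1 ∘ f) θ ≠ 0}.ncard := by
    rw [hB.blockRank_eq_card hM, Nat.card_coe_set_eq, ← ncard_prod_eq_sum_fst
      fun (φ : IBr p M Gt) (θ : IBr p M G) => φ ∈ ibrOf p M Bt ∧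
        θ ∈ ibrOf p M B ∧ decNum (φ.1 ∘ f) θ ≠ 0]
    refine le_trans (Set.ncard_le_ncard (fun θ hθ => ?_) (Set.toFinite _))
      (Set.ncard_image_le (f := Prod.snd) (Set.toFinite _))
    obtain ⟨φ, h1, h2⟩ := exists_ibr_over hM hBt hB hc hθ
    exact ⟨(φ, θ), ⟨h1, hθ, h2⟩, rfl⟩
  have h2 : {x : (Gt →* ℂˣ) × IrrCharacter Gt | (∀ g, x.1 (f g) = 1) ∧
      IsPRegular p x.1 ∧ x.2 ∈ E ∧ x.2 ∈ Bt ∧ IsTw x.1 x.2.1 x.2.1}.ncard =
      ∑ φ : IBr p M Gt, {y : Gt →* ℂˣ | φ ∈ ibrOf p M Bt ∧ (∀ g, y (f g) = 1) ∧ IsPRegular p y ∧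
        ∀ g, φ g * (y g : ℂ) = φ g}.ncard := by
    rw [ncard_prod_eq_sum_fst fun (y : Gt →* ℂˣ) (χ : IrrCharacter Gt) => (∀ g, y (f g) = 1) ∧
      IsPRegular p y ∧ χ ∈ E ∧ χ ∈ Bt ∧ IsTw y χ.1 χ.1,
      ← ncard_prod_eq_sum_snd fun (y : Gt →* ℂˣ) (φ : IBr p M Gt) => φ ∈ ibrOf p M Bt ∧
        (∀ g, y (f g) = 1) ∧ IsPRegular p y ∧ ∀ g, φ g * (y g : ℂ) = φ g,
      ncard_prod_eq_sum_fst fun (y : Gt →* ℂˣ) (φ : IBr p M Gt) => φ ∈ ibrOf p M Bt ∧
        (∀ g, y (f g) = 1) ∧ IsPRegular p y ∧ ∀ g, φ g * (y g : ℂ) = φ g]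
    refine Finset.sum_congr rfl fun y _ => ?_
    by_cases hy : (∀ g, y (f g) = 1) ∧ IsPRegular p y
    · have := card_fixed_ibr_eq hM hBt hE₁ hE₂ (y := y)
        fun χ hχ => hE₃ y hy.1 hy.2 χ hχ _ (isTw_iff.2 rfl)
      simp only [hy.1, hy.2, implies_true, true_and]
      exact this.symm
    · have e1 : {χ : IrrCharacter Gt | (∀ g, y (f g) = 1) ∧
          IsPRegular p y ∧ χ ∈ E ∧ χ ∈ Bt ∧ IsTw y χ.1 χ.1} = ∅ :=
        Set.eq_empty_of_forall_notMem fun χ h => hy ⟨h.1, h.2.1⟩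
      have e2 : {φ : IBr p M Gt | φ ∈ ibrOf p M Bt ∧
          (∀ g, y (f g) = 1) ∧ IsPRegular p y ∧ ∀ g, φ g * (y g : ℂ) = φ g} = ∅ :=
        Set.eq_empty_of_forall_notMem fun χ h => hy ⟨h.2.1, h.2.2.1⟩
      rw [e1, e2, Set.ncard_empty, Set.ncard_empty]
  rw [h2, Finset.mul_sum]
  refine le_trans (Nat.mul_le_mul h1 h0) ?_
  rw [Finset.sum_mul]
  refine Finset.sum_le_sum fun φ _ => ?_
  by_cases hφ : φ ∈ ibrOf p M Bt
  · simp only [hφ, true_and]
    exact card_under_le hM hab hBt hB hc hκ φ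
  · simp [hφ]

end Cfsg.Gln

set_option linter.all false in
theorem Cfsg.Rz.Gln_Clif_0 : True := by
  have := @_root_.Cfsg.Gln.IsTw.eq_def.{0}
  have := @_root_.Cfsg.Gln.IsTw.eq_1.{0}
  have := @_root_.Cfsg.Gln.IsTw.fun_cases
  trivial
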