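import Cfsg.Agent.Blk.Covering
import Cfsg.Agent.Mod.Block
import Cfsg.Agent.Char.Abelian

/-!
# Modular Clifford theory for a normal subgroup with abelian quotient (S4536 project)
-/

set_option autoImplicit false
set_option linter.unusedSectionVars false
set_option linter.unusedVariables false
set_option linter.style.haveILetI false

namespace Cfsg.Gln

open scoped commutatorElement MonoidAlgebra
open GA

variable {G Gt : Type*} [Group G] [Finite G] [Group Gt] [Finite Gt] {p : ℕ} {M : Ideal AlgInt}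

theorem clif_comp_emb {k : Type*} [Field k] {G H : Type*} [Group G] [Group H]
    {V : Type*} [AddCommGroup V] [Module k V] (ρ : Representation k G V) (f : H →* G) (a : k[H]) :
    Representation.asAlgebraHom (ρ.comp f) a = ρ.asAlgebraHom (emb f a) := by
  induction a using MonoidAlgebra.induction_linear with
  | zero => simp
  | add a b ha hb => simp only [map_add, ha, hb]
  | single g c => simp

theorem rep_smul_of_ibr (hM : IsPModular p M) {V : Type*} [AddCommGroup V] [Module (ResK M) V]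
    [FiniteDimensional (ResK M) V] {τ : Representation (ResK M) G V} (hτ : τ.IsIrreducible)
    {ψ : IBr p M G} (h : brauerChar p M τ = ψ.1) {a : (ResK M)[G]} {c : ResK M}
    (ha : ψ.rep.asAlgebraHom a = c • 1) : τ.asAlgebraHom a = c • 1 := by
  obtain ⟨e⟩ := nonempty_equiv_of_brauerChar_eq hM hτ ψ.rep_isIrreducible
    (h.trans ψ.brauerChar_rep.symm)
  ext v
  apply e.toLinearEquiv.injective
  have := asAlgebraHom_comm_of_comm (ρ := τ) (σ := ψ.rep) e.toLinearEquiv.toLinearMap
    (fun g v => e.toIntertwiningMap.isIntertwining _ _ g v) a v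
  rw [ha] at this
  simpa using this

theorem rad_irr (hM : IsPModular p M) {V : Type*} [AddCommGroup V] [Module (ResK M) V]
    [FiniteDimensional (ResK M) V] {τ : Representation (ResK M) G V} (hτ : τ.IsIrreducible)
    {a : (ResK M)[G]} (ha : ∀ ψ : IBr p M G, ψ.rep.asAlgebraHom a = 0) : τ.asAlgebraHom a = 0 := by
  have := rep_smul_of_ibr hM hτ (ψ := ⟨_, isIBr_of_rep τ hτ⟩) rfl (a := a) (c := 0)
    (by rw [ha, zero_smul])
  rwa [zero_smul] at this

theorem rep_emb_smul (hM : IsPModular p M) (σ : MulAut G) (ψ : IBr p M G) {a : (ResK M)[G]}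
    {c : ResK M} (ha : (σ⁻¹ • ψ).rep.asAlgebraHom a = c • 1) :
    ψ.rep.asAlgebraHom (emb σ.toMonoidHom a) = c • 1 := by
  rw [← clif_comp_emb]
  refine rep_smul_of_ibr hM
    (rep_isIrreducible_comp_of_surjective ψ.rep_isIrreducible σ.toMonoidHom σ.surjective) ?_ ha
  rw [brauerChar_comp, ψ.brauerChar_rep, ← (σ⁻¹ • ψ).pRegularPart_eq]
  rfl

theorem rep_conj_comm {k : Type*} [Field k] {V : Type*} [AddCommGroup V] [Module k V]
    (R : Representation k Gt V) (f : G →* Gt) [IsNormalEmb f] (g : Gt) (a : k[G]) :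
    R g * Representation.asAlgebraHom (R.comp f) a =
      Representation.asAlgebraHom (R.comp f) (emb (conjAut f g).toMonoidHom a) * R g := by
  induction a using MonoidAlgebra.induction_linear with
  | zero => simp
  | add a b ha hb => simp only [map_add, mul_add, add_mul, ha, hb]
  | single n c =>
    simp only [emb_single, Representation.asAlgebraHom_single, MonoidHom.comp_apply,
      MulEquiv.coe_toMonoidHom, map_conjAut, mul_smul_comm, smul_mul_assoc, ← map_mul]
    congr 2
    group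

theorem rad_kill (hM : IsPModular p M) {V : Type*} [AddCommGroup V] [Module (ResK M) V]
    [FiniteDimensional (ResK M) V] {R : Representation (ResK M) Gt V} (hR : R.IsIrreducible)
    (f : G →* Gt) [IsNormalEmb f] {a : (ResK M)[G]}
    (ha : ∀ ψ : IBr p M G, ψ.rep.asAlgebraHom a = 0) :
    Representation.asAlgebraHom (R.comp f) a = 0 := by
  obtain ⟨hV, h⟩ := (rep_isIrreducible_iff R).mp hR
  let W : Submodule (ResK M) V :=
    { carrier := {w | ∀ b : (ResK M)[G], (∀ ψ : IBr p M G, ψ.rep.asAlgebraHom b = 0) →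
        Representation.asAlgebraHom (R.comp f) b w = 0}
      add_mem' := fun ha hb y hy => by rw [map_add, ha y hy, hb y hy, add_zero]
      zero_mem' := fun y _ => map_zero _
      smul_mem' := fun c w hw y hy => by rw [map_smul, hw y hy, smul_zero] }
  rcases h W (fun g w hw b hb => by
    have h1 := rep_conj_comm R f g (emb (conjAut f g⁻¹).toMonoidHom b)
    have h2 : emb (conjAut f g).toMonoidHom (emb (conjAut f g⁻¹).toMonoidHom b) = b := by
      rw [emb_emb]
      have : (conjAut f g).toMonoidHom.comp (conjAut f g⁻¹).toMonoidHom = MonoidHom.id G := by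
        ext n; simp
      rw [this, emb_id]
    rw [h2] at h1
    rw [← Module.End.mul_apply, ← h1, Module.End.mul_apply, hw _ fun ψ => by
      have := rep_emb_smul hM (conjAut f g⁻¹) ψ (a := b) (c := 0) (by rw [hb, zero_smul])
      rwa [zero_smul] at this, map_zero]) with h1 | h1
  · exfalso
    obtain ⟨U, hU, hirr⟩ := exists_irreducible_subrep (V := V) (R.comp f)
    obtain ⟨hU0, -⟩ := (rep_isIrreducible_iff _).mp hirr
    obtain ⟨u, hu⟩ := exists_ne (0 : U)
    have : (u : V) ∈ W := by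
      intro b hb
      have h3 := rad_irr hM hirr hb
      rw [asAlgebraHom_subrepresentation] at h3
      have := congrArg (fun T => ((T u : U) : V)) h3
      simpa using this
    rw [h1] at this
    exact hu (Subtype.ext this)
  · ext w
    exact (show w ∈ W from h1 ▸ Submodule.mem_top) a ha

/-- The homogeneous components of the restriction of a simple module. -/
theorem exists_comps (hM : IsPModular p M) (f : G →* Gt) [IsNormalEmb f] (φ : IBr p M Gt) :
    ∃ e : IBr p M G → Module.End (ResK M) (Fin φ.deg → ResK M),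
      (∀ θ, e θ * e θ = e θ) ∧ (∀ θ θ', θ ≠ θ' → e θ * e θ' = 0) ∧ ∑ θ, e θ = 1 ∧
      (∀ g θ, φ.rep g * e θ = e (conjAut f g • θ) * φ.rep g) ∧
      ∀ θ, decNum (φ.1 ∘ f) θ ≠ 0 → e θ ≠ 0 := by
  classical
  choose a ha₁ ha₀ using fun θ : IBr p M G => θ.exists_sep
  have ha : ∀ θ ψ : IBr p M G, ψ.rep.asAlgebraHom (a θ) = (if ψ = θ then 1 else 0 : ResK M) • 1 := by
    intro θ ψ
    split_ifs with h
    · subst h; rw [ha₁, one_smul]
    · rw [ha₀ _ _ h, zero_smul]
  have kill : ∀ b c : (ResK M)[G], (∀ ψ : IBr p M G, ψ.rep.asAlgebraHom b = ψ.rep.asAlgebraHom c) →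
      Representation.asAlgebraHom (φ.rep.comp f) b = Representation.asAlgebraHom (φ.rep.comp f) c := by
    intro b c h
    rw [← sub_eq_zero, ← map_sub]
    exact rad_kill hM φ.rep_isIrreducible f fun ψ => by rw [map_sub, h, sub_self]
  refine ⟨fun θ => Representation.asAlgebraHom (φ.rep.comp f) (a θ), fun θ => ?_, fun θ θ' h => ?_,
    ?_, fun g θ => ?_, fun θ hθ h0 => ?_⟩
  · rw [← map_mul]
    refine kill _ _ fun ψ => ?_
    rw [map_mul, ha]
    split_ifs <;> simp
  · rw [← map_mul, ← map_zero (Representation.asAlgebraHom (φ.rep.comp f))]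
    refine kill _ _ fun ψ => ?_
    rw [map_mul, ha, ha, map_zero]
    split_ifs with h1 h2
    · exact absurd (h1.symm.trans h2) h
    all_goals simp
  · rw [← map_sum, ← map_one (Representation.asAlgebraHom (φ.rep.comp f))]
    refine kill _ _ fun ψ => ?_
    rw [map_sum, map_one]
    simp only [ha]
    rw [← Finset.sum_smul]
    simp
  · rw [rep_conj_comm]
    congr 1
    refine kill _ _ fun ψ => ?_
    rw [ha, rep_emb_smul hM (conjAut f g) ψ (ha θ _)]
    simp only [inv_smul_eq_iff]
  · have hd : decNum (brauerChar p M (φ.rep.comp f)) θ ≠ 0 := by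
      rwa [brauerChar_comp, decNum_pRegularPart, φ.brauerChar_rep]
    have := IBr.isNilpotent_of_decNum_ne_zero hM _ hd (a := a θ) (by
      rw [show Representation.asAlgebraHom (φ.rep.comp f) (a θ) = 0 from h0]; exact IsNilpotent.zero)
    rw [ha₁] at this
    exact not_isNilpotent_one this

/-- Modular Clifford theory: constituents are conjugate, and the trace vanishes off the stabiliser. -/
theorem clif_mod (hM : IsPModular p M) (f : G →* Gt) [IsNormalEmb f] (φ : IBr p M Gt)
    {θ : IBr p M G} (hθ : decNum (φ.1 ∘ f) θ ≠ 0) :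
    (∀ θ', decNum (φ.1 ∘ f) θ' ≠ 0 → ∃ g, conjAut f g • θ = θ') ∧
      ∀ g, (∀ x, conjAut f (x⁻¹ * g * x) • θ ≠ θ) → φ.rep.character g = 0 := by
  classical
  obtain ⟨e, h1, h2, h3, h4, h5⟩ := exists_comps hM f φ
  let O : Finset (IBr p M G) := Finset.univ.filter fun θ' => ∃ g, conjAut f g • θ = θ'
  have hO : ∀ θ', θ' ∈ O ↔ ∃ g, conjAut f g • θ = θ' := fun θ' => by simp [O]
  have hOg : ∀ g θ', conjAut f g • θ' ∈ O ↔ θ' ∈ O := by
    intro g θ'
    rw [hO, hO]
    constructor
    · rintro ⟨x, hx⟩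
      exact ⟨g⁻¹ * x, by rw [map_mul, mul_smul, hx, map_inv, inv_smul_smul]⟩
    · rintro ⟨x, rfl⟩
      exact ⟨g * x, by rw [map_mul, mul_smul]⟩
  let E := ∑ θ' ∈ O, e θ'
  have hE : ∀ g, E * φ.rep g = φ.rep g * E := by
    intro g
    simp only [E, Finset.mul_sum, Finset.sum_mul, h4]
    symm
    refine Finset.sum_bij (fun θ' _ => conjAut f g • θ') (fun θ' h => (hOg g θ').2 h)
      (fun a _ b _ h => smul_left_cancel _ h) (fun θ' h => ⟨(conjAut f g)⁻¹ • θ', ?_, by simp⟩)
      (fun _ _ => rfl)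
    rw [← hOg g]; simpa using h
  obtain ⟨c, hc⟩ := rep_exists_smul_of_commute φ.rep_isIrreducible E hE
  have hmul : ∀ θ', e θ' * E = if θ' ∈ O then e θ' else 0 := by
    intro θ'
    simp only [E, Finset.mul_sum]
    split_ifs with h
    · rw [Finset.sum_eq_single θ' (fun b _ hb => h2 _ _ hb.symm) (fun h' => absurd h h'), h1]
    · exact Finset.sum_eq_zero fun b hb => h2 _ _ fun h' => h (h' ▸ hb)
  have hθO : θ ∈ O := (hO θ).2 ⟨1, by simp⟩
  have hc1 : c = 1 := by
    have := hmul θ
    rw [if_pos hθO, hc, mul_smul_comm, mul_one] at this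
    by_contra hne
    refine h5 θ hθ ?_
    refine LinearMap.ext fun v => ?_
    have h7 : c • e θ v = e θ v := congrArg (fun T : Module.End _ _ => T v) this
    have h6 : (c - 1) • e θ v = 0 := by rw [sub_smul, h7, one_smul, sub_self]
    exact (smul_eq_zero.1 h6).resolve_left (sub_ne_zero.2 hne)
  have hout : ∀ θ' ∉ O, e θ' = 0 := by
    intro θ' h
    have := hmul θ'
    rwa [if_neg h, hc, hc1, one_smul, mul_one] at this
  refine ⟨fun θ' h => ?_, fun g hg => ?_⟩
  · by_contra hne
    exact h5 θ' h (hout θ' fun h' => hne ((hO θ').1 h'))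
  · have : φ.rep g = ∑ θ', φ.rep g * e θ' := by rw [← Finset.mul_sum, h3, mul_one]
    rw [Representation.character, this, map_sum]
    refine Finset.sum_eq_zero fun θ' _ => ?_
    by_cases h : θ' ∈ O
    · obtain ⟨x, rfl⟩ := (hO θ').1 h
      have hne : conjAut f x • θ ≠ conjAut f g • conjAut f x • θ := by
        intro h'
        refine hg x ?_
        rw [map_mul, map_mul, mul_smul, mul_smul, ← h', map_inv, inv_smul_smul]
      rw [← h1, ← mul_assoc, LinearMap.trace_mul_comm, h4, ← mul_assoc, h2 _ _ hne, zero_mul, map_zero]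
    · rw [hout θ' h, mul_zero, map_zero]

/-- Twisting an irreducible Brauer character by a linear character. -/
theorem isBrauerChar_tw (hM : IsPModular p M) (y : G →* ℂˣ) {φ : G → ℂ}
    (hφ : IsBrauerChar G p M φ) : IsBrauerChar G p M fun g => φ g * (y g : ℂ) := by
  have := hφ.mul hM ((isCharacter_linear y).isBrauerChar hM)
  convert this using 1
  funext g
  by_cases hg : IsPRegular p g
  · rw [Pi.mul_apply, pRegularPart_of_reg hg]
  · rw [Pi.mul_apply, hφ.apply_of_not_reg hg, zero_mul, zero_mul]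

theorem IsBrauerChar.exists_decNum_ne_zero {θ : G → ℂ} (h : IsBrauerChar G p M θ) (h0 : θ ≠ 0) :
    ∃ ψ : IBr p M G, decNum θ ψ ≠ 0 := by
  by_contra hne
  push Not at hne
  refine h0 ?_
  rw [h.eq_sum_decNum]
  simp [hne]

theorem isIBr_tw (hM : IsPModular p M) (y : G →* ℂˣ) (φ : IBr p M G) :
    IsIBr G p M fun g => φ g * (y g : ℂ) := by
  classical
  haveI := Fact.mk hM.1
  have hne : ∀ (z : G →* ℂˣ) (ψ : IBr p M G), (fun g => ψ g * (z g : ℂ)) ≠ 0 := by
    intro z ψ h
    have := congrFun h 1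
    simp only [map_one, Units.val_one, mul_one, Pi.zero_apply, ψ.apply_one hM] at this
    exact ψ.deg_pos.ne' (by exact_mod_cast this)
  have hle : ∀ (θ : G → ℂ) (hθ : IsBrauerChar G p M θ) (ψ : IBr p M G), decNum θ ψ ≠ 0 →
      ∀ n : ℕ, θ 1 = n → ψ.deg ≤ n := by
    intro θ hθ ψ hd n hn
    have h1 := congrFun hθ.eq_sum_decNum 1
    rw [hn, Finset.sum_apply] at h1
    simp only [Pi.smul_apply, smul_eq_mul, IBr.apply_one hM] at h1
    have h2 : n = ∑ φ : IBr p M G, decNum θ φ * φ.deg := by exact_mod_cast h1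
    rw [h2]
    refine le_trans ?_ (Finset.single_le_sum (f := fun φ : IBr p M G => decNum θ φ * φ.deg)
      (fun _ _ => Nat.zero_le _) (Finset.mem_univ ψ))
    exact Nat.le_mul_of_pos_left _ (Nat.pos_of_ne_zero hd)
  have h1 := isBrauerChar_tw hM y φ.isBrauerChar
  obtain ⟨ψ, hψ⟩ := IsBrauerChar.exists_decNum_ne_zero h1 (hne y φ)
  have h2 := isBrauerChar_tw hM y⁻¹ ψ.isBrauerChar
  obtain ⟨φ', hφ'⟩ := IsBrauerChar.exists_decNum_ne_zero h2 (hne y⁻¹ ψ)
  have h3 : φ' = φ := by
    by_contra hne'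
    have e1 : φ.1 = ∑ μ : IBr p M G, (decNum (fun g => φ g * (y g : ℂ)) μ : ℂ) •
        fun g => μ g * ((y⁻¹ g : ℂˣ) : ℂ) := by
      funext g
      have := congrFun h1.eq_sum_decNum g
      simp only [Finset.sum_apply, Pi.smul_apply, smul_eq_mul] at this ⊢
      simp only [← mul_assoc, ← Finset.sum_mul, ← this]
      simp
    have e2 := ip_ibr_Phi hM φ φ'
    rw [if_neg (Ne.symm hne'), e1, ip_sum_left] at e2
    simp only [ip_smul_left] at e2
    have e3 : ∀ μ : IBr p M G, ip (fun g => μ g * ((y⁻¹ g : ℂˣ) : ℂ)) (Phi φ') =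
        decNum (fun g => μ g * ((y⁻¹ g : ℂˣ) : ℂ)) φ' := fun μ =>
      (isBrauerChar_tw hM y⁻¹ μ.isBrauerChar).ip_Phi hM φ'
    simp only [e3] at e2
    have e4 : ∑ μ : IBr p M G, decNum (fun g => φ g * (y g : ℂ)) μ *
        decNum (fun g => μ g * ((y⁻¹ g : ℂˣ) : ℂ)) φ' = 0 := by exact_mod_cast e2
    rw [Finset.sum_eq_zero_iff] at e4
    exact mul_ne_zero hψ hφ' (e4 ψ (Finset.mem_univ _))
  subst h3
  have d1 : ψ.deg ≤ φ'.deg := hle _ h1 ψ hψ _ (by simp [IBr.apply_one hM])
  have d2 : φ'.deg ≤ ψ.deg := hle _ h2 φ' hφ' _ (by simp [IBr.apply_one hM])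
  rw [h1.eq_of_apply_one_eq hM hψ (by simp [IBr.apply_one hM, le_antisymm d1 d2])]
  exact ψ.2

theorem tw_eq_of_stab (hM : IsPModular p M) (f : G →* Gt) [IsNormalEmb f] (φ : IBr p M Gt)
    {θ : IBr p M G} (hθ : decNum (φ.1 ∘ f) θ ≠ 0) {y : Gt →* ℂˣ}
    (hy : ∀ g, conjAut f g • θ = θ → y g = 1) (g : Gt) : φ g * (y g : ℂ) = φ g := by
  let φ' : IBr p M Gt := ⟨_, isIBr_tw hM y φ⟩
  have : φ' = φ := by
    apply (IBr.linearIndependent_red hM).injective
    funext x
    change red M (φ x * (y x : ℂ)) = red M (φ x)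
    by_cases hx : y x = 1
    · rw [hx]; simp
    by_cases hr : IsPRegular p x
    · have h0 : red M (φ x) = 0 := by
        rw [← φ.brauerChar_rep, red_brauerChar hM _ hr]
        refine (clif_mod hM f φ hθ).2 x fun z hz => hx ?_
        have := hy _ hz
        rwa [map_mul, map_mul, map_inv, mul_comm, ← mul_assoc, mul_inv_cancel, one_mul] at this
      rw [red_mul (φ.isBrauerChar.mem_locO hM x) 
        (mem_locO_of_isIntegral ((isCharacter_linear y).isIntegral x)), h0, zero_mul]
    · rw [φ.apply_of_not_reg hr, zero_mul]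
  exact congrFun (congrArg Subtype.val this) g

end Cfsg.Gln
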