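import Mathlib

/-!
# Counting fixed labels (S4536 project)

`card_fixed_le`.  Fix a base point `i₀` in each `C`-orbit on `T`, and for each `i` in the orbit an element
`c_i` with `c_i • i₀ = i`; number the cosets of `C₁ i₀` in `stabilizer i₀` by `Fin (g i)`.  Send `(y, λ)` to
the code `i ↦ Option (Fin (g i) × S i)`: on the orbit of `i₀`, with `i₁ = y • i₀`, let `n` be the number of the
coset of `y c_{i₁}⁻¹`; code `i = some (n, λ i)` except that code `i₁ = none` when `i₁ ≠ i₀`.  The code determines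
`λ` (`λ i₁ = λ i₀`; off `T` by `hS`) and `y` modulo `⨅ C₁ i`.  (Any other proof is fine.)
`two_mul_index_le`: `C ⧸ ⨅ stabilizer` embeds in the product of the orbits, `∏ tᵢ ≤ 2 ^ (∑ (tᵢ - 1))`.
-/

set_option autoImplicit false
set_option linter.unusedSectionVars false
set_option linter.unusedVariables false
set_option linter.style.haveILetI false

namespace Cfsg.Gln

open Finset MulAction

variable {C I Λ : Type*} [CommGroup C] [Finite C] [Fintype I] [DecidableEq I] [MulAction C I]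

theorem exists_numbering (H K : Subgroup C) :
    ∃ ν : C → ℕ, (∀ u ∈ K, ν u < H.relIndex K) ∧ ∀ u ∈ K, ∀ v ∈ K, ν u = ν v → u⁻¹ * v ∈ H := by
  classical
  haveI : Finite (K ⧸ H.subgroupOf K) := inferInstance
  let e := Finite.equivFin (K ⧸ H.subgroupOf K)
  refine ⟨fun u => if h : u ∈ K then (e (QuotientGroup.mk ⟨u, h⟩) : ℕ) else 0, ?_, ?_⟩
  · intro u hu
    simp only [dif_pos hu]
    exact (e _).2
  · intro u hu v hv h
    simp only [dif_pos hu, dif_pos hv] at h
    have h' := e.injective (Fin.ext h)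
    rw [QuotientGroup.eq, Subgroup.mem_subgroupOf] at h'
    exact h'

theorem stabilizer_smul_comm (c : C) (i : I) : stabilizer C (c • i) = stabilizer C i := by
  ext u
  simp only [mem_stabilizer_iff]
  rw [smul_comm u c i]
  exact smul_left_cancel_iff c

theorem card_fixed_le (T : Finset I) (hT : ∀ c : C, ∀ i ∈ T, c • i ∈ T) (S : I → Finset Λ)
    (hS : ∀ i ∉ T, #(S i) ≤ 1) (C₁ : I → Subgroup C) (g : I → ℕ)
    (h₁ : ∀ i, C₁ i ≤ stabilizer C i) (h₂ : ∀ (c : C) i, C₁ (c • i) = C₁ i)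
    (h₃ : ∀ i ∈ T, (C₁ i).relIndex (stabilizer C i) ≤ g i) :
    {x : C × (I → Λ) | (∀ i, x.2 i ∈ S i) ∧ ∀ i, x.2 (x.1 • i) = x.2 i}.ncard ≤
      Nat.card (⨅ i ∈ T, C₁ i : Subgroup C) * ∏ i ∈ T, (1 + g i * #(S i)) := by
  classical
  letI : Fintype C := Fintype.ofFinite C
  -- base points
  let b : I → I := fun i => (Quotient.mk (orbitRel C I) i).out
  have hb : ∀ i, ∃ c : C, c • b i = i := by
    intro i
    have : (orbitRel C I).r i (b i) := Quotient.exact (Quotient.out_eq (Quotient.mk (orbitRel C I) i)).symm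
    exact this
  have hbs : ∀ (c : C) i, b (c • i) = b i := by
    intro c i
    have : Quotient.mk (orbitRel C I) (c • i) = Quotient.mk (orbitRel C I) i :=
      Quotient.sound (show (orbitRel C I).r (c • i) i from ⟨c, rfl⟩)
    simp only [b, this]
  choose c hc using hb
  have hbi : ∀ i, b i = (c i)⁻¹ • i := fun i => by rw [eq_inv_smul_iff, hc]
  have hbb : ∀ i, b (b i) = b i := fun i => by rw [hbi i, hbs, hbi]
  have hbT : ∀ i ∈ T, b i ∈ T := fun i hi => by rw [hbi]; exact hT _ _ hi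
  choose ν hν₁ hν₂ using fun i => exists_numbering (C₁ i) (stabilizer C i)
  have hst : ∀ (y : C) i, y * (c (y • b i))⁻¹ ∈ stabilizer C (b i) := by
    intro y i
    rw [mem_stabilizer_iff, mul_comm, mul_smul, inv_smul_eq_iff]
    have := hc (y • b i)
    rw [hbs, hbb] at this
    exact this.symm
  let code : C × (I → Λ) → (T → Option (ℕ × Λ)) := fun x i =>
    if (i : I) = x.1 • b i ∧ x.1 • b i ≠ b i then none
    else some (ν (b i) (x.1 * (c (x.1 • b i))⁻¹), x.2 i)
  let X : Finset (C × (I → Λ)) :=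
    (univ ×ˢ Fintype.piFinset S).filter fun x => ∀ i, x.2 (x.1 • i) = x.2 i
  have hX : ∀ x, x ∈ X ↔ (∀ i, x.2 i ∈ S i) ∧ ∀ i, x.2 (x.1 • i) = x.2 i := by
    intro x
    simp [X, Fintype.mem_piFinset]
  have hXs : {x : C × (I → Λ) | (∀ i, x.2 i ∈ S i) ∧ ∀ i, x.2 (x.1 • i) = x.2 i} = (X : Set _) := by
    ext x
    rw [Finset.mem_coe, hX]; rfl
  let Y : Finset (T → Option (ℕ × Λ)) :=
    Fintype.piFinset fun i : T => insertNone (range (g i) ×ˢ S i)
  have hY : #Y = ∏ i ∈ T, (1 + g i * #(S i)) := by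
    simp only [Y, Fintype.card_piFinset, card_insertNone, card_product, card_range]
    rw [Finset.prod_coe_sort T (fun i => g i * #(S i) + 1)]
    exact Finset.prod_congr rfl fun i _ => add_comm _ _
  rw [hXs, Set.ncard_coe_finset, ← hY]
  refine Finset.card_le_mul_card_image_of_maps_to (f := code) (t := Y) ?_ _ ?_
  · intro x hx
    rw [hX] at hx
    rw [Fintype.mem_piFinset]
    intro i
    simp only [code]
    split_ifs with h
    · simp
    · rw [some_mem_insertNone, mem_product, mem_range]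
      refine ⟨?_, hx.1 i⟩
      refine lt_of_lt_of_le (hν₁ _ _ (hst _ _)) ?_
      have e1 : C₁ (b i) = C₁ i := by rw [hbi, h₂]
      have e2 : stabilizer C (b i) = stabilizer C (i : I) := by rw [hbi, stabilizer_smul_comm]
      rw [e1, e2]
      exact h₃ i i.2
  · intro z hz
    by_cases hne : (X.filter fun x => code x = z).Nonempty
    swap
    · rw [not_nonempty_iff_eq_empty.1 hne]; simp
    obtain ⟨x₀, hx₀⟩ := hne
    rw [mem_filter, hX] at hx₀
    -- key injectivity
    have key : ∀ x ∈ X.filter fun x => code x = z,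
        x₀.1⁻¹ * x.1 ∈ (⨅ i ∈ T, C₁ i : Subgroup C) ∧ x.2 = x₀.2 := by
      intro x hx
      rw [mem_filter, hX] at hx
      have hcode : code x₀ = code x := hx₀.2.trans hx.2.symm
      have h1 : ∀ (u v : C × (I → Λ)), code u = code v → ∀ i ∈ T, u.1 • b i ≠ b i →
          u.1 • b i = v.1 • b i := by
        intro u v huv i hi hne
        have := congrFun huv ⟨u.1 • b i, hT _ _ (hbT i hi)⟩
        simp only [code, hbs, hbb] at this
        rw [if_pos ⟨trivial, hne⟩] at this
        by_contra hcon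
        rw [if_neg (fun h => hcon h.1)] at this
        cases this
      have h2 : ∀ i ∈ T, x₀.1 • b i = x.1 • b i := by
        intro i hi
        by_cases ha : x₀.1 • b i = b i
        · by_cases hb' : x.1 • b i = b i
          · rw [ha, hb']
          · exact (h1 x x₀ hcode.symm i hi hb').symm
        · exact h1 x₀ x hcode i hi ha
      have h3 : ∀ i ∈ T, ν (b i) (x₀.1 * (c (x₀.1 • b i))⁻¹) = ν (b i) (x.1 * (c (x.1 • b i))⁻¹) ∧
          x₀.2 (b i) = x.2 (b i) := by
        intro i hi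
        have := congrFun hcode ⟨b i, hbT i hi⟩
        simp only [code, hbb] at this
        rw [if_neg (fun h => h.2 h.1.symm), if_neg (fun h => h.2 h.1.symm)] at this
        simpa using this
      refine ⟨?_, ?_⟩
      · simp only [Subgroup.mem_iInf]
        intro i hi
        have := hν₂ (b i) _ (hst x₀.1 i) _ (hst x.1 i) (h3 i hi).1
        rw [← h2 i hi] at this
        have e1 : C₁ (b i) = C₁ i := by rw [hbi, h₂]
        rw [e1] at this
        convert this using 1
        rw [mul_inv_rev, inv_inv, mul_comm (c _), mul_assoc, ← mul_assoc (c _), mul_comm (c _) x.1,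
          mul_assoc, mul_inv_cancel, mul_one]
      · funext i
        by_cases hi : i ∈ T
        · by_cases hi1 : i = x.1 • b i
          · have a1 : x.2 i = x.2 (b i) := by rw [hi1, hx.1.2, hbs, hbb]
            have a2 : x₀.2 i = x₀.2 (b i) := by
              rw [← h2 i hi] at hi1
              rw [hi1, hx₀.1.2, hbs, hbb]
            rw [a1, a2, (h3 i hi).2]
          · have := congrFun hcode ⟨i, hi⟩
            simp only [code] at this
            rw [if_neg (fun h => hi1 (h.1.trans (h2 i hi))), if_neg (fun h => hi1 h.1)] at this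
            simp only [Option.some.injEq, Prod.mk.injEq] at this
            exact this.2.symm
        · exact Finset.card_le_one.1 (hS i hi) _ (hx.1.1 i) _ (hx₀.1.1 i)
    rw [Nat.card_eq_fintype_card, Fintype.card_subtype]
    refine Finset.card_le_card_of_injOn (fun x => x₀.1⁻¹ * x.1) ?_ ?_
    · intro x hx
      simp only [coe_filter, mem_univ, true_and, Set.mem_setOf_eq]
      exact (key x hx).1
    · intro x hx x' hx' h
      exact Prod.ext (mul_left_cancel h) ((key x hx).2.trans (key x' hx').2.symm)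

theorem two_mul_index_le_aux (n : ℕ) : ∀ (T : Finset I), #T = n → (∀ c : C, ∀ i ∈ T, c • i ∈ T) →
    T.Nonempty → 2 * (⨅ i ∈ T, stabilizer C i : Subgroup C).index ≤ 2 ^ #T := by
  classical
  induction n using Nat.strong_induction_on with
  | _ n ih =>
  intro T hn hT ⟨i₀, hi₀⟩
  let O : Finset I := T.filter fun i => i ∈ orbit C i₀
  let R : Finset I := T.filter fun i => i ∉ orbit C i₀
  have hOR : #O + #R = #T := card_filter_add_card_filter_not _
  have hO : (stabilizer C i₀).index = #O := by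
    rw [index_stabilizer, ← Set.ncard_coe_finset]
    congr 1
    ext i
    simp only [O, coe_filter, Set.mem_setOf_eq]
    refine ⟨fun h => ⟨?_, h⟩, fun h => h.2⟩
    obtain ⟨c, rfl⟩ := h
    exact hT _ _ hi₀
  have hOpos : 0 < #O := card_pos.2 ⟨i₀, mem_filter.2 ⟨hi₀, mem_orbit_self _⟩⟩
  have hR : (⨅ i ∈ R, stabilizer C i : Subgroup C).index ≤ 2 ^ #R := by
    by_cases hne : R.Nonempty
    · have := ih #R (by omega) R rfl (by
        intro c i hi
        rw [mem_filter] at hi ⊢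
        refine ⟨hT _ _ hi.1, fun h => hi.2 ?_⟩
        obtain ⟨d, hd⟩ := h
        exact ⟨c⁻¹ * d, by simp only [mul_smul]; rw [inv_smul_eq_iff]; exact hd⟩) hne
      omega
    · rw [not_nonempty_iff_eq_empty.1 hne]; simp
  have hle : stabilizer C i₀ ⊓ (⨅ i ∈ R, stabilizer C i : Subgroup C) ≤ ⨅ i ∈ T, stabilizer C i := by
    intro u hu
    simp only [Subgroup.mem_inf, Subgroup.mem_iInf] at hu ⊢
    intro i hi
    by_cases h : i ∈ orbit C i₀
    · obtain ⟨c, rfl⟩ := h
      rw [stabilizer_smul_comm]; exact hu.1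
    · exact hu.2 i (mem_filter.2 ⟨hi, h⟩)
  have h1 : (⨅ i ∈ T, stabilizer C i : Subgroup C).index ≤
      (stabilizer C i₀).index * (⨅ i ∈ R, stabilizer C i : Subgroup C).index :=
    (Nat.le_of_dvd (Nat.pos_of_ne_zero Subgroup.index_ne_zero_of_finite)
      (Subgroup.index_dvd_of_le hle)).trans Subgroup.index_inf_le
  have h2 : 2 * #O ≤ 2 ^ #O := by
    obtain ⟨m, hm⟩ : ∃ m, #O = m + 1 := ⟨#O - 1, by omega⟩
    rw [hm, pow_succ, mul_comm]
    exact Nat.mul_le_mul_right _ Nat.lt_two_pow_self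
  rw [← hOR, pow_add]
  calc 2 * (⨅ i ∈ T, stabilizer C i : Subgroup C).index ≤ 2 * (#O * 2 ^ #R) :=
        Nat.mul_le_mul_left _ (h1.trans (by rw [hO]; exact Nat.mul_le_mul_left _ hR))
    _ = 2 * #O * 2 ^ #R := by ring
    _ ≤ _ := Nat.mul_le_mul_right _ h2

theorem two_mul_index_le (T : Finset I) (hT : ∀ c : C, ∀ i ∈ T, c • i ∈ T) (h : T.Nonempty) :
    2 * (⨅ i ∈ T, stabilizer C i : Subgroup C).index ≤ 2 ^ #T :=
  two_mul_index_le_aux _ T rfl hT h

theorem two_mul_card_fixed_le (T : Finset I) (hT : ∀ c : C, ∀ i ∈ T, c • i ∈ T) (h : T.Nonempty)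
    (S : I → Finset Λ) (hS : ∀ i ∉ T, #(S i) ≤ 1) :
    2 * {x : C × (I → Λ) | (∀ i, x.2 i ∈ S i) ∧ ∀ i, x.2 (x.1 • i) = x.2 i}.ncard ≤
      Nat.card (⨅ i ∈ T, stabilizer C i : Subgroup C) * ∏ i ∈ T, (2 * #(S i)) := by
  classical
  letI : Fintype C := Fintype.ofFinite C
  have h1 : {x : C × (I → Λ) | (∀ i, x.2 i ∈ S i) ∧ ∀ i, x.2 (x.1 • i) = x.2 i}.ncard ≤
      Nat.card C * ∏ i ∈ T, #(S i) := by
    have hsub : {x : C × (I → Λ) | (∀ i, x.2 i ∈ S i) ∧ ∀ i, x.2 (x.1 • i) = x.2 i} ⊆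
        ((univ ×ˢ Fintype.piFinset S : Finset (C × (I → Λ))) : Set _) := by
      intro x hx
      simp only [coe_product, coe_univ, Set.mem_prod, Set.mem_univ, true_and, mem_coe,
        Fintype.mem_piFinset]
      exact hx.1
    refine (Set.ncard_le_ncard hsub (Finset.finite_toSet _)).trans ?_
    rw [Set.ncard_coe_finset, card_product, card_univ, Fintype.card_piFinset, Nat.card_eq_fintype_card]
    refine Nat.mul_le_mul_left _ ?_
    rw [← Finset.prod_mul_prod_compl T]
    have : ∏ i ∈ Tᶜ, #(S i) ≤ 1 := Finset.prod_le_one' fun i hi => hS i (mem_compl.1 hi)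
    exact mul_le_of_le_one_right' this
  have h2 := two_mul_index_le T hT h
  rw [Finset.prod_mul_distrib, Finset.prod_const]
  rw [← Subgroup.card_mul_index (⨅ i ∈ T, stabilizer C i : Subgroup C)] at h1
  calc _ ≤ 2 * (Nat.card (⨅ i ∈ T, stabilizer C i : Subgroup C) *
        (⨅ i ∈ T, stabilizer C i : Subgroup C).index * ∏ i ∈ T, #(S i)) := Nat.mul_le_mul_left _ h1
    _ = Nat.card (⨅ i ∈ T, stabilizer C i : Subgroup C) *
        ((2 * (⨅ i ∈ T, stabilizer C i : Subgroup C).index) * ∏ i ∈ T, #(S i)) := by ring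
    _ ≤ _ := Nat.mul_le_mul_left _ (Nat.mul_le_mul_right _ h2)

/-! Numerics for the final inequality (`κ = p ^ j`, `W` the total weight). -/

theorem num_aux (m : ℕ) : (m + 5) * 2 ^ (m + 4) ≤ 3 ^ (m + 4) := by
  induction m with
  | zero => norm_num
  | succ m ih =>
    have : (m + 1 + 5) * 2 ^ (m + 1 + 4) ≤ 3 * ((m + 5) * 2 ^ (m + 4)) := by
      rw [show m + 1 + 4 = m + 4 + 1 by ring, pow_succ]
      have : 0 < 2 ^ (m + 4) := by positivity
      nlinarith
    calc _ ≤ 3 * ((m + 5) * 2 ^ (m + 4)) := this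
      _ ≤ 3 * 3 ^ (m + 4) := Nat.mul_le_mul_left _ ih
      _ = _ := by ring

theorem num_odd {p j W : ℕ} (hp : p.Prime) (h2 : p ≠ 2) (hW : p ^ j ≤ W) (h3 : ¬ (p ^ j = 3 ∧ W = 3)) :
    p ^ j * 2 ^ (W - 1) ≤ p ^ (W - 1) := by
  have hp3 : 3 ≤ p := by have := hp.two_le; omega
  rcases Nat.eq_zero_or_pos j with rfl | hj
  · rw [pow_zero, one_mul]; exact Nat.pow_le_pow_left (by omega) _
  by_cases h5 : 5 ≤ W
  · obtain ⟨m, rfl⟩ : ∃ m, W = m + 5 := ⟨W - 5, by omega⟩
    calc _ ≤ (m + 5) * 2 ^ (m + 4) := Nat.mul_le_mul_right _ hW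
      _ ≤ 3 ^ (m + 4) := num_aux m
      _ ≤ p ^ (m + 4) := Nat.pow_le_pow_left hp3 _
  · have hpj : p ≤ p ^ j := Nat.le_self_pow hj.ne' p
    have hp4 : p ≠ 4 := by rintro rfl; norm_num at hp
    have hp' : p = 3 := by omega
    subst hp'
    have hj1 : j = 1 := by
      by_contra hne
      have : 3 ^ 2 ≤ 3 ^ j := Nat.pow_le_pow_right (by norm_num) (by omega)
      omega
    subst hj1
    have : W = 4 := by omega
    subst this
    norm_num

theorem num_two {j W : ℕ} (hj : 0 < j) (hW : 2 ^ j ≤ W) (hW2 : 2 ∣ W) :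
    2 ^ j * 2 ^ (W - 1) ≤ 2 ^ (W / 2 * 3 - 1) := by
  rw [← pow_add]
  refine Nat.pow_le_pow_right (by norm_num) ?_
  have : 2 * j ≤ 2 ^ j := by
    obtain ⟨m, rfl⟩ : ∃ m, j = m + 1 := ⟨j - 1, by omega⟩
    rw [pow_succ, mul_comm]
    exact Nat.mul_le_mul_right _ Nat.lt_two_pow_self
  omega

theorem one_add_mul_le {p g e w l : ℕ} (hw : 0 < w) (hg : 0 < g) (h : g * e < p)
    (hl : l ≤ e * (e + 1) ^ (w - 1)) : 1 + g * l ≤ p ^ w := by
  obtain ⟨m, rfl⟩ : ∃ m, w = m + 1 := ⟨w - 1, by omega⟩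
  simp only [Nat.add_sub_cancel] at hl
  have he : e + 1 ≤ p := by nlinarith
  have h1 : (e + 1) ^ m ≤ p ^ m := Nat.pow_le_pow_left he _
  have h2 : 0 < p ^ m := pow_pos (by omega) _
  have h3 : g * l ≤ g * e * p ^ m := by
    calc g * l ≤ g * (e * p ^ m) := Nat.mul_le_mul_left _ (hl.trans (Nat.mul_le_mul_left _ h1))
      _ = _ := by ring
  rw [pow_succ]
  nlinarith

end Cfsg.Gln
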