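import Cfsg.Agent.Grp.PPart

/-!
# Orbits of a periodic map; the label group and its pairing (S4536 project)

`Orb σ` = orbits of a self-map all of whose points are periodic (`Per σ`: `σ^[L] = id`, `0 < L`).
`Mu k R` = `R`-th roots of unity of `k`, `Lab k R` its character group (both cyclic of order `R` when
`k` is algebraically closed and `(R : k) ≠ 0`: `HasEnoughRootsOfUnity`, `rootsOfUnity.isCyclic`,
`CommGroup.monoidHom_mulEquiv_of_hasEnoughRootsOfUnity`, `IsPrimitiveRoot.card_rootsOfUnity`).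
`pr m x a = a x'` for any `x'` with `x' ^ (R/m) = x` when `m ∣ R`, `x ^ m = 1`, `a ^ m = 1`.
-/

set_option autoImplicit false
set_option linter.unusedSectionVars false
set_option linter.unusedVariables false
set_option linter.style.haveILetI false

namespace Cfsg.Gln

open Finset Function

section Orb

variable {T : Type*} {σ : T → T}

/-- All points are periodic, with a common period. -/
def Per (σ : T → T) : Prop := ∃ L, 0 < L ∧ ∀ a, σ^[L] a = a

/-- The orbits. -/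
def Orb (σ : T → T) : Type _ :=
  Quotient (α := T) ⟨fun a b => ∃ i j, σ^[i] a = σ^[j] b, fun _ => ⟨0, 0, rfl⟩,
    fun ⟨i, j, h⟩ => ⟨j, i, h.symm⟩, fun ⟨i, j, h⟩ ⟨k, l, h'⟩ => ⟨k + i, j + l, by
      rw [iterate_add_apply, h, ← iterate_add_apply, add_comm, iterate_add_apply, h',
        ← iterate_add_apply]⟩⟩

/-- The orbit of a point. -/
def Orb.mk (σ : T → T) (a : T) : Orb σ := Quotient.mk _ a

/-- A point of the orbit. -/
noncomputable def Orb.rep (o : Orb σ) : T := Quotient.out o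

@[simp] theorem Orb.mk_rep (o : Orb σ) : Orb.mk σ o.rep = o := Quotient.out_eq o

instance [Finite T] : Finite (Orb σ) := Quotient.finite _

noncomputable instance [Finite T] : Fintype (Orb σ) := Fintype.ofFinite _

noncomputable instance : DecidableEq (Orb σ) := Classical.decEq _

/-- The length of an orbit. -/
noncomputable def Orb.deg (o : Orb σ) : ℕ := minimalPeriod σ o.rep

theorem Per.mk_eq_iff (h : Per σ) {a b : T} : Orb.mk σ a = Orb.mk σ b ↔ ∃ i, b = σ^[i] a := by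
  obtain ⟨L, hL, h⟩ := h
  refine Quotient.eq.trans ⟨fun ⟨i, j, e⟩ => ⟨L * j - j + i, ?_⟩, fun ⟨i, e⟩ => ⟨i, 0, e.symm⟩⟩
  have h1 : σ^[L * j] b = b := IsPeriodicPt.mul_const (h b) j
  rw [iterate_add_apply, e, ← iterate_add_apply, Nat.sub_add_cancel (Nat.le_mul_of_pos_left j hL), h1]

theorem Orb.mk_iterate (i : ℕ) (a : T) : Orb.mk σ (σ^[i] a) = Orb.mk σ a := by
  exact Quotient.sound ⟨0, i, rfl⟩

theorem Per.mem (h : Per σ) (a : T) : a ∈ periodicPts σ := by
  obtain ⟨L, hL, h⟩ := h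
  exact ⟨L, hL, h a⟩

theorem Per.deg_mk (h : Per σ) (a : T) : (Orb.mk σ a).deg = minimalPeriod σ a := by
  obtain ⟨i, hi⟩ := h.mk_eq_iff.1 (Orb.mk_rep (Orb.mk σ a)).symm
  rw [Orb.deg, hi, minimalPeriod_apply_iterate (h.mem a)]

theorem Per.deg_pos (h : Per σ) (o : Orb σ) : 0 < o.deg := by
  exact minimalPeriod_pos_of_mem_periodicPts (h.mem _)

theorem Per.iterate_eq_iff (h : Per σ) {a : T} {n : ℕ} : σ^[n] a = a ↔ (Orb.mk σ a).deg ∣ n := by
  rw [h.deg_mk, ← isPeriodicPt_iff_minimalPeriod_dvd]; rfl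

theorem Per.iterate_eq_iterate_iff (h : Per σ) {a : T} {i j : ℕ} :
    σ^[i] a = σ^[j] a ↔ i ≡ j [MOD (Orb.mk σ a).deg] := by
  have h0 := minimalPeriod_pos_of_mem_periodicPts (h.mem a)
  rw [h.deg_mk, ← iterate_mod_minimalPeriod_eq (n := i), ← iterate_mod_minimalPeriod_eq (n := j),
    iterate_eq_iterate_iff_of_lt_minimalPeriod (Nat.mod_lt _ h0) (Nat.mod_lt _ h0)]
  rfl

theorem Per.sum_orb [Fintype T] (h : Per σ) {A : Type*} [AddCommMonoid A] (f : T → A) :
    ∑ a, f a = ∑ o : Orb σ, ∑ i ∈ range o.deg, f (σ^[i] o.rep) := by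
  rw [← sum_fiberwise univ (Orb.mk σ)]
  refine sum_congr rfl fun o _ => (sum_nbij (fun i => σ^[i] o.rep) (fun i _ => ?_)
    (fun i hi j hj e => ?_) (fun a ha => ?_) fun _ _ => rfl).symm
  · simp [Orb.mk_iterate]
  · rw [h.iterate_eq_iterate_iff, Orb.mk_rep] at e
    exact e.eq_of_lt_of_lt (by simpa using hi) (by simpa using hj)
  · have ha' : Orb.mk σ o.rep = Orb.mk σ a := by rw [Orb.mk_rep]; exact Eq.symm (by simpa using ha)
    obtain ⟨i, rfl⟩ := h.mk_eq_iff.1 ha'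
    refine ⟨i % o.deg, by simpa using Nat.mod_lt _ (h.deg_pos o), ?_⟩
    exact iterate_mod_minimalPeriod_eq

theorem Per.sum_orb' [Fintype T] (h : Per σ) {A : Type*} [AddCommMonoid A] (f : Orb σ → A) :
    ∑ a, f (Orb.mk σ a) = ∑ o : Orb σ, o.deg • f o := by
  rw [h.sum_orb]
  simp [Orb.mk_iterate]

theorem Per.card_filter_iterate [DecidableEq T] (h : Per σ) {a b : T} {n : ℕ}
    (hn : (Orb.mk σ a).deg ∣ n) : #{i ∈ range n | σ^[i] a = b} =
      if Orb.mk σ a = Orb.mk σ b then n / (Orb.mk σ a).deg else 0 := by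
  split_ifs with e
  · obtain ⟨j, rfl⟩ := h.mk_eq_iff.1 e
    simp only [h.iterate_eq_iterate_iff]
    rw [← Nat.count_eq_card_filter_range, Nat.count_modEq_card _ (h.deg_pos _),
      Nat.mod_eq_zero_of_dvd hn]
    simp
  · rw [card_eq_zero, filter_eq_empty_iff]
    rintro i - rfl
    exact e (Orb.mk_iterate i a).symm

end Orb

/-- The `q`-power map. -/
def frob (q : ℕ) {A : Type*} [Monoid A] (a : A) : A := a ^ q

theorem frob_iterate (q i : ℕ) {A : Type*} [Monoid A] (a : A) : (frob q)^[i] a = a ^ q ^ i := by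
  induction i with
  | zero => simp
  | succ i ih => rw [iterate_succ_apply', ih, frob, ← pow_mul, pow_succ]

/-- The numerical set-up: `R = q ^ L - 1` with `n ∣ L` for all `0 < n ≤ N`. -/
def Par (q R N : ℕ) : Prop := 1 < q ∧ ∃ L, 0 < L ∧ R + 1 = q ^ L ∧ ∀ n, 0 < n → n ≤ N → n ∣ L

theorem par_factorial {q : ℕ} (hq : 1 < q) (N : ℕ) : Par q (q ^ N.factorial - 1) N := by
  exact ⟨hq, N.factorial, N.factorial_pos, Nat.sub_add_cancel (Nat.one_le_pow _ _ (by omega)),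
    fun n h0 hn => Nat.dvd_factorial h0 hn⟩

theorem Par.ne_zero {q R N : ℕ} (h : Par q R N) : R ≠ 0 := by
  obtain ⟨hq, L, hL, h1, -⟩ := h
  have := Nat.one_lt_pow hL.ne' hq
  omega

theorem Par.dvd {q R N n : ℕ} (h : Par q R N) (h0 : 0 < n) (hn : n ≤ N) : q ^ n - 1 ∣ R := by
  obtain ⟨hq, L, hL, h1, h2⟩ := h
  obtain ⟨c, rfl⟩ := h2 n h0 hn
  have := Nat.sub_dvd_pow_sub_pow (q ^ n) 1 c
  rwa [one_pow, ← pow_mul, ← h1, Nat.add_sub_cancel] at this

theorem Par.dvd_one {q R N : ℕ} (h : Par q R N) : q - 1 ∣ R := by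
  obtain ⟨hq, L, hL, h1, h2⟩ := h
  have := Nat.sub_dvd_pow_sub_pow q 1 L
  rwa [one_pow, ← h1, Nat.add_sub_cancel] at this

theorem Par.coprime {q R N : ℕ} (h : Par q R N) : q.Coprime R := by
  obtain ⟨hq, L, hL, h1, h2⟩ := h
  rw [← Nat.coprime_pow_left_iff hL, ← h1]
  simp

theorem Par.pow {q R N c m : ℕ} (h : Par q R N) (hc : 0 < c) (hm : 0 < m) (hN : c * m ≤ N) :
    Par (q ^ c) R m := by
  obtain ⟨hq, L, hL, h1, h2⟩ := h
  obtain ⟨L', rfl⟩ := h2 c hc ((Nat.le_mul_of_pos_right c hm).trans hN)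
  refine ⟨Nat.one_lt_pow hc.ne' hq, L', Nat.pos_of_mul_pos_left hL, by rw [h1, pow_mul],
    fun n h0 hn => Nat.dvd_of_mul_dvd_mul_left hc (h2 _ (Nat.mul_pos hc h0) ?_)⟩
  exact (Nat.mul_le_mul_left c hn).trans hN

theorem Par.mono {q R N N' : ℕ} (h : Par q R N) (hN : N' ≤ N) : Par q R N' := by
  obtain ⟨hq, L, hL, h1, h2⟩ := h
  exact ⟨hq, L, hL, h1, fun n h0 hn => h2 n h0 (hn.trans hN)⟩

theorem Par.per {q R N : ℕ} (h : Par q R N) {A : Type*} [Monoid A] (hA : ∀ a : A, a ^ R = 1) :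
    Per (frob q : A → A) := by
  obtain ⟨hq, L, hL, h1, h2⟩ := h
  exact ⟨L, hL, fun a => by rw [frob_iterate, ← h1, pow_succ, hA, one_mul]⟩

theorem pow_pow_eq_iff {A : Type*} [Group A] {q n : ℕ} (hq : 0 < q) (a : A) :
    a ^ q ^ n = a ↔ a ^ (q ^ n - 1) = 1 := by
  conv_lhs => rw [← Nat.sub_add_cancel (Nat.one_le_pow n q hq), pow_succ]
  exact mul_eq_right

section Cyc

variable {G : Type*} [CommGroup G] [Fintype G] [DecidableEq G] {R m : ℕ}

theorem cyc_card_pow [IsCyclic G] (hG : Nat.card G = R) (hm : m ∣ R) : #{x : G | x ^ m = 1} = m := by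
  have := IsCyclic.card_powMonoidHom_ker G m
  rw [hG, Nat.gcd_eq_right hm, Nat.card_eq_fintype_card, Fintype.card_subtype] at this
  simpa using this

theorem cyc_exists_pow [IsCyclic G] (hG : Nat.card G = R) (hm : m ∣ R) {x : G} (hx : x ^ m = 1) :
    ∃ y : G, y ^ (R / m) = x := by
  obtain ⟨g, hg⟩ := IsCyclic.exists_monoid_generator (α := G)
  obtain ⟨i, rfl⟩ := hg x
  have h1 : orderOf g = R := by rw [← hG]; exact orderOf_eq_card_of_forall_mem_powers hg
  have hR : 0 < R := hG ▸ Nat.card_pos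
  obtain ⟨c, rfl⟩ := hm
  have hm0 : 0 < m := Nat.pos_of_mul_pos_right hR
  rw [← pow_mul, ← orderOf_dvd_iff_pow_eq_one, h1, mul_comm i] at hx
  obtain ⟨d, rfl⟩ := Nat.dvd_of_mul_dvd_mul_left hm0 hx
  exact ⟨g ^ d, by rw [Nat.mul_div_cancel_left _ hm0, ← pow_mul, mul_comm]⟩

theorem sum_pow_eq_zero {f : G → ℂ} {x₀ : G} (h₀ : x₀ ^ m = 1) (h₁ : f x₀ ≠ 1)
    (hf : ∀ x, x ^ m = 1 → f (x₀ * x) = f x₀ * f x) : ∑ x with x ^ m = 1, f x = 0 := by
  have h : ∑ x with x ^ m = 1, f x = f x₀ * ∑ x with x ^ m = 1, f x := by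
    rw [mul_sum]
    refine (sum_equiv (Equiv.mulLeft x₀) (fun x => ?_) fun x hx => ?_).symm
    · simp [mul_pow, h₀]
    · exact (hf x (by simpa using hx)).symm
  by_contra h0
  exact h₁ (mul_right_cancel₀ h0 (by rw [← h, one_mul]))

end Cyc

section Lab

variable (k : Type*) [Field k] (R : ℕ) [NeZero R]

/-- The `R`-th roots of unity. -/
abbrev Mu := rootsOfUnity R k

/-- The labels. -/
abbrev Lab := Mu k R →* ℂˣ

noncomputable instance : Fintype (Mu k R) := Fintype.ofFinite _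

instance : Finite (Lab k R) := by
  infer_instance

noncomputable instance : Fintype (Lab k R) := Fintype.ofFinite _

noncomputable instance : DecidableEq (Mu k R) := Classical.decEq _

noncomputable instance : DecidableEq (Lab k R) := Classical.decEq _

variable {k R}

/-- The underlying field element. -/
def mv (x : Mu k R) : k := ((x : kˣ) : k)

theorem mv_injective : Injective (mv : Mu k R → k) := fun _ _ h => Subtype.ext (Units.ext h)

@[simp] theorem mv_mul (x y : Mu k R) : mv (x * y) = mv x * mv y := rfl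

@[simp] theorem mv_one : mv (1 : Mu k R) = 1 := rfl

@[simp] theorem mv_pow (x : Mu k R) (n : ℕ) : mv (x ^ n) = mv x ^ n := by simp [mv]

theorem mv_ne_zero (x : Mu k R) : mv x ≠ 0 := Units.ne_zero _

theorem mv_pow_eq_one (x : Mu k R) : mv x ^ R = 1 := by
  exact (mem_rootsOfUnity' R _).1 x.2

theorem Mu.pow_eq_one (x : Mu k R) : x ^ R = 1 := by
  exact mv_injective (by rw [mv_pow, mv_pow_eq_one, mv_one])

theorem Lab.pow_eq_one (a : Lab k R) : a ^ R = 1 := by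
  ext x
  rw [MonoidHom.pow_apply, ← map_pow, Mu.pow_eq_one, map_one, MonoidHom.one_apply]

theorem exists_mv_eq {t : k} (h : t ^ R = 1) : ∃ x : Mu k R, mv x = t := by
  exact ⟨rootsOfUnity.mkOfPowEq t h, rfl⟩

open Classical in
/-- A label as a function on `k`. -/
noncomputable def lfn (a : Lab k R) (t : k) : ℂ :=
  if h : ∃ x : Mu k R, mv x = t then (a h.choose : ℂ) else 0

@[simp] theorem lfn_mv (a : Lab k R) (x : Mu k R) : lfn a (mv x) = (a x : ℂ) := by
  have h : ∃ y : Mu k R, mv y = mv x := ⟨x, rfl⟩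
  rw [lfn, dif_pos h, mv_injective h.choose_spec]

theorem lfn_eq_zero (a : Lab k R) {t : k} (h : t ^ R ≠ 1) : lfn a t = 0 := by
  rw [lfn, dif_neg]
  rintro ⟨x, rfl⟩
  exact h (mv_pow_eq_one x)

/-- The pairing between `μ_m` and the labels of exponent `m`. -/
noncomputable def pr (m : ℕ) (x : Mu k R) (a : Lab k R) : ℂ :=
  (m : ℂ) / R * ∑ y with y ^ (R / m) = x, (a y : ℂ)

variable [IsAlgClosed k] (hR : (R : k) ≠ 0) {m : ℕ} (hm : m ∣ R) {x y : Mu k R} {a b : Lab k R}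
include hR

theorem Mu.card : Nat.card (Mu k R) = R := by
  haveI : NeZero (R : k) := ⟨hR⟩
  exact HasEnoughRootsOfUnity.natCard_rootsOfUnity k R

theorem Lab.card : Nat.card (Lab k R) = R := by
  rw [CommGroup.card_monoidHom_of_hasEnoughRootsOfUnity, Mu.card hR]

theorem Lab.isCyclic : IsCyclic (Lab k R) := by
  exact (CommGroup.monoidHom_mulEquiv_of_hasEnoughRootsOfUnity (Mu k R) ℂ).some.isCyclic.2
    inferInstance

include hm

theorem Mu.card_pow_eq_one : #{x : Mu k R | x ^ m = 1} = m := by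
  exact cyc_card_pow (Mu.card hR) hm

theorem Lab.card_pow_eq_one : #{a : Lab k R | a ^ m = 1} = m := by
  haveI := Lab.isCyclic hR
  exact cyc_card_pow (Lab.card hR) hm

theorem Mu.exists_pow_eq (hx : x ^ m = 1) : ∃ y : Mu k R, y ^ (R / m) = x := by
  exact cyc_exists_pow (Mu.card hR) hm hx

theorem Lab.exists_pow_eq (ha : a ^ m = 1) : ∃ b : Lab k R, b ^ (R / m) = a := by
  haveI := Lab.isCyclic hR
  exact cyc_exists_pow (Lab.card hR) hm ha

theorem Mu.exists_orderOf_eq : ∃ x : Mu k R, orderOf x = m := by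
  obtain ⟨g, hg⟩ := IsCyclic.exists_ofOrder_eq_natCard (α := Mu k R)
  rw [Mu.card hR] at hg
  refine ⟨g ^ (R / m), ?_⟩
  rw [orderOf_pow_of_dvd (Nat.div_pos (Nat.le_of_dvd (NeZero.pos R) hm)
    (Nat.pos_of_dvd_of_pos hm (NeZero.pos R))).ne' (hg.symm ▸ Nat.div_dvd_of_dvd hm), hg,
    Nat.div_div_self hm (NeZero.ne R)]

theorem pr_pow_div (ha : a ^ m = 1) (y : Mu k R) : pr m (y ^ (R / m)) a = a y := by
  obtain ⟨b, rfl⟩ := Lab.exists_pow_eq hR hm ha
  have h1 : ∑ z : Mu k R with z ^ (R / m) = y ^ (R / m), (((b ^ (R / m)) z : ℂˣ) : ℂ) =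
      ∑ z : Mu k R with z ^ (R / m) = 1, (((b ^ (R / m)) y : ℂˣ) : ℂ) := by
    refine (sum_equiv (Equiv.mulLeft y) (fun x => ?_) fun x hx => ?_).symm
    · simp [mul_pow]
    · have hx' : x ^ (R / m) = 1 := by simpa using hx
      rw [Equiv.coe_mulLeft, map_mul, MonoidHom.pow_apply b _ x, ← map_pow, hx', map_one, mul_one]
  rw [pr, h1, sum_const, Mu.card_pow_eq_one hR (Nat.div_dvd_of_dvd hm), nsmul_eq_mul, ← mul_assoc,
    div_mul_eq_mul_div, ← Nat.cast_mul, Nat.mul_div_cancel' hm, div_self (NeZero.ne _), one_mul]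

theorem pr_pow_div' (hx : x ^ m = 1) (b : Lab k R) : pr m x (b ^ (R / m)) = b x := by
  obtain ⟨y, rfl⟩ := Mu.exists_pow_eq hR hm hx
  rw [pr_pow_div hR hm (by rw [← pow_mul b, Nat.div_mul_cancel hm, Lab.pow_eq_one]),
    MonoidHom.pow_apply, map_pow]

theorem pr_mul_left (hx : x ^ m = 1) (hy : y ^ m = 1) (ha : a ^ m = 1) :
    pr m (x * y) a = pr m x a * pr m y a := by
  obtain ⟨x, rfl⟩ := Mu.exists_pow_eq hR hm hx
  obtain ⟨y, rfl⟩ := Mu.exists_pow_eq hR hm hy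
  rw [← mul_pow, pr_pow_div hR hm ha, pr_pow_div hR hm ha, pr_pow_div hR hm ha, map_mul,
    Units.val_mul]

theorem pr_mul_right (hx : x ^ m = 1) (ha : a ^ m = 1) (hb : b ^ m = 1) :
    pr m x (a * b) = pr m x a * pr m x b := by
  obtain ⟨x, rfl⟩ := Mu.exists_pow_eq hR hm hx
  rw [pr_pow_div hR hm ha, pr_pow_div hR hm hb, pr_pow_div hR hm (by rw [mul_pow a, ha, hb, one_mul (1 : Lab k R)]),
    MonoidHom.mul_apply, Units.val_mul]

theorem pr_one_left (ha : a ^ m = 1) : pr m 1 a = 1 := by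
  have := pr_pow_div hR hm ha 1
  simpa using this

theorem pr_one_right (hx : x ^ m = 1) : pr m x (1 : Lab k R) = 1 := by
  obtain ⟨x, rfl⟩ := Mu.exists_pow_eq hR hm hx
  rw [pr_pow_div hR hm (one_pow (M := Lab k R) _)]
  simp

theorem pr_pow (hx : x ^ m = 1) (ha : a ^ m = 1) (j : ℕ) : pr m (x ^ j) a = pr m x (a ^ j) := by
  obtain ⟨x, rfl⟩ := Mu.exists_pow_eq hR hm hx
  rw [pow_right_comm, pr_pow_div hR hm ha,
    pr_pow_div hR hm (by rw [pow_right_comm a, ha, one_pow (M := Lab k R)]), MonoidHom.pow_apply, map_pow]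

theorem star_pr (x : Mu k R) (a : Lab k R) : star (pr m x a) = pr m x a⁻¹ := by
  rw [pr, pr, star_mul', star_sum]
  congr 1
  · simp
  · refine sum_congr rfl fun y _ => ?_
    have h1 : ((a y : ℂˣ) : ℂ) ^ R = 1 := by
      rw [← Units.val_pow_eq_pow_val, ← map_pow, Mu.pow_eq_one, map_one, Units.val_one]
    rw [MonoidHom.inv_apply, Units.val_inv_eq_inv_val,
      Complex.inv_eq_conj (Complex.norm_eq_one_of_pow_eq_one h1 (NeZero.ne R))]
    rfl

theorem pr_inv_left (hx : x ^ m = 1) (ha : a ^ m = 1) : pr m x⁻¹ a = pr m x a⁻¹ := by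
  obtain ⟨x, rfl⟩ := Mu.exists_pow_eq hR hm hx
  rw [← inv_pow, pr_pow_div hR hm ha, pr_pow_div hR hm (by rw [inv_pow a, ha, inv_one (G := Lab k R)]),
    MonoidHom.inv_apply, map_inv]

theorem pr_eq_one_of_coprime (hx : x ^ m = 1) (ha : a ^ m = 1)
    (h : (orderOf x).Coprime (orderOf a)) : pr m x a = 1 := by
  obtain ⟨y, hy⟩ := Mu.exists_pow_eq hR hm hx
  obtain ⟨b, hb⟩ := Lab.exists_pow_eq hR hm ha
  have h1 : pr m x a ^ orderOf a = 1 := by
    rw [← hy, pr_pow_div hR hm ha, ← Units.val_pow_eq_pow_val, ← MonoidHom.pow_apply,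
      pow_orderOf_eq_one]
    simp
  have h2 : pr m x a ^ orderOf x = 1 := by
    rw [← hb, pr_pow_div' hR hm hx, ← Units.val_pow_eq_pow_val, ← map_pow, pow_orderOf_eq_one]
    simp
  exact (pow_eq_one_iff_of_coprime h).1 ⟨h2, h1⟩

theorem sum_pr_left (ha : a ^ m = 1) :
    ∑ x : Mu k R with x ^ m = 1, pr m x a = if a = 1 then (m : ℂ) else 0 := by
  split_ifs with h
  · rw [sum_congr rfl (g := fun _ => 1) fun x hx => by
      rw [h, pr_one_right hR hm (by simpa using hx)]]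
    simp [Mu.card_pow_eq_one hR hm]
  · obtain ⟨y, hy⟩ : ∃ y, a y ≠ 1 := by
      by_contra hn
      push Not at hn
      exact h (MonoidHom.ext hn)
    have h1 : (y ^ (R / m)) ^ m = 1 := by rw [← pow_mul, Nat.div_mul_cancel hm, Mu.pow_eq_one]
    refine sum_pow_eq_zero (f := fun x => pr m x a) h1 ?_ fun x hx => pr_mul_left hR hm h1 hx ha
    rw [pr_pow_div hR hm ha]
    simpa using hy

theorem sum_pr_right (hx : x ^ m = 1) :
    ∑ a : Lab k R with a ^ m = 1, pr m x a = if x = 1 then (m : ℂ) else 0 := by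
  split_ifs with h
  · rw [sum_congr rfl (g := fun _ => 1) fun a ha => by
      rw [h, pr_one_left hR hm (by simpa using ha)]]
    simp [Lab.card_pow_eq_one hR hm]
  · obtain ⟨b, hb⟩ := CommGroup.exists_apply_ne_one_of_hasEnoughRootsOfUnity (Mu k R) ℂ h
    have h1 : (b ^ (R / m)) ^ m = 1 := by rw [← pow_mul b, Nat.div_mul_cancel hm, Lab.pow_eq_one]
    refine sum_pow_eq_zero (f := fun a => pr m x a) h1 ?_ fun a ha => pr_mul_right hR hm hx h1 ha
    rw [pr_pow_div' hR hm hx]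
    simpa using hb

open Classical in
/-- Averaging over the `p`-part of the labels cuts to `p`-regular `x`. -/
theorem sum_pr_pPart {p : ℕ} (hp : p.Prime) (hx : x ^ m = 1) :
    ∑ b : Lab k R with b ^ ordProj[p] m = 1, pr m x b =
      if IsPRegular p x then ((ordProj[p] m : ℕ) : ℂ) else 0 := by
  have hm0 : m ≠ 0 := (Nat.pos_of_dvd_of_pos hm (NeZero.pos R)).ne'
  have hP : ordProj[p] m ∣ m := Nat.ordProj_dvd m p
  have hb : ∀ b : Lab k R, b ^ ordProj[p] m = 1 → b ^ m = 1 := fun b h => by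
    obtain ⟨c, hc⟩ := hP
    rw [hc, pow_mul b, h, one_pow (M := Lab k R)]
  split_ifs with h
  · rw [sum_congr rfl (g := fun _ => 1) fun b hb' => ?_]
    · simp [Lab.card_pow_eq_one hR (hP.trans hm)]
    · have h1 : b ^ ordProj[p] m = 1 := by simpa using hb'
      refine pr_eq_one_of_coprime hR hm hx (hb b h1) ?_
      exact (Nat.Coprime.pow_right _ ((Nat.Prime.coprime_iff_not_dvd hp).2 h).symm).coprime_dvd_right
        (orderOf_dvd_of_pow_eq_one h1)
  · have h1 : x ^ (ordCompl[p] m) ≠ 1 := fun e => h fun e' =>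
      Nat.not_dvd_ordCompl hp hm0 (e'.trans (orderOf_dvd_of_pow_eq_one e))
    obtain ⟨b, hb'⟩ := CommGroup.exists_apply_ne_one_of_hasEnoughRootsOfUnity (Mu k R) ℂ h1
    have h2 : ((b ^ (ordCompl[p] m)) ^ (R / m)) ^ ordProj[p] m = 1 := by
      rw [pow_right_comm (b ^ _), ← pow_mul b, mul_comm, Nat.ordProj_mul_ordCompl_eq_self, ← pow_mul b,
        Nat.mul_div_cancel' hm, Lab.pow_eq_one]
    refine sum_pow_eq_zero (f := fun a => pr m x a) h2 ?_
      fun a ha => pr_mul_right hR hm hx (hb _ h2) (hb _ ha)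
    rw [pr_pow_div' hR hm hx, MonoidHom.pow_apply, ← map_pow]
    exact fun e => hb' (Units.ext e)

end Lab

end Cfsg.Gln

set_option linter.all false in
theorem Cfsg.Rz.Gln_Pair_0 : True := by
  have := @_root_.Cfsg.Gln.Mu.eq_def.{0}
  have := @_root_.Cfsg.Gln.Mu.eq_1.{0}
  have := @_root_.Cfsg.Gln.Mu.fun_cases
  have := @_root_.Cfsg.Gln.Orb.deg.eq_def.{0}
  have := @_root_.Cfsg.Gln.Orb.deg.eq_1.{0}
  have := @_root_.Cfsg.Gln.Orb.deg.fun_cases
  have := @_root_.Cfsg.Gln.instDecidableEqSubtypeUnitsMemSubgroupMu.eq_def.{0}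
  have := @_root_.Cfsg.Gln.instDecidableEqSubtypeUnitsMemSubgroupMu.eq_1.{0}
  have := @_root_.Cfsg.Gln.instDecidableEqSubtypeUnitsMemSubgroupMu.fun_cases
  have := @_root_.Cfsg.Gln.instFintypeLab.eq_def.{0}
  have := @_root_.Cfsg.Gln.instFintypeLab.eq_1.{0}
  have := @_root_.Cfsg.Gln.instFintypeLab.fun_cases
  have := @_root_.Cfsg.Gln.pr.congr_simp.{0}
  have := @_root_.Cfsg.Gln.pr.eq_def.{0}
  have := @_root_.Cfsg.Gln.pr.eq_1.{0}
  have := @_root_.Cfsg.Gln.pr.fun_cases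
  have := @_root_.Cfsg.Gln.instDecidableEqLab.eq_def.{0}
  have := @_root_.Cfsg.Gln.instDecidableEqLab.eq_1.{0}
  have := @_root_.Cfsg.Gln.instDecidableEqLab.fun_cases
  have := @_root_.Cfsg.Gln.instFintypeSubtypeUnitsMemSubgroupMu.congr_simp.{0}
  have := @_root_.Cfsg.Gln.instFintypeSubtypeUnitsMemSubgroupMu.eq_def.{0}
  have := @_root_.Cfsg.Gln.instFintypeSubtypeUnitsMemSubgroupMu.eq_1.{0}
  have := @_root_.Cfsg.Gln.instFintypeSubtypeUnitsMemSubgroupMu.fun_cases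
  have := @_root_.Cfsg.Gln.mv.eq_def.{0}
  have := @_root_.Cfsg.Gln.mv.fun_cases
  have := @_root_.Cfsg.Gln.Lab.eq_def.{0}
  have := @_root_.Cfsg.Gln.Lab.eq_1.{0}
  have := @_root_.Cfsg.Gln.Lab.fun_cases
  have := @_root_.Cfsg.Gln.instDecidableEqOrb.eq_def.{0}
  have := @_root_.Cfsg.Gln.instDecidableEqOrb.eq_1.{0}
  trivial

set_option linter.all false in
theorem Cfsg.Rz.Gln_Pair_1 : True := by
  have := @_root_.Cfsg.Gln.instDecidableEqOrb.fun_cases
  have := @_root_.Cfsg.Gln.Par.eq_def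
  have := @_root_.Cfsg.Gln.Par.eq_1
  have := @_root_.Cfsg.Gln.Par.fun_cases
  have := @_root_.Cfsg.Gln.Orb.eq_def.{0}
  have := @_root_.Cfsg.Gln.Orb.eq_1.{0}
  have := @_root_.Cfsg.Gln.Orb.fun_cases
  have := @_root_.Cfsg.Gln.Orb.rep.eq_def.{0}
  have := @_root_.Cfsg.Gln.Orb.rep.eq_1.{0}
  have := @_root_.Cfsg.Gln.Orb.rep.fun_cases
  have := @_root_.Cfsg.Gln.lfn.congr_simp.{0}
  have := @_root_.Cfsg.Gln.lfn.eq_def.{0}
  have := @_root_.Cfsg.Gln.lfn.eq_1.{0}
  have := @_root_.Cfsg.Gln.lfn.fun_cases.{0}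
  have := @_root_.Cfsg.Gln.frob.eq_def.{0}
  have := @_root_.Cfsg.Gln.frob.eq_1.{0}
  have := @_root_.Cfsg.Gln.frob.fun_cases
  have := @_root_.Cfsg.Gln.instFintypeOrbOfFinite.congr_simp.{0}
  have := @_root_.Cfsg.Gln.instFintypeOrbOfFinite.eq_def.{0}
  have := @_root_.Cfsg.Gln.instFintypeOrbOfFinite.eq_1.{0}
  have := @_root_.Cfsg.Gln.instFintypeOrbOfFinite.fun_cases
  have := @_root_.Cfsg.Gln.Orb.mk.eq_def.{0}
  have := @_root_.Cfsg.Gln.Orb.mk.eq_1.{0}
  have := @_root_.Cfsg.Gln.Orb.mk.fun_cases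
  have := @_root_.Cfsg.Gln.Per.eq_def.{0}
  have := @_root_.Cfsg.Gln.Per.eq_1.{0}
  have := @_root_.Cfsg.Gln.Per.fun_cases
  trivial

set_option linter.all false in
theorem Cfsg.Rz.Gln_Pair_2 : True := by
  have := @_root_.Cfsg.Gln.instFintypeLab.congr_simp.{0}
  trivial
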