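import Cfsg.Agent.Gln.Unfold
import Cfsg.Agent.Gln.Pair
import Cfsg.Agent.Mod.BrauerA

/-!
# Eigenvalues, multiplicative functions, primary decomposition (S4536 project)

`k` is an algebraic closure of the finite field `F`, `q = Nat.card F`.
Hints: `cp_sub_mul_quo`: pick a complement, `cls x = cls (ext ..)`, `Matrix.charpoly_fromBlocks_zero₂₁`.
`isConjRoot_iff`, `pow_eq_iff_fdeg_dvd`: Galois theory of `F⟮x⟯/F` (`FiniteField.frobeniusAlgHom`,
`FiniteField.bijective_frobeniusAlgEquivOfAlgebraic_pow`, or `X^(q^n) - X` divisibility,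
`Irreducible.natDegree_dvd_iff_dvd_X_pow_card_pow_sub_X`-like lemmas).  `exists_add_eq`: `exists_decomp` + `cls_pi`
(`ev (cls (cyc (f ^ e)))` = roots of `f ^ e`, all conjugate).  `mul_apply_add`: an invariant `U ≤ V₁ × V₂` with
eigenvalues in `S` has zero projection to `V₂` (the image is a quotient of `U` and a subspace of `V₂`).
`res_cut`: `g ^ m = 1` ⇒ eigenvalues `t ^ m = 1`; conversely `g ^ m - 1` nilpotent ⇒ `g ^ (m r^a) = 1`.
-/

set_option autoImplicit false
set_option linter.unusedSectionVars false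
set_option linter.unusedVariables false
set_option linter.style.haveILetI false

namespace Cfsg.Gln

open Module Finset Polynomial

universe u

variable {F : Type u} [Field F] [Finite F] {V : Type*} [AddCommGroup V] [Module F V] [Finite V]
  (k : Type*) [Field k] [Algebra F k] [IsAlgClosed k] [Algebra.IsAlgebraic F k]

/-- The characteristic polynomial. -/
noncomputable def Iso.cp (c : Iso F) : F[X] := c.rep.charpoly

theorem cp_cls (x : End F V) : (cls x).cp = x.charpoly := by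
  obtain ⟨e, h⟩ := sim_rep x
  rw [Iso.cp, ← e.charpoly_conj]
  congr 1
  ext v
  exact (h _).trans (congrArg x (e.apply_symm_apply v))

theorem cp_sub_mul_quo {x : End F V} (U : Inv x) : (cls U.sub).cp * (cls U.quo).cp = (cls x).cp := by
  rw [cp_cls, cp_cls, cp_cls]
  exact (charpoly_eq_mul_of_invt x U.1 U.2).symm

theorem cp_add (c d : Iso F) : (c + d).cp = c.cp * d.cp :=
  (cp_cls _).trans (LinearMap.charpoly_prodMap _ _)

theorem cp_cyc {f : F[X]} (hf : f.Monic) [Finite (AdjoinRoot f)] : (cls (cyc f)).cp = f := by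
  rw [cp_cls, ← LinearMap.charpoly_toMatrix _ (AdjoinRoot.powerBasis hf.ne_zero).basis]
  exact (charpoly_leftMulMatrix _).trans (AdjoinRoot.minpoly_powerBasis_gen_of_monic hf)

/-- The eigenvalues. -/
noncomputable def ev (c : Iso F) : Multiset k := c.cp.aroots k

theorem cp_monic (c : Iso F) : c.cp.Monic := LinearMap.charpoly_monic _

theorem natDegree_cp (c : Iso F) : c.cp.natDegree = c.dim := by
  rw [Iso.cp, LinearMap.charpoly_natDegree, finrank_fin_fun]

theorem card_ev (c : Iso F) : (ev k c).card = c.dim := by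
  rw [ev, IsAlgClosed.card_aroots_eq_natDegree, natDegree_cp]

@[simp] theorem ev_zero : ev k (0 : Iso F) = 0 :=
  Multiset.card_eq_zero.1 ((card_ev k _).trans dim_zero)

theorem ev_add (c d : Iso F) : ev k (c + d) = ev k c + ev k d := by
  rw [ev, cp_add, aroots_mul ((cp_monic c).mul (cp_monic d)).ne_zero]; rfl

theorem ev_sub_add_quo {x : End F V} (U : Inv x) :
    ev k (cls U.sub) + ev k (cls U.quo) = ev k (cls x) := by
  rw [ev, ev, ← aroots_mul ((cp_monic _).mul (cp_monic _)).ne_zero, cp_sub_mul_quo]; rfl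

theorem ev_cls (x : End F V) : ev k (cls x) = (x.baseChange k).charpoly.roots := by
  rw [ev, cp_cls, LinearMap.charpoly_baseChange]

theorem mem_ev {c : Iso F} {t : k} : t ∈ ev k c ↔ aeval t c.cp = 0 :=
  mem_aroots.trans (and_iff_right (cp_monic c).ne_zero)

theorem roots_charpoly_aeval {W : Type*} [AddCommGroup W] [Module k W] [FiniteDimensional k W]
    (y : End k W) (f : k[X]) : (aeval y f).charpoly.roots = y.charpoly.roots.map f.eval := by
  have e := (IsAlgClosed.splits y.charpoly).eq_prod_roots_of_monic y.charpoly_monic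
  have hc : y.charpoly.roots.card = finrank k W := by
    rw [IsAlgClosed.card_roots_eq_natDegree, LinearMap.charpoly_natDegree]
  have h0 : ∀ a : k, LinearMap.det (algebraMap k (End k W) a) = a ^ finrank k W := fun a => by
    rw [Algebra.algebraMap_eq_smul_one, LinearMap.det_smul, map_one, mul_one]
  have h : ∀ g : k[X], LinearMap.det (aeval y g) = (y.charpoly.roots.map g.eval).prod := fun g => by
    induction IsAlgClosed.splits g using Submonoid.closure_induction with
    | one => simp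
    | mul _ _ _ _ h h' => simp only [map_mul, h, h', eval_mul, Multiset.prod_map_mul]
    | mem g hg =>
      obtain ⟨a, rfl⟩ | ⟨a, rfl⟩ := hg
      · simp [h0, hc]
      · have := congrArg (eval (-a)) e
        rw [LinearMap.eval_charpoly, eval_multiset_prod, Multiset.map_map,
          show algebraMap k (End k W) (-a) - y = algebraMap k _ (-1) * aeval y (X + C a) by
            simp [add_comm, sub_eq_add_neg], map_mul, h0, ← hc] at this
        refine mul_left_cancel₀ (pow_ne_zero _ (neg_ne_zero.2 one_ne_zero)) (this.trans ?_)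
        rw [← Multiset.card_map (eval · (X + C a)), ← Multiset.prod_map_neg, Multiset.map_map]
        congr 2
        ext t
        simp [add_comm, sub_eq_add_neg]
  rw [← roots_multiset_prod_X_sub_C (Multiset.map _ _)]
  congr 1
  refine Polynomial.funext fun t => ?_
  rw [LinearMap.eval_charpoly, ← aeval_C y, ← map_sub, h, eval_multiset_prod, Multiset.map_map,
    Multiset.map_map]
  simp

theorem ev_aeval (x : End F V) (f : F[X]) :
    ev k (cls (aeval x f)) = (ev k (cls x)).map (aeval · f) := by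
  rw [ev_cls, ev_cls, show (aeval x f).baseChange k = aeval (x.baseChange k) (f.map (algebraMap F k))
    by rw [aeval_map_algebraMap]; exact (aeval_algHom_apply (End.baseChangeHom F k V) x f).symm,
    roots_charpoly_aeval]
  simp only [eval_map_algebraMap]

theorem prod_ev (x : End F V) : (ev k (cls x)).prod = algebraMap F k (LinearMap.det x) := by
  rw [ev_cls, ← LinearMap.det_baseChange,
    Module.End.det_eq_prod_roots_charpoly_of_splits (IsAlgClosed.splits _)]

theorem isUnit_iff_ev {x : End F V} : IsUnit x ↔ 0 ∉ ev k (cls x) := by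
  rw [← Multiset.prod_eq_zero_iff, prod_ev, map_eq_zero, LinearMap.isUnit_iff_isUnit_det,
    isUnit_iff_ne_zero]

theorem isUnit_rep_iff {c : Iso F} : IsUnit c.rep ↔ 0 ∉ ev k c := by
  rw [isUnit_iff_ev k, cls_rep]

theorem ev_smul_one (s : F) :
    ev k (cls (s • 1 : End F V)) = Multiset.replicate (finrank F V) (algebraMap F k s) := by
  rw [ev, cp_cls, ← sub_neg_eq_add 0 _ |>.trans (zero_add (s • 1 : End F V)), ← neg_smul,
    LinearMap.charpoly_sub_smul, LinearMap.charpoly_zero, pow_comp, X_comp, aroots_pow, C_neg,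
    ← sub_eq_add_neg, aroots_X_sub_C, Multiset.nsmul_singleton]

theorem isNilpotent_sub_iff (x : End F V) (s : F) :
    IsNilpotent (x - s • 1) ↔ ∀ t ∈ ev k (cls x), t = algebraMap F k s := by
  have e : x - s • 1 = aeval x (X - C s) := by simp [Algebra.algebraMap_eq_smul_one]
  have h := ev_aeval k x (X - C s)
  rw [← e] at h
  rw [LinearMap.isNilpotent_iff_charpoly, ← cp_cls]
  refine ⟨fun h' t ht => ?_, fun h' => map_injective _ (algebraMap F k).injective ?_⟩
  · have : aeval t (X - C s) ∈ ev k (cls (x - s • 1)) := h ▸ Multiset.mem_map_of_mem _ ht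
    rw [mem_ev, h'] at this
    simpa [sub_eq_zero] using (pow_eq_zero_iff'.1 ((map_pow _ _ _).symm.trans this)).1
  · rw [(IsAlgClosed.splits _).eq_prod_roots_of_monic ((cp_monic _).map (algebraMap F k)),
      ← aroots_def, ← ev, h, Multiset.map_map, Multiset.map_congr rfl (g := fun _ => X)
        fun t ht => by simp [h' t ht]]
    simp [card_ev]

theorem ev_pow (x : End F V) (n : ℕ) : ev k (cls (x ^ n)) = (ev k (cls x)).map (· ^ n) := by
  simpa using ev_aeval k x (X ^ n)

theorem cast_ne_zero_of_par {R N : ℕ} (h : Par (Nat.card F) R N) : (R : k) ≠ 0 := fun e => by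
  have := Fintype.ofFinite F
  obtain ⟨-, L, hL, h, -⟩ := h
  have h1 := congrArg (Nat.cast : ℕ → k) h
  rw [Nat.cast_add, e, Nat.cast_pow, ← map_natCast (algebraMap F k) (Nat.card F),
    Nat.card_eq_fintype_card, FiniteField.cast_card_eq_zero, map_zero, zero_pow hL.ne'] at h1
  simp at h1

variable {k}

variable (F) in
/-- The degree over `F`. -/
noncomputable def fdeg (x : k) : ℕ := (minpoly F x).natDegree

theorem fdeg_pos (x : k) : 0 < fdeg F x :=
  minpoly.natDegree_pos (Algebra.IsIntegral.isIntegral x)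

theorem pow_eq_iff' {x : k} {n : ℕ} : x ^ Nat.card F ^ n = x ↔ fdeg F x ∣ n := by
  rw [fdeg, (minpoly.irreducible (Algebra.IsIntegral.isIntegral x)
    ).natDegree_dvd_iff_dvd_X_pow_card_pow_sub_X, minpoly.dvd_iff]
  simp [sub_eq_zero]

theorem exists_frob (i : ℕ) : ∃ σ : k ≃ₐ[F] k, ∀ x, σ x = x ^ Nat.card F ^ i := by
  have := Fintype.ofFinite F
  exact ⟨FiniteField.frobeniusAlgEquivOfAlgebraic F k ^ i, fun x => by
    rw [AlgEquiv.coe_pow, FiniteField.coe_frobeniusAlgEquivOfAlgebraic_iterate,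
      Nat.card_eq_fintype_card]⟩

theorem isConjRoot_pow (x : k) (i : ℕ) : IsConjRoot F x (x ^ Nat.card F ^ i) := by
  obtain ⟨σ, h⟩ := exists_frob (F := F) (k := k) i
  exact h x ▸ isConjRoot_of_algEquiv x σ

theorem aroots_minpoly (x : k) :
    (minpoly F x).aroots k = (Multiset.range (fdeg F x)).map fun i => x ^ Nat.card F ^ i := by
  have key : ∀ i j, i ≤ j → j < fdeg F x → x ^ Nat.card F ^ i = x ^ Nat.card F ^ j → i = j :=
    fun i j h hj e => by
      obtain ⟨l, rfl⟩ := Nat.exists_eq_add_of_le h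
      obtain ⟨σ, hσ⟩ := exists_frob (F := F) (k := k) i
      rw [pow_add, mul_comm, pow_mul, ← hσ, ← hσ] at e
      rw [Nat.eq_zero_of_dvd_of_lt (pow_eq_iff'.1 (σ.injective e).symm) (by omega), add_zero]
  refine (Multiset.eq_of_le_of_card_le ((Multiset.le_iff_subset ((Multiset.nodup_range _).map_on
    fun i hi j hj e => ?_)).2 fun t ht => ?_) ?_).symm
  · rw [Multiset.mem_range] at hi hj
    exact (le_total i j).elim (key i j · hj e) fun h => (key j i h hi e.symm).symm
  · obtain ⟨i, -, rfl⟩ := Multiset.mem_map.1 ht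
    exact (isConjRoot_iff_mem_minpoly_aroots (Algebra.IsIntegral.isIntegral x)).1
      (isConjRoot_pow x i)
  · rw [IsAlgClosed.card_aroots_eq_natDegree, Multiset.card_map, Multiset.card_range, fdeg]

theorem isConjRoot_iff {x t : k} : IsConjRoot F x t ↔ ∃ i, t = x ^ Nat.card F ^ i := by
  refine ⟨fun h => ?_, fun ⟨i, e⟩ => e ▸ isConjRoot_pow x i⟩
  rw [isConjRoot_iff_mem_minpoly_aroots (Algebra.IsIntegral.isIntegral x), aroots_minpoly,
    Multiset.mem_map] at h
  exact h.imp fun i h => h.2.symm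

theorem pow_eq_iff_fdeg_dvd {x : k} {n : ℕ} : x ^ Nat.card F ^ n = x ↔ fdeg F x ∣ n :=
  pow_eq_iff'

theorem IsConjRoot.mem_ev {c : Iso F} {x t : k} (h : IsConjRoot F x t) (hx : x ∈ ev k c) :
    t ∈ ev k c :=
  (Gln.mem_ev k).2 (minpoly.dvd_iff.1 (h ▸ minpoly.dvd_iff.2 ((Gln.mem_ev k).1 hx) :))

theorem fdeg_le_of_mem_ev {c : Iso F} {x : k} (hx : x ∈ ev k c) : fdeg F x ≤ c.dim :=
  natDegree_cp c ▸ natDegree_le_of_dvd (minpoly.dvd_iff.2 ((mem_ev k).1 hx)) (cp_monic c).ne_zero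

theorem pow_eq_one_of_mem_ev {R N : ℕ} (h : Par (Nat.card F) R N) {c : Iso F} (hc : c.dim ≤ N)
    {x : k} (hx : x ∈ ev k c) (h0 : x ≠ 0) : x ^ R = 1 := by
  obtain ⟨l, rfl⟩ := h.dvd (fdeg_pos x) ((fdeg_le_of_mem_ev hx).trans hc)
  have e := pow_eq_iff'.2 (dvd_refl (fdeg F x))
  rw [← Nat.sub_add_cancel (Nat.one_le_pow _ _ (Nat.card_pos (α := F))), pow_succ] at e
  rw [pow_mul, mul_right_cancel₀ h0 (e.trans (one_mul x).symm), one_pow]

theorem fdeg_mv {R N : ℕ} [NeZero R] (h : Par (Nat.card F) R N) (x : Mu k R) :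
    fdeg F (mv x) = (Orb.mk (frob (Nat.card F)) x).deg := by
  have e : ∀ n, fdeg F (mv x) ∣ n ↔ (Orb.mk (frob (Nat.card F)) x).deg ∣ n := fun n => by
    rw [← pow_eq_iff', ← (h.per Mu.pow_eq_one).iterate_eq_iff, frob_iterate, ← mv_pow,
      mv_injective.eq_iff]
  exact Nat.dvd_antisymm ((e _).2 dvd_rfl) ((e _).1 dvd_rfl)

theorem isConjRoot_mv {R N : ℕ} [NeZero R] (h : Par (Nat.card F) R N) {x y : Mu k R} :
    IsConjRoot F (mv x) (mv y) ↔ Orb.mk (frob (Nat.card F)) x = Orb.mk (frob (Nat.card F)) y := by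
  rw [(h.per Mu.pow_eq_one).mk_eq_iff]
  simp only [isConjRoot_iff, frob_iterate, ← mv_pow, mv_injective.eq_iff]

theorem exists_eq_pow {x : k} (n : ℕ) : ∀ f : F[X], f.natDegree = n → f.Monic →
    (∀ t ∈ f.aroots k, IsConjRoot F x t) → ∃ j, f = minpoly F x ^ j := by
  induction n using Nat.strong_induction_on with
  | _ n ih =>
    intro f hn hf h
    obtain h0 | h0 := n.eq_zero_or_pos
    · exact ⟨0, hf.natDegree_eq_zero.1 (hn.trans h0)⟩
    obtain ⟨t, ht⟩ := Multiset.card_pos_iff_exists_mem.1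
      ((IsAlgClosed.card_aroots_eq_natDegree (B := k)).trans hn ▸ h0)
    have hm := minpoly.monic (Algebra.IsIntegral.isIntegral (R := F) x)
    obtain ⟨g, rfl⟩ : minpoly F x ∣ f := h t ht ▸ minpoly.dvd_iff.2 (mem_aroots.1 ht).2
    have hg := hm.of_mul_monic_left hf
    rw [hm.natDegree_mul hg] at hn
    obtain ⟨j, rfl⟩ := ih _ (hn ▸ Nat.lt_add_of_pos_left (fdeg_pos x)) g rfl hg fun t ht => h t
      (aroots_mul (S := k) hf.ne_zero ▸ Multiset.mem_add.2 (.inr ht))
    exact ⟨j + 1, (pow_succ' _ _).symm⟩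

theorem ev_eq_of_conj {c : Iso F} {x : k} (h : ∀ t ∈ ev k c, IsConjRoot F x t) :
    fdeg F x ∣ c.dim ∧ ev k c = (Multiset.range c.dim).map fun i => x ^ Nat.card F ^ i := by
  obtain ⟨j, hj⟩ := exists_eq_pow _ c.cp rfl (cp_monic c) h
  have hd : c.dim = fdeg F x * j := by
    rw [← natDegree_cp, hj, natDegree_pow, mul_comm, fdeg]
  refine ⟨⟨j, hd⟩, ?_⟩
  rw [ev, hj, aroots_pow, aroots_minpoly, hd]
  clear hj hd
  induction j with
  | zero => simp
  | succ j ih =>
    rw [succ_nsmul, ih, mul_add_one, Multiset.range_add, Multiset.map_add, Multiset.map_map]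
    simp only [Function.comp, pow_add, pow_mul x, pow_eq_iff'.2 (dvd_mul_right _ j)]

theorem cp_eq_iff {c : Iso F} {x : k} {j : ℕ} :
    c.cp = minpoly F x ^ j ↔ c.dim = fdeg F x * j ∧ ∀ t ∈ ev k c, IsConjRoot F x t := by
  have e : ∀ {j}, c.cp = minpoly F x ^ j → c.dim = fdeg F x * j := fun h => by
    rw [← natDegree_cp, h, natDegree_pow, mul_comm, fdeg]
  refine ⟨fun h => ⟨e h, fun t ht => ?_⟩, fun ⟨h, h'⟩ => ?_⟩
  · rw [mem_ev, h, map_pow] at ht
    exact isConjRoot_of_aeval_eq_zero (Algebra.IsIntegral.isIntegral x) (pow_eq_zero_iff'.1 ht).1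
  · obtain ⟨i, hi⟩ := exists_eq_pow _ c.cp rfl (cp_monic c) h'
    rw [hi, mul_left_cancel₀ (fdeg_pos x).ne' ((e hi).symm.trans h)]

variable (F) in
/-- Closed under conjugation over `F`. -/
def ConjCl (S : Set k) : Prop := ∀ x ∈ S, ∀ t, IsConjRoot F x t → t ∈ S

theorem mem_ev_sum {ι : Type*} {s : Finset ι} {c : ι → Iso F} {t : k} :
    t ∈ ev k (∑ i ∈ s, c i) ↔ ∃ i ∈ s, t ∈ ev k (c i) := by
  classical
  induction s using Finset.induction_on with
  | empty => simp
  | insert a s ha ih => simp [sum_insert ha, ev_add, ih]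

theorem exists_add_eq {S : Set k} (hS : ConjCl F S) (c : Iso F) :
    ∃ c₁ c₂, c = c₁ + c₂ ∧ (∀ t ∈ ev k c₁, t ∈ S) ∧ ∀ t ∈ ev k c₂, t ∉ S := by
  classical
  obtain ⟨n, f, e, h, φ, hφ⟩ := exists_decomp c.rep
  have := Finite.of_equiv _ φ.toEquiv
  have : ∀ i, Finite (AdjoinRoot (f i ^ e i)) := fun i =>
    .of_surjective _ (Function.surjective_eval (β := fun i => AdjoinRoot (f i ^ e i)) i)
  have h1 : ∀ i (t : k), t ∈ ev k (cls (cyc (f i ^ e i))) ↔ f i = minpoly F t := fun i t => by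
    rw [mem_ev, cp_cyc ((h i).2.1.pow _), map_pow, pow_eq_zero_iff (h i).2.2.ne']
    exact ⟨fun h' => minpoly.eq_of_irreducible_of_monic (h i).1 h' (h i).2.1,
      fun h' => h' ▸ minpoly.aeval F t⟩
  refine ⟨_, _, (cls_rep c).symm.trans ((cls_pi _ φ hφ).trans (sum_filter_add_sum_filter_not _
    (fun i => ∀ t ∈ ev k (cls (cyc (f i ^ e i))), t ∈ S) _).symm), fun t ht => ?_,
    fun t ht hS' => ?_⟩ <;> obtain ⟨i, hi, ht⟩ := mem_ev_sum.1 ht
  · exact (mem_filter.1 hi).2 t ht
  · exact (mem_filter.1 hi).2 fun t' ht' => hS t hS' t' (((h1 i t).1 ht).symm.trans ((h1 i t').1 ht'))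

variable (F) in
/-- The multiplicative function `∏ α(eigenvalue)`. -/
noncomputable def mf (α : k → ℂ) : Hall F := fun c => ((ev k c).map α).prod

theorem mult_mf (α : k → ℂ) : Mult (mf F α) :=
  ⟨by simp [mf], fun c U => by
    rw [mf, mf, mf, ← Multiset.prod_add, ← Multiset.map_add, ev_sub_add_quo, cls_rep]⟩

theorem pw_mf (α β : k → ℂ) : pw (mf F α) (mf F β) = mf F (α * β) :=
  Hall.ext fun c => (Multiset.prod_map_mul (m := ev k c)).symm

variable (F) in
/-- Functions supported on classes with all eigenvalues in `S`. -/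
def supp (S : Set k) : Subalgebra ℂ (Hall F) where
  carrier := {f | ∀ c, f c ≠ 0 → ∀ t ∈ ev k c, t ∈ S}
  mul_mem' {f g} hf hg c h t ht := by
    rw [← cls_rep c, mul_cls] at h
    obtain ⟨U, -, h⟩ := exists_ne_zero_of_sum_ne_zero h
    rw [← cls_rep c, ← ev_sub_add_quo k U] at ht
    exact (Multiset.mem_add.1 ht).elim (hf _ (left_ne_zero_of_mul h) t)
      (hg _ (right_ne_zero_of_mul h) t)
  add_mem' {f g} hf hg c h := by
    by_cases e : f c = 0
    · exact hg c (by simpa [e] using h)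
    · exact hf c e
  algebraMap_mem' s c h := by
    rw [Algebra.algebraMap_eq_smul_one, Hall.smul_apply, Hall.one_apply] at h
    simp [dim_eq_zero.1 (by_contra fun e => h (by rw [if_neg e, mul_zero]) : c.dim = 0)]

theorem mem_supp {S : Set k} {f : Hall F} :
    f ∈ supp F S ↔ ∀ c, f c ≠ 0 → ∀ t ∈ ev k c, t ∈ S := Iff.rfl

theorem supp_mono {S T : Set k} (h : S ⊆ T) : supp F S ≤ supp F T :=
  fun _ hf c hc t ht => h (hf c hc t ht)

theorem isInv_iff {f : Hall F} : IsInv f ↔ f ∈ supp F ({0}ᶜ : Set k) :=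
  forall₂_congr fun c _ => (isUnit_rep_iff k).trans
    ⟨fun h t ht e => h (e ▸ ht :), fun h e => h 0 e rfl⟩

/-- Translation by a class. -/
noncomputable def shift (c : Iso F) (f : Hall F) : Hall F := fun d => f (d + c)

@[simp] theorem shift_apply (c d : Iso F) (f : Hall F) : shift c f d = f (d + c) := rfl

theorem mul_apply_add {S : Set k} {u : Hall F} (hu : u ∈ supp F S) (f : Hall F) (c₁ : Iso F)
    {c₂ : Iso F} (h : ∀ t ∈ ev k c₂, t ∉ S) : (u * f) (c₁ + c₂) = (u * shift c₂ f) c₁ := by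
  rw [← cls_rep c₁, ← cls_rep c₂, ← cls_prodMap, mul_cls, mul_cls]
  let ι : Inv c₁.rep → Inv (c₁.rep.prodMap c₂.rep) := fun U => ⟨U.1.prod ⊥, fun v hv =>
    ⟨U.2 hv.1, by simp [show v.2 = 0 from hv.2]⟩⟩
  refine (Fintype.sum_of_injective ι (fun U W e => Subtype.ext (Submodule.ext fun v => ?_)) _ _
    (fun U hU => mul_eq_zero_of_left (by_contra fun e => hU ?_) _) fun U => ?_).symm
  · simpa [ι] using SetLike.ext_iff.1 (congrArg Subtype.val e) (v, 0)
  · let W : Inv c₂.rep := ⟨U.1.map (.snd F _ _), by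
      rintro _ ⟨v, hv, rfl⟩; exact ⟨_, U.2 hv, rfl⟩⟩
    let π : U.1 →ₗ[F] W.1 := (LinearMap.snd F _ _).restrict fun v hv => ⟨v, hv, rfl⟩
    have h1 := ev_sub_add_quo k (x := U.sub) ⟨LinearMap.ker π, fun v hv => Subtype.ext
      ((congrArg (fun w : W.1 => c₂.rep w) hv).trans (map_zero _))⟩
    rw [cls_quo_eq _ (y := W.sub) π (by rintro ⟨_, v, hv, rfl⟩; exact ⟨⟨v, hv⟩, rfl⟩) rfl
      fun _ => rfl] at h1
    have h2 := ev_sub_add_quo k W
    rw [cls_rep] at h2
    have h3 : ev k (cls W.sub) = 0 := Multiset.eq_zero_of_forall_notMem fun t ht =>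
      h t (h2 ▸ Multiset.mem_add.2 (.inl ht)) (hu _ e t (h1 ▸ Multiset.mem_add.2 (.inr ht)))
    have h4 : W.1 = ⊥ := Submodule.finrank_eq_zero.1 (by
      rw [← dim_cls W.sub, ← card_ev k, h3, Multiset.card_zero])
    have h5 : ∀ v ∈ U.1, v.2 = 0 := fun v hv => (Submodule.mem_bot F).1 (h4 ▸ ⟨v, hv, rfl⟩)
    refine ⟨⟨U.1.comap (.inl F _ _), fun v hv => by simpa using U.2 hv⟩,
      Subtype.ext (Submodule.ext fun ⟨v, w⟩ => ⟨fun hv => ?_, fun hv => ?_⟩)⟩
    · obtain rfl : w = 0 := hv.2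
      exact hv.1
    · obtain rfl : w = 0 := h5 _ hv
      exact ⟨hv, rfl⟩
  · rw [cls_sub_eq (ι U) (y := U.sub) ((LinearMap.inl F _ _).comp U.1.subtype)
      (LinearMap.inl_injective.comp Subtype.val_injective) (by
        rw [LinearMap.range_comp, Submodule.range_subtype, Submodule.map_inl]) fun _ => by
          simp [Inv.sub], cls_quo_eq (ι U) (y := U.quo.prodMap c₂.rep) (U.1.mkQ.prodMap .id)
      (U.1.mkQ_surjective.prodMap Function.surjective_id) (by simp [ι]) fun _ => rfl, cls_prodMap,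
      shift_apply]

theorem mf_mem {S : Set k} {α : k → ℂ} (hα : ∀ t, α t ≠ 0 → t ∈ S) : mf F α ∈ supp F S :=
  fun c h t ht => hα t fun e => h (Multiset.prod_eq_zero (e ▸ Multiset.mem_map_of_mem α ht))

theorem mf_mul_mf {S : Set k} (hS : ConjCl F S) {α β : k → ℂ} (hα : ∀ t, α t ≠ 0 → t ∈ S)
    (hβ : ∀ t, β t ≠ 0 → t ∉ S) : mf F α * mf F β = mf F (α + β) := by
  ext c
  obtain ⟨c₁, c₂, rfl, h₁, h₂⟩ := exists_add_eq hS c
  have e : shift c₂ (mf F β) = mf F β c₂ • mf F β :=
    Hall.ext fun d => ((mult_mf β).add _ _).trans (mul_comm _ _)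
  have h := mul_apply_add (mf_mem (S := Sᶜ) hβ) (mf F α) 0 (c₂ := c₁) fun t ht e => e (h₁ t ht)
  rw [zero_add, Hall.mul_apply_zero, (mult_mf β).zero, one_mul, shift_apply, zero_add] at h
  rw [mul_apply_add (mf_mem hα) _ _ h₂, e, mul_smul_comm, Hall.smul_apply, mul_comm (mf F α), h,
    (mult_mf _).add, mul_comm]
  congr 1 <;> refine congrArg _ (Multiset.map_congr rfl fun t ht => ?_)
  · rw [Pi.add_apply, not_not.1 fun e => hβ t e (h₁ t ht), add_zero]
  · rw [Pi.add_apply, not_not.1 fun e => h₂ t ht (hα t e), zero_add]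

variable (F) in
/-- Cutting down to the classes with all eigenvalues in `S`. -/
noncomputable def cut (S : Set k) : Hall F →ₐ[ℂ] Hall F := (mult_mf (S.indicator 1)).hom

open Classical in
theorem cut_apply (S : Set k) (f : Hall F) (c : Iso F) :
    cut F S f c = if ∀ t ∈ ev k c, t ∈ S then f c else 0 := by
  rw [cut, Mult.hom_apply, mf]
  split_ifs with h
  · rw [Multiset.prod_eq_one fun z hz => ?_, one_mul]
    obtain ⟨t, ht, rfl⟩ := Multiset.mem_map.1 hz
    exact Set.indicator_of_mem (h t ht) _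
  · push Not at h
    obtain ⟨t, ht, h⟩ := h
    rw [Multiset.prod_eq_zero (Multiset.mem_map.2 ⟨t, ht, Set.indicator_of_notMem h _⟩), zero_mul]

theorem cut_mem (S : Set k) (f : Hall F) : cut F S f ∈ supp F S :=
  fun c h => Classical.byContradiction fun e => h (by rw [cut_apply, if_neg e])

theorem cut_of_mem {S : Set k} {f : Hall F} (h : f ∈ supp F S) : cut F S f = f :=
  Hall.ext fun c => by
    rw [cut_apply]
    split_ifs with e
    exacts [rfl, (not_not.1 fun e' => e (h c e')).symm]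

theorem cut_eq_zero {S T : Set k} (hST : Disjoint S T) {f : Hall F} (h : f ∈ supp F T) {n : ℕ}
    (hn : 0 < n) (h' : f ∈ hom F n) : cut F S f = 0 :=
  Hall.ext fun c => by
    classical
    rw [cut_apply]
    refine ite_eq_right_iff.2 fun e => by_contra fun e' => ?_
    obtain ⟨t, ht⟩ := Multiset.card_pos_iff_exists_mem.1 ((card_ev k c).trans
      (not_not.1 fun e'' => e' (mem_hom.1 h' c e'')) ▸ hn)
    exact Set.disjoint_left.1 hST (e t ht) (h c e' t ht)

theorem Mult.hom_mem {a : Hall F} (ha : Mult a) {n : ℕ} {f : Hall F} (h : f ∈ Gln.hom F n) :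
    ha.hom f ∈ Gln.hom F n :=
  mem_hom.2 fun c e => by rw [Mult.hom_apply, mem_hom.1 h c e, mul_zero]

theorem bf_cut (S : Set k) (n : ℕ) (f g : Hall F) : bf n (cut F S f) g = bf n f (cut F S g) :=
  congrArg (int n) (Hall.ext fun c => by
    simp only [pw_apply, cut, Mult.hom_apply]; ring)

theorem star_cut (S : Set k) (f : Hall F) : star (cut F S f) = cut F S (star f) :=
  Hall.ext fun c => by
    rw [Hall.star_apply, cut_apply, cut_apply, apply_ite star, star_zero, Hall.star_apply]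

variable (k) in
/-- The `p`-regular elements of `kˣ`. -/
def regS (p : ℕ) : Set k := {t | ∃ m, ¬ p ∣ m ∧ t ^ m = 1}

theorem conjCl_regS (p : ℕ) : ConjCl F (regS k p) := fun x ⟨m, hm, e⟩ t h => by
  obtain ⟨i, rfl⟩ := isConjRoot_iff.1 h
  exact ⟨m, hm, by rw [pow_right_comm, e, one_pow]⟩

theorem mv_mem_regS {R p : ℕ} [NeZero R] {x : Mu k R} : mv x ∈ regS k p ↔ IsPRegular p x :=
  ⟨fun ⟨m, hm, e⟩ h => hm (h.trans (orderOf_dvd_of_pow_eq_one (mv_injective ((mv_pow x m).trans e)))),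
    fun h => ⟨_, h, by rw [← mv_pow, pow_orderOf_eq_one, mv_one]⟩⟩

theorem isPRegular_iff_ev {p : ℕ} (hp : p.Prime) (hpF : (p : F) ≠ 0) (g : GLV F V) :
    IsPRegular p g ↔ ∀ t ∈ ev k (cls (g : End F V)), t ∈ regS k p := by
  have h1 : ∀ t ∈ ev k (cls (g : End F V)), t ^ orderOf g = 1 := fun t ht => by
    simpa using (isNilpotent_sub_iff k ((g : End F V) ^ orderOf g) 1).1 (by
      simp [← Units.val_pow_eq_pow_val]) _
      (by rw [ev_pow]; exact Multiset.mem_map_of_mem _ ht)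
  refine ⟨fun h t ht => ⟨_, h, h1 t ht⟩, fun h ⟨n, hn⟩ => ?_⟩
  have : Finite (End F V) := finite_hom
  have h0 : 0 < orderOf g := orderOf_pos g
  have h2 : IsUnit (aeval (g : End F V) (∑ i ∈ range p, (X ^ n) ^ i : F[X])) := by
    rw [isUnit_iff_ev k, ev_aeval, Multiset.mem_map]
    rintro ⟨t, ht, e⟩
    obtain ⟨m, hm, e'⟩ := h t ht
    have : t ^ n = 1 := (pow_eq_one_iff_of_coprime (hp.coprime_iff_not_dvd.2 hm)).1
      ⟨by rw [← pow_mul, mul_comm, ← hn, h1 t ht], by rw [pow_right_comm, e', one_pow]⟩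
    simp only [map_sum, map_pow, aeval_X, this, one_pow, sum_const, card_range, nsmul_one] at e
    exact hpF ((algebraMap F k).injective (by simpa using e))
  simp only [map_sum, map_pow, aeval_X] at h2
  have h3 := geom_sum_mul ((g : End F V) ^ n) p
  rw [← pow_mul, mul_comm n, ← hn, ← Units.val_pow_eq_pow_val g (orderOf g), pow_orderOf_eq_one, Units.val_one,
    sub_self, h2.mul_right_eq_zero, sub_eq_zero, ← Units.val_pow_eq_pow_val, Units.val_eq_one] at h3
  have h4 := Nat.le_of_dvd (Nat.pos_of_mul_pos_left (hn ▸ h0)) (orderOf_dvd_of_pow_eq_one h3)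
  have := hp.two_le
  nlinarith

theorem res_cut {p : ℕ} (hp : p.Prime) (hpF : (p : F) ≠ 0) (f : Hall F) :
    res V (cut F (regS k p) f) = pRegularPart p (res V f) :=
  funext fun g => by
    rw [res_apply, cut_apply]
    split_ifs with h <;> rw [← isPRegular_iff_ev hp hpF] at h
    exacts [(pRegularPart_of_reg (θ := res V f) h).symm, (pRegularPart_of_not_reg h).symm]

end Cfsg.Gln

set_option linter.all false in
theorem Cfsg.Rz.Gln_Eig_0 : True := by
  have := @_root_.Cfsg.Gln.mf.eq_def.{0, 0}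
  have := @_root_.Cfsg.Gln.mf.fun_cases
  have := @_root_.Cfsg.Gln.ConjCl.eq_def.{0, 0}
  have := @_root_.Cfsg.Gln.ConjCl.eq_1.{0, 0}
  have := @_root_.Cfsg.Gln.ConjCl.fun_cases
  have := @_root_.Cfsg.Gln.ev.eq_def.{0, 0}
  have := @_root_.Cfsg.Gln.ev.fun_cases
  have := @_root_.Cfsg.Gln.shift.congr_simp.{0}
  have := @_root_.Cfsg.Gln.shift.eq_def.{0}
  have := @_root_.Cfsg.Gln.shift.eq_1.{0}
  have := @_root_.Cfsg.Gln.shift.fun_cases
  have := @_root_.Cfsg.Gln.regS.eq_def.{0}
  have := @_root_.Cfsg.Gln.regS.eq_1.{0}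
  have := @_root_.Cfsg.Gln.regS.fun_cases
  have := @_root_.Cfsg.Gln.supp.congr_simp.{0, 0}
  have := @_root_.Cfsg.Gln.supp.eq_def.{0, 0}
  have := @_root_.Cfsg.Gln.supp.eq_1.{0, 0}
  have := @_root_.Cfsg.Gln.supp.fun_cases
  have := @_root_.Cfsg.Gln.cut.congr_simp.{0, 0}
  have := @_root_.Cfsg.Gln.cut.eq_def.{0, 0}
  have := @_root_.Cfsg.Gln.cut.fun_cases
  have := @_root_.Cfsg.Gln.fdeg.eq_def.{0, 0}
  have := @_root_.Cfsg.Gln.fdeg.fun_cases
  have := @_root_.Cfsg.Gln.Iso.cp.congr_simp.{0}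
  have := @_root_.Cfsg.Gln.Iso.cp.eq_def.{0}
  have := @_root_.Cfsg.Gln.Iso.cp.fun_cases
  trivial
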