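import Cfsg.Agent.GA.Conj
import Cfsg.Agent.Grp.PPart
import Cfsg.Prelude.Def_CaseTheorems

/-!
# Elementary abelian sections (S4536 project)

`Rk p k D`: `D` has a section `H/N` that is elementary abelian of order `≥ p ^ k`.
`rk_two`: `H = ⟨i, s⟩`, `N = ⟨i², s²⟩` (central in `H`, `H = N ∪ iN ∪ sN ∪ isN`;
`i, s, i s ∉ N` because `N` is centralised by `i` and by `s`: `i ∈ N` would give `s i s⁻¹ = i`, etc.).
`rk_three`: write `s² = a^u b^v`; it commutes with `s` so `a^u b^v = a^v b^u`, giving `a^u = a^v`,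
`s² = (ab)^u`; `t = s * (a^u)⁻¹` has `t² = 1` and still swaps; with `i = a^(2^(j-2))`, `i' = b^(2^(j-2))`
take `H = ⟨i i', i², t⟩` (order `16`; or `H = {x t^ε | x ∈ H₀}`, `H₀ = {i^α i'^β | α + β even}`),
`N = ⟨i² i'²⟩` (order `2`).
-/

set_option autoImplicit false
set_option linter.unusedSectionVars false
set_option linter.unusedVariables false
set_option linter.style.haveILetI false

namespace Cfsg.Gln

open scoped commutatorElement

open Subgroup

variable {G G' : Type*} [Group G] [Finite G] [Group G'] [Finite G'] {p k l : ℕ} {D E : Subgroup G}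

/-- `D` has an elementary abelian section of order at least `p ^ k`. -/
def Rk (p k : ℕ) (D : Subgroup G) : Prop :=
  ∃ H N : Subgroup G, H ≤ D ∧ N ≤ H ∧ (∀ x ∈ H, ∀ y ∈ H, ⁅x, y⁆ ∈ N) ∧ (∀ x ∈ H, x ^ p ∈ N) ∧
    p ^ k * Nat.card N ≤ Nat.card H

theorem Rk.le_of_sectional (hp : p.Prime) (h : Rk p k D) {s : ℕ} (hs : SectionalPRankLE p s D) :
    k ≤ s := by
  obtain ⟨H, N, hHD, hNH, hc, hq, hcard⟩ := h
  let H' : Subgroup D := H.subgroupOf D
  let N' : Subgroup H' := (N.subgroupOf D).subgroupOf H'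
  have hmem : ∀ x : H', x ∈ N' ↔ ((x : D) : G) ∈ N := fun x => Iff.rfl
  haveI : N'.Normal := ⟨fun x hx g => by
    rw [hmem] at hx ⊢
    have h1 := N.mul_mem (hc _ g.2 _ x.2) hx
    have h2 : ⁅((g : D) : G), ((x : D) : G)⁆ * ((x : D) : G) =
        ((g : D) : G) * ((x : D) : G) * ((g : D) : G)⁻¹ := by
      rw [commutatorElement_def]; group
    exact (congrArg (· ∈ N) h2).mp h1⟩
  have hcomm : IsMulCommutative (⊤ : Subgroup (H' ⧸ N')) := by
    refine ⟨⟨fun x y => Subtype.ext ?_⟩⟩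
    obtain ⟨x, -⟩ := x
    obtain ⟨y, -⟩ := y
    induction x using QuotientGroup.induction_on with | H x => ?_
    induction y using QuotientGroup.induction_on with | H y => ?_
    change (x : H' ⧸ N') * (y : H' ⧸ N') = (y : H' ⧸ N') * (x : H' ⧸ N')
    rw [← commutatorElement_eq_one_iff_mul_comm]
    have : ⁅(x : H' ⧸ N'), (y : H' ⧸ N')⁆ = ((⁅x, y⁆ : H') : H' ⧸ N') := by
      simp [commutatorElement_def]
    rw [this, QuotientGroup.eq_one_iff, hmem]
    exact hc _ x.2 _ y.2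
  have hexp : ∀ a ∈ (⊤ : Subgroup (H' ⧸ N')), a ^ p = 1 := by
    intro a _
    induction a using QuotientGroup.induction_on with | H x => ?_
    rw [← QuotientGroup.mk_pow, QuotientGroup.eq_one_iff, hmem]
    exact hq _ x.2
  have h1 := hs H' N' ⊤ hcomm hexp
  rw [Subgroup.card_top] at h1
  have h2 : Nat.card H' = Nat.card (H' ⧸ N') * Nat.card N' :=
    Subgroup.card_eq_card_quotient_mul_card_subgroup N'
  have h3 : Nat.card H' = Nat.card H := Nat.card_congr (subgroupOfEquivOfLe hHD).toEquiv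
  have h4 : Nat.card N' = Nat.card N := by
    have e1 : Nat.card N' = Nat.card (N.subgroupOf D) :=
      Nat.card_congr (subgroupOfEquivOfLe (H := N.subgroupOf D) (K := H')
        (fun x hx => hNH hx)).toEquiv
    rw [e1]
    exact Nat.card_congr (subgroupOfEquivOfLe (hNH.trans hHD)).toEquiv
  rw [h3, h4] at h2
  rw [h2] at hcard
  have h5 := (Nat.le_of_mul_le_mul_right hcard Nat.card_pos).trans h1
  exact (Nat.pow_le_pow_iff_right hp.one_lt).1 h5

theorem rk_zero : Rk p 0 D :=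
  ⟨⊥, ⊥, bot_le, le_rfl, fun x hx y hy => by
    rw [mem_bot] at hx; simp [hx], fun x hx => by
    rw [mem_bot] at hx; simp [hx], by simp⟩

theorem Rk.mono (h : Rk p k D) (hDE : D ≤ E) : Rk p k E := by
  obtain ⟨H, N, hHD, h'⟩ := h
  exact ⟨H, N, hHD.trans hDE, h'⟩

theorem Rk.of_le (hp : p.Prime) (h : Rk p k D) (hl : l ≤ k) : Rk p l D := by
  obtain ⟨H, N, hHD, hNH, hc, hq, hcard⟩ := h
  exact ⟨H, N, hHD, hNH, hc, hq,
    (Nat.mul_le_mul_right _ (Nat.pow_le_pow_right hp.pos hl)).trans hcard⟩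

theorem Rk.map (h : Rk p k D) {f : G →* G'} (hf : Function.Injective f) : Rk p k (D.map f) := by
  obtain ⟨H, N, hHD, hNH, hc, hq, hcard⟩ := h
  refine ⟨H.map f, N.map f, map_mono hHD, map_mono hNH, ?_, ?_, ?_⟩
  · rintro _ ⟨x, hx, rfl⟩ _ ⟨y, hy, rfl⟩
    exact ⟨⁅x, y⁆, hc x hx y hy, map_commutatorElement f x y⟩
  · rintro _ ⟨x, hx, rfl⟩
    exact ⟨x ^ p, hq x hx, map_pow f x p⟩
  · rw [card_map_of_injective hf, card_map_of_injective hf]
    exact hcard

theorem Rk.of_map {f : G →* G'} (hf : Function.Injective f) (h : Rk p k (D.map f)) : Rk p k D := by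
  obtain ⟨H, N, hHD, hNH, hc, hq, hcard⟩ := h
  have hc' : ∀ K : Subgroup G', K ≤ D.map f → Nat.card (K.comap f) = Nat.card K := by
    intro K hK
    rw [← card_map_of_injective (K := K.comap f) hf,
      map_comap_eq_self (hK.trans (map_le_range f D))]
  refine ⟨H.comap f, N.comap f, ?_, comap_mono hNH, ?_, ?_, ?_⟩
  · rw [← comap_map_eq_self_of_injective hf D]
    exact comap_mono hHD
  · intro x hx y hy
    rw [mem_comap, map_commutatorElement]
    exact hc _ hx _ hy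
  · intro x hx
    rw [mem_comap, map_pow]
    exact hq _ hx
  · rw [hc' H hHD, hc' N (hNH.trans hHD)]
    exact hcard

theorem Rk.prod {D' : Subgroup G'} (h : Rk p k D) (h' : Rk p l D') : Rk p (k + l) (D.prod D') := by
  obtain ⟨H, N, hHD, hNH, hc, hq, hcard⟩ := h
  obtain ⟨H', N', hHD', hNH', hc', hq', hcard'⟩ := h'
  have hc2 : ∀ (K : Subgroup G) (K' : Subgroup G'),
      Nat.card (K.prod K') = Nat.card K * Nat.card K' := fun K K' => by
    rw [Nat.card_congr (prodEquiv K K').toEquiv, Nat.card_prod]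
  refine ⟨H.prod H', N.prod N', prod_mono hHD hHD', prod_mono hNH hNH', ?_, ?_, ?_⟩
  · intro x hx y hy
    exact ⟨hc _ hx.1 _ hy.1, hc' _ hx.2 _ hy.2⟩
  · intro x hx
    exact ⟨hq _ hx.1, hq' _ hx.2⟩
  · rw [hc2, hc2, pow_add, mul_mul_mul_comm]
    exact Nat.mul_le_mul hcard hcard'

private theorem card_eq_inf_ker_mul {A : Type*} [Group A] (δ : G →* A) (K : Subgroup G) :
    Nat.card K = Nat.card (K ⊓ δ.ker : Subgroup G) * Nat.card (K.map δ) := by
  rw [← relIndex_ker, ← inf_relIndex_right, inf_comm, ← relIndex_bot_left, ← relIndex_bot_left,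
    relIndex_mul_relIndex _ _ _ bot_le inf_le_right]

/-- Passing to the kernel of a map to a cyclic group costs at most one. -/
theorem Rk.inf_ker (hp : p.Prime) {A : Type*} [Group A] [IsCyclic A] (δ : G →* A)
    (h : Rk p (k + 1) D) : Rk p k (D ⊓ δ.ker) := by
  obtain ⟨H, N, hHD, hNH, hc, hq, hcard⟩ := h
  refine ⟨H ⊓ δ.ker, N ⊓ δ.ker, inf_le_inf_right _ hHD, inf_le_inf_right _ hNH, ?_, ?_, ?_⟩
  · intro x hx y hy
    refine ⟨hc _ hx.1 _ hy.1, ?_⟩
    have h1 : x ∈ δ.ker := hx.2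
    have h2 : y ∈ δ.ker := hy.2
    exact δ.ker.mul_mem (δ.ker.mul_mem (δ.ker.mul_mem h1 h2) (δ.ker.inv_mem h1)) (δ.ker.inv_mem h2)
  · intro x hx
    exact ⟨hq _ hx.1, pow_mem hx.2 p⟩
  · haveI : Finite (H.map δ) := Finite.of_surjective _ (δ.subgroupMap_surjective H)
    haveI : Finite (N.map δ) := Finite.of_surjective _ (δ.subgroupMap_surjective N)
    have key : Nat.card (H.map δ) ≤ p * Nat.card (N.map δ) := by
      obtain ⟨⟨_, x, hx, rfl⟩, hg⟩ := IsCyclic.exists_generator (α := H.map δ)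
      have h1 : orderOf (δ x) = Nat.card (H.map δ) := by
        rw [← orderOf_eq_card_of_forall_mem_zpowers hg]
        exact (Subgroup.orderOf_mk _ _).symm
      have h2 : zpowers (δ x ^ p) ≤ N.map δ := by
        rw [zpowers_le]
        exact ⟨x ^ p, hq x hx, map_pow δ x p⟩
      have h3 := card_le_of_le h2
      rw [Nat.card_zpowers] at h3
      have h4 : orderOf (δ x) ∣ p * orderOf (δ x ^ p) := by
        rw [orderOf_dvd_iff_pow_eq_one, pow_mul, pow_orderOf_eq_one]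
      have h5 : 0 < orderOf (δ x ^ p) := by
        rw [← map_pow]
        exact (δ.isOfFinOrder (isOfFinOrder_of_finite (x ^ p))).orderOf_pos
      rw [← h1]
      exact (Nat.le_of_dvd (Nat.mul_pos hp.pos h5) h4).trans (Nat.mul_le_mul_left p h3)
    rw [card_eq_inf_ker_mul δ H, card_eq_inf_ker_mul δ N] at hcard
    have h6 := hcard.trans (Nat.mul_le_mul_left _ key)
    have h7 : 0 < p * Nat.card (N.map δ) := Nat.mul_pos hp.pos Nat.card_pos
    refine Nat.le_of_mul_le_mul_right ?_ h7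
    calc p ^ k * Nat.card (N ⊓ δ.ker : Subgroup G) * (p * Nat.card (N.map δ))
        = p ^ (k + 1) * (Nat.card (N ⊓ δ.ker : Subgroup G) * Nat.card (N.map δ)) := by ring
      _ ≤ _ := h6

theorem rk_one {x : G} (hx : x ∈ D) (h : orderOf x = p) : Rk p 1 D := by
  refine ⟨zpowers x, ⊥, zpowers_le.2 hx, bot_le, ?_, ?_, ?_⟩
  · rintro _ ⟨a, rfl⟩ _ ⟨b, rfl⟩
    rw [mem_bot, commutatorElement_eq_one_iff_commute]
    exact (Commute.refl x).zpow_zpow a b
  · rintro _ ⟨a, rfl⟩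
    rw [mem_bot, ← zpow_natCast, ← zpow_mul, mul_comm, zpow_mul, zpow_natCast, ← h,
      pow_orderOf_eq_one, one_zpow]
  · simp [Nat.card_zpowers, h]

private theorem two_mul_card_le {N K : Subgroup G} (h : N ≤ K) {x : G} (hx : x ∈ K) (hn : x ∉ N) :
    2 * Nat.card N ≤ Nat.card K := by
  obtain ⟨c, hc⟩ := card_dvd_of_le h
  have h0 : c ≠ 0 := by
    rintro rfl
    exact (Nat.card_pos (α := K)).ne' (by simpa using hc)
  have h1 : c ≠ 1 := by
    rintro rfl
    have := eq_of_le_of_card_ge h (by omega)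
    exact hn (this ▸ hx)
  rw [hc, mul_comm 2]
  exact Nat.mul_le_mul_left _ (by omega)

/-- A section whose squares lie in the bottom group is elementary abelian. -/
theorem rk_of_sq {H N : Subgroup G} (hH : H ≤ D) (hN : N ≤ H) (hsq : ∀ x ∈ H, x ^ 2 ∈ N)
    (hc : 2 ^ k * Nat.card N ≤ Nat.card H) : Rk 2 k D := by
  refine ⟨H, N, hH, hN, fun x hx y hy => ?_, hsq, hc⟩
  have : ⁅x, y⁆ = x ^ 2 * (x⁻¹ * y) ^ 2 * (y ^ 2)⁻¹ := by
    rw [commutatorElement_def]; simp only [sq]; group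
  rw [this]
  exact mul_mem (mul_mem (hsq x hx) (hsq _ (mul_mem (inv_mem hx) hy))) (inv_mem (hsq y hy))

/-- Elements commuting with `z` and moving `g` only by a factor `z`. -/
private def nearC (z g : G) (hz : z * z = 1) : Subgroup G where
  carrier := {x | x * z = z * x ∧ (x * g * x⁻¹ = g ∨ x * g * x⁻¹ = g * z)}
  one_mem' := by simp
  mul_mem' := by
    rintro x y ⟨hx, hx'⟩ ⟨hy, hy'⟩
    have hxz : x * z * x⁻¹ = z := by rw [hx]; group
    refine ⟨by rw [mul_assoc, hy, ← mul_assoc, hx, mul_assoc], ?_⟩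
    have e : x * y * g * (x * y)⁻¹ = x * (y * g * y⁻¹) * x⁻¹ := by group
    have e' : x * (g * z) * x⁻¹ = (x * g * x⁻¹) * (x * z * x⁻¹) := by group
    rw [e]
    rcases hy' with h | h <;> rw [h]
    · exact hx'
    · rw [e', hxz]
      rcases hx' with h' | h' <;> rw [h']
      · exact Or.inr rfl
      · exact Or.inl (by rw [mul_assoc, hz, mul_one])
  inv_mem' := by
    rintro x ⟨hx, hx'⟩
    have hc : Commute x z := hx
    refine ⟨hc.inv_left, ?_⟩
    rcases hx' with h | h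
    · left
      conv_lhs => rw [← h]
      group
    · right
      have h2 : g = x * g * x⁻¹ * z := by rw [h, mul_assoc, hz, mul_one]
      have h3 : x⁻¹ * z * x = z := by rw [hc.inv_left.eq]; group
      conv_lhs => rw [h2]
      calc x⁻¹ * (x * g * x⁻¹ * z) * x⁻¹⁻¹ = g * (x⁻¹ * z * x) := by group
        _ = g * z := by rw [h3]

private theorem sq_mem_of_nearC {z g x : G} {hz : z * z = 1} (hx : x ∈ nearC z g hz) :
    x ^ 2 ∈ centralizer {g} := by
  obtain ⟨hx, hx'⟩ := hx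
  have hxz : x * z * x⁻¹ = z := by rw [hx]; group
  have e : x ^ 2 * g * (x ^ 2)⁻¹ = x * (x * g * x⁻¹) * x⁻¹ := by rw [sq]; group
  have e' : x * (g * z) * x⁻¹ = (x * g * x⁻¹) * (x * z * x⁻¹) := by group
  rw [mem_centralizer_singleton_iff, ← mul_inv_eq_iff_eq_mul, e]
  rcases hx' with h | h
  · rw [h, h]
  · rw [h, e', hxz, h, mul_assoc, hz, mul_one]

theorem rk_two {i s : G} (hi : i ∈ D) (hs : s ∈ D) (h4 : orderOf i = 4) (h : s * i * s⁻¹ = i⁻¹) :
    Rk 2 2 D := by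
  have hi4 : i ^ 4 = 1 := by rw [← h4, pow_orderOf_eq_one]
  have hi2 : i ^ 2 ≠ 1 := fun h2 => by
    have := orderOf_dvd_of_pow_eq_one h2
    rw [h4] at this
    omega
  have hz : (i * i) * (i * i) = 1 := by rw [← hi4]; simp only [pow_succ, pow_zero, one_mul, mul_assoc]
  have hinv : i⁻¹ = i * (i * i) := by
    rw [inv_eq_iff_mul_eq_one, ← hz]; simp only [mul_assoc]
  have hsz : s * (i * i) = (i * i) * s := by
    have e : s * (i * i) * s⁻¹ = (s * i * s⁻¹) * (s * i * s⁻¹) := by group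
    rw [← mul_inv_eq_iff_eq_mul, e, h, ← mul_inv_rev, inv_eq_iff_mul_eq_one, hz]
  have hns : ¬ s * i = i * s := fun hc => hi2 (by
    have : i⁻¹ = i := by rw [← h, hc]; group
    rw [sq]
    nth_rewrite 1 [← this]
    exact inv_mul_cancel i)
  have his : i * s * i⁻¹ = s * (i * i) := by
    have e : i * s * i⁻¹ = i * (s * i * s⁻¹) * s * (i * i)⁻¹ := by group
    rw [e, h, inv_eq_of_mul_eq_one_right hz, mul_inv_cancel, one_mul]
  let H : Subgroup G := D ⊓ nearC (i * i) i hz ⊓ nearC (i * i) s hz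
  have hiH : i ∈ H := ⟨⟨hi, by group, Or.inl (by group)⟩, by group, Or.inr his⟩
  have hsH : s ∈ H := ⟨⟨hs, hsz, Or.inr (h.trans hinv)⟩, hsz, Or.inl (by group)⟩
  refine rk_of_sq (H := H) (N := H ⊓ centralizer {i} ⊓ centralizer {s})
    (fun x hx => hx.1.1) (fun x hx => hx.1.1) (fun x hx => ⟨⟨pow_mem hx 2, sq_mem_of_nearC hx.1.2⟩,
      sq_mem_of_nearC hx.2⟩) ?_
  have h1 : 2 * Nat.card (H ⊓ centralizer {i} ⊓ centralizer {s} : Subgroup G) ≤
      Nat.card (H ⊓ centralizer {i} : Subgroup G) :=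
    two_mul_card_le inf_le_left (x := i) ⟨hiH, mem_centralizer_singleton_iff.2 rfl⟩
      fun hh => hns (mem_centralizer_singleton_iff.1 hh.2).symm
  have h2 : 2 * Nat.card (H ⊓ centralizer {i} : Subgroup G) ≤ Nat.card H :=
    two_mul_card_le inf_le_left hsH fun hh => hns (mem_centralizer_singleton_iff.1 hh.2)
  omega

/-- The central product `C₄ ∘ D₈`. -/
private theorem rk_pauli {c d t : G} (hc : c ∈ D) (hd : d ∈ D) (ht : t ∈ D) (hcd : Commute c d)
    (hct : Commute c t) (hd2 : d ^ 2 = 1) (ht2 : t * t = 1) (htd : t * d * t = c ^ 2 * d)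
    (hc2 : c ∉ zpowers (c ^ 2)) (hdc : d ∉ zpowers c) (hn : ¬ Commute t d) : Rk 2 3 D := by
  have hti : t⁻¹ = t := inv_eq_of_mul_eq_one_right ht2
  let H₀ : Subgroup G :=
    { carrier := {y | ∃ α β : ℤ, y = c ^ α * d ^ β}
      one_mem' := ⟨0, 0, by simp⟩
      mul_mem' := by
        rintro _ _ ⟨α, β, rfl⟩ ⟨γ, δ, rfl⟩
        refine ⟨α + γ, β + δ, ?_⟩
        rw [zpow_add, zpow_add]
        exact (hcd.zpow_zpow γ β).symm.mul_mul_mul_comm _ _
      inv_mem' := by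
        rintro _ ⟨α, β, rfl⟩
        exact ⟨-α, -β, by rw [mul_inv_rev, ← zpow_neg, ← zpow_neg, (hcd.zpow_zpow _ _).eq]⟩ }
  have hconj : ∀ α β : ℤ, t * (c ^ α * d ^ β) * t = c ^ (α + 2 * β) * d ^ β := by
    intro α β
    have e1 : t * d ^ β * t = (c ^ 2 * d) ^ β := by
      have e0 := conj_zpow (i := β) (a := t) (b := d)
      rw [hti, htd] at e0
      exact e0.symm
    rw [← mul_assoc, ← (hct.zpow_left α).eq, mul_assoc, mul_assoc, ← mul_assoc t, e1,
      (hcd.pow_left 2).mul_zpow, ← mul_assoc, zpow_add, zpow_mul, zpow_two, sq]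
  have hH₀t : ∀ y ∈ H₀, t * y * t ∈ H₀ := by
    rintro _ ⟨α, β, rfl⟩
    exact ⟨_, _, hconj α β⟩
  let H : Subgroup G :=
    { carrier := {x | x ∈ H₀ ∨ x * t ∈ H₀}
      one_mem' := Or.inl H₀.one_mem
      mul_mem' := by
        rintro x y (hx | hx) (hy | hy)
        · exact Or.inl (mul_mem hx hy)
        · exact Or.inr (by rw [mul_assoc]; exact mul_mem hx hy)
        · refine Or.inr ?_
          have : x * y * t = x * t * (t * y * t) := by
            rw [← mul_assoc, ← mul_assoc, mul_assoc x t t, ht2, mul_one]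
          rw [this]
          exact mul_mem hx (hH₀t y hy)
        · refine Or.inl ?_
          have : x * y = x * t * (t * (y * t) * t) := by
            rw [mul_assoc t, mul_assoc y, ht2, mul_one, ← mul_assoc, mul_assoc x t t, ht2, mul_one]
          rw [this]
          exact mul_mem hx (hH₀t _ hy)
      inv_mem' := by
        rintro x (hx | hx)
        · exact Or.inl (inv_mem hx)
        · refine Or.inr ?_
          have : x⁻¹ * t = t * (x * t)⁻¹ * t := by
            rw [mul_inv_rev, hti, ← mul_assoc t t, ht2, one_mul]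
          rw [this]
          exact hH₀t _ (inv_mem hx) }
  have hcH : zpowers c ≤ H₀ := zpowers_le.2 ⟨1, 0, by simp⟩
  have hNc : zpowers (c ^ 2) ≤ zpowers c := zpowers_le.2 (pow_mem (mem_zpowers c) 2)
  have hH₀H : H₀ ≤ H := fun x hx => Or.inl hx
  have hH₀D : H₀ ≤ D := by
    rintro _ ⟨α, β, rfl⟩
    exact mul_mem (zpow_mem hc _) (zpow_mem hd _)
  have hdd : ∀ β : ℤ, d ^ β * d ^ β = 1 := fun β => by
    rw [← (Commute.refl d).mul_zpow, ← sq, hd2, one_zpow]
  have hprod : ∀ α β γ : ℤ, c ^ α * d ^ β * (c ^ γ * d ^ β) = c ^ (α + γ) := fun α β γ => by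
    rw [(hcd.zpow_zpow γ β).symm.mul_mul_mul_comm, hdd, mul_one, zpow_add]
  refine rk_of_sq (H := H) (N := zpowers (c ^ 2)) ?_ (hNc.trans (hcH.trans hH₀H)) ?_ ?_
  · rintro x (hx | hx)
    · exact hH₀D hx
    · have := mul_mem (hH₀D hx) ht
      rwa [mul_assoc, ht2, mul_one] at this
  · rintro x (⟨α, β, rfl⟩ | ⟨α, β, hx⟩)
    · refine ⟨α, ?_⟩
      change (c ^ 2) ^ α = _
      rw [sq (c ^ α * d ^ β), hprod, ← zpow_natCast, ← zpow_mul]
      congr 1; push_cast; ring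
    · have hx' : x = c ^ α * d ^ β * t := by rw [← hx, mul_assoc, ht2, mul_one]
      refine ⟨α + β, ?_⟩
      change (c ^ 2) ^ (α + β) = _
      rw [hx', sq (c ^ α * d ^ β * t), mul_assoc _ t, ← mul_assoc t, hconj, hprod, ← zpow_natCast,
        ← zpow_mul]
      congr 1; push_cast; ring
  · have h1 := two_mul_card_le hNc (mem_zpowers c) hc2
    have h2 := two_mul_card_le hcH (x := d) ⟨0, 1, by simp⟩ hdc
    have h3 := two_mul_card_le hH₀H (x := t) (Or.inr (by rw [ht2]; exact H₀.one_mem)) (by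
      rintro ⟨α, β, rfl⟩
      exact hn ((hcd.zpow_left α).mul_left ((Commute.refl d).zpow_left β)))
    omega

theorem rk_three {a b s : G} (ha : a ∈ D) (hs : s ∈ D) {j : ℕ} (hj : 2 ≤ j)
    (ho : orderOf a = 2 ^ j) (hab : Commute a b) (h₁ : s * a * s⁻¹ = b) (h₂ : s * b * s⁻¹ = a)
    (hd : zpowers a ⊓ zpowers b = ⊥) (hs2 : s ^ 2 ∈ zpowers a ⊔ zpowers b) : Rk 2 3 D := by
  have hb : b ∈ D := h₁ ▸ mul_mem (mul_mem hs ha) (inv_mem hs)
  have hdis : ∀ m n : ℤ, a ^ m = b ^ n → a ^ m = 1 := fun m n h => by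
    have : a ^ m ∈ zpowers a ⊓ zpowers b := ⟨⟨m, rfl⟩, ⟨n, h.symm⟩⟩
    rwa [hd, mem_bot] at this
  have hsa : ∀ m : ℤ, s * a ^ m * s⁻¹ = b ^ m := fun m => by rw [← h₁, conj_zpow]
  have hsb : ∀ m : ℤ, s * b ^ m * s⁻¹ = a ^ m := fun m => by rw [← h₂, conj_zpow]
  obtain ⟨u, v, huv⟩ : ∃ u v : ℤ, s ^ 2 = a ^ u * b ^ v := by
    rw [zpowers_eq_closure, zpowers_eq_closure, ← Subgroup.closure_union] at hs2
    refine closure_induction (p := fun x _ => ∃ u v : ℤ, x = a ^ u * b ^ v) ?_ ⟨0, 0, by simp⟩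
      ?_ ?_ hs2
    · rintro x (rfl | rfl)
      · exact ⟨1, 0, by simp⟩
      · exact ⟨0, 1, by simp⟩
    · rintro _ _ _ _ ⟨α, β, rfl⟩ ⟨γ, δ, rfl⟩
      refine ⟨α + γ, β + δ, ?_⟩
      rw [zpow_add, zpow_add]
      exact (hab.zpow_zpow γ β).symm.mul_mul_mul_comm _ _
    · rintro _ _ ⟨α, β, rfl⟩
      exact ⟨-α, -β, by rw [mul_inv_rev, ← zpow_neg, ← zpow_neg, (hab.zpow_zpow _ _).eq]⟩
  have huv2 : b ^ v = b ^ u := by
    have e1 : s * s ^ 2 * s⁻¹ = s ^ 2 := by group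
    have e2 : s * (a ^ u * b ^ v) * s⁻¹ = (s * a ^ u * s⁻¹) * (s * b ^ v * s⁻¹) := by group
    rw [huv, e2, hsa, hsb, (hab.zpow_zpow v u).symm.eq] at e1
    have e3 : a ^ (v - u) = b ^ (v - u) := by
      calc a ^ (v - u) = (a ^ u)⁻¹ * (a ^ v * b ^ u) * (b ^ u)⁻¹ := by group
        _ = b ^ (v - u) := by rw [e1]; group
    have e4 := hdis _ _ e3
    rw [e3, zpow_sub, mul_inv_eq_one] at e4
    exact e4
  set t := s * (a ^ u)⁻¹ with htdef
  have ht2 : t * t = 1 := by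
    calc t * t = (s * a ^ u * s⁻¹)⁻¹ * s ^ 2 * (a ^ u)⁻¹ := by rw [htdef]; group
      _ = 1 := by rw [hsa, huv, huv2, (hab.zpow_zpow u u).eq]; group
  have hti : t⁻¹ = t := inv_eq_of_mul_eq_one_right ht2
  have hta : ∀ m : ℤ, t * a ^ m * t = b ^ m := fun m => by
    nth_rewrite 2 [← hti]
    rw [← hsa, htdef]; group
  have htb : ∀ m : ℤ, t * b ^ m * t = a ^ m := fun m => by
    rw [← hta m]
    calc t * (t * a ^ m * t) * t = (t * t) * a ^ m * (t * t) := by group
      _ = a ^ m := by rw [ht2, one_mul, mul_one]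
  obtain ⟨j, rfl⟩ := Nat.exists_eq_add_of_le hj
  set r : ℤ := 2 ^ j with hr
  have hr0 : r ≠ 0 := by positivity
  have hord : ∀ m : ℤ, a ^ (r * m) = 1 ↔ 4 ∣ m := fun m => by
    rw [← orderOf_dvd_iff_zpow_eq_one, ho]
    push_cast
    rw [pow_add, ← hr, mul_comm, mul_dvd_mul_iff_left hr0]
    norm_num
  have hordb : ∀ m : ℤ, b ^ (r * m) = 1 ↔ 4 ∣ m := fun m => by
    rw [← hord, ← hsa, mul_inv_eq_one, mul_eq_left]
  have hcz : ∀ m : ℤ, (a ^ r * b ^ r) ^ m = a ^ (r * m) * b ^ (r * m) := fun m => by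
    rw [(hab.zpow_zpow r r).mul_zpow, ← zpow_mul, ← zpow_mul]
  have hc2 : (a ^ r * b ^ r) ^ 2 = a ^ (r * 2) * b ^ (r * 2) := by
    rw [← hcz, zpow_two, sq]
  refine rk_pauli (c := a ^ r * b ^ r) (d := a ^ (r * 2)) (t := t)
    (mul_mem (zpow_mem ha _) (zpow_mem hb _)) (zpow_mem ha _)
    (mul_mem hs (inv_mem (zpow_mem ha _))) ?_ ?_ ?_ ht2 ?_ ?_ ?_ ?_
  · exact ((Commute.refl a).zpow_zpow _ _).mul_left (hab.symm.zpow_zpow _ _)
  · have e : t * (a ^ r * b ^ r) * t = (t * a ^ r * t) * (t * b ^ r * t) := by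
      calc t * (a ^ r * b ^ r) * t = t * a ^ r * (t * t) * b ^ r * t := by rw [ht2]; group
        _ = _ := by group
    rw [hta, htb, (hab.zpow_zpow r r).symm.eq] at e
    change _ * t = t * _
    calc a ^ r * b ^ r * t = t * (a ^ r * b ^ r) * (t * t) := by rw [← mul_assoc _ t t, e]
      _ = _ := by rw [ht2, mul_one]
  · rw [← zpow_natCast, ← zpow_mul, mul_assoc]
    exact (hord _).2 (by norm_num)
  · rw [hta, hc2, (hab.zpow_zpow _ _).eq, mul_assoc, ← zpow_add, ← mul_add, (hord _).2 (by norm_num),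
      mul_one]
  · rintro ⟨m, hm⟩
    change ((a ^ r * b ^ r) ^ 2) ^ m = _ at hm
    rw [← zpow_natCast, ← zpow_mul, hcz] at hm
    have e : a ^ (r * (2 * m - 1)) = b ^ (r * (1 - 2 * m)) := by
      calc a ^ (r * (2 * m - 1)) = (a ^ r)⁻¹ * (a ^ (r * (((2 : ℕ) : ℤ) * m)) *
            b ^ (r * (((2 : ℕ) : ℤ) * m))) * (b ^ (r * (2 * m)))⁻¹ := by push_cast; group
        _ = _ := by rw [hm]; group
    have := (hord _).1 (hdis _ _ e)
    omega
  · rintro ⟨m, hm⟩
    change (a ^ r * b ^ r) ^ m = _ at hm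
    rw [hcz] at hm
    have e : a ^ (r * (2 - m)) = b ^ (r * m) := by
      calc a ^ (r * (2 - m)) = (a ^ (r * m))⁻¹ * a ^ (r * 2) := by group
        _ = _ := by rw [← hm]; group
    have h3 := hdis _ _ e
    have h4 := (hord _).1 h3
    rw [e] at h3
    have h5 := (hordb _).1 h3
    omega
  · intro hc
    have e := hta (r * 2)
    rw [hc.eq, mul_assoc, ht2, mul_one] at e
    have := (hord _).1 (hdis _ _ e)
    omega

end Cfsg.Gln

set_option linter.all false in
theorem Cfsg.Rz.Gln_Rk_0 : True := by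
  have := @_root_.Cfsg.Gln.Rk.eq_def.{0}
  have := @_root_.Cfsg.Gln.Rk.eq_1.{0}
  have := @_root_.Cfsg.Gln.Rk.fun_cases
  trivial
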