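import Cfsg.Agent.Gln.Step
import Cfsg.Agent.Gln.Rk

/-!
# Lower bounds for the sectional rank of defect groups of `GL_n(q)` (S4536 project)

`pc_one`: `exists_dnl`, `nonempty_piece_ee`, `exists_irr` on `Fin n₂ → F` (`n₂ = size (dnl ..)`, `size_dnl`), `Piece.induces`,
`isDefectGroup_prod`, `Induces.exists_isDefectGroup_ge`; `D ⊓ ker ≥ ((Q ⊓ ker') × (D₂ ⊓ ker)).map step` (`dt_blkHom`),
`Rk.prod`, `Rk.map`, `rk_one` with `x = scal (ζ^(M/p))`: `det x` is a `p`-element of `Fˣ` (trivial if `p ∤ q-1`); for `p = 2`,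
`x = -1` on a space of even `F`-dimension.
`pc_two` (`ee = 1`): two steps with the same piece (space `W`), `induces_prodMap` (with the identity induction on the first
factor), `induces_prodAssoc`, `Induces.trans`; the composite `(H × H) × G₂ → G` is
`(stepHom e'').comp (j.prodMap id)` with `G₁ = GLV K (W × W)`, `j = stepHom (F := K) (F' := K) (refl)`,
`e'' : (W × W) × V₂ ≃ V`; `exists_loc` with `Q × Q`, `s` the swap, `σ = prodComm`, `θ.prod θ` (`mem_range_stepHom` over `K`);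
`rk_three` with `a = j (ζ, 1)`, `b = j (1, ζ)`, `4 ∣ q - 1 ∣ q^d - 1`.
`pc_three` (`ee = 1`, `wtc = sz` by `wt_one`): replace `a φ` by a one-row beta-set (`exists_row`; `RegLab.sameCls_iff`,
`sameBlock_of_sameCls`); piece with `j = 2` (`nonempty_piece`: `8 ∣ M`, `q^d ≡ 3 mod 4`), `[K:F] = 2` since
`M = (q^2-1)_2`, `m = d` odd.  `exists_loc` with `G₁ = GLV F W`, `j = rsHom F`, `g = blkHom e`, `s` = coordinatewise
Frobenius (`centralizer_rsHom_scal`); `θ (σ c) = θ c` for `2`-regular `c`: `tau_P`, `tau_cls` for `ζ` and `ζ^q` give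
`± 2 θ c = res (P F (2d) a) (rsHom (ζ c))` (`P K m (a^q) = P K m a` as `a^q = a^((q^2)^((d+1)/2))`), and
`rsHom (ζ^q σ c) = s rsHom (ζ c) s⁻¹`.  `det s' = ± 1`, `det (scal ζ) = N(ζ)^m = -1` (`dt_rsHom_scal`), so `s'` or `s' ζ` has
determinant `1` and inverts `i = scal (ζ^(M/4))`, `det i = (i^(q+1))^m = 1`; `rk_two`.
-/

set_option autoImplicit false
set_option linter.unusedSectionVars false
set_option linter.unusedVariables false
set_option linter.style.haveILetI false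

namespace Cfsg.Gln

open Module Finset Function Subgroup

universe u v

variable {F : Type u} [Field F] [Finite F] {k : Type v} [Field k] [Algebra F k] [IsAlgClosed k]
  [Algebra.IsAlgebraic F k] {R N n p j : ℕ} [NeZero R] {M : Ideal AlgInt}

variable (p M) in
/-- Some defect group of the block of `χ` meets `ker (δ ∘ det)` in a group of sectional rank `≥ t`. -/
def RkB (δ : Fˣ →* Fˣ) (t : ℕ) (χ : IrrCharacter (GLV F (Fin n → F))) : Prop :=
  ∃ D, IsDefectGroup p M (blockOf M χ.1) D ∧ Rk p t (D ⊓ (δ.comp dt).ker)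

variable (N p M) in
/-- Weight `j` at colour `φ` contributes `t` to the rank. -/
def Pc (δ : Fˣ →* Fˣ) (φ : Col F k R) (j t : ℕ) : Prop :=
  ∀ n ≤ N, ∀ (χ : IrrCharacter (GLV F (Fin n → F))) (a : Col F k R → Fin N → ℕ), IsLab χ a →
    RegLab p a → j ≤ wtc p a φ → ∃ n₂ < n, ∃ (ψ : IrrCharacter (GLV F (Fin n₂ → F)))
      (b : Col F k R → Fin N → ℕ), IsLab ψ b ∧ RegLab p b ∧ wtc p b φ + j = wtc p a φ ∧
      (∀ φ', φ' ≠ φ → b φ' = a φ') ∧ ∀ t', RkB p M δ t' ψ → RkB p M δ (t + t') χ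

theorem rk_blk {V V₁ V₂ : Type*} [AddCommGroup V] [Module F V] [Finite V] [AddCommGroup V₁]
    [Module F V₁] [Finite V₁] [AddCommGroup V₂] [Module F V₂] [Finite V₂] (e : (V₁ × V₂) ≃ₗ[F] V)
    {δ : Fˣ →* Fˣ} {X : Subgroup (GLV F V₁)} {Y : Subgroup (GLV F V₂)} {D : Subgroup (GLV F V)}
    (h : (X.prod Y).map (blkHom e) ≤ D) {t t' : ℕ} (h₁ : Rk p t (X ⊓ (δ.comp dt).ker))
    (h₂ : Rk p t' (Y ⊓ (δ.comp dt).ker)) : Rk p (t + t') (D ⊓ (δ.comp dt).ker) := by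
  refine ((h₁.prod h₂).map (blkHom_injective e)).mono ?_
  rintro _ ⟨⟨x, y⟩, ⟨hx, hy⟩, rfl⟩
  refine ⟨h ⟨(x, y), ⟨hx.1, hy.1⟩, rfl⟩, ?_⟩
  have h1 : δ (dt x) = 1 := hx.2
  have h2 : δ (dt y) = 1 := hy.2
  change δ (dt (blkHom e (x, y))) = 1
  rw [dt_blkHom, map_mul, h1, h2, mul_one]

theorem map_stepHom {K V V₁ V₂ : Type*} [Field K] [Finite K] [Algebra F K] [AddCommGroup V]
    [Module F V] [Finite V] [AddCommGroup V₁] [Module F V₁] [Module K V₁] [IsScalarTower F K V₁]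
    [Finite V₁] [AddCommGroup V₂] [Module F V₂] [Finite V₂] (e : (V₁ × V₂) ≃ₗ[F] V)
    (X : Subgroup (GLV K V₁)) (Y : Subgroup (GLV F V₂)) :
    ((X.map (rsHom F)).prod Y).map (blkHom e) ≤ (X.prod Y).map (stepHom e) := by
  rintro _ ⟨⟨_, y⟩, ⟨⟨x, hx, rfl⟩, hy⟩, rfl⟩
  exact ⟨(x, y), ⟨hx, hy⟩, rfl⟩

theorem RkB.pred (hp : p.Prime) {t : ℕ} {χ : IrrCharacter (GLV F (Fin n → F))}
    (h : RkB p M 1 t χ) : RkB p M (MonoidHom.id _) (t - 1) χ := by
  obtain ⟨D, hD, h⟩ := h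
  refine ⟨D, hD, ?_⟩
  rcases t with _ | t
  · exact rk_zero
  · exact (h.mono inf_le_left).inf_ker hp _

theorem rk_of_pc (hM : IsPModular p M) {δ : Fˣ →* Fˣ} {j t : Col F k R → ℕ} (hj : ∀ φ, 0 < j φ)
    (H : ∀ φ, Pc N p M δ φ (j φ) (t φ)) (hn : n ≤ N) {χ : IrrCharacter (GLV F (Fin n → F))}
    {a : Col F k R → Fin N → ℕ} (h : IsLab χ a) (ha : RegLab p a) :
    RkB p M δ (∑ φ, wtc p a φ / j φ * t φ) χ := by
  classical
  induction n using Nat.strong_induction_on generalizing a with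
  | _ n ih =>
  by_cases hw : ∃ φ, j φ ≤ wtc p a φ
  · obtain ⟨φ, hφ⟩ := hw
    obtain ⟨n₂, hlt, ψ, b, hb, hb', e₁, e₂, e₃⟩ := H φ n hn χ a h ha hφ
    have key : ∑ φ', wtc p a φ' / j φ' * t φ' = t φ + ∑ φ', wtc p b φ' / j φ' * t φ' := by
      rw [← add_sum_erase _ _ (mem_univ φ), ← add_sum_erase _ _ (mem_univ φ), ← e₁,
        Nat.add_div_right _ (hj φ), add_mul, one_mul, add_comm _ (t φ), add_assoc]
      congr 2
      exact sum_congr rfl fun φ' h' => by rw [wtc, wtc, e₂ φ' (ne_of_mem_erase h')]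
    rw [key]
    exact e₃ _ (ih n₂ hlt (hlt.le.trans hn) hb hb')
  · push Not at hw
    rw [sum_eq_zero fun φ _ => by rw [Nat.div_eq_of_lt (hw φ), zero_mul]]
    have := hM.fact
    obtain ⟨D, hD⟩ := (isPBlock_blockOf χ).exists_isDefectGroup hM
    exact ⟨D, hD, rk_zero⟩

variable (hP : Par (Nat.card F) R N) (hM : IsPModular p M) (hpF : (p : F) ≠ 0)
include hP hM hpF

omit hP hM hpF in
theorem le_of_step {χ : IrrCharacter (GLV F (Fin n → F))} {a : Col F k R → Fin N → ℕ}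
    (h : IsLab χ a) (hn : n ≤ N) {φ : Col F k R} {i : Fin N} (hi : j ≤ a φ i)
    (hg : Good (dnl a φ i j)) : φ.deg * j ≤ N := by
  have h1 := size_dnl hi hg
  rw [h.2.1, finrank_fin_fun] at h1
  omega

omit hP hM hpF in
theorem Piece.ne_zero {φ : Col F k R} (π : Piece p φ j) : Nat.card F ^ (φ.deg * j) - 1 ≠ 0 := by
  intro h0
  have := π.ord
  rw [h0, Nat.factorization_zero, Finsupp.zero_apply, pow_zero, orderOf_eq_one_iff] at this
  exact π.ne_one this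

omit hP hM hpF in
theorem Piece.exists_pow {φ : Col F k R} (π : Piece p φ j) (hp : p.Prime) {t : ℕ}
    (h : p ^ t ∣ Nat.card F ^ (φ.deg * j) - 1) :
    ∃ z : π.Kˣ, scal π.W z ∈ π.Q ∧ orderOf z = p ^ t := by
  have h1 : p ^ t ∣ orderOf π.ζ := by
    rw [π.ord]
    exact pow_dvd_pow p ((hp.pow_dvd_iff_le_factorization π.ne_zero).1 h)
  exact ⟨π.ζ ^ (orderOf π.ζ / p ^ t), by rw [map_pow]; exact pow_mem (mem_zpowers _) _,
    orderOf_pow_orderOf_div (orderOf_pos _).ne' h1⟩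

omit hM in
theorem Piece.nontrivial {φ : Col F k R} (π : Piece p φ j) (hp : p.Prime) : Nontrivial π.W := by
  have : Nonempty (Fin π.m) := ⟨⟨0, π.m_pos hP hp hpF⟩⟩
  infer_instance

theorem Piece.exists_step {φ : Col F k R} (π : Piece p φ j) (hn : n ≤ N)
    {χ : IrrCharacter (GLV F (Fin n → F))} {a : Col F k R → Fin N → ℕ} (h : IsLab χ a)
    (ha : RegLab p a) {i : Fin N} (hi : j ≤ a φ i) (hg : Good (dnl a φ i j)) :
    ∃ n₂ < n, ∃ (ψ : IrrCharacter (GLV F (Fin n₂ → F))) (e : (π.W × (Fin n₂ → F)) ≃ₗ[F] (Fin n → F)),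
      IsLab ψ (dnl a φ i j) ∧ Induces M (stepHom e : GLV π.K π.W × GLV F _ →* GLV F _)
        (prodBlock (blockOf M π.θ.1) (blockOf M ψ.1)) (blockOf M χ.1) := by
  have h1 := size_dnl hi hg
  rw [h.2.1, finrank_fin_fun] at h1
  have h2 := Nat.mul_pos (deg_pos hP φ) π.pos
  obtain ⟨ψ, hψ⟩ := exists_irr (V := Fin (size (dnl a φ i j)) → F) hP
    (by rw [finrank_fin_fun]; omega) hg (finrank_fin_fun F).symm
  obtain ⟨e⟩ := π.nonempty_equiv (V := Fin n → F) (V₂ := Fin (size (dnl a φ i j)) → F)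
    (by rw [finrank_fin_fun, finrank_fin_fun, h1])
  exact ⟨_, by omega, ψ, e, hψ, π.induces hP hM.prime hpF hM (by rwa [finrank_fin_fun]) e h ha hi hψ⟩

theorem pc_one {δ : Fˣ →* Fˣ} {φ : Col F k R}
    (h : δ = 1 ∨ ¬ p ∣ Nat.card F - 1 ∨ (p = 2 ∧ Even φ.deg)) : Pc N p M δ φ 1 1 := by
  intro n hn χ a ha hr hw
  have hp := hM.prime
  have := hM.fact
  obtain ⟨hφ, i, hi, hg, hw', hne, -⟩ := exists_dnl hP hp hpF hr ha.1 hw
  have hN : φ.deg * ee p φ ≤ N := le_of_step ha hn hi hg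
  obtain ⟨π⟩ := nonempty_piece_ee hP hp hpF hφ hN
  obtain ⟨n₂, hlt, ψ, e, hψ, hi'⟩ := π.exists_step hP hM hpF hn ha hr hi hg
  refine ⟨n₂, hlt, ψ, _, hψ, hr.dnl φ i _, hw', hne, fun t' ⟨D₂, hD₂, h₂⟩ => ?_⟩
  obtain ⟨D, hD, hle⟩ := hi'.exists_isDefectGroup_ge hM (isDefectGroup_prod hM (isPBlock_blockOf _)
    (isPBlock_blockOf _) (π.isDefectGroup hP hp hpF hN hM) hD₂)
  refine ⟨D, hD, rk_blk e ((map_stepHom e _ _).trans hle) ?_ h₂⟩
  obtain ⟨z, hz, ho⟩ := π.exists_pow hp (t := 1) ((pow_one p).symm ▸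
    (ee_dvd_iff hP hp hpF φ _).1 dvd_rfl)
  rw [pow_one] at ho
  have := π.nontrivial hP hpF hp
  have hz1 : z ^ p = 1 := orderOf_dvd_iff_pow_eq_one.1 ho.dvd
  refine rk_one (x := rsHom F (scal π.W z)) ⟨mem_map_of_mem _ hz, ?_⟩ (by
    rw [orderOf_injective _ rsHom_injective, orderOf_injective _ scal_injective, ho])
  change δ (dt (rsHom F (scal π.W z))) = 1
  rcases h with rfl | h | ⟨rfl, d, hd⟩
  · rfl
  · have h1 : dt (rsHom F (scal π.W z)) ^ p = 1 := by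
      rw [← map_pow, ← map_pow, ← map_pow, hz1, map_one, map_one, map_one]
    have h2 := orderOf_dvd_natCard (dt (rsHom F (scal π.W z)))
    rw [Nat.card_units] at h2
    rcases (Nat.dvd_prime hp).1 (orderOf_dvd_of_pow_eq_one h1) with h3 | h3
    · rw [orderOf_eq_one_iff.1 h3, map_one]
    · exact absurd (h3 ▸ h2) h
  · have h1 : (z : π.K) = algebraMap F π.K (-1) := by
      rw [map_neg, map_one]
      refine (sq_eq_one_iff.1 ?_).resolve_left fun h => ?_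
      · rw [← Units.val_pow_eq_pow_val, hz1, Units.val_one]
      · rw [Units.val_eq_one.1 h, orderOf_one] at ho
        omega
    have h2 : dt (rsHom F (scal π.W z)) = 1 := by
      ext
      rw [dt_rsHom_scal, h1, Algebra.norm_algebraMap, ← pow_mul, finrank_fin_fun, π.dim, hd,
        ← two_mul, mul_assoc, pow_mul, neg_one_sq, one_pow, Units.val_one]
    rw [h2, map_one]

section Two

variable {K V V₁ V₂ W : Type*} [Field K] [Finite K] [Algebra F K] [AddCommGroup V]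
  [Module F V] [Finite V] [AddCommGroup V₁] [Module F V₁] [Finite V₁] [AddCommGroup V₂] [Module F V₂]
  [Finite V₂] [AddCommGroup W] [Module F W] [Module K W] [IsScalarTower F K W] [Finite W]

omit hP hM hpF in
theorem exists_stepHom_comp (e₁ : (W × V₁) ≃ₗ[F] V) (e₂ : (W × V₂) ≃ₗ[F] V₁) :
    ∃ e : ((W × W) × V₂) ≃ₗ[F] V, (stepHom e₁ : GLV K W × _ →* _).comp
      (((MonoidHom.id _).prodMap (stepHom e₂ : GLV K W × _ →* _)).comp
        (MulEquiv.prodAssoc : (GLV K W × GLV K W) × GLV F V₂ ≃* _).toMonoidHom) =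
      (stepHom e).comp ((blkHom (LinearEquiv.refl K (W × W))).prodMap (MonoidHom.id _)) := by
  let e : ((W × W) × V₂) ≃ₗ[F] V :=
    (LinearEquiv.prodAssoc F _ _ _).trans (((LinearEquiv.refl F _).prodCongr e₂).trans e₁)
  refine ⟨e, MonoidHom.ext fun ⟨⟨x, y⟩, z⟩ => Units.ext (LinearMap.ext fun v => ?_)⟩
  obtain ⟨⟨⟨v₁, v₂⟩, v₃⟩, rfl⟩ := e.surjective v
  refine (blkHom_apply e₁ _ _ _ _).trans (Eq.trans ?_ (blkHom_apply e _ _ _ _).symm)
  exact congrArg (fun w => e₁ (_, w)) (blkHom_apply e₂ _ _ _ _)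

omit hP hM hpF in
theorem exists_rk_three [Nontrivial W] (hM : IsPModular 2 M) {ζ : Kˣ} {t : ℕ} (ht : 2 ≤ t)
    (ho : orderOf ζ = 2 ^ t) {θ : IrrCharacter (GLV K W)}
    (hQ : IsDefectGroup 2 M (blockOf M θ.1) (zpowers (scal W ζ))) {e₁ : (W × V₁) ≃ₗ[F] V}
    {e₂ : (W × V₂) ≃ₗ[F] V₁} {B B₁ B₂} (hi₁ : Induces M (stepHom e₁) (prodBlock (blockOf M θ.1) B₁) B)
    (hi₂ : Induces M (stepHom e₂) (prodBlock (blockOf M θ.1) B₂) B₁) (hB₂ : IsPBlock M B₂) {D₂}
    (hD₂ : IsDefectGroup 2 M B₂ D₂) : ∃ (e : ((W × W) × V₂) ≃ₗ[F] V) (X : Subgroup (GLV F (W × W)))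
      (D : _), IsDefectGroup 2 M B D ∧ (X.prod D₂).map (blkHom e) ≤ D ∧ Rk 2 3 X := by
  have := hM.fact
  have hb := isPBlock_blockOf (M := M) θ
  have hI := ((induces_prodAssoc hM hb hb hB₂).trans hM
    (induces_prodMap hM (induces_id hM hb) hi₂)).trans hM hi₁
  obtain ⟨e, he⟩ := exists_stepHom_comp (K := K) e₁ e₂
  rw [he, ← blockOf_prod hM] at hI
  set J : GLV K W × GLV K W →* GLV K (W × W) := blkHom (LinearEquiv.refl K (W × W)) with hJ
  set Q := zpowers (scal W ζ)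
  have h1 : ζ ≠ 1 := by
    rintro rfl
    rw [orderOf_one] at ho
    have := Nat.pow_le_pow_right two_pos ht
    omega
  let s : GLV K (W × W) := LinearMap.GeneralLinearGroup.ofLinearEquiv (LinearEquiv.prodComm _ _ _)
  have hs : ∀ c, J c.swap = s * J c * s⁻¹ := fun ⟨x, y⟩ => by
    rw [eq_mul_inv_iff_mul_eq]
    exact Units.ext (LinearMap.ext fun ⟨v, w⟩ => rfl)
  have hc : Q.prod Q ≤ center _ := by
    rintro ⟨_, _⟩ ⟨⟨u, rfl⟩, ⟨v, rfl⟩⟩
    exact mem_center_iff.2 fun ⟨x, y⟩ => Prod.ext (mem_center_iff.1 (zpow_mem (scal_mem_center _) u) x)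
      (mem_center_iff.1 (zpow_mem (scal_mem_center _) v) y)
  have hm₁ : (scal W ζ, 1) ∈ Q.prod Q := ⟨mem_zpowers _, one_mem _⟩
  have hm₂ : (1, scal W ζ) ∈ Q.prod Q := ⟨one_mem _, mem_zpowers _⟩
  obtain ⟨s', ⟨c, hc'⟩, hs', D, hD, hle⟩ := exists_loc hM (j := J) (blkHom_injective _) hc
    (fun g hg => (mem_range_stepHom (F := K) (LinearEquiv.refl K (W × W)) (Subsingleton.elim _ _)
      h1 g).2 (hg _ ⟨_, hm₁, rfl⟩)) MulEquiv.prodComm hs ⟨1, by
        rw [map_one, sq]; exact Units.ext (LinearMap.ext fun ⟨v, w⟩ => rfl)⟩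
    (θ := θ.prod θ) (fun c _ => by
      rw [IrrCharacter.prod_apply', IrrCharacter.prod_apply', mul_comm]; rfl)
    (by rw [blockOf_prod hM]; exact isDefectGroup_prod hM hb hb hQ hQ) hB₂ hD₂ hI
  refine ⟨e, _, D, hD, (map_stepHom e _ _).trans hle, Rk.map ?_ rsHom_injective⟩
  have hcj : ∀ x ∈ Q.prod Q, s' * J x * s'⁻¹ = J x.swap := fun x hx => by
    rw [hs, eq_mul_of_inv_mul_eq hc'.symm, mul_assoc s, ← map_mul, mem_center_iff.1 (hc hx) c, map_mul]
    group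
  refine rk_three (a := J (scal W ζ, 1)) (b := J (1, scal W ζ))
    (mem_sup_left (mem_map_of_mem _ hm₁)) (mem_sup_right (mem_zpowers s')) ht ?_ ?_ (hcj _ hm₁)
    (hcj _ hm₂) ?_ ?_
  · rw [orderOf_injective _ (blkHom_injective _), Prod.orderOf_mk, orderOf_one, Nat.lcm_one_right,
      orderOf_injective _ scal_injective, ho]
  · exact Commute.map (Prod.ext (by simp) (by simp)) J
  · refine eq_bot_iff.2 fun x ⟨⟨u, hu⟩, ⟨v, hv⟩⟩ => ?_
    have h1 := blkHom_injective _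
      ((map_zpow J _ u).trans (hu.trans (hv.symm.trans (map_zpow J _ v).symm)))
    have h2 : scal W ζ ^ u = 1 := by simpa using congrArg Prod.fst h1
    refine mem_bot.2 (hu.symm.trans ((map_zpow J _ u).symm.trans ?_))
    rw [Prod.pow_mk, h2, one_zpow]
    exact map_one J
  · obtain ⟨⟨_, _⟩, ⟨⟨u, rfl⟩, ⟨v, rfl⟩⟩, h⟩ := hs'
    have h1 : J (scal W ζ, 1) ^ u * J (1, scal W ζ) ^ v = s' ^ 2 := by
      rw [← h, ← map_zpow, ← map_zpow, ← map_mul]
      simp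
    exact h1 ▸ mul_mem_sup (zpow_mem (mem_zpowers _) u) (zpow_mem (mem_zpowers _) v)

omit hP hM hpF in
theorem exists_conj_equiv {C G : Type*} [Group C] [Finite C] [Group G] {j : C →* G}
    (hj : Injective j) {s : G} (h : ∀ c, s * j c * s⁻¹ ∈ j.range) :
    ∃ σ : C ≃* C, ∀ c, j (σ c) = s * j c * s⁻¹ := by
  choose τ hτ using h
  refine ⟨MulEquiv.ofBijective (MonoidHom.mk' τ fun a b => hj ?_)
    (Finite.injective_iff_bijective.1 fun a b h => hj ?_), hτ⟩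
  · rw [map_mul, hτ, hτ, hτ, map_mul]; group
  · simpa using (hτ a).symm.trans ((congrArg j h).trans (hτ b))

omit hP hM hpF in
theorem eq_neg_one_of_pow (hq : Nat.card F % 4 = 3) {x : Fˣ} {t : ℕ} (h : x ^ 2 ^ t = 1)
    (h1 : x ≠ 1) : x = -1 := by
  obtain ⟨i, -, hi⟩ := (Nat.dvd_prime_pow Nat.prime_two).1 (orderOf_dvd_of_pow_eq_one h)
  have h2 := orderOf_dvd_natCard x
  rw [Nat.card_units, hi] at h2
  have h3 : i ≤ 1 := by
    by_contra h3
    have := (pow_dvd_pow 2 (show 2 ≤ i by omega)).trans h2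
    omega
  have h4 : x ^ 2 = 1 := orderOf_dvd_iff_pow_eq_one.1 (hi ▸ pow_dvd_pow 2 h3)
  exact Units.ext ((sq_eq_one_iff.1 (congrArg Units.val h4)).resolve_left fun h => h1 (Units.ext h))

omit hP hM hpF in
theorem dt_scal_eq_one_iff (hK : finrank F K = 2) (c : Kˣ) :
    dt (rsHom F (scal W c)) = 1 ↔ orderOf c ∣ (Nat.card F + 1) * finrank K W := by
  have h1 : (Nat.card K - 1) / (Nat.card F - 1) = Nat.card F + 1 := by
    have := one_lt_card_F (F := F)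
    rw [card_eq_pow (F := F) (F' := K), hK, ← one_pow 2, Nat.sq_sub_sq, one_pow,
      Nat.mul_div_cancel _ (by omega)]
  rw [← Units.val_eq_one, dt_rsHom_scal, ← (algebraMap F K).injective.eq_iff, map_pow, map_one,
    FiniteField.algebraMap_norm_eq_pow, h1, ← pow_mul, orderOf_dvd_iff_pow_eq_one, ← Units.val_eq_one,
    Units.val_pow_eq_pow_val]

omit hP hM hpF in
theorem exists_rk_two [Nontrivial W] (hM : IsPModular 2 M) (hq : Nat.card F % 4 = 3)
    (hK : finrank F K = 2) (hm : Odd (finrank K W)) {ζ : Kˣ} (hζ : Algebra.adjoin F {(ζ : K)} = ⊤)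
    {t : ℕ} (ht : 2 ≤ t) (ho : orderOf ζ = 2 ^ t) (hn : ¬ 2 ^ t ∣ Nat.card F + 1) {s : GLV F W}
    (hs : ∀ c : Kˣ, s * rsHom F (scal W c) * s⁻¹ = rsHom F (scal W (c ^ Nat.card F))) (hs2 : s ^ 2 = 1)
    {θ : IrrCharacter (GLV K W)}
    (hθ : ∀ c c', IsPRegular 2 c → rsHom F c' = s * rsHom F c * s⁻¹ → θ c' = θ c)
    (hQ : IsDefectGroup 2 M (blockOf M θ.1) (zpowers (scal W ζ))) {e : (W × V₂) ≃ₗ[F] V} {B B₂}
    (hi : Induces M (stepHom e) (prodBlock (blockOf M θ.1) B₂) B) (hB₂ : IsPBlock M B₂) {D₂}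
    (hD₂ : IsDefectGroup 2 M B₂ D₂) : ∃ (X : Subgroup (GLV F W)) (D : _), IsDefectGroup 2 M B D ∧
      (X.prod D₂).map (blkHom e) ≤ D ∧ Rk 2 2 (X ⊓ dt.ker : Subgroup _) := by
  have hqq : ∀ c : Kˣ, (c ^ Nat.card F) ^ Nat.card F = c := fun c => by
    have := Fintype.ofFinite K
    ext
    rw [← pow_mul, ← sq, ← hK, ← card_eq_pow, Units.val_pow_eq_pow_val, Nat.card_eq_fintype_card,
      FiniteField.pow_card]
  have hcm : ∀ (c : Kˣ) (x : GLV K W), rsHom F x * rsHom F (scal W c) = rsHom F (scal W c) * rsHom F x :=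
    fun c x => by rw [← map_mul, ← map_mul, mem_center_iff.1 (scal_mem_center c) x]
  obtain ⟨σ, hσ⟩ := exists_conj_equiv (rsHom_injective (F := F) (F' := K) (V₁ := W)) (s := s) fun c => by
    rw [← centralizer_rsHom_scal hζ, mem_centralizer_singleton_iff, ← hqq ζ, ← hs]
    calc _ = s * (rsHom F c * rsHom F (scal W (ζ ^ Nat.card F))) * s⁻¹ := by group
      _ = _ := by rw [hcm]; group
  obtain ⟨s', ⟨c, hc⟩, ⟨_, ⟨u, rfl⟩, hs'⟩, D, hD, hle⟩ := exists_loc hM (j := rsHom F) rsHom_injective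
    (zpowers_le.2 (scal_mem_center ζ)) (fun g hg => centralizer_rsHom_scal (V₁ := W) hζ ▸
      mem_centralizer_singleton_iff.2 (hg _ ⟨_, mem_zpowers _, rfl⟩).symm) σ hσ (hs2 ▸ one_mem _)
    (fun c h => hθ c _ h (hσ c)) hQ (g := blkHom e) hB₂ hD₂ hi
  refine ⟨_, D, hD, hle, ?_⟩
  set X := (zpowers (scal W ζ)).map (rsHom F) ⊔ zpowers s'
  have hz : ∀ u : ℕ, rsHom F (scal W (ζ ^ u)) ∈ X := fun u =>
    mem_sup_left (mem_map_of_mem _ (by rw [map_pow]; exact pow_mem (mem_zpowers _) u))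
  have h4 : orderOf (ζ ^ (orderOf ζ / 4)) = 4 :=
    orderOf_pow_orderOf_div (orderOf_pos _).ne' (ho ▸ pow_dvd_pow 2 ht)
  set z := ζ ^ (orderOf ζ / 4)
  have hinv : s' * rsHom F (scal W z) * s'⁻¹ = (rsHom F (scal W z))⁻¹ := by
    rw [eq_mul_of_inv_mul_eq hc.symm, mul_assoc s, hcm, ← map_inv, ← map_inv,
      show z⁻¹ = z ^ Nat.card F from ?_, ← hs]
    · group
    · rw [inv_eq_iff_mul_eq_one, ← pow_succ', ← orderOf_dvd_iff_pow_eq_one, h4]
      omega
  have hi : rsHom F (scal W z) ∈ X ⊓ dt.ker := ⟨hz _, (dt_scal_eq_one_iff hK z).2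
    (h4 ▸ dvd_mul_of_dvd_left (by omega) _)⟩
  have hi4 : orderOf (rsHom F (scal W z)) = 4 := by
    rw [orderOf_injective _ rsHom_injective, orderOf_injective _ scal_injective, h4]
  by_cases h1 : dt s' = 1
  · exact rk_two hi ⟨mem_sup_right (mem_zpowers s'), h1⟩ hi4 hinv
  have h2 : dt (rsHom F (scal W ζ)) = -1 := by
    refine eq_neg_one_of_pow hq (t := t) ?_ fun h => hn ?_
    · rw [← map_pow, ← map_pow, ← map_pow, ← ho, pow_orderOf_eq_one, map_one, map_one, map_one]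
    · rw [dt_scal_eq_one_iff hK, ho] at h
      exact (Nat.Coprime.pow_left t (Nat.coprime_two_left.2 hm)).dvd_of_dvd_mul_right h
  have h3 : dt s' = -1 := by
    refine eq_neg_one_of_pow hq (t := 2) ?_ h1
    rw [show 2 ^ 2 = 2 * 2 from rfl, pow_mul, ← map_pow, ← hs']
    simp only [map_zpow, h2]
    rw [← zpow_natCast, ← zpow_mul, mul_comm, zpow_mul, zpow_natCast, neg_one_sq, one_zpow]
  refine rk_two (s := s' * rsHom F (scal W ζ)) hi ⟨mul_mem (mem_sup_right (mem_zpowers s'))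
    (pow_one ζ ▸ hz 1), ?_⟩ hi4 ?_
  · exact (map_mul dt _ _).trans (by rw [h2, h3, neg_mul_neg, mul_one])
  · rw [← hinv, mul_assoc s', hcm]
    group

omit hP hM hpF in
theorem exists_frob_pi (hK : finrank F K = 2) (m : ℕ) : ∃ s : GLV F (Fin m → K), (∀ c : Kˣ,
    s * rsHom F (scal _ c) * s⁻¹ = rsHom F (scal _ (c ^ Nat.card F))) ∧ s ^ 2 = 1 := by
  have := Fintype.ofFinite F
  let f := FiniteField.frobeniusAlgEquivOfAlgebraic F K
  refine ⟨LinearMap.GeneralLinearGroup.ofLinearEquiv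
    (LinearEquiv.piCongrRight fun _ => f.toLinearEquiv), fun c => ?_, ?_⟩
  · rw [mul_inv_eq_iff_eq_mul, Nat.card_eq_fintype_card]
    exact Units.ext (LinearMap.ext fun v => funext fun i => map_mul f _ _)
  · have h : f ^ 2 = 1 := by rw [← hK, ← FiniteField.orderOf_frobeniusAlgEquivOfAlgebraic, pow_orderOf_eq_one]
    rw [sq] at h ⊢
    exact Units.ext (LinearMap.ext fun v => funext fun i => congrArg (fun g : K ≃ₐ[F] K => g (v i)) h)

omit hM in
theorem res_P_conj [Algebra K k] [IsScalarTower F K k] [Algebra.IsAlgebraic K k] (hp : p.Prime)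
    (hK : finrank F K = 2) {m : ℕ} (hm : Odd m) (hN : 2 * m ≤ N) {a : Lab k R}
    (ha : a ^ (Nat.card F ^ m - 1) = 1) (ha' : IsPRegular p a) {ζ : Kˣ}
    (hζ : Algebra.adjoin F {(ζ : K)} = ⊤) (hζp : IsPElt p ζ) {s : GLV F W}
    (hs : ∀ c : Kˣ, s * rsHom F (scal W c) * s⁻¹ = rsHom F (scal W (c ^ Nat.card F))) {c c' : GLV K W}
    (hc : IsPRegular p c) (h : rsHom F c' = s * rsHom F c * s⁻¹) :
    res W (P K m a) c' = res W (P K m a) c := by
  have := Fact.mk hp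
  have hq : Nat.card K = Nat.card F ^ 2 := hK ▸ card_eq_pow
  have h1 : a ^ (Nat.card F ^ (finrank F K * m) - 1) = 1 := by
    obtain ⟨r, hr⟩ := Nat.sub_one_dvd_pow_sub_one (Nat.card F ^ m) (finrank F K)
    rw [mul_comm _ m, pow_mul (Nat.card F), hr, pow_mul a, ha]
    exact one_pow (M := Lab k R) r
  have h2 : P K m (a ^ Nat.card F) = P K m a := by
    obtain ⟨d, hd⟩ := hm
    have h3 : a ^ Nat.card F ^ m = a := by
      rw [← Nat.sub_add_cancel (Nat.one_le_pow m _ Nat.card_pos), pow_succ a, ha]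
      exact one_mul a
    have h4 := P_pow (F := K) (a := a) (hq ▸ hP.pow two_pos (by omega) hN) (by omega) le_rfl
      (by rwa [hq, ← pow_mul, ← hK]) (d + 1)
    rwa [hq, ← pow_mul, mul_add, mul_one, pow_succ _ (2 * d + 1), ← hd, pow_mul a, h3] at h4
  have key : ∀ {ζ : Kˣ}, Algebra.adjoin F {(ζ : K)} = ⊤ → IsPElt p ζ → ∀ {x : GLV K W},
      IsPRegular p x → res W (P F (finrank F K * m) a) (rsHom F (scal W ζ * x)) =
        2 * res W (P K m a) x := fun {ζ} hζ hζp x hx => by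
    rw [← tau_cls (k := k) hp hpF ζ _ hx, tau_P hp hpF hζ hζp hP hm.pos (hK ▸ hN) h1 ha', hK,
      sum_range_succ, sum_range_one, pow_zero, pow_one a, pow_one, h2, ← two_smul ℂ, Hall.smul_apply,
      ← res_apply (cut K (regS k p) (P K m a)),
      res_cut hp (by rwa [← map_natCast (algebraMap F K), map_ne_zero])]
    simp only [pRegularPart, if_pos hx]
  have hc' : IsPRegular p c' := by
    rwa [IsPRegular, ← orderOf_injective _ (rsHom_injective (F := F)), h,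
      ← MulAut.conj_apply, MulEquiv.orderOf_eq, orderOf_injective _ rsHom_injective]
  have hζ' : Algebra.adjoin F {((ζ ^ Nat.card F : Kˣ) : K)} = ⊤ := by
    have := Fintype.ofFinite K
    refine top_le_iff.1 (hζ ▸ Algebra.adjoin_le (Set.singleton_subset_iff.2 ?_))
    have h3 : ((ζ ^ Nat.card F : Kˣ) : K) ^ Nat.card F = ζ := by
      rw [Units.val_pow_eq_pow_val, ← pow_mul, ← sq, ← hq, Nat.card_eq_fintype_card, FiniteField.pow_card]
    exact h3 ▸ pow_mem (Algebra.self_mem_adjoin_singleton F _) _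
  refine mul_left_cancel₀ two_ne_zero ((key hζ' (hζp.pow _) hc').symm.trans
    (Eq.trans ?_ (key hζ hζp hc)))
  have h3 : IsConj (rsHom F (scal W ζ * c)) (rsHom F (scal W (ζ ^ Nat.card F) * c')) :=
    isConj_iff.2 ⟨s, by rw [map_mul, map_mul, ← hs, h]; group⟩
  rw [res_apply, res_apply, cls_eq_iff_isConj.2 h3]

end Two

theorem pc_two (h2 : p = 2) (hq : Nat.card F % 4 = 1) (φ : Col F k R) : Pc N p M 1 φ 2 3 := by
  subst h2
  intro n hn χ a ha hr hw
  have hp := hM.prime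
  obtain ⟨hφ, i, hi, hg, hw', hne, -⟩ := exists_dnl hP hp hpF (φ := φ) hr ha.1 (by omega)
  have hN : φ.deg * ee 2 φ ≤ N := le_of_step ha hn hi hg
  obtain ⟨π⟩ := nonempty_piece_ee hP hp hpF hφ hN
  obtain ⟨n₁, hlt, χ₁, e₁, h₁, hi₁⟩ := π.exists_step hP hM hpF hn ha hr hi hg
  have hr₁ := hr.dnl φ i (ee 2 φ)
  obtain ⟨-, i₂, hi₂, hg₂, hw₂, hne₂, -⟩ := exists_dnl hP hp hpF (φ := φ) hr₁ hg (by omega)
  obtain ⟨n₂, hlt₂, ψ, e₂, hψ, hi₂'⟩ := π.exists_step hP hM hpF (by omega) h₁ hr₁ hi₂ hg₂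
  refine ⟨n₂, by omega, ψ, _, hψ, hr₁.dnl φ i₂ _, by omega,
    fun φ' h => (hne₂ φ' h).trans (hne φ' h), fun t' ⟨D₂, hD₂, h₂⟩ => ?_⟩
  have := π.nontrivial hP hpF hp
  have h4 : 2 ^ 2 ∣ Nat.card F ^ (φ.deg * ee 2 φ) - 1 :=
    (show 4 ∣ Nat.card F - 1 by omega).trans (Nat.sub_one_dvd_pow_sub_one _ _)
  obtain ⟨e, X, D, hD, hle, hX⟩ := exists_rk_three hM
    ((hp.pow_dvd_iff_le_factorization π.ne_zero).1 h4) π.ord (π.isDefectGroup hP hp hpF hN hM) hi₁ hi₂'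
    (isPBlock_blockOf ψ) hD₂
  refine ⟨D, hD, rk_blk e hle ?_ h₂⟩
  rwa [MonoidHom.one_comp, MonoidHom.ker_one, inf_top_eq]

theorem pc_three (h2 : p = 2) (hq : Nat.card F % 4 = 3) {φ : Col F k R} (hφ : Odd φ.deg) :
    Pc N p M (MonoidHom.id _) φ 2 2 := by
  classical
  subst h2
  intro n hn χ a ha hr hw
  have hp := hM.prime
  obtain ⟨hreg, -⟩ := exists_dnl hP hp hpF (φ := φ) hr ha.1 (by omega)
  have hq4 : ∀ i, Odd i → Nat.card F ^ i % 4 = 3 := by
    rintro _ ⟨i, rfl⟩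
    rw [pow_succ, pow_mul, Nat.mul_mod, Nat.pow_mod, Nat.pow_mod (Nat.card F), hq]
    simp
  have hee : ee 2 φ = 1 := Nat.dvd_one.1 ((ee_dvd_iff hP hp hpF φ 1).2 (by
    have := hq4 _ hφ
    rw [mul_one]
    omega))
  have hwt : ∀ b : Col F k R → Fin N → ℕ, wtc 2 b φ = sz (b φ) := fun b => by
    rw [wtc, hee, wt_one, sz]
  have hN0 : 0 < N := Nat.pos_of_ne_zero fun h => by
    subst h
    simp [hwt, sz] at hw
  obtain ⟨a', i, hinj, hsum, hrow⟩ := exists_row hN0 (wtc 2 a φ)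
  have hsz : ∀ φ', sz (update a φ a' φ') = sz (a φ') := fun φ' => by
    rcases eq_or_ne φ' φ with rfl | h
    · rw [update_self, sz, hsum, Nat.add_sub_cancel_left, hwt]
    · rw [update_of_ne h]
  have hg₁ : Good (update a φ a') := fun φ' => by
    rcases eq_or_ne φ' φ with rfl | h
    · rwa [update_self]
    · rw [update_of_ne h]; exact ha.1 φ'
  have hr₁ : RegLab 2 (update a φ a') := fun φ' h => (hsz φ').trans (hr φ' h)
  obtain ⟨χ₁, h₁⟩ := exists_irr (V := Fin n → F) hP (by rwa [finrank_fin_fun]) hg₁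
    (by rw [← ha.2.1]; exact sum_congr rfl fun φ' _ => by rw [hsz])
  have hB := sameBlock_of_sameCls hP hp hpF hM hn h₁ ha hr₁ hr
    ((hr₁.sameCls_iff hP hp hpF hr hg₁ ha.1).2 fun φ' => ⟨hsz φ', by
      rcases eq_or_ne φ' φ with rfl | h
      · simp only [hee, rs_ms, Nat.mod_one]
      · rw [update_of_ne h]⟩)
  have hi : 2 ≤ update a φ a' φ i := by rw [update_self]; exact (hrow 2 hw).1
  have hg : Good (dnl (update a φ a') φ i 2) := fun φ' => by
    rcases eq_or_ne φ' φ with rfl | h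
    · rw [dnl, update_self, update_self]; exact (hrow 2 hw).2
    · rw [dnl, update_of_ne h]; exact hg₁ φ'
  have hN : φ.deg * 2 ≤ N := le_of_step h₁ hn hi hg
  have hq1 := one_lt_card_F (F := F)
  have h0 : Nat.card F ^ (φ.deg * 2) - 1 ≠ 0 :=
    Nat.sub_ne_zero_of_lt (Nat.one_lt_pow (Nat.mul_pos (deg_pos hP φ) two_pos).ne' hq1)
  have hdv : (Nat.card F + 1) * (Nat.card F - 1) ∣ Nat.card F ^ (φ.deg * 2) - 1 := by
    rw [← Nat.sq_sub_sq, one_pow, mul_comm, pow_mul]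
    exact Nat.sub_one_dvd_pow_sub_one _ _
  have ht : 2 ≤ (Nat.card F ^ (φ.deg * 2) - 1).factorization 2 :=
    (hp.pow_dvd_iff_le_factorization h0).1 ((dvd_mul_of_dvd_left (by omega) _).trans hdv)
  obtain ⟨π⟩ := nonempty_piece hP hp hpF hreg two_pos hN
    ((dvd_mul_of_dvd_left (by omega) _).trans hdv) fun i h => by
      by_contra h2
      have := hq4 _ (hφ.mul (Nat.not_even_iff_odd.1 fun h => h2 h.two_dvd))
      have := (pow_dvd_pow 2 ht).trans h
      omega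
  have hK : finrank F π.K = 2 := by
    obtain ⟨t, h⟩ := π.finrank_dvd hP hp hpF
    have h1 : (Nat.card F : ZMod 2) = 1 := ZMod.natCast_eq_one_iff_odd.2 (Nat.odd_iff.2 (by omega))
    rw [h1, orderOf_one, one_mul] at h
    rcases (Nat.dvd_prime hp).1 ((Nat.Coprime.coprime_dvd_left h (Nat.Coprime.pow_left t
      (Nat.coprime_two_left.2 hφ))).dvd_of_dvd_mul_left ⟨_, π.dim.symm⟩) with h2 | h2
    · have h3 := orderOf_dvd_natCard π.ζ
      rw [Nat.card_units, card_eq_pow (F := F), h2, pow_one, π.ord] at h3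
      have := (pow_dvd_pow 2 ht).trans h3
      omega
    · exact h2
  have hm : π.m = φ.deg := by
    have := π.dim
    rw [hK] at this
    omega
  obtain ⟨n₂, hlt, ψ, e, hψ, hi'⟩ := π.exists_step hP hM hpF hn h₁ hr₁ hi hg
  refine ⟨n₂, hlt, ψ, _, hψ, hr₁.dnl φ i 2, ?_, fun φ' h => by rw [dnl, update_of_ne h, update_of_ne h],
    fun t' ⟨D₂, hD₂, h₂⟩ => ?_⟩
  · have := wt_sub_single (a := a') (e := 1) (j := 2) one_pos (hrow 2 hw).1 (hrow 2 hw).2
    rw [one_mul] at this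
    rw [wtc, hee, dnl, update_self, update_self, this, wt_one, hsum, Nat.add_sub_cancel_left]
  have := π.nontrivial hP hpF hp
  obtain ⟨s, hs, hs2⟩ := exists_frob_pi hK π.m
  obtain ⟨X, D, hD, hle, hX⟩ := exists_rk_two hM hq hK (by rwa [finrank_fin_fun, hm]) π.adj ht π.ord
    (fun h => Nat.pow_succ_factorization_not_dvd h0 hp
      ((mul_dvd_mul h (show 2 ∣ _ by omega)).trans hdv)) hs hs2 (fun c c' hc hc' => by
      have h1 := res_P_conj hP hpF hp hK (hm ▸ hφ) (by omega) (a := φ.rep)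
        (hm ▸ mul_one φ.deg ▸ rep_pow hP φ 1) hreg π.adj π.isPElt hs hc hc'
      rw [π.res_eq] at h1
      simpa using h1)
    (π.isDefectGroup hP hp hpF hN hM) (hB ▸ hi') (isPBlock_blockOf ψ) hD₂
  exact ⟨D, hD, rk_blk e hle hX h₂⟩

variable (hn : n ≤ N) {χ : IrrCharacter (GLV F (Fin n → F))} {a : Col F k R → Fin N → ℕ}
  (h : IsLab χ a) (ha : RegLab p a)
include hn h ha

theorem rkB_of_not_dvd (hq : ¬ p ∣ Nat.card F - 1) :
    RkB p M (MonoidHom.id _) (∑ φ, wtc p a φ) χ := by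
  simpa using rk_of_pc hM (j := fun _ => 1) (t := fun _ => 1) (fun _ => one_pos)
    (fun φ => pc_one hP hM hpF (Or.inr (Or.inl hq))) hn h ha

theorem rkB_pred : RkB p M (MonoidHom.id _) (∑ φ, wtc p a φ - 1) χ := by
  refine RkB.pred hM.prime ?_
  simpa using rk_of_pc hM (j := fun _ => 1) (t := fun _ => 1) (fun _ => one_pos)
    (fun φ => pc_one hP hM hpF (Or.inl rfl)) hn h ha

theorem rkB_one_mod_four (h2 : p = 2) (hq : Nat.card F % 4 = 1) (he : ∀ φ, 2 ∣ wtc p a φ) :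
    RkB p M (MonoidHom.id _) ((∑ φ, wtc p a φ) / 2 * 3 - 1) χ := by
  refine RkB.pred hM.prime ?_
  rw [Nat.sum_div fun φ _ => he φ, sum_mul]
  exact rk_of_pc hM (j := fun _ => 2) (t := fun _ => 3) (fun _ => two_pos)
    (fun φ => pc_two hP hM hpF h2 hq φ) hn h ha

theorem rkB_three_mod_four (h2 : p = 2) (hq : Nat.card F % 4 = 3) (he : ∀ φ, 2 ∣ wtc p a φ) :
    RkB p M (MonoidHom.id _) (∑ φ, wtc p a φ) χ := by
  have key := rk_of_pc hM (δ := MonoidHom.id _) (j := fun φ => if Even φ.deg then 1 else 2)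
    (t := fun φ => if Even φ.deg then 1 else 2) (fun φ => by split_ifs <;> omega) (fun φ => by
      split_ifs with hφ
      · exact pc_one hP hM hpF (Or.inr (Or.inr ⟨h2, hφ⟩))
      · exact pc_three hP hM hpF h2 hq (Nat.not_even_iff_odd.1 hφ)) hn h ha
  rwa [sum_congr rfl fun φ _ => Nat.div_mul_cancel (by
    split_ifs
    exacts [one_dvd _, he φ])] at key

end Cfsg.Gln

set_option linter.all false in
theorem Cfsg.Rz.Gln_Rank_0 : True := by
  have := @_root_.Cfsg.Gln.RkB.eq_def.{0}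
  have := @_root_.Cfsg.Gln.RkB.eq_1.{0}
  have := @_root_.Cfsg.Gln.RkB.fun_cases
  have := @_root_.Cfsg.Gln.Pc.eq_def.{0, 0}
  have := @_root_.Cfsg.Gln.Pc.eq_1.{0, 0}
  have := @_root_.Cfsg.Gln.Pc.fun_cases
  trivial
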