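import Cfsg.Agent.Gln.NV
import Cfsg.Agent.Gln.Rank
import Cfsg.Agent.Gln.Count

/-!
# `l(B) ≤ p ^ s` for `SL_n(q)` (S4536 project)

`f : G → GL_n(q)` has image `ker det`; `B` is covered by the block of a basic character `χ` with label `a`.
`mem_Cg`: label `b` of `χ₁`, `b (y⁻¹ • ·)` of `χ₂` (`IsLab.tw`), both in the class of `a` (`IsLab.sameCls`); `mass_smul`,
`RegLab.mass`, `ms_eq_of_sum_eq_tri` at non-regular colours.
`lin_eq_one`: `μ` a generator of the cyclic group `Cg`, `r = orderOf μ`, `exists_twS_max`, `TwS.blockStab_le`.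
`ncard_kap`: such a `y` is `lin y'` with `y' ^ kap = 1` (`IsLab.mass_dvd`, `y' ^ (q-1) = 1`), `fixq` is cyclic.
`ncard_fixed`: `(lin y, ψ) ↦ (y, ms ∘ label of ψ)` is injective (`IsLab.eq_iff`, `RegLab.sameCls_iff`).
`rank_mul_le`: `clif` with `E = basic`, `X = lin '' ..`.
`rank_le_pow`: `card_fixed_le` with `g φ = gcd ..`, `one_add_mul_le`, `card_cls_le`, `kap = 1`.
`two_mul_rank_le`: `two_mul_card_fixed_le`, `Xone_eq`.  If `p ∣ q - 1` then `ee = 1`, `wtc = sz` (`wt_one`) and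
`∏_{T} 2 #S ≤ 2 ^ W` (`card_cls_le`).
`rank_le`: `k = AlgebraicClosure F`, `par_factorial`; cases `p ∤ q-1`; `kap = 1` (`rkB_pred`); `kap = p^j > 1`: `p^j ∣ sz (a φ)`
for all `φ`, so `p^j ≤ W`; `p` odd: `num_odd`, and for `p^j = 3 = W` there is one colour in `T`, `card_cls_three`;
`p = 2`: `num_two`, `rkB_one_mod_four`, resp. `kap = 2`, `rkB_three_mod_four`.
-/

set_option autoImplicit false
set_option linter.unusedSectionVars false
set_option linter.unusedVariables false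
set_option linter.style.haveILetI false

namespace Cfsg.Gln

open Module Finset Function Subgroup

universe u v

variable {F : Type u} [Field F] [Finite F] {k : Type v} [Field k] [Algebra F k] [IsAlgClosed k]
  [Algebra.IsAlgebraic F k] {R N n p : ℕ} [NeZero R] {M : Ideal AlgInt}
  {G : Type*} [Group G] [Finite G] {f : G →* GLV F (Fin n → F)} [IsNormalEmb f]
  {B : Set (IrrCharacter G)} {χ : IrrCharacter (GLV F (Fin n → F))} {a : Col F k R → Fin N → ℕ}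

theorem le_of_rkB (hM : IsPModular p M) (hf : f.range = dt.ker) (hB : IsPBlock M B)
    (hc : Covers f (blockOf M χ.1) B) {D : Subgroup G} (hD : IsDefectGroup p M B D) {s t : ℕ}
    (hs : SectionalPRankLE p s D) (h : RkB p M (MonoidHom.id _) t χ) : t ≤ s := by
  have hp := hM.fact
  obtain ⟨E, hE, h⟩ := h
  obtain ⟨Q, hQ, -, e⟩ := hc.exists_isDefectGroup_inf hM (isPBlock_blockOf χ) hB hD
  obtain ⟨g, rfl⟩ := IsDefectGroup.exists_conj (isPBlock_blockOf χ) hM hE hQ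
  refine (Rk.of_map (IsNormalEmb.injective (f := f)) (e ▸ (h.map (f := (MulAut.conj g).toMonoidHom)
    (MulAut.conj g).injective).mono ?_)).le_of_sectional hp.out hs
  rintro _ ⟨x, ⟨hx, hx'⟩, rfl⟩
  exact ⟨⟨x, hx, rfl⟩, hf ▸ (MonoidHom.normal_ker dt).conj_mem x hx' g⟩

open scoped commutatorElement in
theorem commutator_mem (hf : f.range = dt.ker) (x y : GLV F (Fin n → F)) : ⁅x, y⁆ ∈ f.range := by
  rw [hf, MonoidHom.mem_ker, map_commutatorElement]
  exact commutatorElement_eq_one_iff_mul_comm.2 (mul_comm _ _)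

theorem Good.sum_eq (ha : Good a) (φ : Col F k R) : ∑ i, a φ i = Sym.tri N + sz (a φ) :=
  (Nat.add_sub_cancel' (Sym.tri_le (ha φ))).symm

variable (p) in
/-- The colours of positive weight. -/
noncomputable def Tw0 (a : Col F k R → Fin N → ℕ) : Finset (Col F k R) := {φ | 0 < wtc p a φ}

theorem mem_Tw0 {φ : Col F k R} : φ ∈ Tw0 p a ↔ 0 < wtc p a φ := by simp [Tw0]

variable (p) in
/-- The beta-sets in the class of `a φ`. -/
noncomputable def Scl (a : Col F k R → Fin N → ℕ) (φ : Col F k R) : Finset (Multiset ℕ) :=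
  (bcls_finite N (ee p φ) (sz (a φ)) (rs (ee p φ) (ms (a φ)))).toFinset

variable (p) in
/-- The bound for the number of `p`-twists. -/
noncomputable def kap (a : Col F k R → Fin N → ℕ) : ℕ :=
  ordProj[p] (Nat.gcd (Nat.card F - 1) (univ.gcd fun φ => sz (a φ)))

variable (hP : Par (Nat.card F) R N)
include hP

variable (n) in
/-- The linear character `det^* (dch y)`. -/
noncomputable def lin : fixq F k R →* (GLV F (Fin n → F) →* ℂˣ) where
  toFun y := (dch hP y).comp dt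
  map_one' := by rw [map_one]; rfl
  map_mul' x y := by rw [map_mul]; rfl

theorem lin_injective (h0 : 0 < n) : Injective (lin n hP : fixq F k R → _) := by
  haveI : Nonempty (Fin n) := ⟨⟨0, h0⟩⟩
  exact fun x y e => (dch hP).injective ((MonoidHom.cancel_right dt_surjective).1 e)

theorem exists_lin_eq (h0 : 0 < n) {μ : GLV F (Fin n → F) →* ℂˣ} (h : dt.ker ≤ μ.ker) :
    ∃ y : fixq F k R, lin n hP y = μ := by
  haveI : Nonempty (Fin n) := ⟨⟨0, h0⟩⟩
  obtain ⟨y, hy⟩ := (dch (k := k) hP).surjective (MonoidHom.liftOfSurjective dt dt_surjective ⟨μ, h⟩)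
  refine ⟨y, show (dch hP y).comp dt = μ from ?_⟩
  rw [hy]
  exact MonoidHom.liftOfRightInverse_comp _ _ _ _

theorem orderOf_lin (h0 : 0 < n) (y : fixq F k R) : orderOf (lin n hP y) = orderOf y :=
  orderOf_injective _ (lin_injective hP h0) y

theorem exists_lin_eq' (h0 : 0 < n) (hf : f.range = dt.ker) {μ : GLV F (Fin n → F) →* ℂˣ}
    (h : ∀ g, μ (f g) = 1) : ∃ y : fixq F k R, lin n hP y = μ :=
  exists_lin_eq hP h0 (hf ▸ by rintro _ ⟨g, rfl⟩; exact h g)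

theorem lin_apply (hf : f.range = dt.ker) (y : fixq F k R) (g : G) : lin n hP y (f g) = 1 := by
  have : dt (f g) = 1 := (hf ▸ ⟨g, rfl⟩ : f g ∈ dt.ker)
  exact (congrArg (dch hP y) this).trans (map_one _)

theorem IsLab.sz_le (hn : n ≤ N) (h : IsLab χ a) (φ : Col F k R) : sz (a φ) ≤ N := by
  have := single_le_sum (f := fun φ : Col F k R => φ.deg * sz (a φ)) (fun _ _ => Nat.zero_le _)
    (mem_univ φ)
  have h1 : size a = n := by simpa using h.2.1
  exact (Nat.le_mul_of_pos_left _ (deg_pos hP φ)).trans (this.trans (h1.le.trans hn))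

variable (hp : p.Prime) (hpF : (p : F) ≠ 0)
include hp hpF

theorem pp_smul {y : fixq F k R} (hy : IsPRegular p y) (φ : Col F k R) :
    pp p (y • φ) = y • pp p φ := by
  haveI := Fact.mk hp
  have e : pPrimePart p (φ.rep * y.1) = pPrimePart p φ.rep * y.1 :=
    (pPrimePart_mul_of_commute p (g := φ.rep) (h := y.1) (MonoidHom.ext fun _ => mul_comm _ _)).trans
      (congrArg _ (pPrimePart_eq_self_iff.2 (hy.map (fixq F k R).subtype)))
  conv_lhs => rw [← φ.mk_rep, smul_mk, pp_mk hP hp hpF, e]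
  rw [pp, smul_mk]

theorem mass_smul {y : fixq F k R} (hy : IsPRegular p y) (a : Col F k R → Fin N → ℕ)
    (φ : Col F k R) : Mass p (fun φ => a (y • φ)) φ = Mass p a (y • φ) :=
  sum_equiv (MulAction.toPerm y) (fun φ' => by simp [pp_smul hP hp hpF hy])
    fun φ' _ => by simp [deg_smul hP]

/-- The `p'`-twists preserving the class of `a`. -/
def Cg (a : Col F k R → Fin N → ℕ) : Subgroup (fixq F k R) where
  carrier := {y | IsPRegular p y ∧ ∀ φ, sz (a (y • φ)) = sz (a φ) ∧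
    rs (ee p φ) (ms (a (y • φ))) = rs (ee p φ) (ms (a φ))}
  mul_mem' {x y} hx hy := ⟨haveI := Fact.mk hp; hx.1.mul_of_commute hy.1 (Commute.all _ _), fun φ => by
    have h := hx.2 (y • φ)
    rw [ee_smul hP hp hpF, ← mul_smul] at h
    exact ⟨h.1.trans (hy.2 φ).1, h.2.trans (hy.2 φ).2⟩⟩
  one_mem' := ⟨haveI := Fact.mk hp; isPRegular_one, by simp⟩
  inv_mem' {x} hx := ⟨by simpa [IsPRegular] using hx.1, fun φ => by
    have h := hx.2 (x⁻¹ • φ)
    rw [ee_smul hP hp hpF, smul_inv_smul] at h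
    exact ⟨h.1.symm, h.2.symm⟩⟩

theorem smul_mem_Tw0 (ha : Good a) (y : Cg hP hp hpF a) (φ : Col F k R) (h : φ ∈ Tw0 p a) :
    y • φ ∈ Tw0 p a := by
  rw [mem_Tw0, wtc] at h ⊢
  rwa [Subgroup.smul_def, ee_smul hP hp hpF, wt_eq_of_sum_eq (ee_pos hP hp hpF φ) (y.2.2 φ).2
    (by rw [ha.sum_eq, ha.sum_eq, (y.2.2 φ).1])]

theorem ee_eq_one (hq : p ∣ Nat.card F - 1) (φ : Col F k R) : ee p φ = 1 :=
  Nat.dvd_one.1 ((ee_dvd_iff hP hp hpF φ 1).2
    (hq.trans (by simpa using Nat.sub_dvd_pow_sub_pow (Nat.card F) 1 (φ.deg * 1))))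

theorem wtc_eq_sz (hq : p ∣ Nat.card F - 1) (φ : Col F k R) : wtc p a φ = sz (a φ) := by
  rw [wtc, ee_eq_one hP hp hpF hq, wt_one, sz]

/-- The number of pairs (twist, fixed label). -/
noncomputable def fixCount (a : Col F k R → Fin N → ℕ) : ℕ :=
  {x : Cg hP hp hpF a × (Col F k R → Multiset ℕ) |
    (∀ φ, x.2 φ ∈ Scl p a φ) ∧ ∀ φ, x.2 (x.1 • φ) = x.2 φ}.ncard

variable (hM : IsPModular p M) (h0 : 0 < n) (hn : n ≤ N) (h : IsLab χ a) (ha : RegLab p a)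
include hM h0 hn h ha

theorem card_Scl_le (φ : Col F k R) : #(Scl p a φ) ≤
    if wtc p a φ = 0 then 1 else ee p φ * (ee p φ + 1) ^ (wtc p a φ - 1) := by
  rw [Scl, ← Set.ncard_eq_toFinset_card _ (bcls_finite _ _ _ _)]
  exact card_cls_le (ee_pos hP hp hpF φ) (h.sz_le hP hn φ)
    ⟨card_ms _, nodup_ms.2 (h.1 φ), h.1.sum_eq φ, rfl⟩

theorem nonempty_Tw0 (hq : p ∣ Nat.card F - 1) : (Tw0 p a).Nonempty := by
  by_contra e
  have h1 : size a = n := by simpa using h.2.1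
  refine h0.ne' (h1.symm.trans (sum_eq_zero fun φ _ => ?_))
  rw [← wtc_eq_sz hP hp hpF hq, Nat.eq_zero_of_not_pos fun e' => e ⟨φ, mem_Tw0.2 e'⟩, mul_zero]

theorem mem_Cg {y : fixq F k R} (hy : IsPRegular p y) {χ₁ χ₂ : IrrCharacter (GLV F (Fin n → F))}
    (h₁ : χ₁ ∈ blockOf M χ.1) (h₂ : χ₂ ∈ blockOf M χ.1) (e : IsTw (lin n hP y) χ₁.1 χ₂.1) :
    y ∈ Cg hP hp hpF a := by
  have hV : finrank F (Fin n → F) ≤ N := by simpa using hn
  obtain ⟨b, hb⟩ := exists_isLab (k := k) hP hV χ₁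
  have e₁ := h.sameCls hP hp hpF hV hM hb h₁
  have e₂ := h.sameCls hP hp hpF hV hM (hb.tw hP hV y e) h₂
  have hy' : IsPRegular p y⁻¹ := by simpa [IsPRegular] using hy
  refine (Subgroup.inv_mem_iff _).1 ⟨hy', fun φ => ?_⟩
  by_cases hφ : IsReg p φ
  · have hφ' := (isReg_smul hP hp hpF hy').2 hφ
    have e₃ := e₁ _ hφ'
    have e₄ := e₂ _ hφ
    rw [mass_smul hP hp hpF hy', ← e₃.1, ha.mass hP hp hpF hφ, ha.mass hP hp hpF hφ', deg_smul hP] at e₄
    rw [ee_smul hP hp hpF] at e₃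
    exact ⟨(Nat.eq_of_mul_eq_mul_left (deg_pos hP φ) e₄.1).symm, e₃.2.trans e₄.2.symm⟩
  · have h1 := ha _ hφ
    have h2 := ha _ ((isReg_smul hP hp hpF hy').not.2 hφ)
    rw [h1, h2, ms_eq_of_sum_eq_tri (h.1 φ) (by rw [h.1.sum_eq, h1, add_zero]),
      ms_eq_of_sum_eq_tri (h.1 (y⁻¹ • φ)) (by rw [h.1.sum_eq, h2, add_zero])]
    exact ⟨rfl, rfl⟩

variable (hf : f.range = dt.ker)
include hf

theorem ncard_kap : {y : GLV F (Fin n → F) →* ℂˣ | (∀ g, y (f g) = 1) ∧ IsPElt p y ∧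
    ∃ ψ ∈ blockOf M χ.1, IsTw y ψ.1 ψ.1}.ncard ≤ kap p a := by
  classical
  have hV : finrank F (Fin n → F) ≤ N := by simpa using hn
  haveI := isCyclic_fixq (k := k) hP
  letI := Fintype.ofFinite (fixq F k R)
  refine (Set.ncard_le_ncard (t := lin n hP '' {y : fixq F k R | y ^ kap p a = 1}) ?_).trans
    ((Set.ncard_image_le (Set.toFinite _)).trans ?_)
  · rintro _ ⟨h₁, h₂, ψ, h₃, h₄⟩
    obtain ⟨y, rfl⟩ := exists_lin_eq' (k := k) hP h0 hf h₁
    obtain ⟨t, ht⟩ := h₂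
    rw [orderOf_lin hP h0] at ht
    refine ⟨y, orderOf_dvd_iff_pow_eq_one.1 ?_, rfl⟩
    rw [ht, kap, ← hp.pow_dvd_iff_dvd_ordProj (Nat.gcd_ne_zero_left (Nat.sub_pos_of_lt hP.1).ne'), ← ht]
    refine Nat.dvd_gcd (orderOf_dvd_of_pow_eq_one (Subtype.ext ?_)) (Finset.dvd_gcd fun φ _ => ?_)
    · simpa using (pow_pow_eq_iff (n := 1) Nat.card_pos y.1).1 (by rw [pow_one]; exact y.2)
    · by_cases hφ : IsReg p φ
      · obtain ⟨b, hb⟩ := exists_isLab (k := k) hP hV ψ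
        have := hb.mass_dvd hP hp hpF hV ⟨t, ht⟩ h₄ hφ
        rw [← (h.sameCls hP hp hpF hV hM hb h₃ φ hφ).1, ha.mass hP hp hpF hφ] at this
        exact Nat.dvd_of_mul_dvd_mul_left (deg_pos hP φ) this
      · rw [ha φ hφ]
        exact dvd_zero _
  · rw [Set.ncard_eq_toFinset_card', Set.toFinset_ofPred]
    exact IsCyclic.card_pow_eq_one_le (Nat.ordProj_pos _ _)

theorem ncard_fixed : {x : (GLV F (Fin n → F) →* ℂˣ) × IrrCharacter (GLV F (Fin n → F)) |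
    (∀ g, x.1 (f g) = 1) ∧ IsPRegular p x.1 ∧ x.2 ∈ basic (Fin n → F) k R N p ∧
      x.2 ∈ blockOf M χ.1 ∧ IsTw x.1 x.2.1 x.2.1}.ncard ≤ fixCount hP hp hpF a := by
  classical
  have hV : finrank F (Fin n → F) ≤ N := by simpa using hn
  let g : (Col F k R → Multiset ℕ) → IrrCharacter (GLV F (Fin n → F)) := fun s =>
    if e : ∃ ψ : IrrCharacter (GLV F (Fin n → F)), ∃ b : Col F k R → Fin N → ℕ, IsLab ψ b ∧
      ∀ φ, ms (b φ) = s φ then e.choose else χ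
  have hfin : {x : Cg hP hp hpF a × (Col F k R → Multiset ℕ) |
      (∀ φ, x.2 φ ∈ Scl p a φ) ∧ ∀ φ, x.2 (x.1 • φ) = x.2 φ}.Finite :=
    (Set.finite_univ.prod (Set.Finite.pi' fun φ => (Scl p a φ).finite_toSet)).subset
      fun x hx => ⟨trivial, hx.1⟩
  refine (Set.ncard_le_ncard ?_ (hfin.image fun x => (lin n hP x.1.1, g x.2))).trans
    (Set.ncard_image_le hfin)
  rintro ⟨μ, ψ⟩ ⟨h₁, h₂, ⟨b, hb, hb'⟩, h₃, h₄⟩
  obtain ⟨y, rfl⟩ := exists_lin_eq' (k := k) hP h0 hf h₁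
  have hy : IsPRegular p y := by rwa [IsPRegular, orderOf_lin hP h0] at h₂
  have e := (ha.sameCls_iff hP hp hpF hb' h.1 hb.1).1 (h.sameCls hP hp hpF hV hM hb h₃)
  have e' : ∃ ψ : IrrCharacter (GLV F (Fin n → F)), ∃ c : Col F k R → Fin N → ℕ, IsLab ψ c ∧
      ∀ φ, ms (c φ) = ms (b φ) := ⟨ψ, b, hb, fun _ => rfl⟩
  refine ⟨(⟨y, mem_Cg hP hp hpF hM h0 hn h ha hy h₃ h₃ h₄⟩, fun φ => ms (b φ)), ⟨fun φ => ?_,
    fun φ => ?_⟩, Prod.ext rfl ?_⟩
  · exact (Set.Finite.mem_toFinset _).2 ⟨card_ms _, nodup_ms.2 (hb.1 φ),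
      (e φ).1 ▸ hb.1.sum_eq φ, (e φ).2.symm⟩
  · simpa [Subgroup.smul_def] using (hb.eq_iff hP hV (hb.tw hP hV y h₄)).1 rfl (y • φ)
  · obtain ⟨c, hc, hc'⟩ := e'.choose_spec
    exact (dif_pos e').trans ((hc.eq_iff hP hV hb).2 hc')

variable (hB : IsPBlock M B) (hc : Covers f (blockOf M χ.1) B)
include hB hc

theorem lin_eq_one {z : fixq F k R} (hz : z ∈ Cg hP hp hpF a) (hX : ∀ φ ∈ Tw0 p a, z ∈ Xone p φ) :
    ∀ g ∈ blockStab f B, lin n hP z g = 1 := by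
  haveI := isCyclic_fixq (k := k) hP
  obtain ⟨μ, hμ⟩ := IsCyclic.exists_generator (α := Cg hP hp hpF a)
  have H : ∀ y ∈ Cg hP hp hpF a, y ∈ zpowers μ.1 := fun y hy => by
    obtain ⟨i, hi⟩ := hμ ⟨y, hy⟩
    exact ⟨i, congrArg Subtype.val hi⟩
  obtain ⟨x, h₁, -, h₂⟩ := exists_twS_max hP hM hpF (pow_orderOf_eq_one μ.1) μ.2.1 (H z hz) hn h ha
    (fun φ => (μ.2.2 φ).2) fun φ hφ => hX φ (mem_Tw0.2 hφ)
  refine TwS.blockStab_le hM (commutator_mem hf) (isPBlock_blockOf χ) hB hc (z := lin n hP z) ?_ μ.2.1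
    (lin_apply hP hf z) h₁ fun ν e₁ e₂ ⟨χ₁, e₃, χ₂, e₄, e₅⟩ => ?_
  · refine (map_pow (lin n hP) z _).symm.trans ?_
    rw [orderOf_dvd_iff_pow_eq_one.1 (orderOf_dvd_of_mem_zpowers (H z hz)), map_one]
  · obtain ⟨y, rfl⟩ := exists_lin_eq' (k := k) hP h0 hf e₁
    obtain ⟨i, rfl⟩ := H y (mem_Cg hP hp hpF hM h0 hn h ha
      (by rwa [IsPRegular, orderOf_lin hP h0] at e₂) e₃ e₄ e₅)
    rw [map_zpow, MonoidHom.zpow_apply, show lin n hP μ.1 x = 1 from h₂, one_zpow]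

theorem rank_mul_le : blockRank p B *
    Nat.card (⨅ φ ∈ Tw0 p a, (Xone p φ).subgroupOf (Cg hP hp hpF a) : Subgroup (Cg hP hp hpF a)) ≤
      kap p a * fixCount hP hp hpF a := by
  have hV : finrank F (Fin n → F) ≤ N := by simpa using hn
  have := clif hM (commutator_mem hf) (isPBlock_blockOf χ) hB hc
    (linearIndependent_basic (k := k) hP hp hpF hV) (span_basic hP hp hpF hV)
    (fun μ h₁ h₂ ψ hψ ψ' e => by
      obtain ⟨y, rfl⟩ := exists_lin_eq' (k := k) hP h0 hf h₁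
      exact tw_mem_basic hP hp hpF hV (by rwa [IsPRegular, orderOf_lin hP h0] at h₂) hψ e)
    (X := (lin n hP ∘ Subtype.val) '' ((⨅ φ ∈ Tw0 p a, (Xone p φ).subgroupOf (Cg hP hp hpF a) :
      Subgroup (Cg hP hp hpF a)) : Set (Cg hP hp hpF a)))
    (by
      rintro _ ⟨z, hz, rfl⟩
      simp only [SetLike.mem_coe, mem_iInf] at hz
      exact lin_eq_one hP hp hpF hM h0 hn h ha hf hB hc z.2 hz)
    (ncard_kap hP hp hpF hM h0 hn h ha hf)
  rw [Set.ncard_image_of_injective _ ((lin_injective hP h0).comp Subtype.val_injective)] at this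
  exact this.trans (Nat.mul_le_mul_left _ (ncard_fixed hP hp hpF hM h0 hn h ha hf))

theorem rank_le_pow (hq : ¬ p ∣ Nat.card F - 1) : blockRank p B ≤ p ^ ∑ φ, wtc p a φ := by
  have h₁ := rank_mul_le hP hp hpF hM h0 hn h ha hf hB hc
  have h₂ := card_fixed_le (Tw0 p a) (smul_mem_Tw0 hP hp hpF h.1) (Scl p a)
    (fun φ hφ => (card_Scl_le hP hp hpF hM h0 hn h ha φ).trans_eq
      (if_pos (by simpa [mem_Tw0] using hφ)))
    (fun φ => (Xone p φ).subgroupOf (Cg hP hp hpF a))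
    (fun φ => Nat.gcd φ.deg (orderOf (Nat.card F : ZMod p))) (fun φ y hy => Xone_le hP φ hy)
    (fun y φ => by rw [Subgroup.smul_def, Xone_smul hP]) fun φ _ => relIndex_Xone_le hP _ φ
  rw [kap, Nat.factorization_eq_zero_of_not_dvd fun e => hq (e.trans (Nat.gcd_dvd_left _ _)),
    pow_zero, one_mul] at h₁
  refine (Nat.le_of_mul_le_mul_right (h₁.trans (h₂.trans_eq (mul_comm _ _))) Nat.card_pos).trans
    ((prod_le_prod' fun φ hφ => ?_).trans ((prod_pow_eq_pow_sum _ (wtc p a) p).le.trans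
      (Nat.pow_le_pow_right hp.pos (sum_le_sum_of_subset (subset_univ _)))))
  exact one_add_mul_le (mem_Tw0.1 hφ) (Nat.gcd_pos_of_pos_left _ (deg_pos hP φ))
    (gcd_mul_ee_lt hP hp hpF φ) ((card_Scl_le hP hp hpF hM h0 hn h ha φ).trans_eq
      (if_neg (mem_Tw0.1 hφ).ne'))

theorem two_mul_rank_le (hq : p ∣ Nat.card F - 1) :
    2 * blockRank p B ≤ kap p a * ∏ φ ∈ Tw0 p a, (2 * #(Scl p a φ)) := by
  have h₁ := rank_mul_le hP hp hpF hM h0 hn h ha hf hB hc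
  have h₂ := two_mul_card_fixed_le (Tw0 p a) (smul_mem_Tw0 hP hp hpF h.1)
    (nonempty_Tw0 hP hp hpF hM h0 hn h ha hq) (Scl p a)
    fun φ hφ => (card_Scl_le hP hp hpF hM h0 hn h ha φ).trans_eq
      (if_pos (by simpa [mem_Tw0] using hφ))
  simp only [Xone_eq hP hq] at h₁
  refine Nat.le_of_mul_le_mul_right (c := Nat.card (⨅ φ ∈ Tw0 p a,
    MulAction.stabilizer (Cg hP hp hpF a) φ : Subgroup (Cg hP hp hpF a))) ?_ Nat.card_pos
  calc _ = 2 * (blockRank p B * _) := mul_assoc _ _ _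
    _ ≤ kap p a * (2 * fixCount hP hp hpF a) := (Nat.mul_le_mul_left 2 h₁).trans_eq (by ring)
    _ ≤ _ := (Nat.mul_le_mul_left _ h₂).trans_eq (by ring)

theorem rank_le_of_label {D : Subgroup G} (hD : IsDefectGroup p M B D) {s : ℕ}
    (hs : SectionalPRankLE p s D) : blockRank p B ≤ p ^ s := by
  have H := fun t (e : RkB p M (MonoidHom.id _) t χ) =>
    Nat.pow_le_pow_right hp.pos (le_of_rkB hM hf hB hc hD hs e)
  by_cases hq : p ∣ Nat.card F - 1
  swap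
  · exact (rank_le_pow hP hp hpF hM h0 hn h ha hf hB hc hq).trans
      (H _ (rkB_of_not_dvd hP hM hpF hn h ha hq))
  have h₁ := two_mul_rank_le hP hp hpF hM h0 hn h ha hf hB hc hq
  have hw := wtc_eq_sz (a := a) hP hp hpF hq
  obtain ⟨φ₀, hφ₀⟩ := nonempty_Tw0 hP hp hpF hM h0 hn h ha hq
  set W := ∑ φ, wtc p a φ with hW
  set j := (Nat.gcd (Nat.card F - 1) (univ.gcd fun φ => sz (a φ))).factorization p
  have hk : kap p a = p ^ j := rfl
  have hd : ∀ φ, p ^ j ∣ wtc p a φ := fun φ => hw φ ▸ (Nat.ordProj_dvd _ p).trans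
    ((Nat.gcd_dvd_right _ _).trans (Finset.gcd_dvd (mem_univ φ)))
  have hd' : p ^ j ∣ Nat.card F - 1 := (Nat.ordProj_dvd _ p).trans (Nat.gcd_dvd_left _ _)
  have hle : ∀ φ, wtc p a φ ≤ W := fun φ =>
    single_le_sum (f := wtc p a) (fun _ _ => Nat.zero_le _) (mem_univ φ)
  have hjW : p ^ j ≤ W := (Nat.le_of_dvd (mem_Tw0.1 hφ₀) (hd φ₀)).trans (hle φ₀)
  have hW0 : 0 < W := (pow_pos hp.pos j).trans_le hjW
  have h₂ : blockRank p B ≤ p ^ j * 2 ^ (W - 1) := by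
    have : ∏ φ ∈ Tw0 p a, (2 * #(Scl p a φ)) ≤ 2 ^ W := (prod_le_prod' fun φ hφ => by
      have := card_Scl_le hP hp hpF hM h0 hn h ha φ
      rw [if_neg (mem_Tw0.1 hφ).ne', ee_eq_one hP hp hpF hq, one_mul] at this
      rw [← Nat.sub_add_cancel (mem_Tw0.1 hφ), pow_succ']
      exact Nat.mul_le_mul_left 2 this).trans ((prod_pow_eq_pow_sum _ (wtc p a) 2).le.trans
        (Nat.pow_le_pow_right two_pos (sum_le_sum_of_subset (subset_univ _))))
    refine Nat.le_of_mul_le_mul_left (h₁.trans ((Nat.mul_le_mul_left _ this).trans_eq ?_)) two_pos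
    conv_lhs => rw [hk, ← Nat.sub_add_cancel hW0, pow_succ]
    ring
  have h₃ := H _ (rkB_pred hP hM hpF hn h ha)
  obtain hj | hj := Nat.eq_zero_or_pos j
  · rw [hj, pow_zero, one_mul] at h₂
    exact h₂.trans ((Nat.pow_le_pow_left hp.two_le _).trans h₃)
  by_cases h2 : p = 2
  · have he : ∀ φ, 2 ∣ wtc p a φ := fun φ => h2 ▸ (dvd_pow_self p hj.ne').trans (hd φ)
    have hq1 := hP.1
    by_cases h4 : Nat.card F % 4 = 1
    · refine h₂.trans (le_trans ?_ (H _ (rkB_one_mod_four hP hM hpF hn h ha h2 h4 he)))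
      subst h2
      exact num_two hj hjW (dvd_sum fun φ _ => he φ)
    · have h4' : Nat.card F % 4 = 3 := by subst h2; omega
      refine h₂.trans (le_trans ?_ (H _ (rkB_three_mod_four hP hM hpF hn h ha h2 h4' he)))
      subst h2
      obtain hj' : j = 1 := by
        by_contra e
        have := (pow_dvd_pow 2 (show 2 ≤ j by omega)).trans hd'
        omega
      rw [hj', pow_one, ← pow_succ', Nat.sub_add_cancel hW0]
  by_cases h3 : p ^ j = 3 ∧ W = 3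
  swap
  · exact h₂.trans ((num_odd hp h2 hjW h3).trans h₃)
  have hp3 : p = 3 := (Nat.prime_dvd_prime_iff_eq hp Nat.prime_three).1 (h3.1 ▸ dvd_pow_self p hj.ne')
  have hT : ∀ φ ∈ Tw0 p a, wtc p a φ = 3 := fun φ hφ =>
    (h3.2 ▸ hle φ).antisymm (h3.1 ▸ Nat.le_of_dvd (mem_Tw0.1 hφ) (hd φ))
  have hT' : Tw0 p a = {φ₀} := eq_singleton_iff_unique_mem.2 ⟨hφ₀, fun φ hφ => by
    by_contra e
    have := sum_le_sum_of_subset (f := wtc p a) (subset_univ {φ, φ₀})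
    rw [sum_pair e, hT φ hφ, hT φ₀ hφ₀] at this
    omega⟩
  have h₄ : #(Scl p a φ₀) ≤ 3 := by
    rw [Scl, ← Set.ncard_eq_toFinset_card _ (bcls_finite _ _ _ _), ee_eq_one hP hp hpF hq, ← hw,
      hT φ₀ hφ₀]
    exact card_cls_three (by rw [← hT φ₀ hφ₀, hw]; exact h.sz_le hP hn φ₀) _
  rw [hT', prod_singleton, hk, h3.1] at h₁
  refine le_trans ?_ h₃
  rw [← hW, h3.2]
  calc _ ≤ 3 ^ (3 - 1) := by omega
    _ = _ := by rw [hp3]

omit hP hp hn h ha hc in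
theorem rank_le {D : Subgroup G} (hD : IsDefectGroup p M B D) {s : ℕ}
    (hs : SectionalPRankLE p s D) : blockRank p B ≤ p ^ s := by
  have hq : 1 < Nat.card F := Finite.one_lt_card
  have hP := par_factorial hq n
  haveI : NeZero (Nat.card F ^ n.factorial - 1) :=
    ⟨(Nat.sub_pos_of_lt (Nat.one_lt_pow n.factorial_ne_zero hq)).ne'⟩
  obtain ⟨Bt, hBt, hc⟩ := hB.exists_covers_above hM (IsNormalEmb.injective (f := f))
  obtain ⟨χ, hχ, a, h, ha⟩ := exists_mem_basic (k := AlgebraicClosure F) hP hM.fact.out hpF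
    (by simp) hM hBt
  exact rank_le_of_label hP hM.fact.out hpF hM h0 le_rfl h ha hf hB (hBt.eq_blockOf hM hχ ▸ hc) hD hs

end Cfsg.Gln

set_option linter.all false in
theorem Cfsg.Rz.Gln_Final_0 : True := by
  have := @_root_.Cfsg.Gln.fixCount.eq_def.{0, 0}
  have := @_root_.Cfsg.Gln.fixCount.eq_1.{0, 0}
  have := @_root_.Cfsg.Gln.fixCount.fun_cases
  have := @_root_.Cfsg.Gln.Tw0.eq_def.{0, 0}
  have := @_root_.Cfsg.Gln.Tw0.fun_cases
  have := @_root_.Cfsg.Gln.kap.eq_def.{0, 0}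
  have := @_root_.Cfsg.Gln.kap.fun_cases
  have := @_root_.Cfsg.Gln.lin.congr_simp.{0, 0}
  have := @_root_.Cfsg.Gln.lin.eq_def.{0, 0}
  have := @_root_.Cfsg.Gln.lin.eq_1.{0, 0}
  have := @_root_.Cfsg.Gln.lin.fun_cases
  have := @_root_.Cfsg.Gln.Cg.congr_simp.{0, 0}
  have := @_root_.Cfsg.Gln.Cg.eq_def.{0, 0}
  have := @_root_.Cfsg.Gln.Cg.eq_1.{0, 0}
  have := @_root_.Cfsg.Gln.Cg.fun_cases
  have := @_root_.Cfsg.Gln.Scl.eq_def.{0, 0}
  have := @_root_.Cfsg.Gln.Scl.fun_cases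
  trivial
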