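import Cfsg.Agent.Gln.Unfold

/-!
# Cuspidal class functions have a Whittaker model (Bernstein–Zelevinsky) (S4536 project)

`V = Fin m → F`, `ψ₀ : AddChar F ℂ` nontrivial.  For `1 ≤ j ≤ m` let `U_j` be the upper unitriangular
matrices whose upper left `j × j` block is `1`, `ψ_j(u) = ψ₀(∑_{i ≥ j} u_{i,i+1})` (`1`-based: entries
`u_{i,i+1}` with `i ≥ j`), `d_j = |U_j|⁻¹ ∑_{u ∈ U_j} θ(u) conj ψ_j(u)`.  `d_m = θ(1)`; claim
`d_{j+1} = (Q^j - 1) d_j`.  `U_j = A ⋉ U_{j+1}` with `A ≅ F^j` = column `j+1` above the diagonal; Fourier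
expansion on `A`: `d_{j+1} = ∑_ξ ⟨θ, ξ ⊗ ψ_{j+1}⟩_{U_j}` (`ξ ⊗ ψ_{j+1}(u) = ψ₀(∑_{i ≤ j} ξ_i u_{i,j+1}) ψ_{j+1}(u)` is a
character of `U_j`).  The term `ξ = 0` vanishes: it is constant on cosets of the radical
`{[[1, y], [0, 1]]}` (blocks `j`, `m - j`) and `∑_y θ(ext 1 z y) = 0` by `hθ`.  The terms `ξ ≠ 0` are permuted
transitively by conjugation with `GL_j × 1`, which normalises `U_j` and fixes `ψ_{j+1}`; `ξ = e_j` gives `ψ_j`.
An alternative avoiding matrices: induct on `W` with `V = V' × W`, tracking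
`D(V', W, S) = avg_{(z, s) ∈ S} co θ 1_{V'} z * s`.  Any proof is fine.
-/

set_option autoImplicit false
set_option linter.unusedSectionVars false
set_option linter.unusedVariables false
set_option linter.style.haveILetI false

namespace Cfsg.Gln

open Module Finset

universe u

variable {F : Type u} [Field F] [Finite F]

theorem co_eq_zero_of_adj {θ : Hall F} {i : ℕ} (h : ∀ a, IsInv a → adj i a θ = 0)
    (x : GLV F (Fin i → F)) {W : Type*} [AddCommGroup W] [Module F W] [Finite W] (z : End F W) :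
    co θ (x : End F (Fin i → F)) z = 0 := by
  classical
  let a : Hall F := fun c => if c = cls (x : End F (Fin i → F)) then 1 else 0
  have ha : IsInv a := by
    intro c hc
    have : c = cls (x : End F (Fin i → F)) := by
      by_contra h'
      exact hc (if_neg h')
    rw [this, isUnit_rep_cls]
    exact x.isUnit
  have h1 := adj_cls (V := Fin i → F) (Module.finrank_fin_fun F) a θ z
  rw [h a ha, Hall.zero_apply, eq_comm, mul_eq_zero, inv_eq_zero, Nat.cast_eq_zero,
    or_iff_right Nat.card_pos.ne', sum_congr rfl (g := fun y =>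
      if cls y = cls (x : End F (Fin i → F)) then co θ (x : End F (Fin i → F)) z else 0)
      (fun y _ => by
        simp only [a]
        split_ifs with hy
        · rw [one_mul, co_congr θ hy rfl]
        · rw [zero_mul]), ← sum_filter, sum_const, nsmul_eq_mul, mul_eq_zero, Nat.cast_eq_zero,
    card_eq_zero] at h1
  exact h1.resolve_left (nonempty_iff_ne_empty.1 ⟨(x : End F (Fin i → F)), by simp⟩)

theorem sum_shift_eq_zero {V V₁ V₂ : Type*} [AddCommGroup V] [Module F V] [Finite V]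
    [AddCommGroup V₁] [Module F V₁] [Finite V₁] [AddCommGroup V₂] [Module F V₂] [Finite V₂]
    (e : (V₁ × V₂) ≃ₗ[F] V) {θ : Hall F} (h : ∀ z : End F V₂, co θ (1 : End F V₁) z = 0)
    {x : End F V} (hx : ∀ v, x (e (v, 0)) = e (v, 0)) :
    ∑ y : V₂ →ₗ[F] V₁, θ (cls (x + (e : (V₁ × V₂) →ₗ[F] V) ∘ₗ LinearMap.inl F V₁ V₂ ∘ₗ y ∘ₗ
      LinearMap.snd F V₁ V₂ ∘ₗ (e.symm : V →ₗ[F] V₁ × V₂))) = 0 := by
  let w : V₂ →ₗ[F] V₁ × V₂ :=
    (e.symm : V →ₗ[F] V₁ × V₂) ∘ₗ x ∘ₗ (e : (V₁ × V₂) →ₗ[F] V) ∘ₗ LinearMap.inr F V₁ V₂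
  have h1 := h (LinearMap.snd F V₁ V₂ ∘ₗ w)
  rw [co, mul_eq_zero, inv_eq_zero, Nat.cast_eq_zero, or_iff_right Nat.card_pos.ne',
    ← Equiv.sum_comp (Equiv.addLeft (LinearMap.fst F V₁ V₂ ∘ₗ w))] at h1
  rw [← h1]
  refine sum_congr rfl fun y _ => congrArg θ (cls_eq_iff.2 (Sim.symm ⟨e, fun v => ?_⟩))
  obtain ⟨v₁, v₂⟩ := v
  have h2 : x (e (v₁, v₂)) = e (v₁, 0) + e (w v₂) := by
    rw [← hx]
    simp [w, ← map_add]
  simp [h2, ← map_add, add_assoc, Prod.ext_iff]

section Mat

variable [Fintype F] [DecidableEq F] {m j : ℕ} {n n' : Matrix (Fin m) (Fin m) F}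

variable (F m j) in
open Classical in
/-- Strictly upper triangular matrices whose first `j` columns vanish. -/
noncomputable def ggN : Finset (Matrix (Fin m) (Fin m) F) :=
  {n | ∀ a b : Fin m, ¬ (a < b ∧ j ≤ (b : ℕ)) → n a b = 0}

variable (j n) in
/-- The sum of the superdiagonal entries in the columns `≥ j`. -/
def ggL : F := ∑ a : Fin m, ∑ b : Fin m, if (a : ℕ) + 1 = b ∧ j ≤ (b : ℕ) then n a b else 0

/-- The Whittaker sums. -/
noncomputable def ggD (θ : Hall F) (ψ : AddChar F ℂ) (m j : ℕ) : ℂ :=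
  ∑ n ∈ ggN F m j, θ (cls (Matrix.toLin' (1 + n))) * ψ (ggL j n)

theorem mem_ggN : n ∈ ggN F m j ↔ ∀ a b : Fin m, ¬ (a < b ∧ j ≤ (b : ℕ)) → n a b = 0 := by
  simp only [ggN, mem_filter, mem_univ, true_and]

theorem add_mem_ggN (h : n ∈ ggN F m j) (h' : n' ∈ ggN F m j) : n + n' ∈ ggN F m j := by
  rw [mem_ggN] at *
  intro a b hab
  rw [Matrix.add_apply, h a b hab, h' a b hab, add_zero]

theorem mul_mem_ggN (h : n ∈ ggN F m j) (h' : n' ∈ ggN F m j) : n * n' ∈ ggN F m j := by
  rw [mem_ggN] at *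
  intro a b hab
  rw [Matrix.mul_apply]
  refine sum_eq_zero fun c _ => ?_
  by_cases hc : a < c
  · rw [h' c b fun e => hab ⟨hc.trans e.1, e.2⟩, mul_zero]
  · rw [h a c fun e => hc e.1, zero_mul]

theorem isNilpotent_of_mem_ggN (h : n ∈ ggN F m j) : IsNilpotent n := by
  rw [mem_ggN] at h
  have h1 : n.charpoly = Polynomial.X ^ m := by
    rw [Matrix.charpoly_of_isUpperTriangular n fun a b hab =>
      h a b fun e => absurd e.1 (le_of_lt hab).not_gt,
      prod_congr rfl (g := fun _ => Polynomial.X) fun a _ => by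
        rw [h a a fun e => e.1.false, map_zero, sub_zero]]
    simp
  exact ⟨m, by simpa [h1] using n.aeval_self_charpoly⟩

theorem card_ggN : #(ggN F m 1) = Fintype.card F ^ ∑ i ∈ Ico 1 m, i := by
  have h1 : ggN F m 1 = Fintype.piFinset fun a : Fin m => Fintype.piFinset fun b : Fin m =>
      if a < b then (univ : Finset F) else {0} := by
    ext n
    rw [mem_ggN]
    refine Iff.trans ?_ Fintype.mem_piFinset.symm
    refine forall_congr' fun a => Iff.trans ?_ Fintype.mem_piFinset.symm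
    refine forall_congr' fun b => ?_
    split_ifs with h
    · simp only [mem_univ, iff_true]
      exact fun h' => absurd ⟨h, by rw [Fin.lt_def] at h; omega⟩ h'
    · simp [h]
  rw [h1]
  refine (Fintype.card_piFinset _).trans ?_
  simp only [Fintype.card_piFinset, apply_ite Finset.card, card_univ, card_singleton]
  rw [prod_comm]
  simp only [← prod_filter, prod_const, prod_pow_eq_pow_sum]
  congr 1
  rw [sum_congr rfl (g := fun b : Fin m => (b : ℕ)) fun b _ => by
    rw [← Fin.card_Iio]; congr 1; ext; simp, Fin.sum_univ_eq_sum_range (fun i => i), range_eq_Ico]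
  rcases m.eq_zero_or_pos with rfl | hm
  · simp
  · rw [sum_eq_sum_Ico_succ_bot hm, zero_add]

theorem ggL_add (n n' : Matrix (Fin m) (Fin m) F) : ggL j (n + n') = ggL j n + ggL j n' := by
  simp only [ggL, ← sum_add_distrib]
  refine sum_congr rfl fun a _ => sum_congr rfl fun b _ => ?_
  split_ifs <;> simp

theorem ggL_mul (h : n ∈ ggN F m j) (h' : n' ∈ ggN F m j) : ggL j (n * n') = 0 := by
  rw [mem_ggN] at *
  refine sum_eq_zero fun a _ => sum_eq_zero fun b _ => ?_
  split_ifs with hab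
  · rw [Matrix.mul_apply]
    refine sum_eq_zero fun c _ => ?_
    by_cases hc : a < c
    · rw [h' c b fun e => by have := e.1; rw [Fin.lt_def] at *; omega, mul_zero]
    · rw [h a c fun e => hc e.1, zero_mul]
  · rfl

theorem ggL_congr (h : ∀ a b : Fin m, j ≤ a → n a b = n' a b) : ggL (j + 1) n = ggL (j + 1) n' := by
  refine sum_congr rfl fun a _ => sum_congr rfl fun b _ => ?_
  split_ifs with hab
  · exact h a b (by omega)
  · rfl

theorem ggL_succ (n : Matrix (Fin m) (Fin m) F) {l J : Fin m} (hl : (l : ℕ) + 1 = j) (hJ : J = j) :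
    ggL j n = ggL (j + 1) n + n l J := by
  have : n l J = ∑ a, ∑ b, if b = J then (if a = l then n a b else 0) else 0 := by simp
  rw [this]
  simp only [ggL, ← sum_add_distrib]
  refine sum_congr rfl fun a _ => sum_congr rfl fun b _ => ?_
  simp only [Fin.ext_iff]
  split_ifs <;> first | simp; done | omega

theorem sum_addChar_dot {ι : Type*} [Fintype ι] [DecidableEq ι] {ψ : AddChar F ℂ}
    (hψ : ψ.IsPrimitive) (v : ι → F) : ∑ ξ : ι → F, ψ (∑ a, ξ a * v a) =
      if v = 0 then (Fintype.card F : ℂ) ^ Fintype.card ι else 0 := by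
  have h1 : ∀ (s : Finset ι) (u : ι → F), ψ (∑ a ∈ s, u a) = ∏ a ∈ s, ψ (u a) := fun s u => by
    induction s using Finset.induction_on with
    | empty => simp
    | insert a s ha ih => rw [sum_insert ha, prod_insert ha, AddChar.map_add_eq_mul, ih]
  simp only [h1]
  rw [← Fintype.piFinset_univ, ← prod_univ_sum (fun _ => univ) fun a x => ψ (x * v a)]
  simp only [AddChar.sum_mulShift _ hψ]
  split_ifs with h
  · simp [h]
  · obtain ⟨a, ha⟩ := Function.ne_iff.1 h
    exact prod_eq_zero (mem_univ a) (by simpa using ha)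

theorem sum_ggN_eq_zero {θ : Hall F} (hj : j ≤ m) (h : ∀ a, IsInv a → adj j a θ = 0)
    {c : Matrix (Fin m) (Fin m) F → ℂ}
    (hc : ∀ n n' : Matrix (Fin m) (Fin m) F, (∀ a b : Fin m, j ≤ a → n a b = n' a b) → c n = c n') :
    ∑ n ∈ ggN F m j, θ (cls (Matrix.toLin' (1 + n))) * c n = 0 := by
  classical
  let e : (({a : Fin m // (a : ℕ) < j} → F) × ({a : Fin m // ¬ (a : ℕ) < j} → F)) ≃ₗ[F] (Fin m → F) :=
    LinearEquiv.symm { Equiv.piEquivPiSubtypeProd (fun a : Fin m => (a : ℕ) < j) fun _ => F with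
      map_add' := fun _ _ => rfl, map_smul' := fun _ _ => rfl }
  have he : ∀ v a, e v a = if h : (a : ℕ) < j then v.1 ⟨a, h⟩ else v.2 ⟨a, h⟩ := fun v a => rfl
  have he' : ∀ v a, (e.symm v).2 a = v a := fun v a => rfl
  let Y : (({a : Fin m // ¬ (a : ℕ) < j} → F) →ₗ[F] ({a : Fin m // (a : ℕ) < j} → F)) →
      Matrix (Fin m) (Fin m) F := fun y => LinearMap.toMatrix'
    (e.toLinearMap ∘ₗ LinearMap.inl F _ _ ∘ₗ y ∘ₗ LinearMap.snd F _ _ ∘ₗ e.symm.toLinearMap)
  have hY1 : ∀ y (a b : Fin m), j ≤ a → Y y a b = 0 := fun y a b h => by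
    simp [Y, he, h.not_gt]
  have hY2 : ∀ y (a b : Fin m), (b : ℕ) < j → Y y a b = 0 := fun y a b h => by
    have : (e.symm (Pi.single b 1)).2 = 0 := by
      funext c
      rw [he', Pi.single_eq_of_ne (fun e => c.2 (by rw [e]; exact h))]
      rfl
    simp [Y, this, he]
  have hY : ∀ y, Y y ∈ ggN F m j := fun y => mem_ggN.2 fun a b hab => by
    by_cases hb : (b : ℕ) < j
    · exact hY2 y a b hb
    · exact hY1 y a b (by rw [Fin.lt_def] at hab; omega)
  have hco : ∀ z : End F ({a : Fin m // ¬ (a : ℕ) < j} → F),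
      co θ (1 : End F ({a : Fin m // (a : ℕ) < j} → F)) z = 0 := fun z => by
    rw [← co_eq_zero_of_adj h 1 z]
    refine co_congr θ (cls_eq_iff.2 ⟨LinearEquiv.ofFinrankEq _ _ ?_, fun _ => rfl⟩) rfl
    simp [Fin.card_filter_val_lt, hj, Fintype.card_subtype]
  have h1 : ∀ y, ∑ n ∈ ggN F m j, θ (cls (Matrix.toLin' (1 + n))) * c n =
      ∑ n ∈ ggN F m j, θ (cls (Matrix.toLin' (1 + n) + Matrix.toLin' (Y y))) * c n := fun y => by
    refine (sum_equiv (Equiv.addRight (Y y)) (fun n => ?_) fun n _ => ?_).symm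
    · refine ⟨fun hn => add_mem_ggN hn (hY y), fun hn => mem_ggN.2 fun a b hab => ?_⟩
      simpa [mem_ggN.1 (hY y) a b hab] using mem_ggN.1 hn a b hab
    · rw [Equiv.coe_addRight, ← map_add, add_assoc, hc n (n + Y y) fun a b h => by simp [hY1 y a b h]]
  have h2 := sum_congr (rfl : (univ : Finset _) = univ) fun y _ => h1 y
  rw [sum_const, sum_comm, eq_comm, sum_eq_zero fun n hn => ?_, eq_comm, nsmul_eq_mul, mul_eq_zero,
    Nat.cast_eq_zero, or_iff_right univ_nonempty.card_pos.ne'] at h2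
  · exact h2
  rw [← sum_mul]
  simp only [Y, Matrix.toLin'_toMatrix']
  rw [sum_shift_eq_zero e hco fun v => ?_, zero_mul]
  funext a
  rw [map_add, Matrix.toLin'_one, LinearMap.add_apply, LinearMap.id_apply, Pi.add_apply,
    add_eq_left, Matrix.toLin'_apply, Matrix.mulVec, dotProduct]
  refine sum_eq_zero fun b _ => ?_
  by_cases hb : (b : ℕ) < j
  · rw [mem_ggN.1 hn a b fun e => hb.not_ge e.2, zero_mul]
  · simp [he, hb]

theorem sum_ggN_mul {θ : Hall F} {g : Matrix (Fin m) (Fin m) F} (hg : g.det ≠ 0)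
    (hg' : ∀ a b : Fin m, j ≤ a → g a b = if a = b then 1 else 0)
    (c : Matrix (Fin m) (Fin m) F → ℂ) :
    ∑ n ∈ ggN F m j, θ (cls (Matrix.toLin' (1 + n))) * c n =
      ∑ n ∈ ggN F m j, θ (cls (Matrix.toLin' (1 + n))) * c (g * n) := by
  have hu : IsUnit g := (Matrix.isUnit_iff_isUnit_det g).2 (Ne.isUnit hg)
  have h1 : ∀ n ∈ ggN F m j, g * n ∈ ggN F m j := fun n hn => mem_ggN.2 fun a b hab => by
    by_cases hb : (b : ℕ) < j
    · rw [Matrix.mul_apply]
      exact sum_eq_zero fun c _ => by rw [mem_ggN.1 hn c b fun e => hb.not_ge e.2, mul_zero]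
    · have ha : j ≤ a := by rw [Fin.lt_def] at hab; omega
      simp [Matrix.mul_apply, hg' a _ ha, mem_ggN.1 hn a b hab]
  refine (sum_bij (fun n _ => g * n) h1 (fun n _ n' _ h => hu.mul_left_cancel h)
    (surj_on_of_inj_on_of_card_le (fun n _ => g * n) h1
      (fun n n' _ _ h => hu.mul_left_cancel h) le_rfl · · |>.imp fun _ h => h.imp fun _ => Eq.symm)
    fun n hn => ?_).symm
  have h2 : n * g = n := by
    ext a b
    rw [Matrix.mul_apply, sum_congr rfl (g := fun c => if c = b then n a c else 0) fun c _ => ?_]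
    · simp
    · by_cases hc : j ≤ c
      · simp [hg' c b hc]
      · simp [mem_ggN.1 hn a c fun e => hc e.2]
  congr 2
  obtain ⟨g, rfl⟩ := hu
  refine cls_eq_iff.2 ⟨Matrix.toLinearEquiv' (g : Matrix (Fin m) (Fin m) F) g.invertible, fun v => ?_⟩
  change (g : Matrix (Fin m) (Fin m) F).mulVec ((1 + n).mulVec v) = (1 + g * n).mulVec (Matrix.mulVec g v)
  rw [Matrix.mulVec_mulVec, Matrix.mulVec_mulVec, mul_add, add_mul, mul_assoc, h2, mul_one, one_mul]

theorem ggD_succ {θ : Hall F} {ψ : AddChar F ℂ} (hψ : ψ.IsPrimitive) (hj : 1 ≤ j) (hjm : j < m)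
    (h : ∀ a, IsInv a → adj j a θ = 0) :
    (Nat.card F : ℂ) ^ j * ggD θ ψ m (j + 1) = ((Nat.card F : ℂ) ^ j - 1) * ggD θ ψ m j := by
  classical
  let J : Fin m := ⟨j, hjm⟩
  let l : Fin m := ⟨j - 1, by omega⟩
  have hl : (l : ℕ) < j := by simp only [l]; omega
  let T : ({a : Fin m // (a : ℕ) < j} → F) → ℂ := fun ξ => ∑ n ∈ ggN F m j,
    θ (cls (Matrix.toLin' (1 + n))) * (ψ (ggL (j + 1) n) * ψ (∑ a, ξ a * n a J))
  have hc : Fintype.card {a : Fin m // (a : ℕ) < j} = j := by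
    simp [Fin.card_filter_val_lt, hjm.le, Fintype.card_subtype]
  have h1 : ∑ ξ, T ξ = (Nat.card F : ℂ) ^ j * ggD θ ψ m (j + 1) := by
    simp only [T]
    rw [sum_comm]
    simp only [← mul_sum, sum_addChar_dot hψ, hc, mul_ite, mul_zero]
    rw [← sum_filter, ggD, mul_sum, Nat.card_eq_fintype_card]
    refine sum_congr ?_ fun n _ => by ring
    ext n
    simp only [mem_filter, mem_ggN, funext_iff, Subtype.forall, Pi.zero_apply]
    constructor
    · rintro ⟨h1, h2⟩ a b hab
      by_cases hb : b = J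
      · by_cases ha : (a : ℕ) < j
        · exact hb ▸ h2 a ha
        · exact h1 a b fun e => ha (by have := e.1; rwa [hb] at this)
      · refine h1 a b fun e => hab ⟨e.1, ?_⟩
        have := e.2
        simp only [Fin.ext_iff, J] at hb
        omega
    · exact fun h1 => ⟨fun a b hab => h1 a b fun e => hab ⟨e.1, by omega⟩,
        fun a _ => h1 a J fun e => Nat.not_succ_le_self j e.2⟩
  have h2 : T 0 = 0 := by
    simp only [T, Pi.zero_apply, zero_mul, sum_const_zero, AddChar.map_zero_eq_one, mul_one]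
    exact sum_ggN_eq_zero hjm.le h fun n n' e => by rw [ggL_congr e]
  have h3 : ∀ ξ ≠ 0, T ξ = ggD θ ψ m j := by
    intro ξ hξ
    obtain ⟨a₀, ha₀⟩ := Function.ne_iff.1 hξ
    let ξ' : Fin m → F := fun a => if h : (a : ℕ) < j then ξ ⟨a, h⟩ else 0
    let g : Matrix (Fin m) (Fin m) F :=
      ((1 : Matrix (Fin m) (Fin m) F).updateRow a₀ ξ').submatrix (Equiv.swap (a₀ : Fin m) l) id
    have hg : g.det ≠ 0 := by
      rw [Matrix.det_permute, ← Matrix.cramer_transpose_apply, Matrix.transpose_one,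
        Matrix.cramer_one]
      refine mul_ne_zero ((Equiv.Perm.sign _).isUnit.map (Int.castRingHom F)).ne_zero ?_
      simpa [ξ', a₀.2] using ha₀
    have hg' : ∀ a b : Fin m, j ≤ a → g a b = if a = b then 1 else 0 := fun a b ha => by
      have e1 : a ≠ a₀ := fun e => a₀.2.not_ge (e ▸ ha)
      have e2 : a ≠ l := fun e => hl.not_ge (e ▸ ha)
      simp [g, Equiv.swap_apply_of_ne_of_ne e1 e2, Matrix.updateRow_ne e1, Matrix.one_apply]
    rw [ggD, sum_ggN_mul hg hg']
    refine sum_congr rfl fun n hn => ?_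
    rw [ggL_succ (g * n) (l := l) (J := J) (Nat.sub_add_cancel hj) rfl, AddChar.map_add_eq_mul,
      ggL_congr (n := g * n) (n' := n) fun a b ha => by simp [Matrix.mul_apply, hg' a _ ha]]
    congr 3
    simp only [Matrix.mul_apply, g, Matrix.submatrix_apply, Equiv.swap_apply_right,
      Matrix.updateRow_self, id]
    rw [← Fintype.sum_subtype_add_sum_subtype (fun a : Fin m => (a : ℕ) < j),
      sum_eq_zero (s := (univ : Finset {a : Fin m // ¬ (a : ℕ) < j})) fun a _ => by simp [ξ', a.2],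
      add_zero]
    exact sum_congr rfl fun a _ => by simp [ξ', a.2]
  rw [← h1, ← add_sum_erase _ _ (mem_univ 0), h2, zero_add,
    sum_congr rfl fun ξ hξ => h3 ξ (ne_of_mem_erase hξ), sum_const, card_erase_of_mem (mem_univ _),
    nsmul_eq_mul, Nat.cast_sub univ_nonempty.card_pos, card_univ, Fintype.card_fun, hc,
    Nat.card_eq_fintype_card]
  simp

end Mat

theorem exists_whittaker {m : ℕ} (hm : 0 < m) {θ : Hall F}
    (hθ : ∀ i, 0 < i → i < m → ∀ a, IsInv a → adj i a θ = 0) :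
    ∃ U : Subgroup (GLV F (Fin m → F)),
      (∀ u ∈ U, IsNilpotent (((u : GLV F (Fin m → F)) : End F (Fin m → F)) - 1)) ∧
      (∃ t, Nat.card U = Nat.card F ^ t) ∧ ∃ ψ : U →* ℂˣ,
        res (Fin m → F) θ 1 = (∏ i ∈ Ico 1 m, ((Nat.card F : ℂ) ^ i - 1)) *
          ip (res (Fin m → F) θ ∘ U.subtype) fun u => (ψ u : ℂ) := by
  classical
  letI := Fintype.ofFinite F
  let ψ := AddChar.FiniteField.primitiveChar_to_Complex F
  have hψ : ψ.IsPrimitive := AddChar.FiniteField.primitiveChar_to_Complex_isPrimitive F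
  let M : GLV F (Fin m → F) → Matrix (Fin m) (Fin m) F := fun u =>
    LinearMap.toMatrix' (u : End F (Fin m → F)) - 1
  have hM : ∀ u v, M (u * v) = M u + M v + M u * M v := fun u v => by
    simp only [M, Units.val_mul, LinearMap.toMatrix'_mul]
    noncomm_ring
  have hM1 : M 1 = 0 := by simp only [M, Units.val_one, LinearMap.toMatrix'_one, sub_self]
  have hM' : ∀ u, Matrix.toLin' (1 + M u) = (u : End F (Fin m → F)) := fun u => by simp [M]
  let S : Submonoid (GLV F (Fin m → F)) :=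
    { carrier := {u | M u ∈ ggN F m 1}
      one_mem' := by simp [hM1, mem_ggN]
      mul_mem' := fun {u v} hu hv => by
        simp only [Set.mem_ofPred_eq, hM] at hu hv ⊢
        exact add_mem_ggN (add_mem_ggN hu hv) (mul_mem_ggN hu hv) }
  let U : Subgroup (GLV F (Fin m → F)) :=
    { S with
      inv_mem' := fun {u} hu => (Submonoid.powers_le.2 hu : _ ≤ S)
        (mem_powers_iff_mem_zpowers.2 (Subgroup.inv_mem _ (Subgroup.mem_zpowers u))) }
  have hnil : ∀ n ∈ ggN F m 1, IsNilpotent (Matrix.toLin' n) := fun n hn =>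
    (isNilpotent_of_mem_ggN hn).map (Matrix.toLinAlgEquiv' (R := F) (n := Fin m))
  let e : U ≃ ggN F m 1 := Equiv.ofBijective (fun u => ⟨M u, u.2⟩) ⟨fun u v h => by
      have h1 : M u = M v := congrArg Subtype.val h
      exact Subtype.ext (Units.ext (by rw [← hM', h1, hM'])), fun n => by
      obtain ⟨u, hu⟩ := (hnil n n.2).isUnit_one_add
      have h1 : M u = n := by simp [M, hu, Module.End.one_eq_id]
      exact ⟨⟨u, show M u ∈ _ by rw [h1]; exact n.2⟩, Subtype.ext h1⟩⟩
  have hcard : Nat.card U = Nat.card F ^ ∑ i ∈ Ico 1 m, i := by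
    rw [Nat.card_congr e, Nat.card_eq_fintype_card, Fintype.card_coe, card_ggN,
      Nat.card_eq_fintype_card]
  let χ : U →* ℂ :=
    { toFun := fun u => ψ (-ggL 1 (M u))
      map_one' := by simp [hM1, ggL]
      map_mul' := fun u v => by
        rw [Subgroup.coe_mul, hM, ggL_add, ggL_add, ggL_mul u.2 v.2, add_zero, neg_add,
          AddChar.map_add_eq_mul] }
  refine ⟨U, fun u hu => ?_, ⟨_, hcard⟩, χ.toHomUnits, ?_⟩
  · have := hnil _ hu
    rwa [show Matrix.toLin' (M u) = (u : End F (Fin m → F)) - 1 by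
      simp [M, Module.End.one_eq_id]] at this
  letI := Fintype.ofFinite U
  have h1 : ∑ u : U, (res (Fin m → F) θ ∘ U.subtype) u *
      (starRingEnd ℂ) (χ.toHomUnits u : ℂ) = ggD θ ψ m 1 := by
    rw [ggD, ← sum_coe_sort (ggN F m 1), ← e.sum_comp]
    refine sum_congr rfl fun u _ => ?_
    change θ (cls _) * (starRingEnd ℂ) (ψ (-ggL 1 (M u))) =
      θ (cls (Matrix.toLin' (1 + M u))) * ψ (ggL 1 (M u))
    rw [hM', AddChar.map_neg_eq_conj, Complex.conj_conj]
    rfl
  have h2 : ∀ j, 1 ≤ j → j ≤ m → (Nat.card F : ℂ) ^ (∑ i ∈ Ico 1 j, i) * ggD θ ψ m j =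
      (∏ i ∈ Ico 1 j, ((Nat.card F : ℂ) ^ i - 1)) * ggD θ ψ m 1 := by
    intro j hj
    induction j, hj using Nat.le_induction with
    | base => simp
    | succ j hj ih =>
      intro hjm
      rw [sum_Ico_succ_top hj, prod_Ico_succ_top hj, pow_add, mul_assoc,
        ggD_succ hψ hj hjm (hθ j hj hjm), mul_left_comm, ih (by omega)]
      ring
  have h3 : ggD θ ψ m m = res (Fin m → F) θ 1 := by
    have : ggN F m m = {0} := by
      ext n
      simp only [mem_ggN, mem_singleton]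
      exact ⟨fun h => Matrix.ext fun a b => h a b fun h' => absurd b.2 (by omega),
        fun h a b _ => by simp [h]⟩
    simp [ggD, this, ggL, Module.End.one_eq_id]
  have h4 : (Nat.card F : ℂ) ^ (∑ i ∈ Ico 1 m, i) ≠ 0 :=
    pow_ne_zero _ (Nat.cast_ne_zero.2 Nat.card_pos.ne')
  rw [ip_def, h1, hcard, Nat.cast_pow, mul_left_comm, ← h2 m hm le_rfl, h3,
    inv_mul_cancel_left₀ h4]

end Cfsg.Gln

set_option linter.all false in
theorem Cfsg.Rz.Gln_GG_0 : True := by
  have := @_root_.Cfsg.Gln.ggN.eq_def.{0}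
  have := @_root_.Cfsg.Gln.ggN.fun_cases
  have := @_root_.Cfsg.Gln.ggL.eq_def.{0}
  have := @_root_.Cfsg.Gln.ggL.fun_cases
  have := @_root_.Cfsg.Gln.ggD.eq_def.{0}
  have := @_root_.Cfsg.Gln.ggD.fun_cases
  trivial
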