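import Cfsg.Agent.Gln.Sim

/-!
# The Hall algebra of endomorphisms over a finite field (S4536 project)

`Iso F` = similarity classes of endomorphisms of finite-dimensional spaces, `Hall F = Iso F → ℂ` with
`(f * g)(x) = ∑_W f(x|W) g(x on V/W)` over `x`-invariant `W`.
Hints: `cls_sub_eq`/`cls_quo_eq` identify all sub/quotient classes.  `mul_cls`: transport along the
equivalence `V ≃ Fin n → F` (`Submodule.map e`).  Associativity: both sides are sums over pairs `U ≤ W`.
Commutativity: `sim_dualMap`, `W ↦ W.dualAnnihilator` (`W⁰ ≅ (V/W)^*`, `V^*/W⁰ ≅ W^*`).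
-/

set_option autoImplicit false
set_option linter.unusedSectionVars false
set_option linter.unusedVariables false
set_option linter.style.haveILetI false

namespace Cfsg.Gln

open Module Finset

universe u

/-- The general linear group of `V`. -/
abbrev GLV (F V : Type*) [Field F] [AddCommGroup V] [Module F V] := (End F V)ˣ

variable (F : Type u) [Field F]

/-- Similarity classes of endomorphisms. -/
def Iso : Type u :=
  Quotient (α := Σ n : ℕ, End F (Fin n → F))
    ⟨fun a b => Sim a.2 b.2, fun a => .refl _, Sim.symm, Sim.trans⟩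

/-- Class functions on all endomorphism algebras at once. -/
def Hall : Type u := Iso F → ℂ

variable {F} [Finite F] {V W : Type*} [AddCommGroup V] [Module F V] [Finite V] [AddCommGroup W]
  [Module F W] [Finite W]

/-- The class of an endomorphism. -/
noncomputable def cls (x : End F V) : Iso F :=
  Quotient.mk _ ⟨finrank F V, (finBasis F V).equivFun.conj x⟩

/-- The dimension. -/
def Iso.dim (c : Iso F) : ℕ :=
  Quotient.lift (fun a => a.1) (fun a b h => by simpa using Sim.finrank_eq h) c

@[simp] theorem dim_cls (x : End F V) : (cls x).dim = finrank F V := rfl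

theorem cls_eq_iff {x : End F V} {y : End F W} : cls x = cls y ↔ Sim x y :=
  Quotient.eq.trans ⟨fun h => ((sim_conj _ x).trans h).trans (sim_conj _ y).symm,
    fun h => ((sim_conj _ x).symm.trans h).trans (sim_conj _ y)⟩

theorem exists_cls (c : Iso F) (h : finrank F V = c.dim) : ∃ x : End F V, cls x = c := by
  obtain ⟨n, a⟩ := c
  have h' : finrank F (Fin n → F) = finrank F V := by rw [h, Module.finrank_fin_fun]; rfl
  exact ⟨(LinearEquiv.ofFinrankEq _ _ h').conj a,
    Quotient.sound ((sim_conj _ a).trans (sim_conj _ _)).symm⟩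

/-- A representative. -/
noncomputable def Iso.rep (c : Iso F) : End F (Fin c.dim → F) :=
  (exists_cls (V := Fin c.dim → F) c (by simp)).choose

@[simp] theorem cls_rep (c : Iso F) : cls c.rep = c :=
  (exists_cls (V := Fin c.dim → F) c (by simp)).choose_spec

theorem finite_dim (n : ℕ) : {c : Iso F | c.dim = n}.Finite := by
  haveI : Finite (End F (Fin n → F)) := DFunLike.finite _
  refine (Set.finite_range fun x : End F (Fin n → F) => cls x).subset fun c hc => ?_
  exact exists_cls c (by rw [Module.finrank_fin_fun]; exact Eq.symm hc)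

theorem sim_rep (x : End F V) : Sim (cls x).rep x := cls_eq_iff.1 (cls_rep _)

noncomputable instance : Zero (Iso F) := ⟨cls (0 : End F (Fin 0 → F))⟩

noncomputable instance : Add (Iso F) := ⟨fun c d => cls (c.rep.prodMap d.rep)⟩

theorem cls_prodMap (x : End F V) (y : End F W) : cls (x.prodMap y) = cls x + cls y :=
  cls_eq_iff.2 ((sim_rep x).prodMap (sim_rep y)).symm

theorem cls_of_subsingleton [Subsingleton V] (x : End F V) : cls x = 0 :=
  cls_eq_iff.2 ⟨LinearEquiv.ofSubsingleton _ _, fun _ => Subsingleton.elim _ _⟩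

theorem dim_eq_zero {c : Iso F} : c.dim = 0 ↔ c = 0 := by
  constructor
  · intro h
    haveI : IsEmpty (Fin c.dim) := by rw [h]; infer_instance
    rw [← cls_rep c]
    exact cls_of_subsingleton _
  · rintro rfl
    exact Module.finrank_fin_fun F

@[simp] theorem dim_zero : (0 : Iso F).dim = 0 := dim_eq_zero.2 rfl

@[simp] theorem dim_add (c d : Iso F) : (c + d).dim = c.dim + d.dim := by
  change finrank F ((Fin c.dim → F) × (Fin d.dim → F)) = _
  rw [Module.finrank_prod, Module.finrank_fin_fun, Module.finrank_fin_fun]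

private theorem iso_add_comm (c d : Iso F) : c + d = d + c :=
  cls_eq_iff.2 ⟨LinearEquiv.prodComm F _ _, fun _ => rfl⟩

private theorem iso_add_zero (c : Iso F) : c + 0 = c := by
  haveI : IsEmpty (Fin (0 : Iso F).dim) := by rw [dim_zero]; infer_instance
  conv_rhs => rw [← cls_rep c]
  exact cls_eq_iff.2 ⟨LinearEquiv.prodUnique, fun _ => rfl⟩

noncomputable instance : AddCancelCommMonoid (Iso F) where
  add_assoc a b c := by
    rw [← cls_rep a, ← cls_rep b, ← cls_rep c, ← cls_prodMap, ← cls_prodMap, ← cls_prodMap,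
      ← cls_prodMap]
    exact cls_eq_iff.2 ⟨LinearEquiv.prodAssoc F _ _ _, fun _ => rfl⟩
  zero_add a := by rw [iso_add_comm, iso_add_zero]
  add_zero := iso_add_zero
  add_comm := iso_add_comm
  add_left_cancel a b c h := by
    rw [← cls_rep b, ← cls_rep c]
    exact cls_eq_iff.2 ((cls_eq_iff.1 h).cancel (.refl _))
  nsmul := nsmulRec

theorem cls_pi {ι : Type*} [Fintype ι] {A : ι → Type*} [∀ i, AddCommGroup (A i)]
    [∀ i, Module F (A i)] [∀ i, Finite (A i)] (x : ∀ i, End F (A i)) {y : End F V}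
    (φ : V ≃ₗ[F] ∀ i, A i) (h : ∀ v i, φ (y v) i = x i (φ v i)) : cls y = ∑ i, cls (x i) := by
  rw [← cls_rep (∑ i, cls (x i))]
  refine cls_eq_iff.2 (sim_of_finrank_ker fun f => ?_)
  let κ : Iso F →+ ℕ :=
    { toFun := fun c => finrank F (LinearMap.ker (Polynomial.aeval c.rep f))
      map_zero' := by
        haveI : IsEmpty (Fin (0 : Iso F).dim) := by rw [dim_zero]; infer_instance
        exact Module.finrank_zero_of_subsingleton
      map_add' := fun c d => by
        rw [← finrank_ker_prodMap, ← aeval_prodMap]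
        exact ((sim_rep _).aeval f).finrank_ker }
  have hκ : ∀ i, κ (cls (x i)) = finrank F (LinearMap.ker (Polynomial.aeval (x i) f)) :=
    fun i => ((sim_rep _).aeval f).finrank_ker
  change _ = κ _
  rw [map_sum, Finset.sum_congr rfl fun i _ => hκ i, ← Module.finrank_pi_fintype]
  have hp : ∀ (n : ℕ) v i, φ ((y ^ n) v) i = (x i ^ n) (φ v i) := fun n => by
    induction n with
    | zero => simp
    | succ n ih =>
      intro v i
      rw [pow_succ, pow_succ, Module.End.mul_apply, ih, h, Module.End.mul_apply]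
  have hf : ∀ v i, φ (Polynomial.aeval y f v) i = Polynomial.aeval (x i) f (φ v i) := by
    intro v i
    clear hκ κ
    induction f using Polynomial.induction_on' with
    | add f g hf hg => simp [hf, hg]
    | monomial n a => simp [Polynomial.aeval_monomial, hp]
  exact LinearEquiv.finrank_eq
    { toFun := fun v i => ⟨φ v i, by rw [LinearMap.mem_ker, ← hf, v.2, map_zero]; rfl⟩
      invFun := fun w => ⟨φ.symm fun i => w i, φ.injective (funext fun i => by
        rw [hf, φ.apply_symm_apply, map_zero]; exact (w i).2)⟩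
      map_add' := fun v w => funext fun i => Subtype.ext (by simp)
      map_smul' := fun c v => funext fun i => Subtype.ext (by simp)
      left_inv := fun v => Subtype.ext (φ.symm_apply_apply _)
      right_inv := fun w => funext fun i => Subtype.ext (by simp) }

instance finite_quot (U : Submodule F V) : Finite (V ⧸ U) := Quotient.finite _

/-- The invariant subspaces. -/
abbrev Inv (x : End F V) := {U : Submodule F V // U ≤ U.comap x}

noncomputable instance (x : End F V) : Fintype (Inv x) := Fintype.ofFinite _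

/-- Restriction to an invariant subspace. -/
def Inv.sub {x : End F V} (U : Inv x) : End F U.1 := x.restrict fun _ h => U.2 h

/-- The induced map on the quotient. -/
def Inv.quo {x : End F V} (U : Inv x) : End F (V ⧸ U.1) := U.1.mapQ U.1 x U.2

theorem cls_sub_eq {x : End F V} (U : Inv x) {y : End F W} (φ : W →ₗ[F] V)
    (hφ : Function.Injective φ) (hr : LinearMap.range φ = U.1) (h : ∀ w, φ (y w) = x (φ w)) :
    cls U.sub = cls y :=
  cls_eq_iff.2 (Sim.symm ⟨(LinearEquiv.ofInjective φ hφ).trans (LinearEquiv.ofEq _ _ hr),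
    fun w => Subtype.ext (h w)⟩)

theorem cls_quo_eq {x : End F V} (U : Inv x) {y : End F W} (φ : V →ₗ[F] W)
    (hφ : Function.Surjective φ) (hk : LinearMap.ker φ = U.1) (h : ∀ v, φ (x v) = y (φ v)) :
    cls U.quo = cls y :=
  cls_eq_iff.2 ⟨(Submodule.quotEquivOfEq _ _ hk.symm).trans (φ.quotKerEquivOfSurjective hφ), by
    rintro ⟨v⟩
    exact h v⟩

theorem dim_sub_add_dim_quo {x : End F V} (U : Inv x) :
    (cls U.sub).dim + (cls U.quo).dim = (cls x).dim := by
  rw [dim_cls, dim_cls, dim_cls, add_comm, Submodule.finrank_quotient_add_finrank]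

theorem Sim.exists_inv_equiv {x : End F V} {y : End F W} (h : Sim x y) :
    ∃ σ : Inv x ≃ Inv y, ∀ U, cls (σ U).sub = cls U.sub ∧ cls (σ U).quo = cls U.quo := by
  obtain ⟨e, h⟩ := h
  have h' : ∀ w, e.symm (y w) = x (e.symm w) := fun w => e.injective (by simp [h])
  refine ⟨{ toFun := fun U => ⟨U.1.comap e.symm.toLinearMap, fun w hw => ?_⟩
            invFun := fun U => ⟨U.1.comap e.toLinearMap, fun v hv => ?_⟩
            left_inv := fun U => Subtype.ext (by ext; simp)
            right_inv := fun U => Subtype.ext (by ext; simp) }, fun U => ⟨?_, ?_⟩⟩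
  · change e.symm (y w) ∈ U.1
    rw [h']; exact U.2 hw
  · change e (x v) ∈ U.1
    rw [h]; exact U.2 hv
  · refine cls_sub_eq _ (e.toLinearMap ∘ₗ U.1.subtype) (e.injective.comp Subtype.val_injective) ?_
      fun w => h w
    rw [LinearMap.range_comp, Submodule.range_subtype]
    exact Submodule.map_equiv_eq_comap_symm e U.1
  · refine cls_quo_eq _ (U.1.mkQ ∘ₗ e.symm.toLinearMap)
      (U.1.mkQ_surjective.comp e.symm.surjective) ?_ fun w => ?_
    · rw [LinearMap.ker_comp, Submodule.ker_mkQ]; rfl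
    · change U.1.mkQ (e.symm (y w)) = _
      rw [h']; rfl

instance : AddCommGroup (Hall F) := inferInstanceAs (AddCommGroup (Iso F → ℂ))

instance : Module ℂ (Hall F) := inferInstanceAs (Module ℂ (Iso F → ℂ))

@[ext] theorem Hall.ext {f g : Hall F} (h : ∀ c, f c = g c) : f = g := funext h

@[simp] theorem Hall.zero_apply (c : Iso F) : (0 : Hall F) c = 0 := rfl
@[simp] theorem Hall.add_apply (f g : Hall F) (c : Iso F) : (f + g) c = f c + g c := rfl
@[simp] theorem Hall.sub_apply (f g : Hall F) (c : Iso F) : (f - g) c = f c - g c := rfl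
@[simp] theorem Hall.neg_apply (f : Hall F) (c : Iso F) : (-f) c = -f c := rfl
@[simp] theorem Hall.smul_apply (s : ℂ) (f : Hall F) (c : Iso F) : (s • f) c = s * f c := rfl

theorem Hall.sum_apply {ι : Type*} (s : Finset ι) (f : ι → Hall F) (c : Iso F) :
    (∑ i ∈ s, f i) c = ∑ i ∈ s, f i c := Finset.sum_apply c s f

noncomputable instance : Mul (Hall F) :=
  ⟨fun f g c => ∑ U : Inv c.rep, f (cls U.sub) * g (cls U.quo)⟩

noncomputable instance : One (Hall F) := ⟨fun c => if c.dim = 0 then 1 else 0⟩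

theorem Hall.one_apply (c : Iso F) : (1 : Hall F) c = if c.dim = 0 then 1 else 0 := rfl

theorem mul_cls (f g : Hall F) (x : End F V) :
    (f * g) (cls x) = ∑ U : Inv x, f (cls U.sub) * g (cls U.quo) := by
  obtain ⟨σ, hσ⟩ := (sim_rep x).exists_inv_equiv
  exact Fintype.sum_equiv σ _ _ fun U => by rw [(hσ U).1, (hσ U).2]

theorem Hall.mul_apply_zero (f g : Hall F) : (f * g) 0 = f 0 * g 0 := by
  have h := mul_cls f g (0 : End F (Fin 0 → F))
  rw [Fintype.sum_subsingleton _ ⟨⊥, bot_le⟩] at h
  haveI : Subsingleton ((Fin 0 → F) ⧸ (⊥ : Submodule F (Fin 0 → F))) :=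
    (Submodule.mkQ_surjective _).subsingleton
  rw [cls_of_subsingleton, cls_of_subsingleton, cls_of_subsingleton] at h
  exact h

private theorem sum_inv_sub {x : End F V} (W : Inv x) (f g : Hall F) [DecidablePred (· ≤ W)] :
    (f * g) (cls W.sub) = ∑ U : Inv x with U ≤ W, f (cls U.sub) *
      g (cls (Inv.quo (x := W.sub) ⟨U.1.comap W.1.subtype, fun _ h => U.2 h⟩)) := by
  rw [mul_cls]
  symm
  refine Finset.sum_bij' (fun U _ => ⟨U.1.comap W.1.subtype, fun _ h => U.2 h⟩)
    (fun U _ => ⟨U.1.map W.1.subtype, ?_⟩) (fun _ _ => mem_univ _) (fun U _ => ?_) (fun U hU => ?_)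
    (fun U _ => ?_) fun U hU => ?_
  · rintro _ ⟨w, hw, rfl⟩
    exact ⟨W.sub w, U.2 hw, rfl⟩
  · exact mem_filter.2 ⟨mem_univ _, Submodule.map_subtype_le _ _⟩
  · exact Subtype.ext ((Submodule.map_comap_subtype _ _).trans (inf_eq_right.2 (mem_filter.1 hU).2))
  · exact Subtype.ext (Submodule.comap_map_eq_of_injective W.1.injective_subtype _)
  · congr 2
    have hle : U.1 ≤ W.1 := (mem_filter.1 hU).2
    exact (cls_sub_eq _ (Submodule.inclusion hle) (Submodule.inclusion_injective hle)
      (Submodule.range_inclusion _ _ hle) fun _ => rfl).symm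

private theorem sum_inv_quo {x : End F V} (U : Inv x) (g h : Hall F) [DecidablePred (U ≤ ·)] :
    (g * h) (cls U.quo) = ∑ W : Inv x with U ≤ W,
      g (cls (Inv.quo (x := W.sub) ⟨U.1.comap W.1.subtype, fun _ h => U.2 h⟩)) * h (cls W.quo) := by
  rw [mul_cls]
  symm
  refine Finset.sum_bij' (fun W _ => ⟨W.1.map U.1.mkQ, ?_⟩)
    (fun W _ => ⟨W.1.comap U.1.mkQ, fun _ h => W.2 h⟩) (fun _ _ => mem_univ _) (fun W _ => ?_)
    (fun W hW => ?_) (fun W _ => ?_) fun W hW => ?_
  · rintro _ ⟨w, hw, rfl⟩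
    exact ⟨x w, W.2 hw, rfl⟩
  · exact mem_filter.2 ⟨mem_univ _, Submodule.le_comap_mkQ _ _⟩
  · exact Subtype.ext ((Submodule.comap_map_mkQ _ _).trans (sup_eq_right.2 (mem_filter.1 hW).2))
  · exact Subtype.ext (Submodule.map_comap_eq_of_surjective U.1.mkQ_surjective _)
  · have hle : U.1 ≤ W.1 := (mem_filter.1 hW).2
    congr 2
    · refine cls_quo_eq _ (U.1.mkQ.submoduleMap W.1) (LinearMap.submoduleMap_surjective _ _) ?_
        fun _ => rfl
      ext w
      rw [LinearMap.mem_ker, Subtype.ext_iff]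
      exact Submodule.Quotient.mk_eq_zero _
    · refine cls_quo_eq _ ((W.1.map U.1.mkQ).mkQ ∘ₗ U.1.mkQ)
        ((Submodule.mkQ_surjective _).comp U.1.mkQ_surjective) ?_ fun _ => rfl
      rw [LinearMap.ker_comp, Submodule.ker_mkQ, Submodule.comap_map_mkQ, sup_eq_right.2 hle]

private theorem hall_mul_assoc (f g h : Hall F) : f * g * h = f * (g * h) := by
  classical
  ext c
  rw [← cls_rep c, mul_cls, mul_cls]
  simp only [sum_inv_sub, sum_inv_quo, Finset.sum_mul, Finset.mul_sum, Finset.sum_filter]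
  rw [Finset.sum_comm]
  refine Finset.sum_congr rfl fun U _ => Finset.sum_congr rfl fun W _ => ?_
  split_ifs
  · rw [mul_assoc]
  · rw [zero_mul, mul_zero]

private theorem hall_one_mul (f : Hall F) : 1 * f = f := by
  ext c
  rw [← cls_rep c, mul_cls, Finset.sum_eq_single ⟨⊥, bot_le⟩]
  · rw [Hall.one_apply, if_pos (by rw [dim_cls, finrank_bot]), one_mul]
    exact congrArg f (cls_quo_eq _ LinearMap.id Function.surjective_id rfl fun _ => rfl)
  · intro U _ hU
    rw [Hall.one_apply, if_neg, zero_mul]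
    rw [dim_cls, Submodule.finrank_eq_zero]
    exact fun h => hU (Subtype.ext h)
  · exact fun h => absurd (mem_univ _) h

private theorem hall_mul_comm_cls (f g : Hall F) (x : End F V) :
    (f * g) (cls x) = (g * f) (cls x) := by
  haveI : Finite (Dual F V) := Module.finite_of_finite F
  conv_rhs => rw [cls_eq_iff.2 (sim_dualMap x)]
  rw [mul_cls, mul_cls]
  let σ : Inv x → Inv (x.dualMap : End F (Dual F V)) := fun U =>
    ⟨U.1.dualAnnihilator, fun l hl => by
      rw [Submodule.mem_comap, Submodule.mem_dualAnnihilator]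
      exact fun w hw => (Submodule.mem_dualAnnihilator l).1 hl _ (U.2 hw)⟩
  refine Fintype.sum_bijective σ ⟨?_, ?_⟩ _ _ fun U => ?_
  · intro U U' h
    exact Subtype.ext (Subspace.dualAnnihilator_inj.1 (congrArg Subtype.val h))
  · intro U
    refine ⟨⟨U.1.dualCoannihilator, fun v hv => ?_⟩,
      Subtype.ext Subspace.dualCoannihilator_dualAnnihilator_eq⟩
    rw [Submodule.mem_comap, Submodule.mem_dualCoannihilator]
    exact fun l hl => (Submodule.mem_dualCoannihilator v).1 hv _ (U.2 hl)
  · haveI : Finite (Dual F U.1) := Module.finite_of_finite F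
    haveI : Finite (Dual F (V ⧸ U.1)) := Module.finite_of_finite F
    rw [mul_comm, cls_eq_iff.2 (sim_dualMap U.sub), cls_eq_iff.2 (sim_dualMap U.quo)]
    congr 2
    · exact (cls_sub_eq _ U.1.mkQ.dualMap
        (LinearMap.dualMap_injective_of_surjective U.1.mkQ_surjective)
        (Submodule.range_dualMap_mkQ_eq _) fun _ => rfl).symm
    · exact (cls_quo_eq (σ U) U.1.subtype.dualMap
        (LinearMap.dualMap_surjective_of_injective U.1.injective_subtype)
        (U.1.dualRestrict_ker_eq_dualAnnihilator) fun _ => rfl).symm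

private theorem hall_mul_comm (f g : Hall F) : f * g = g * f := by
  ext c
  rw [← cls_rep c, hall_mul_comm_cls]

noncomputable instance : CommRing (Hall F) where
  left_distrib f g h := by
    ext c
    rw [← cls_rep c, Hall.add_apply, mul_cls, mul_cls, mul_cls, ← Finset.sum_add_distrib]
    exact Finset.sum_congr rfl fun U _ => mul_add _ _ _
  right_distrib f g h := by
    ext c
    rw [← cls_rep c, Hall.add_apply, mul_cls, mul_cls, mul_cls, ← Finset.sum_add_distrib]
    exact Finset.sum_congr rfl fun U _ => add_mul _ _ _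
  zero_mul f := by
    ext c
    rw [← cls_rep c, mul_cls]
    exact Finset.sum_eq_zero fun U _ => zero_mul _
  mul_zero f := by
    ext c
    rw [← cls_rep c, mul_cls]
    exact Finset.sum_eq_zero fun U _ => mul_zero _
  mul_assoc := hall_mul_assoc
  one_mul := hall_one_mul
  mul_one f := by rw [hall_mul_comm, hall_one_mul]
  mul_comm := hall_mul_comm

noncomputable instance : Algebra ℂ (Hall F) :=
  Algebra.ofModule
    (fun s f g => by
      ext c
      rw [← cls_rep c, Hall.smul_apply, mul_cls, mul_cls, Finset.mul_sum]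
      exact Finset.sum_congr rfl fun U _ => mul_assoc _ _ _)
    (fun s f g => by
      ext c
      rw [← cls_rep c, Hall.smul_apply, mul_cls, mul_cls, Finset.mul_sum]
      exact Finset.sum_congr rfl fun U _ => mul_left_comm _ _ _)

noncomputable instance : StarRing (Hall F) where
  star f c := star (f c)
  star_involutive f := funext fun c => star_star _
  star_mul f g := by
    ext c
    rw [mul_comm f]
    exact (star_sum _ _).trans (Finset.sum_congr rfl fun U _ => star_mul' _ _)
  star_add f g := funext fun c => star_add _ _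

@[simp] theorem Hall.star_apply (f : Hall F) (c : Iso F) : star f c = star (f c) := rfl

instance : StarModule ℂ (Hall F) := ⟨fun s f => funext fun c => star_mul' _ _⟩

/-- Pointwise product. -/
noncomputable def pw : Hall F →ₗ[ℂ] Hall F →ₗ[ℂ] Hall F :=
  LinearMap.mk₂ ℂ (fun f g c => f c * g c) (fun _ _ _ => funext fun _ => add_mul _ _ _)
    (fun _ _ _ => funext fun _ => mul_assoc _ _ _) (fun _ _ _ => funext fun _ => mul_add _ _ _)
    fun _ _ _ => funext fun _ => mul_left_comm _ _ _

@[simp] theorem pw_apply (f g : Hall F) (c : Iso F) : pw f g c = f c * g c := rfl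

variable (F) in
/-- Functions supported in dimension `n`. -/
noncomputable def hom (n : ℕ) : Submodule ℂ (Hall F) where
  carrier := {f | ∀ c, c.dim ≠ n → f c = 0}
  add_mem' h h' c e := by simp [h c e, h' c e]
  zero_mem' _ _ := rfl
  smul_mem' _ _ h c e := by simp [h c e]

theorem mem_hom {n : ℕ} {f : Hall F} : f ∈ hom F n ↔ ∀ c, c.dim ≠ n → f c = 0 := Iff.rfl

theorem one_mem_hom : (1 : Hall F) ∈ hom F 0 := fun c h => if_neg h

theorem mul_mem_hom (i j : ℕ) : ∀ f ∈ hom F i, ∀ g ∈ hom F j, f * g ∈ hom F (i + j) := by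
  intro f hf g hg c hc
  rw [← cls_rep c, mul_cls]
  refine Finset.sum_eq_zero fun U _ => ?_
  have := dim_sub_add_dim_quo U
  rw [cls_rep] at this
  by_cases h : (cls U.sub).dim = i
  · rw [hg _ (by omega), mul_zero]
  · rw [hf _ h, zero_mul]

theorem star_mem_hom {n : ℕ} {f : Hall F} (h : f ∈ hom F n) : star f ∈ hom F n :=
  fun c e => by simp [h c e]

theorem eq_smul_one {f : Hall F} (h : f ∈ hom F 0) : f = f 0 • 1 := by
  ext c
  rw [Hall.smul_apply, Hall.one_apply]
  split_ifs with hc
  · rw [dim_eq_zero.1 hc, mul_one]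
  · rw [h c hc, mul_zero]

/-- The component in dimension `n`. -/
noncomputable def comp (n : ℕ) : Hall F →ₗ[ℂ] Hall F where
  toFun f c := if c.dim = n then f c else 0
  map_add' f g := funext fun c => by
    show ite _ (f c + g c) _ = ite _ _ _ + ite _ _ _
    split_ifs <;> simp
  map_smul' s f := funext fun c => by
    show ite _ (s * f c) _ = s * ite _ _ _
    split_ifs <;> simp

theorem comp_apply (n : ℕ) (f : Hall F) (c : Iso F) :
    comp n f c = if c.dim = n then f c else 0 := rfl

theorem comp_mem (n : ℕ) (f : Hall F) : comp n f ∈ hom F n := fun _ h => if_neg h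

theorem comp_of_mem {n : ℕ} {f : Hall F} (h : f ∈ hom F n) : comp n f = f := by
  ext c
  rw [comp_apply]
  split_ifs with hc
  · rfl
  · exact (h c hc).symm

theorem comp_of_ne {m n : ℕ} {f : Hall F} (h : f ∈ hom F n) (e : m ≠ n) : comp m f = 0 := by
  ext c
  rw [comp_apply]
  split_ifs with hc
  · exact h c (hc ▸ e)
  · rfl

theorem comp_mul (n : ℕ) (f g : Hall F) :
    comp n (f * g) = ∑ x ∈ antidiagonal n, comp x.1 f * comp x.2 g := by
  ext c
  rw [Hall.sum_apply, comp_apply, ← cls_rep c, mul_cls]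
  simp only [mul_cls]
  rw [Finset.sum_comm]
  split_ifs with hc
  · refine Finset.sum_congr rfl fun U _ => ?_
    rw [Finset.sum_eq_single ((cls U.sub).dim, (cls U.quo).dim), comp_apply, comp_apply,
      if_pos rfl, if_pos rfl]
    · rintro ⟨a, b⟩ _ hab
      by_cases h : (cls U.sub).dim = a
      · rw [comp_apply b, if_neg (fun h' => hab (by rw [h, h'])), mul_zero]
      · rw [comp_apply a, if_neg h, zero_mul]
    · exact fun h => absurd (mem_antidiagonal.2 ((dim_sub_add_dim_quo U).trans hc)) h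
  · refine (Finset.sum_eq_zero fun U _ => Finset.sum_eq_zero fun x hx => ?_).symm
    have h1 := dim_sub_add_dim_quo U
    have h2 := mem_antidiagonal.1 hx
    by_cases h : (cls U.sub).dim = x.1
    · rw [comp_apply x.2, if_neg (by omega), mul_zero]
    · rw [comp_apply x.1, if_neg h, zero_mul]

theorem coeff_prod_comp {ι : Type*} (s : Finset ι) (f : ι → Hall F) (n : ℕ) :
    PowerSeries.coeff n (∏ i ∈ s, PowerSeries.mk fun j => comp j (f i)) = comp n (∏ i ∈ s, f i) := by
  classical
  induction s using Finset.induction_on generalizing n with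
  | empty =>
    rw [Finset.prod_empty, Finset.prod_empty, PowerSeries.coeff_one]
    split_ifs with h
    · rw [h, comp_of_mem one_mem_hom]
    · rw [comp_of_ne one_mem_hom h]
  | insert a s ha ih =>
    rw [Finset.prod_insert ha, Finset.prod_insert ha, PowerSeries.coeff_mul, comp_mul]
    exact Finset.sum_congr rfl fun x _ => by rw [PowerSeries.coeff_mk, ih]

/-- Functions multiplicative in short exact sequences. -/
structure Mult (a : Hall F) : Prop where
  zero : a 0 = 1
  mul : ∀ (c : Iso F) (U : Inv c.rep), a c = a (cls U.sub) * a (cls U.quo)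

theorem Mult.cls {a : Hall F} (h : Mult a) {x : End F V} (U : Inv x) :
    a (cls x) = a (cls U.sub) * a (cls U.quo) := by
  obtain ⟨σ, hσ⟩ := (sim_rep x).symm.exists_inv_equiv
  rw [h.mul _ (σ U), (hσ U).1, (hσ U).2]

theorem Mult.add {a : Hall F} (h : Mult a) (c d : Iso F) : a (c + d) = a c * a d := by
  let U : Inv (c.rep.prodMap d.rep) := ⟨LinearMap.ker (LinearMap.snd F _ _), fun v hv => by
    change d.rep v.2 = 0
    rw [show v.2 = 0 from hv, map_zero]⟩
  have h1 : Gln.cls U.sub = Gln.cls c.rep :=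
    cls_sub_eq U (LinearMap.inl F _ _) LinearMap.inl_injective (LinearMap.range_inl F _ _)
      fun w => by simp
  have h2 : Gln.cls U.quo = Gln.cls d.rep :=
    cls_quo_eq U (LinearMap.snd F _ _) LinearMap.snd_surjective rfl fun _ => rfl
  have := h.cls U
  rwa [h1, h2, cls_rep, cls_rep] at this

theorem Mult.comp_zero {a : Hall F} (h : Mult a) : comp 0 a = 1 := by
  ext c
  rw [comp_apply, Hall.one_apply]
  split_ifs with hc
  · rw [dim_eq_zero.1 hc, h.zero]
  · rfl

theorem Mult.pw {a b : Hall F} (ha : Mult a) (hb : Mult b) : Mult (pw a b) :=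
  ⟨by rw [pw_apply, ha.zero, hb.zero, one_mul], fun c U => by
    rw [pw_apply, pw_apply, pw_apply, ha.mul c U, hb.mul c U, mul_mul_mul_comm]⟩

/-- Pointwise multiplication with a multiplicative function is an algebra map. -/
noncomputable def Mult.hom {a : Hall F} (h : Mult a) : Hall F →ₐ[ℂ] Hall F :=
  AlgHom.ofLinearMap (Gln.pw a)
    (by
      ext c
      rw [pw_apply, Hall.one_apply]
      split_ifs with hc
      · rw [dim_eq_zero.1 hc, h.zero, mul_one]
      · exact mul_zero _)
    (fun f g => by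
      ext c
      rw [pw_apply, ← cls_rep c, mul_cls, mul_cls, Finset.mul_sum]
      exact Finset.sum_congr rfl fun U _ => by
        rw [h.cls U, pw_apply, pw_apply, mul_mul_mul_comm])

@[simp] theorem Mult.hom_apply {a : Hall F} (h : Mult a) (f : Hall F) (c : Iso F) :
    h.hom f c = a c * f c := rfl

variable (V) in
/-- The class function on `GL(V)` given by `f`. -/
noncomputable def res : Hall F →ₗ[ℂ] (GLV F V → ℂ) where
  toFun f g := f (Gln.cls (g : End F V))
  map_add' _ _ := rfl
  map_smul' _ _ := rfl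

@[simp] theorem res_apply (f : Hall F) (g : GLV F V) : res V f g = f (cls (g : End F V)) := rfl

theorem cls_eq_iff_isConj {g h : GLV F V} : cls (g : End F V) = cls (h : End F V) ↔ IsConj g h :=
  cls_eq_iff.trans sim_iff_isConj

end Cfsg.Gln

set_option linter.all false in
theorem Cfsg.Rz.Gln_Hall_0 : True := by
  have := @_root_.Cfsg.Gln.Inv.eq_def.{0, 0}
  have := @_root_.Cfsg.Gln.Inv.eq_1.{0, 0}
  have := @_root_.Cfsg.Gln.Inv.fun_cases
  have := @_root_.Cfsg.Gln.instAddCommGroupHall.eq_def.{0}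
  have := @_root_.Cfsg.Gln.instAddCommGroupHall.eq_1.{0}
  have := @_root_.Cfsg.Gln.instAddCommGroupHall.fun_cases
  have := @_root_.Cfsg.Gln.Iso.dim.eq_def.{0}
  have := @_root_.Cfsg.Gln.Iso.dim.eq_1.{0}
  have := @_root_.Cfsg.Gln.Iso.dim.fun_cases
  have := @_root_.Cfsg.Gln.Mult.mk.congr_simp.{0}
  have := @_root_.Cfsg.Gln.instFintypeInv.congr_simp.{0, 0}
  have := @_root_.Cfsg.Gln.instFintypeInv.eq_def.{0, 0}
  have := @_root_.Cfsg.Gln.instFintypeInv.eq_1.{0, 0}
  have := @_root_.Cfsg.Gln.instFintypeInv.fun_cases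
  have := @_root_.Cfsg.Gln.Iso.eq_def.{0}
  have := @_root_.Cfsg.Gln.Iso.eq_1.{0}
  have := @_root_.Cfsg.Gln.Iso.fun_cases
  have := @_root_.Cfsg.Gln.Inv.sub.eq_def.{0, 0}
  have := @_root_.Cfsg.Gln.Inv.sub.eq_1.{0, 0}
  have := @_root_.Cfsg.Gln.Inv.sub.fun_cases
  have := @_root_.Cfsg.Gln.comp.eq_def.{0}
  have := @_root_.Cfsg.Gln.comp.eq_1.{0}
  have := @_root_.Cfsg.Gln.comp.fun_cases
  have := @_root_.Cfsg.Gln.instCommRingHall.congr_simp.{0}
  have := @_root_.Cfsg.Gln.instCommRingHall.eq_def.{0}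
  have := @_root_.Cfsg.Gln.instCommRingHall.eq_1.{0}
  have := @_root_.Cfsg.Gln.instCommRingHall.fun_cases
  have := @_root_.Cfsg.Gln.GLV.eq_def.{0, 0}
  have := @_root_.Cfsg.Gln.GLV.eq_1.{0, 0}
  have := @_root_.Cfsg.Gln.GLV.fun_cases
  trivial

set_option linter.all false in
theorem Cfsg.Rz.Gln_Hall_1 : True := by
  have := @_root_.Cfsg.Gln.Mult.congr_simp.{0}
  have := @_root_.Cfsg.Gln.Iso.rep.congr_simp.{0}
  have := @_root_.Cfsg.Gln.Iso.rep.eq_def.{0}
  have := @_root_.Cfsg.Gln.Iso.rep.eq_1.{0}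
  have := @_root_.Cfsg.Gln.Iso.rep.fun_cases
  have := @_root_.Cfsg.Gln.res.congr_simp.{0, 0}
  have := @_root_.Cfsg.Gln.res.eq_def.{0, 0}
  have := @_root_.Cfsg.Gln.res.eq_1.{0, 0}
  have := @_root_.Cfsg.Gln.res.fun_cases
  have := @_root_.Cfsg.Gln.instOneHall.eq_def.{0}
  have := @_root_.Cfsg.Gln.instOneHall.eq_1.{0}
  have := @_root_.Cfsg.Gln.instOneHall.fun_cases
  have := @_root_.Cfsg.Gln.instModuleComplexHall.eq_def.{0}
  have := @_root_.Cfsg.Gln.instModuleComplexHall.eq_1.{0}
  have := @_root_.Cfsg.Gln.instModuleComplexHall.fun_cases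
  have := @_root_.Cfsg.Gln.pw.eq_def.{0}
  have := @_root_.Cfsg.Gln.pw.eq_1.{0}
  have := @_root_.Cfsg.Gln.pw.fun_cases
  have := @_root_.Cfsg.Gln.instMulHall.congr_simp.{0}
  have := @_root_.Cfsg.Gln.instMulHall.eq_def.{0}
  have := @_root_.Cfsg.Gln.instMulHall.eq_1.{0}
  have := @_root_.Cfsg.Gln.instMulHall.fun_cases
  have := @_root_.Cfsg.Gln.hom.eq_def.{0}
  have := @_root_.Cfsg.Gln.hom.eq_1.{0}
  have := @_root_.Cfsg.Gln.hom.fun_cases
  have := @_root_.Cfsg.Gln.cls.congr_simp.{0, 0}
  have := @_root_.Cfsg.Gln.cls.eq_def.{0, 0}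
  have := @_root_.Cfsg.Gln.cls.eq_1.{0, 0}
  have := @_root_.Cfsg.Gln.cls.fun_cases
  have := @_root_.Cfsg.Gln.Inv.quo.eq_def.{0, 0}
  trivial

set_option linter.all false in
theorem Cfsg.Rz.Gln_Hall_2 : True := by
  have := @_root_.Cfsg.Gln.Inv.quo.eq_1.{0, 0}
  have := @_root_.Cfsg.Gln.Inv.quo.fun_cases
  have := @_root_.Cfsg.Gln.Hall.eq_def.{0}
  have := @_root_.Cfsg.Gln.Hall.eq_1.{0}
  have := @_root_.Cfsg.Gln.Hall.fun_cases
  have := @_root_.Cfsg.Gln.instAddIso.congr_simp.{0}
  have := @_root_.Cfsg.Gln.instAddIso.eq_def.{0}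
  have := @_root_.Cfsg.Gln.instAddIso.eq_1.{0}
  have := @_root_.Cfsg.Gln.instAddIso.fun_cases
  have := @_root_.Cfsg.Gln.Mult.hom.congr_simp.{0}
  have := @_root_.Cfsg.Gln.Mult.hom.eq_def.{0}
  have := @_root_.Cfsg.Gln.Mult.hom.eq_1.{0}
  have := @_root_.Cfsg.Gln.Mult.hom.fun_cases
  have := @_root_.Cfsg.Gln.instAddCancelCommMonoidIso.congr_simp.{0}
  have := @_root_.Cfsg.Gln.instAddCancelCommMonoidIso.eq_def.{0}
  have := @_root_.Cfsg.Gln.instAddCancelCommMonoidIso.eq_1.{0}
  have := @_root_.Cfsg.Gln.instAddCancelCommMonoidIso.fun_cases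
  have := @_root_.Cfsg.Gln.instZeroIso.congr_simp.{0}
  have := @_root_.Cfsg.Gln.instZeroIso.eq_def.{0}
  have := @_root_.Cfsg.Gln.instZeroIso.eq_1.{0}
  have := @_root_.Cfsg.Gln.instZeroIso.fun_cases
  have := @_root_.Cfsg.Gln.instStarRingHall.eq_def.{0}
  have := @_root_.Cfsg.Gln.instStarRingHall.eq_1.{0}
  have := @_root_.Cfsg.Gln.instStarRingHall.fun_cases
  have := @_root_.Cfsg.Gln.instAlgebraComplexHall.eq_def.{0}
  have := @_root_.Cfsg.Gln.instAlgebraComplexHall.eq_1.{0}
  have := @_root_.Cfsg.Gln.instAlgebraComplexHall.fun_cases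
  trivial
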