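import Cfsg.Agent.Gln.Norm

/-!
# Heisenberg relations (S4536 project)

`adj_pI_mul`.  Fix `x, y`, `h i = comp i (Hx x)`, `g j = adj j (Hx y)`, `z l = int l (pw (Hx x) (Hx y))` (so
`z l = [l = 0]` unless `x ~ y`), `c` the Newton sequence of `z` (`c l = d * int l (pI l x)` if `x ~ y`, by `int_mul`).
`heis`: `g j (h i * f) = ∑ z l • h (i-l) * g (j-l) f`.  Claim A: `g j (Π l * f) = Π l * g j f + [l ≤ j] c l • g (j-l) f`
for `Π = nw h`: with `G f = PowerSeries.mk (g · f)` one has `G (u * f) = G u * G f` for `u` in the algebra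
generated by the `h i` (`G (h i) = ∑ z l • h (i-l) X^l`), and `G (Π l) = C (Π l) + c l • X^l` by `IsNw.conv`,
`IsNw.scale`, `IsNw.right_eq` in `PowerSeries (Hall F)`.  Claim B: with `Π* m = adj m (nw (comp · (Hx y)) m)` and
`adj_mul`: `m g m = ∑ g (m-i) ∘ Π* i`; strong induction on `m` gives `[Π* m, Π l] = [m = l] l c l`.
`adj_P_mul`: expand both `P`, use `sum_pr_left` and `Per.card_filter_iterate`-type counting:
`∑_{y ~ x} pr y b = (d/n) ∑_{i<n} pr (x^(q^i)) b`.  `adj_cut_P_mul`: the same with `x` restricted to `p`-regular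
elements (`cut_pI`), or via `cut_P`.
-/

set_option autoImplicit false
set_option linter.unusedSectionVars false
set_option linter.unusedVariables false
set_option linter.style.haveILetI false

namespace Cfsg.Gln

open Module Finset Polynomial

universe u

variable {F : Type u} [Field F] [Finite F] {k : Type*} [Field k] [Algebra F k] [IsAlgClosed k]
  [Algebra.IsAlgebraic F k] {R N m n p : ℕ} [NeZero R]

theorem IsNw.transfer {A B : Type*} [CommRing A] [CommRing B] (G : A →+ B) {h π : ℕ → A}
    {K L : ℕ → B} (H : IsNw h π) (H' : IsNw K L) (hK : ∀ i f, G (h i * f) = K i * G f) (n : ℕ)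
    (f : A) : G (π (n + 1) * f) = L (n + 1) * G f := by
  induction n using Nat.strong_induction_on generalizing f with
  | _ n ih =>
  have h1 : ∑ x ∈ antidiagonal n, G (π (x.1 + 1) * (h x.2 * f)) =
      ∑ x ∈ antidiagonal n, L (x.1 + 1) * G (h x.2 * f) := by
    simp only [hK, ← mul_assoc]
    rw [← map_sum, ← Finset.sum_mul, ← Finset.sum_mul, ← H.2, ← H'.2, mul_assoc, ← nsmul_eq_mul,
      map_nsmul, hK, nsmul_eq_mul, mul_assoc]
  have hm : (n, 0) ∈ antidiagonal n := by simp
  rw [← Finset.add_sum_erase _ _ hm, ← Finset.add_sum_erase _ _ hm, Finset.sum_congr rfl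
    (g := fun x => L (x.1 + 1) * G (h x.2 * f)), add_left_inj, H.1, one_mul] at h1
  · exact h1
  · rintro ⟨a, b⟩ hx
    have h2 := mem_erase.1 hx
    have h3 : a + b = n := mem_antidiagonal.1 h2.2
    refine ih a ?_ _
    by_contra h4
    exact h2.1 (Prod.ext (by simp only; omega) (by simp only; omega))

theorem comm_of_nw {A : Type*} [Ring A] {g Q : ℕ → A} {T c : A} {l : ℕ} (hl : 0 < l)
    (hc : ∀ a, Commute c a) (h0 : g 0 = 1)
    (hN : ∀ n, ((n + 1 : ℕ) : A) * g (n + 1) = ∑ x ∈ antidiagonal n, g x.1 * Q x.2)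
    (hA : ∀ j, g j * T = T * g j + if l ≤ j then c * g (j - l) else 0) (n : ℕ) :
    Q n * T = T * Q n + if n + 1 = l then (l : A) * c else 0 := by
  obtain ⟨l, rfl⟩ := Nat.exists_eq_succ_of_ne_zero hl.ne'
  let G : PowerSeries A := .mk g
  let G' : PowerSeries A := .mk fun n => ((n + 1 : ℕ) : A) * g (n + 1)
  let P : PowerSeries A := .mk Q
  have e1 : G' = G * P := PowerSeries.ext fun n => by
    simp only [G', G, P, PowerSeries.coeff_mul, PowerSeries.coeff_mk, hN]
  have e2 : G * .C T = .C T * G + .C c * (.X ^ (l + 1) * G) := PowerSeries.ext fun n => by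
    simp only [G, map_add, PowerSeries.coeff_mul_C, PowerSeries.coeff_C_mul, PowerSeries.coeff_mk,
      PowerSeries.coeff_X_pow_mul', hA, mul_ite, mul_zero, Nat.succ_eq_add_one]
  have e3 : G' * .C T = .C T * G' + .C c * (.X ^ (l + 1) * G') +
      G * (.X ^ l * .C (((l + 1 : ℕ) : A) * c)) := PowerSeries.ext fun n => by
    rw [← mul_assoc G]
    simp only [G, G', map_add, PowerSeries.coeff_mul_C, PowerSeries.coeff_C_mul,
      PowerSeries.coeff_mk, PowerSeries.coeff_X_pow_mul', PowerSeries.coeff_mul_X_pow']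
    simp only [mul_assoc, hA, mul_add, Nat.succ_eq_add_one, add_le_add_iff_right,
      Nat.add_sub_add_right]
    rw [(Nat.cast_commute (n + 1) T).left_comm, add_assoc, add_right_inj]
    by_cases h1 : l + 1 ≤ n
    · obtain ⟨r, rfl⟩ := Nat.exists_eq_add_of_le h1
      rw [if_pos (by omega), if_pos h1, if_pos (by omega), show l + 1 + r - l = r + 1 by omega,
        Nat.add_sub_cancel_left, ← (Nat.cast_commute (r + 1) c).left_comm,
        ← (Nat.cast_commute (l + 1) (g (r + 1))).left_comm, ← (hc (g (r + 1))).eq, ← add_mul,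
        ← Nat.cast_add]
      congr 2
      omega
    · rw [if_neg h1, mul_zero, zero_add]
      split_ifs with h2
      · obtain rfl : l = n := by omega
        rw [Nat.sub_self, h0, mul_one, one_mul]
      · simp
  have hcG : ∀ φ : PowerSeries A, .C c * φ = φ * .C c := fun φ => PowerSeries.ext fun n => by
    rw [PowerSeries.coeff_mul_C, PowerSeries.coeff_C_mul, (hc _).eq]
  have e4 : G * (P * .C T) = G * (.C T * P + .X ^ l * .C (((l + 1 : ℕ) : A) * c)) := by
    rw [mul_add, ← mul_assoc, ← mul_assoc G (.C T), e2, ← e1, e3, e1]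
    simp only [add_mul, mul_assoc]
  have e5 := congrArg (G.invOfUnit 1 * ·) e4
  simp only [← mul_assoc, PowerSeries.invOfUnit_mul G 1 (by simp [G, h0]), one_mul] at e5
  have := congrArg (PowerSeries.coeff n) e5
  simp only [P, map_add, PowerSeries.coeff_mul_C, PowerSeries.coeff_C_mul, PowerSeries.coeff_mk,
    PowerSeries.coeff_X_pow, ite_mul, one_mul, zero_mul] at this
  simp only [this, Nat.succ_eq_add_one, add_left_inj]

open Classical in
theorem isNw_int_pw (x y : k) : IsNw (fun l => int l (pw (Hx F x) (Hx F y)))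
    fun l => if IsConjRoot F x y then (fdeg F x : ℂ) * int l (pI F l x) else 0 := by
  split_ifs with h
  · have e : pw (Hx F x) (Hx F y) = Hx F x := Hall.ext fun c => by
      rw [pw_apply, Hx_apply, Hx_apply]
      split_ifs with h1 h2
      · exact mul_one _
      · exact absurd (fun t ht => h.symm.trans (h1 t ht)) h2
      all_goals exact zero_mul _
    have H := (isNw_Hx (F := F) x).graded int (by rw [int_zero, Hall.one_apply, if_pos dim_zero])
      (fun i j a ha b hb => int_mul ha hb) (fun n => comp_mem n _)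
      fun n => Submodule.smul_mem _ _ (pI_mem_hom n x)
    simpa only [e, int_comp, map_smul, smul_eq_mul] using H
  · have e : ∀ l, int (l + 1) (pw (Hx F x) (Hx F y)) = 0 := fun l => by
      rw [int_congr (g := 0), map_zero]
      intro c hc
      obtain ⟨t, ht⟩ := Multiset.card_pos_iff_exists_mem.1
        (show 0 < (ev k c).card by rw [card_ev, hc]; omega)
      rw [pw_apply, Hx_apply, Hx_apply]
      split_ifs with h1 h2
      · exact absurd ((h1 t ht).trans (h2 t ht).symm) h
      all_goals simp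
    refine ⟨?_, fun l => by simp [e]⟩
    simp [int_zero, Hx_apply]

theorem adj_nw_mul {a b : Hall F} (ha : Mult a) (hb : Mult b) {π : ℕ → Hall F} {c : ℕ → ℂ}
    (H : IsNw (fun j => comp j a) π) (Hc : IsNw (fun l => int l (pw a b)) c) (hn : 0 < n) (j : ℕ)
    (f : Hall F) : adj j b (π n * f) =
      π n * adj j b f + if n ≤ j then c n • adj (j - n) b f else 0 := by
  obtain ⟨n, rfl⟩ := Nat.exists_eq_succ_of_ne_zero hn.ne'
  let G : Hall F →+ PowerSeries (Hall F) :=
    { toFun := fun f => .mk fun j => adj j b f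
      map_zero' := PowerSeries.ext fun j => by simp
      map_add' := fun f g => PowerSeries.ext fun j => by simp }
  have hG : ∀ j f, PowerSeries.coeff j (G f) = adj j b f := fun j f =>
    PowerSeries.coeff_mk j fun j => adj j b f
  have H' := ((Hc.map ((PowerSeries.C : Hall F →+* _).comp (algebraMap ℂ _))).scale .X).conv
    (H.map (PowerSeries.C : Hall F →+* _))
  have := congrArg (PowerSeries.coeff j) (H.transfer G H' (fun i f => PowerSeries.ext fun j => by
    rw [hG, heis ha hb, Finset.sum_mul, map_sum, Finset.Nat.sum_antidiagonal_eq_sum_range_succ_mk]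
    simp only [Function.comp_apply, RingHom.comp_apply, mul_assoc, PowerSeries.coeff_X_pow_mul',
      PowerSeries.coeff_C_mul, hG, ← Algebra.smul_def]
    rw [← Finset.sum_filter]
    refine Finset.sum_congr ?_ fun _ _ => rfl
    ext l
    simp only [mem_range, mem_filter]
    omega) n f)
  rw [hG] at this
  rw [this]
  simp only [Pi.add_apply, Function.comp_apply, RingHom.comp_apply, mul_assoc, add_mul, map_add,
    PowerSeries.coeff_X_pow_mul', PowerSeries.coeff_C_mul, hG, ← Algebra.smul_def]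
  exact add_comm _ _

theorem adj_nw_mul_nw {a b : Hall F} (ha : Mult a) (hb : Mult b) {π π' : ℕ → Hall F} {c : ℕ → ℂ}
    (H : IsNw (fun j => comp j a) π) (H' : IsNw (fun j => comp j b) π') (hπ : ∀ j, π' j ∈ hom F j)
    (Hc : IsNw (fun l => int l (pw a b)) c) (hm : 0 < m) (hn : 0 < n) (f : Hall F) :
    adj m (π' m) (π n * f) = π n * adj m (π' m) f + (if m = n then n * c n else 0) • f := by
  obtain ⟨m, rfl⟩ := Nat.exists_eq_succ_of_ne_zero hm.ne'
  have := comm_of_nw (A := End ℂ (Hall F)) (g := fun j => adj j b)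
    (Q := fun j => adj (j + 1) (π' (j + 1))) (T := LinearMap.mulLeft ℂ (π n))
    (c := algebraMap ℂ _ (c n)) hn (Algebra.commutes _) (LinearMap.ext fun f => by
      rw [adj_zero, hb.zero, one_smul, Module.End.one_apply]) (fun l => by
      have := congrArg (adj (l + 1)) (H'.2 l)
      rw [← nsmul_eq_mul, map_nsmul, nsmul_eq_mul, map_sum, LinearMap.ext (adj_comp (l + 1) b)] at this
      rw [this, ← Finset.Nat.sum_antidiagonal_swap]
      refine Finset.sum_congr rfl fun x hx => LinearMap.ext fun f => ?_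
      rw [show l + 1 = x.swap.1 + 1 + x.swap.2 by
        have := mem_antidiagonal.1 hx; simp only [Prod.fst_swap, Prod.snd_swap]; omega,
        adj_mul (hπ _) (comp_mem _ _), adj_comp]
      rfl) (fun j => LinearMap.ext fun f => by
      rw [Module.End.mul_apply, LinearMap.mulLeft_apply, adj_nw_mul ha hb H Hc hn]
      split_ifs <;> simp) m
  have := LinearMap.congr_fun this f
  rw [Module.End.mul_apply, LinearMap.mulLeft_apply] at this
  rw [this]
  split_ifs
  · simp [mul_smul, Nat.cast_smul_eq_nsmul]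
  · simp

open Classical in
theorem adj_pI_mul (hm : 0 < m) (hn : 0 < n) (x y : k) (f : Hall F) :
    adj m (pI F m y) (pI F n x * f) = pI F n x * adj m (pI F m y) f +
      (if m = n ∧ IsConjRoot F x y ∧ fdeg F x ∣ n then
        (n : ℂ) / fdeg F x / ((Nat.card F : ℂ) ^ n - 1) else 0) • f := by
  have := adj_nw_mul_nw (mult_mf _) (mult_mf _) (isNw_Hx x) (isNw_Hx y)
    (fun j => Submodule.smul_mem _ _ (pI_mem_hom j y)) (isNw_int_pw x y) hm hn f
  have hx : (fdeg F x : ℂ) ≠ 0 := by exact_mod_cast (fdeg_pos (F := F) x).ne'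
  have hy : (fdeg F y : ℂ) ≠ 0 := by exact_mod_cast (fdeg_pos (F := F) y).ne'
  simp only [map_smul, smul_mul_assoc, mul_smul_comm, LinearMap.smul_apply] at this
  refine smul_right_injective _ hy (smul_right_injective _ hx ?_)
  simp only [smul_add]
  rw [this, smul_comm, smul_smul _ _ f, smul_smul _ _ f]
  congr 2
  by_cases h1 : m = n
  · by_cases h2 : IsConjRoot F x y
    · by_cases h3 : fdeg F x ∣ n
      · have : fdeg F y = fdeg F x := congrArg natDegree (Eq.symm h2)
        rw [if_pos h1, if_pos h2, if_pos ⟨h1, h2, h3⟩, int_pI hn h3, this]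
        field_simp
      · simp [h3, pI_eq_zero h3]
    · simp [h2]
  · simp [h1]

theorem adj_sum_mul {ι κ : Type*} (s : Finset ι) (t : Finset κ) (α : ι → ℂ) (β : κ → ℂ)
    {u : ι → Hall F} {v : κ → Hall F} {γ : ι → κ → ℂ} (f : Hall F)
    (h : ∀ i j, adj m (v j) (u i * f) = u i * adj m (v j) f + γ i j • f) :
    adj m (∑ j ∈ t, β j • v j) ((∑ i ∈ s, α i • u i) * f) =
      (∑ i ∈ s, α i • u i) * adj m (∑ j ∈ t, β j • v j) f +
        (∑ j ∈ t, β j * ∑ i ∈ s, α i * γ i j) • f := by
  have h1 : ∀ j, adj m (v j) ((∑ i ∈ s, α i • u i) * f) =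
      (∑ i ∈ s, α i • u i) * adj m (v j) f + (∑ i ∈ s, α i * γ i j) • f := fun j => by
    simp only [Finset.sum_mul, map_sum, smul_mul_assoc, map_smul, h, smul_add,
      Finset.sum_add_distrib, smul_smul, Finset.sum_smul]
  rw [map_sum, LinearMap.sum_apply, LinearMap.sum_apply, Finset.mul_sum, Finset.sum_smul,
    ← Finset.sum_add_distrib]
  refine Finset.sum_congr rfl fun j _ => ?_
  rw [map_smul, LinearMap.smul_apply, LinearMap.smul_apply, h1, smul_add, mul_smul_comm, smul_smul]

open Classical in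
theorem sum_conj_eq (hP : Par (Nat.card F) R N) (w : Mu k R → ℂ) {y : Mu k R}
    (hy : y ^ (Nat.card F ^ n - 1) = 1) :
    ∑ x : Mu k R with x ^ (Nat.card F ^ n - 1) = 1,
      w x * (if IsConjRoot F (mv x) (mv y) then (n : ℂ) / fdeg F (mv y) else 0) =
      ∑ i ∈ range n, w (y ^ Nat.card F ^ i) := by
  have hq : 0 < Nat.card F := Nat.card_pos
  have hper := hP.per (A := Mu k R) Mu.pow_eq_one
  have hd : (Orb.mk (frob (Nat.card F)) y).deg ∣ n :=
    hper.iterate_eq_iff.1 ((frob_iterate _ _ _).trans ((pow_pow_eq_iff hq y).2 hy))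
  rw [← Finset.sum_fiberwise_of_maps_to (s := range n)
    (t := {x : Mu k R | x ^ (Nat.card F ^ n - 1) = 1}) (g := fun i => y ^ Nat.card F ^ i)
    fun i _ => mem_filter.2 ⟨mem_univ _, by rw [← pow_mul, mul_comm, pow_mul, hy, one_pow]⟩]
  refine Finset.sum_congr rfl fun x _ => ?_
  rw [Finset.sum_congr rfl (g := fun _ => w x) fun i hi => by rw [(mem_filter.1 hi).2],
    Finset.sum_const, nsmul_eq_mul, mul_comm]
  congr 1
  have := hper.card_filter_iterate (b := x) hd
  simp only [frob_iterate] at this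
  rw [this, isConjRoot_mv hP, fdeg_mv hP]
  split_ifs with h1 h2 h2
  · rw [Nat.cast_div hd (by exact_mod_cast (hper.deg_pos _).ne')]
  · exact absurd h1.symm h2
  · exact absurd h2.symm h1
  · simp

theorem adj_P_mul (hP : Par (Nat.card F) R N) (hm : 0 < m) (hm' : m ≤ N) (hn : 0 < n) (hn' : n ≤ N)
    {a b : Lab k R} (ha : a ^ (Nat.card F ^ n - 1) = 1) (hb : b ^ (Nat.card F ^ m - 1) = 1)
    (f : Hall F) : adj m (star (P F m b)) (P F n a * f) = P F n a * adj m (star (P F m b)) f +
      (if m = n then (#{i ∈ range n | a ^ Nat.card F ^ i = b} : ℂ) else 0) • f := by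
  classical
  rw [star_P hP hm hm', P, P, adj_sum_mul _ _ _ _ f fun x y => adj_pI_mul hm hn (mv x) (mv y) f]
  congr 2
  split_ifs with e
  swap
  · simp [e]
  subst e
  have hq : 0 < Nat.card F := Nat.card_pos
  have hR := cast_ne_zero_of_par k hP
  have hd := hP.dvd hm hm'
  have hq1 := card_pow_sub_one_ne (F := F) hm
  have hb' : b⁻¹ ^ (Nat.card F ^ m - 1) = 1 := by rw [inv_pow b, hb]; exact inv_one (G := Lab k R)
  have ha' : ∀ i, (a ^ Nat.card F ^ i) ^ (Nat.card F ^ m - 1) = 1 := fun i => by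
    rw [← pow_mul a, mul_comm, pow_mul a, ha, one_pow (M := Lab k R)]
  rw [Finset.sum_congr rfl (g := fun y => ((Nat.card F : ℂ) ^ m - 1)⁻¹ * ∑ i ∈ range m,
    pr (Nat.card F ^ m - 1) y (a ^ Nat.card F ^ i * b⁻¹)), ← Finset.mul_sum, Finset.sum_comm,
    Finset.sum_congr rfl fun i _ => sum_pr_left hR hd (by
      rw [mul_pow _ b⁻¹, ha', hb']; exact mul_one (1 : Lab k R)),
    ← Finset.sum_filter, Finset.sum_const, nsmul_eq_mul, Nat.cast_sub (Nat.one_le_pow _ _ hq),
    Nat.cast_pow, Nat.cast_one, mul_left_comm, inv_mul_cancel₀ hq1, mul_one]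
  · congr 2
    exact Finset.filter_congr fun i _ => mul_inv_eq_one (G := Lab k R)
  intro y hy
  have hy' := (mem_filter.1 hy).2
  have hdy : fdeg F (mv y) ∣ m := pow_eq_iff_fdeg_dvd.1 (by
    rw [← mv_pow, (pow_pow_eq_iff hq y).2 hy'])
  rw [Finset.sum_congr rfl fun i _ => pr_mul_right hR hd hy' (ha' i) hb', ← Finset.sum_mul,
    Finset.sum_congr rfl fun i _ => (pr_pow hR hd hy' ha _).symm,
    ← sum_conj_eq (F := F) hP (fun x => pr _ x a) hy', mul_comm, ← mul_assoc, Finset.mul_sum]
  congr 1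
  refine Finset.sum_congr rfl fun x _ => ?_
  by_cases h : IsConjRoot F (mv x) (mv y)
  · have : fdeg F (mv x) = fdeg F (mv y) := congrArg natDegree h
    rw [this, if_pos ⟨rfl, h, hdy⟩, if_pos h]
    ring
  · simp [h]

private theorem eq_one_of_mul_pow {G : Type*} [CommGroup G] [Finite G] (hp : p.Prime) {q R e : ℕ}
    (hq : q.Coprime R) {a b c : G} (hR : c ^ R = 1) (hc : c ^ p ^ e = 1) (ha : IsPRegular p a)
    (hb : IsPRegular p b) (h : (a * c) ^ q = b) : c = 1 := by
  haveI := Fact.mk hp
  have h2 : c ^ q = (a ^ q)⁻¹ * b := by rw [← h, mul_pow, inv_mul_cancel_left]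
  have h3 : IsPRegular p (c ^ q) := by
    rw [h2]
    exact (isPRegular_inv_iff.2 (ha.pow _)).mul_of_commute hb (mul_comm _ _)
  rw [IsPRegular, (Nat.Coprime.coprime_dvd_left (orderOf_dvd_of_pow_eq_one hR) hq.symm).orderOf_pow]
    at h3
  obtain ⟨j, -, hj⟩ := (Nat.dvd_prime_pow hp).1 (orderOf_dvd_of_pow_eq_one hc)
  rw [← orderOf_eq_one_iff, hj]
  rcases j with _ | j
  · rfl
  · exact absurd (by rw [hj]; exact dvd_pow_self p j.succ_ne_zero) h3

theorem adj_cut_P_mul (hP : Par (Nat.card F) R N) (hp : p.Prime) (hm : 0 < m) (hm' : m ≤ N)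
    (hn : 0 < n) (hn' : n ≤ N) {a b : Lab k R} (ha : a ^ (Nat.card F ^ n - 1) = 1)
    (hb : b ^ (Nat.card F ^ m - 1) = 1) (ha' : IsPRegular p a) (hb' : IsPRegular p b) (f : Hall F) :
    adj m (star (P F m b)) (cut F (regS k p) (P F n a) * f) =
      cut F (regS k p) (P F n a) * adj m (star (P F m b)) f +
      (if m = n then (#{i ∈ range n | a ^ Nat.card F ^ i = b} : ℂ) /
        (ordProj[p] (Nat.card F ^ n - 1) : ℕ) else 0) • f := by
  classical
  rw [cut_P hP hn hn' hp ha, smul_mul_assoc, smul_mul_assoc, map_smul, Finset.sum_mul,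
    Finset.sum_mul, map_sum, Finset.sum_congr rfl fun c hc => adj_P_mul hP hm hm' hn hn' (by
      obtain ⟨r, hr⟩ := Nat.ordProj_dvd (Nat.card F ^ n - 1) p
      rw [mul_pow a, ha, hr, pow_mul c, (mem_filter.1 hc).2, one_pow (M := Lab k R)]
      exact mul_one (1 : Lab k R)) hb f,
    Finset.sum_add_distrib, smul_add, ← Finset.sum_smul, smul_smul]
  congr 2
  split_ifs with e
  swap
  · simp
  rw [Finset.sum_eq_single 1, show a * 1 = a from mul_one a, div_eq_inv_mul]
  · intro c hc h1
    rw [Nat.cast_eq_zero, Finset.card_eq_zero, Finset.filter_eq_empty_iff]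
    intro i _ hi
    exact h1 (eq_one_of_mul_pow (G := Lab k R) hp (hP.coprime.pow_left i) (Lab.pow_eq_one c)
      (mem_filter.1 hc).2 ha' hb' hi)
  · intro h
    refine absurd (mem_filter.2 ⟨mem_univ _, ?_⟩) h
    exact one_pow (M := Lab k R) _

theorem adj_monomial {I : Type*} [DecidableEq I] {g : I → Hall F} {D : Hall F →ₗ[ℂ] Hall F} {i : I}
    {γ : ℂ} {μ : Multiset I} (h1 : D 1 = 0)
    (h : ∀ j ∈ μ, ∀ f, D (g j * f) = g j * D f + (if i = j then γ else 0) • f) :
    D (μ.map g).prod = (μ.count i * γ) • ((μ.erase i).map g).prod := by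
  induction μ using Multiset.induction_on with
  | empty => simpa using h1
  | cons j μ ih =>
    rw [Multiset.map_cons, Multiset.prod_cons, h j (Multiset.mem_cons_self _ _),
      ih fun j hj => h j (Multiset.mem_cons_of_mem hj), mul_smul_comm]
    split_ifs with e
    · subst e
      rw [Multiset.erase_cons_head, Multiset.count_cons_self, Nat.cast_succ, add_mul, one_mul,
        add_smul, add_left_inj]
      by_cases hi : i ∈ μ
      · rw [Multiset.prod_map_erase hi]
      · simp [Multiset.count_eq_zero_of_notMem hi]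
    · rw [Multiset.erase_cons_tail _ (Ne.symm e), Multiset.count_cons_of_ne e, Multiset.map_cons,
        Multiset.prod_cons, zero_smul, add_zero]

theorem prod_mem_hom {I : Type*} {g : I → Hall F} {d : I → ℕ} {μ : Multiset I}
    (hg : ∀ i ∈ μ, g i ∈ hom F (d i)) : (μ.map g).prod ∈ hom F (μ.map d).sum := by
  induction μ using Multiset.induction_on with
  | empty => simpa using one_mem_hom
  | cons j μ ih =>
    rw [Multiset.map_cons, Multiset.map_cons, Multiset.prod_cons, Multiset.sum_cons]
    exact mul_mem_hom _ _ _ (hg j (Multiset.mem_cons_self _ _)) _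
      (ih fun j hj => hg j (Multiset.mem_cons_of_mem hj))

private theorem prod_factorial_cons {I : Type*} [DecidableEq I] (i : I) (ν : Multiset I) :
    ∏ j ∈ (i ::ₘ ν).toFinset, (((i ::ₘ ν).count j).factorial : ℂ) =
      ((ν.count i + 1 : ℕ) : ℂ) * ∏ j ∈ ν.toFinset, ((ν.count j).factorial : ℂ) := by
  have h1 : ∏ j ∈ ν.toFinset, ((ν.count j).factorial : ℂ) =
      ∏ j ∈ (i ::ₘ ν).toFinset, ((ν.count j).factorial : ℂ) :=
    Finset.prod_subset (by rw [Multiset.toFinset_cons]; exact subset_insert _ _) fun j _ hj => by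
      rw [Multiset.count_eq_zero_of_notMem (mt Multiset.mem_toFinset.2 hj)]; simp
  have hi : i ∈ (i ::ₘ ν).toFinset := by simp
  rw [h1, ← Finset.mul_prod_erase _ _ hi, ← Finset.mul_prod_erase _ _ hi, Multiset.count_cons_self,
    Nat.factorial_succ, Nat.cast_mul, mul_assoc]
  congr 2
  exact Finset.prod_congr rfl fun j hj => by rw [Multiset.count_cons_of_ne (mem_erase.1 hj).1]

/-- Orthogonality of monomials in a Heisenberg family. -/
theorem bf_monomial {I : Type*} [DecidableEq I] {s : Set I} {g g' : I → Hall F} {d : I → ℕ}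
    {γ : I → ℂ} (hd : ∀ i ∈ s, 0 < d i) (hg : ∀ i ∈ s, g i ∈ hom F (d i))
    (hg' : ∀ i ∈ s, g' i ∈ hom F (d i))
    (h : ∀ i ∈ s, ∀ j ∈ s, ∀ f, adj (d i) (g' i) (g j * f) =
      g j * adj (d i) (g' i) f + (if i = j then γ i else 0) • f)
    {μ ν : Multiset I} (hμ : ∀ i ∈ μ, i ∈ s) (hν : ∀ i ∈ ν, i ∈ s) :
    bf (ν.map d).sum (μ.map g).prod (ν.map g').prod =
      if μ = ν then (μ.map γ).prod * ∏ i ∈ μ.toFinset, ((μ.count i).factorial : ℂ) else 0 := by
  induction ν using Multiset.induction_on generalizing μ with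
  | empty =>
    split_ifs with e
    · subst e
      simp [bf_def, int_zero, Hall.one_apply]
    · refine bf_eq_zero (prod_mem_hom fun i hi => hg i (hμ i hi)) ?_ _
      obtain ⟨i, hi⟩ := Multiset.exists_mem_of_ne_zero e
      have := Multiset.le_sum_of_mem (Multiset.mem_map_of_mem d hi)
      have := hd i (hμ i hi)
      simp only [Multiset.map_zero, Multiset.sum_zero]
      omega
  | cons i ν ih =>
    have hi := hν i (Multiset.mem_cons_self _ _)
    rw [Multiset.map_cons, Multiset.sum_cons, Multiset.map_cons, Multiset.prod_cons, bf_comm,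
      bf_mul_left (hg' i hi), adj_monomial (γ := γ i) (i := i)
        (adj_eq_zero _ one_mem_hom (hd i hi)) fun j hj => h i hi j (hμ j hj), map_smul, bf_comm,
      ih (fun j hj => hμ j (Multiset.mem_of_mem_erase hj))
        fun j hj => hν j (Multiset.mem_cons_of_mem hj), smul_eq_mul]
    by_cases e : μ = i ::ₘ ν
    · subst e
      rw [Multiset.erase_cons_head, if_pos rfl, if_pos rfl, prod_factorial_cons,
        Multiset.count_cons_self, Multiset.map_cons, Multiset.prod_cons]
      ring
    · rw [if_neg e]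
      by_cases hi' : i ∈ μ
      · rw [if_neg, mul_zero]
        exact fun e' => e (by rw [← e', Multiset.cons_erase hi'])
      · simp [Multiset.count_eq_zero_of_notMem hi']

end Cfsg.Gln
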