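import Cfsg.Agent.Gln.Beta

/-!
# Newton sequences and Schur functions in a commutative `ℂ`-algebra (S4536 project)

`IsNw h π` says `H' = P H` for `H = ∑ h n t^n`, `P = ∑ π (n+1) t^n` (`π 0` is never used).
`Sch π b` is the Jacobi–Trudi determinant.  `Sch_eq_sum`: both sides `S` satisfy
`(∑ b - tri N) • S b = ∑_{k ≥ 1} π k * dn k S b` (left: Newton recursion in each factor; right: `X_cons`,
`zc_cons`, `∑_k k * count k μ = |μ|`) and agree when `∑ b ≤ tri N` (`X_zero`).  `mul_Sch` from `up_X`,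
`pm_eq_sum` from `sum_X_mul_X`, `deriv_Sch` best directly from Jacobi–Trudi (first show
`E (nexp π j * f) = γ • ε (nexp π (j-k)) * ε f + ε (nexp π j) * E f` by strong induction).
`rowSum`: it equals `ip (XF a) (XF b)` on `Perm (Fin m)` (`card_centralizer_eq_zc`, `isConj_iff_pt`,
every partition is a `Perm.partition`), then `Sym.mult_spec`, `XF_eq_smul`, `eq_of_mult_ne_zero`.
-/

set_option autoImplicit false
set_option linter.unusedSectionVars false
set_option linter.unusedVariables false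
set_option linter.style.haveILetI false

namespace Cfsg.Gln

open Finset Function Sym Equiv

variable {R S : Type*} [CommRing R] [Algebra ℂ R] [CommRing S] [Algebra ℂ S] {N : ℕ}
  {h h' π π' : ℕ → R}

/-- Newton's identities. -/
def IsNw (h π : ℕ → R) : Prop :=
  h 0 = 1 ∧ ∀ n, ((n + 1 : ℕ) : R) * h (n + 1) = ∑ x ∈ antidiagonal n, π (x.1 + 1) * h x.2

/-- Power sums from complete symmetric functions. -/
noncomputable def nw (h : ℕ → R) : ℕ → R
  | 0 => 0
  | n + 1 => ((n + 1 : ℕ) : R) * h (n + 1) - ∑ i : Fin n, nw h (i + 1) * h (n - i)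
decreasing_by omega

/-- Complete symmetric functions from power sums. -/
noncomputable def nexp (π : ℕ → R) : ℕ → R
  | 0 => 1
  | n + 1 => ((n + 1 : ℕ) : ℂ)⁻¹ • ∑ i : Fin (n + 1), π (n - i + 1) * nexp π i
decreasing_by omega

theorem natCast_succ_mul_cancel {n : ℕ} {x y : R}
    (e : ((n + 1 : ℕ) : R) * x = ((n + 1 : ℕ) : R) * y) : x = y := by
  have h1 : ∀ z : R, ((n + 1 : ℕ) : R) * z = ((n + 1 : ℕ) : ℂ) • z := fun z => by
    rw [Algebra.smul_def, map_natCast]
  rw [h1, h1] at e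
  exact smul_right_injective R (Nat.cast_ne_zero.2 n.succ_ne_zero) e

private theorem isNw_iff : IsNw h π ↔ h 0 = 1 ∧ ∀ n, π (n + 1) =
    ((n + 1 : ℕ) : R) * h (n + 1) - ∑ i ∈ range n, π (i + 1) * h (n - i) := by
  refine and_congr_right fun h0 => forall_congr' fun n => ?_
  rw [Finset.Nat.sum_antidiagonal_eq_sum_range_succ fun i j => π (i + 1) * h j, sum_range_succ,
    Nat.sub_self, h0, mul_one, eq_sub_iff_add_eq', eq_comm]

private theorem isNw_iff' : IsNw h π ↔ h 0 = 1 ∧
    PowerSeries.derivative R (PowerSeries.mk h) =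
      PowerSeries.mk (fun n => π (n + 1)) * PowerSeries.mk h := by
  refine and_congr_right fun h0 => ?_
  rw [PowerSeries.ext_iff]
  refine forall_congr' fun n => ?_
  simp only [PowerSeries.coeff_derivative, PowerSeries.coeff_mul, PowerSeries.coeff_mk]
  rw [mul_comm, Nat.cast_succ]

theorem isNw_nw (h0 : h 0 = 1) : IsNw h (nw h) :=
  isNw_iff.2 ⟨h0, fun n => by
    rw [nw, Fin.sum_univ_eq_sum_range fun i => nw h (i + 1) * h (n - i)]⟩

theorem nexp_zero (π : ℕ → R) : nexp π 0 = 1 := by rw [nexp]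

theorem isNw_nexp (π : ℕ → R) : IsNw (nexp π) π := by
  refine ⟨nexp_zero π, fun n => ?_⟩
  rw [nexp, mul_smul_comm, Fin.sum_univ_eq_sum_range fun i => π (n - i + 1) * nexp π i,
    ← Finset.Nat.sum_antidiagonal_swap, ← map_natCast (algebraMap ℂ R), ← Algebra.smul_def, smul_smul,
    inv_mul_cancel₀ (Nat.cast_ne_zero.2 n.succ_ne_zero), one_smul]
  exact (Finset.Nat.sum_antidiagonal_eq_sum_range_succ (fun i j => π (j + 1) * nexp π i) n).symm

theorem nexp_one (π : ℕ → R) : nexp π 1 = π 1 := by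
  simpa [nexp_zero] using (isNw_nexp π).2 0

theorem IsNw.right_eq (H : IsNw h π) (H' : IsNw h' π') {n : ℕ} (e : ∀ j ≤ n, h j = h' j) {j : ℕ}
    (h0 : 0 < j) (hj : j ≤ n) : π j = π' j := by
  induction j using Nat.strong_induction_on with | h j ih => ?_
  obtain ⟨m, rfl⟩ := Nat.exists_eq_succ_of_ne_zero h0.ne'
  rw [(isNw_iff.1 H).2 m, (isNw_iff.1 H').2 m, e _ hj]
  congr 1
  refine sum_congr rfl fun i hi => ?_
  have := mem_range.1 hi
  rw [ih _ (by omega) i.succ_pos (by omega), e _ (by omega)]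

theorem IsNw.left_eq (H : IsNw h π) (H' : IsNw h' π') {n : ℕ}
    (e : ∀ j, 0 < j → j ≤ n → π j = π' j) {j : ℕ} (hj : j ≤ n) : h j = h' j := by
  induction j using Nat.strong_induction_on with | h j ih => ?_
  rcases j with _ | m
  · rw [H.1, H'.1]
  refine natCast_succ_mul_cancel (n := m) ?_
  rw [H.2, H'.2]
  refine sum_congr rfl fun x hx => ?_
  have := mem_antidiagonal.1 hx
  rw [ih _ (by omega) (by omega), e _ x.1.succ_pos (by omega)]

theorem IsNw.map (H : IsNw h π) (φ : R →+* S) : IsNw (φ ∘ h) (φ ∘ π) :=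
  ⟨by simp [H.1], fun n => by simpa using congrArg φ (H.2 n)⟩

theorem IsNw.conv (H : IsNw h π) (H' : IsNw h' π') :
    IsNw (fun n => ∑ x ∈ antidiagonal n, h x.1 * h' x.2) (π + π') := by
  have e : (PowerSeries.mk fun n => ∑ x ∈ antidiagonal n, h x.1 * h' x.2) =
      PowerSeries.mk h * PowerSeries.mk h' := by
    ext n; simp [PowerSeries.coeff_mul]
  have e' : (PowerSeries.mk fun n => (π + π') (n + 1)) =
      PowerSeries.mk (fun n => π (n + 1)) + PowerSeries.mk fun n => π' (n + 1) := by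
    ext n; simp
  refine isNw_iff'.2 ⟨by simp [H.1, H'.1], ?_⟩
  rw [e, e', Derivation.leibniz, (isNw_iff'.1 H).2, (isNw_iff'.1 H').2, smul_eq_mul, smul_eq_mul]
  ring

theorem IsNw.prod {ι : Type*} (s : Finset ι) {h π : ι → ℕ → R} (H : ∀ i ∈ s, IsNw (h i) (π i)) :
    IsNw (fun n => PowerSeries.coeff n (∏ i ∈ s, PowerSeries.mk (h i))) (∑ i ∈ s, π i) := by
  classical
  induction s using Finset.induction_on with
  | empty => exact ⟨by simp, fun n => by simp [PowerSeries.coeff_one]⟩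
  | insert a s ha ih =>
    have := (H a (mem_insert_self a s)).conv (ih fun i hi => H i (mem_insert_of_mem hi))
    simpa only [prod_insert ha, sum_insert ha, PowerSeries.coeff_mul, PowerSeries.coeff_mk]
      using this

theorem IsNw.scale (H : IsNw h π) (s : R) :
    IsNw (fun n => s ^ n * h n) (fun n => s ^ n * π n) := by
  refine ⟨by simp [H.1], fun n => ?_⟩
  rw [mul_left_comm, H.2, mul_sum]
  refine sum_congr rfl fun x hx => ?_
  rw [← mem_antidiagonal.1 hx]
  ring

theorem IsNw.expand (H : IsNw h π) {d : ℕ} (hd : 0 < d) :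
    IsNw (fun n => if d ∣ n then h (n / d) else 0)
      (fun n => if d ∣ n then (d : R) * π (n / d) else 0) := by
  refine ⟨by simp [H.1], fun n => ?_⟩
  beta_reduce
  split_ifs with hn
  · obtain ⟨m, hm⟩ := hn
    obtain _ | m := m
    · omega
    rw [hm, Nat.mul_div_cancel_left _ hd, Nat.cast_mul, mul_assoc, H.2, mul_sum]
    symm
    rw [← sum_filter_of_ne (p := fun x : ℕ × ℕ => d ∣ x.1 + 1 ∧ d ∣ x.2) fun x _ hx => by
      by_contra hc
      rw [not_and_or] at hc
      rcases hc with hc | hc <;> simp [hc] at hx]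
    symm
    refine sum_bij (fun x _ => (d * (x.1 + 1) - 1, d * x.2)) (fun x hx => ?_)
      (fun x _ y _ hxy => ?_) (fun x hx => ?_) fun x hx => ?_
    · have h1 := mem_antidiagonal.1 hx
      have h2 : d * (x.1 + 1) - 1 + 1 = d * (x.1 + 1) := Nat.sub_add_cancel (by nlinarith)
      rw [mem_filter, HasAntidiagonal.mem_antidiagonal, h2]
      refine ⟨?_, dvd_mul_right _ _, dvd_mul_right _ _⟩
      have h3 : d * (m + 1) = d * (x.1 + 1) + d * x.2 := by rw [← h1]; ring
      omega
    · have h2 : ∀ a : ℕ, d * (a + 1) - 1 + 1 = d * (a + 1) := fun a =>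
        Nat.sub_add_cancel (by nlinarith)
      obtain ⟨h3, h4⟩ := Prod.mk.inj hxy
      have h5 : d * (x.1 + 1) = d * (y.1 + 1) := by rw [← h2, h3, h2]
      exact Prod.ext (by simpa using Nat.eq_of_mul_eq_mul_left hd h5)
        (Nat.eq_of_mul_eq_mul_left hd h4)
    · obtain ⟨h1, ⟨a, ha⟩, b, hb⟩ := mem_filter.1 hx
      rw [HasAntidiagonal.mem_antidiagonal] at h1
      obtain _ | a := a
      · omega
      refine ⟨(a, b), mem_antidiagonal.2 (Nat.eq_of_mul_eq_mul_left hd ?_), Prod.ext ?_ hb.symm⟩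
      · have h3 : d * (a + 1) = d * a + d := by ring
        have h4 : d * (m + 1) = d * m + d := by ring
        rw [mul_add]
        change d * a + d * b = d * m
        omega
      · change d * (a + 1) - 1 = x.1
        omega
    · have h2 : d * (x.1 + 1) - 1 + 1 = d * (x.1 + 1) := Nat.sub_add_cancel (by nlinarith)
      rw [h2, if_pos (dvd_mul_right _ _), if_pos (dvd_mul_right _ _),
        Nat.mul_div_cancel_left _ hd, Nat.mul_div_cancel_left _ hd, mul_assoc]
  · rw [mul_zero]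
    refine (sum_eq_zero fun x hx => ?_).symm
    split_ifs with h1 h2
    · refine absurd ?_ hn
      rw [← mem_antidiagonal.1 hx, add_right_comm]
      exact dvd_add h1 h2
    · exact mul_zero _
    · exact zero_mul _
    · exact zero_mul _

theorem map_nw (φ : R →+* S) (h : ℕ → R) (n : ℕ) : φ (nw h n) = nw (φ ∘ h) n := by
  induction n using Nat.strong_induction_on with | h n ih => ?_
  rcases n with _ | n
  · rw [nw, nw, map_zero]
  · rw [nw, nw, map_sub, map_mul, map_natCast, map_sum]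
    congr 1
    exact sum_congr rfl fun i _ => by rw [map_mul, ih _ (by omega)]; rfl

theorem map_nexp (φ : R →+* S) (π : ℕ → R) (n : ℕ) : φ (nexp π n) = nexp (φ ∘ π) n :=
  ((isNw_nexp π).map φ).left_eq (isNw_nexp _) (fun _ _ _ => rfl) le_rfl

theorem nexp_congr {n : ℕ} (e : ∀ j, 0 < j → j ≤ n → π j = π' j) : nexp π n = nexp π' n :=
  (isNw_nexp π).left_eq (isNw_nexp _) e le_rfl

/-- Graded closure. -/
theorem nw_mem {A : ℕ → Submodule ℂ R} (hA : ∀ i j, ∀ x ∈ A i, ∀ y ∈ A j, x * y ∈ A (i + j))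
    (hh : ∀ n, h n ∈ A n) (n : ℕ) : nw h n ∈ A n := by
  induction n using Nat.strong_induction_on with | h n ih => ?_
  rcases n with _ | n
  · rw [nw]; exact zero_mem _
  · rw [nw, ← nsmul_eq_mul]
    refine sub_mem (nsmul_mem (hh _) _) (sum_mem fun i _ => ?_)
    have := hA _ _ _ (ih (i + 1) (by omega)) _ (hh (n - i))
    rwa [show i + 1 + (n - i) = n + 1 by omega] at this

theorem nexp_mem {A : ℕ → Submodule ℂ R} (h1 : 1 ∈ A 0)
    (hA : ∀ i j, ∀ x ∈ A i, ∀ y ∈ A j, x * y ∈ A (i + j)) {n : ℕ}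
    (hπ : ∀ j, 0 < j → j ≤ n → π j ∈ A j) : nexp π n ∈ A n := by
  induction n using Nat.strong_induction_on with | h n ih => ?_
  rcases n with _ | n
  · rw [nexp]; exact h1
  · rw [nexp]
    refine Submodule.smul_mem _ _ (sum_mem fun i _ => ?_)
    have := hA _ _ _ (hπ (n - i + 1) (by omega) (by omega)) _
      (ih i i.2 fun j h0 hj => hπ j h0 (by omega))
    rwa [show n - i + 1 + i = n + 1 by omega] at this

/-- The top coefficient of a product of series is additive modulo lower terms. -/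
theorem coeff_prod_sub_mem {ι : Type*} (A : Subring R) (s : Finset ι) {h : ι → ℕ → R} {n : ℕ}
    (hn : 0 < n) (h0 : ∀ i ∈ s, h i 0 = 1) (hA : ∀ i ∈ s, ∀ j < n, h i j ∈ A) :
    PowerSeries.coeff n (∏ i ∈ s, PowerSeries.mk (h i)) - ∑ i ∈ s, h i n ∈ A := by
  classical
  obtain ⟨n, rfl⟩ := Nat.exists_eq_succ_of_ne_zero hn.ne'
  have key : PowerSeries.coeff 0 (∏ i ∈ s, PowerSeries.mk (h i)) = 1 ∧
      (∀ j < n + 1, PowerSeries.coeff j (∏ i ∈ s, PowerSeries.mk (h i)) ∈ A) ∧
      PowerSeries.coeff (n + 1) (∏ i ∈ s, PowerSeries.mk (h i)) - ∑ i ∈ s, h i (n + 1) ∈ A := by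
    induction s using Finset.induction_on with
    | empty =>
      refine ⟨by simp, fun j _ => ?_, by simp [PowerSeries.coeff_one]⟩
      rw [prod_empty, PowerSeries.coeff_one]
      split_ifs
      exacts [A.one_mem, A.zero_mem]
    | insert a s ha ih =>
      obtain ⟨h1, h2, h3⟩ := ih (fun i hi => h0 i (mem_insert_of_mem hi))
        fun i hi => hA i (mem_insert_of_mem hi)
      have h4 := h0 a (mem_insert_self a s)
      have h5 := hA a (mem_insert_self a s)
      simp only [prod_insert ha, sum_insert ha, PowerSeries.coeff_mul, PowerSeries.coeff_mk]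
      refine ⟨by simp only [Finset.Nat.antidiagonal_zero, sum_singleton, h1, h4, mul_one], fun j hj =>
        A.sum_mem fun x hx => ?_, ?_⟩
      · have := mem_antidiagonal.1 hx
        exact A.mul_mem (h5 _ (by omega)) (h2 _ (by omega))
      · rw [Finset.Nat.sum_antidiagonal_eq_sum_range_succ
          fun i j => h a i * PowerSeries.coeff j (∏ i ∈ s, PowerSeries.mk (h i)), sum_range_succ,
          sum_range_succ', Nat.sub_self, h1, h4, mul_one, one_mul, Nat.sub_zero]
        have h6 := A.add_mem h3 (A.sum_mem (t := range n) fun i hi => A.mul_mem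
          (h5 (i + 1) (by have := mem_range.1 hi; omega)) (h2 (n + 1 - (i + 1)) (by omega)))
        convert h6 using 1
        ring
  exact key.2.2

/-- Monomials in the power sums. -/
def pm (π : ℕ → R) (μ : Multiset ℕ) : R := (μ.map π).prod

/-- Schur function of the exponent vector `b` (Jacobi–Trudi). -/
noncomputable def Sch (π : ℕ → R) (b : Fin N → ℕ) : R :=
  ∑ σ : Perm (Fin N), if ∀ i, (σ i : ℕ) ≤ b i then
    (Perm.sign σ : ℤ) • ∏ i, nexp π (b i - σ i) else 0

/-- `nexp π (a - j)` with a genuine subtraction. -/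
private noncomputable def hh (π : ℕ → R) (a j : ℕ) : R := if j ≤ a then nexp π (a - j) else 0

private theorem hh_of_lt {a j : ℕ} (h : a < j) : hh π a j = 0 := if_neg (by omega)

private theorem hh_self (a : ℕ) : hh π a a = 1 := by
  rw [hh, if_pos le_rfl, Nat.sub_self, nexp_zero]

private theorem hh_newton {a j K : ℕ} (h : a ≤ j + K) :
    ((a : R) - j) * hh π a j = ∑ l ∈ range K, π (l + 1) * hh π a (j + (l + 1)) := by
  rcases le_or_gt a j with h1 | h1
  · rw [sum_eq_zero fun l _ => by rw [hh_of_lt (by omega), mul_zero]]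
    rcases h1.eq_or_lt with rfl | h1
    · rw [sub_self, zero_mul]
    · rw [hh_of_lt h1, mul_zero]
  · obtain ⟨n, rfl⟩ := Nat.exists_eq_add_of_lt h1
    rw [← sum_subset (s₁ := range (n + 1)) (range_subset_range.2 (by omega)) fun l _ hl => by
      rw [mem_range] at hl
      rw [hh_of_lt (by omega), mul_zero]]
    have e : ((j + n + 1 : ℕ) : R) - j = (n + 1 : ℕ) := by push_cast; ring
    rw [e, hh, if_pos h1.le, show j + n + 1 - j = n + 1 by omega, (isNw_nexp π).2,
      Finset.Nat.sum_antidiagonal_eq_sum_range_succ fun i j => π (i + 1) * nexp π j]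
    refine sum_congr rfl fun l hl => ?_
    rw [mem_range] at hl
    rw [hh, if_pos (by omega), show j + n + 1 - (j + (l + 1)) = n - l by omega]

private theorem Sch_eq_hh (π : ℕ → R) (b : Fin N → ℕ) :
    Sch π b = ∑ σ : Perm (Fin N), (Perm.sign σ : ℤ) • ∏ i, hh π (b i) (σ i) := by
  refine sum_congr rfl fun σ _ => ?_
  split_ifs with h
  · exact congrArg _ (prod_congr rfl fun i _ => (if_pos (h i)).symm)
  · obtain ⟨i, hi⟩ := not_forall.1 h
    rw [prod_eq_zero (mem_univ i) (if_neg hi), smul_zero]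

private theorem Sch_eq_det (π : ℕ → R) (b : Fin N → ℕ) :
    Sch π b = (Matrix.of fun j i : Fin N => hh π (b i) j).det := by
  rw [Sch_eq_hh, Matrix.det_apply]
  rfl

theorem Sch_comp (π : ℕ → R) (b : Fin N → ℕ) (σ : Perm (Fin N)) :
    Sch π (b ∘ σ) = (Perm.sign σ : ℤ) • Sch π b := by
  rw [Sch_eq_det, Sch_eq_det, zsmul_eq_mul, ← Matrix.det_permute']
  rfl

theorem Sch_eq_zero {b : Fin N → ℕ} (hb : ¬ Injective b) : Sch π b = 0 := by
  obtain ⟨i, j, h, hij⟩ := not_injective_iff.1 hb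
  rw [Sch_eq_det]
  exact Matrix.det_zero_of_column_eq hij fun k => by simp [h]

theorem Sch_val (π : ℕ → R) : Sch π (Fin.val : Fin N → ℕ) = 1 := by
  rw [Sch_eq_det]
  exact (Matrix.det_of_isUpperTriangular (M := Matrix.of fun j i : Fin N => hh π i j)
    fun (i j : Fin N) (h : j < i) => (hh_of_lt h : hh π j i = 0)).trans
    (prod_eq_one fun i _ => hh_self _)

private theorem sum_perm_val (σ : Perm (Fin N)) : ∑ i, (σ i : ℕ) = tri N :=
  Equiv.sum_comp σ Fin.val

private theorem sum_sub_perm {b : Fin N → ℕ} {σ : Perm (Fin N)} (h : ∀ i, (σ i : ℕ) ≤ b i) :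
    ∑ i, (b i - σ i) + tri N = ∑ i, b i := by
  rw [← sum_perm_val σ, ← sum_add_distrib]
  exact sum_congr rfl fun i _ => Nat.sub_add_cancel (h i)

private theorem sub_perm_le {b : Fin N → ℕ} {σ : Perm (Fin N)} (h : ∀ i, (σ i : ℕ) ≤ b i)
    (i : Fin N) : b i - σ i + tri N ≤ ∑ i, b i := by
  rw [← sum_sub_perm h]
  exact Nat.add_le_add_right (single_le_sum (f := fun i => b i - σ i) (fun _ _ => Nat.zero_le _)
    (mem_univ i)) _

private theorem dn_Sch (π : ℕ → R) (k : ℕ) (b : Fin N → ℕ) : dn k (Sch π) b =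
    ∑ σ : Perm (Fin N), (Perm.sign σ : ℤ) •
      ∑ i, hh π (b i) (σ i + k) * ∏ j ∈ univ.erase i, hh π (b j) (σ j) := by
  simp only [smul_sum]
  rw [sum_comm, dn]
  refine sum_congr rfl fun i _ => ?_
  split_ifs with h
  · rw [Sch_eq_hh]
    refine sum_congr rfl fun σ _ => congrArg _ ?_
    rw [← mul_prod_erase _ _ (mem_univ i)]
    congr 1
    · simp only [Pi.sub_apply, Pi.single_eq_same, hh]
      refine if_congr (by omega) ?_ rfl
      rw [Nat.sub_sub, add_comm]
    · exact prod_congr rfl fun j hj => by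
        rw [Pi.sub_apply, Pi.single_eq_of_ne (ne_of_mem_erase hj), Nat.sub_zero]
  · exact (sum_eq_zero fun σ _ => by rw [hh_of_lt (by omega), zero_mul, smul_zero]).symm

private theorem Sch_rec (π : ℕ → R) (b : Fin N → ℕ) {K : ℕ} (hK : ∀ i, b i ≤ K) :
    (((∑ i, b i : ℕ) : R) - tri N) * Sch π b =
      ∑ l ∈ range K, π (l + 1) * dn (l + 1) (Sch π) b := by
  simp only [dn_Sch, mul_sum]
  rw [sum_comm, Sch_eq_hh, mul_sum]
  refine sum_congr rfl fun σ _ => ?_
  simp only [mul_smul_comm, ← smul_sum, mul_sum]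
  congr 1
  rw [sum_comm, ← sum_perm_val σ, Nat.cast_sum, Nat.cast_sum, ← sum_sub_distrib, sum_mul]
  refine sum_congr rfl fun i _ => ?_
  rw [← mul_prod_erase _ _ (mem_univ i), ← mul_assoc, hh_newton (K := K) (by have := hK i; omega),
    sum_mul]
  exact sum_congr rfl fun l _ => mul_assoc _ _ _

private theorem sum_partition_cons {M : Type*} [AddCommMonoid M] {n k : ℕ} (h1 : 1 ≤ k)
    (hk : k ≤ n) (f : Multiset ℕ → M) (hf : ∀ μ, k ∉ μ → f μ = 0) :
    ∑ μ : Nat.Partition n, f μ.parts = ∑ ν : Nat.Partition (n - k), f (k ::ₘ ν.parts) := by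
  rw [← sum_filter_of_ne (p := fun μ : Nat.Partition n => k ∈ μ.parts) fun μ _ h =>
    by_contra fun h' => h (hf _ h'), sum_subtype (p := fun μ : Nat.Partition n => k ∈ μ.parts) _
    (by simp), ← (Nat.Partition.partitionWithPartEquiv h1 hk).symm.sum_comp]
  rfl

theorem zc_ne_zero {μ : Multiset ℕ} (hμ : ∀ k ∈ μ, 0 < k) : zc μ ≠ 0 :=
  mul_ne_zero (Multiset.prod_ne_zero fun h => (hμ 0 h).ne rfl)
    (prod_ne_zero_iff.2 fun k _ => Nat.factorial_ne_zero _)

theorem pm_cons (π : ℕ → R) (k : ℕ) (μ : Multiset ℕ) : pm π (k ::ₘ μ) = π k * pm π μ := by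
  rw [pm, Multiset.map_cons, Multiset.prod_cons, pm]

/-- The Frobenius expansion. -/
private noncomputable def fr (π : ℕ → R) (n : ℕ) (b : Fin N → ℕ) : R :=
  ∑ μ : Nat.Partition n, ((X μ.parts b : ℂ) / zc μ.parts) • pm π μ.parts

private theorem sum_count_cons {n k : ℕ} (h1 : 1 ≤ k) (hk : k ≤ n) (c : Multiset ℕ → ℂ) :
    ∑ μ : Nat.Partition n, (((k * μ.parts.count k : ℕ) : ℂ) * c μ.parts / zc μ.parts) •
      pm π μ.parts = π k * ∑ ν : Nat.Partition (n - k),
        (c (k ::ₘ ν.parts) / zc ν.parts) • pm π ν.parts := by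
  rw [sum_partition_cons h1 hk (fun μ => (((k * μ.count k : ℕ) : ℂ) * c μ / zc μ) • pm π μ)
    fun μ hμ => by simp [Multiset.count_eq_zero.2 hμ], mul_sum]
  refine sum_congr rfl fun ν _ => ?_
  rw [pm_cons, mul_smul_comm, zc_cons, Multiset.count_cons_self,
    Nat.cast_mul (k * (ν.parts.count k + 1)), mul_div_mul_left]
  exact Nat.cast_ne_zero.2 (by positivity)

private theorem fr_rec (π : ℕ → R) (n : ℕ) (b : Fin N → ℕ) :
    (n : R) * fr π n b = ∑ l ∈ range n, π (l + 1) * dn (l + 1) (fr π (n - (l + 1))) b := by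
  have h1 : ∀ μ : Nat.Partition n, ∑ l ∈ range n, (l + 1) * μ.parts.count (l + 1) = n := by
    intro μ
    have h2 := Finset.sum_multiset_count_of_subset μ.parts (range (n + 1)) fun x hx => by
      rw [Multiset.mem_toFinset] at hx
      exact mem_range.2 (Nat.lt_succ_of_le (μ.parts_sum ▸ Multiset.single_le_sum
        (fun _ _ => Nat.zero_le _) x hx))
    rw [μ.parts_sum, sum_range_succ'] at h2
    simp only [smul_eq_mul, mul_zero, add_zero] at h2
    conv_rhs => rw [h2]
    exact sum_congr rfl fun l _ => mul_comm _ _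
  have h2 : (n : R) * fr π n b = ∑ l ∈ range n, ∑ μ : Nat.Partition n,
      ((((l + 1) * μ.parts.count (l + 1) : ℕ) : ℂ) * X μ.parts b / zc μ.parts) • pm π μ.parts := by
    rw [sum_comm, fr, mul_sum]
    refine sum_congr rfl fun μ _ => ?_
    rw [← sum_smul, ← sum_div, ← sum_mul, ← Nat.cast_sum, h1, mul_div_assoc, mul_smul,
      Algebra.smul_def (n : ℂ), map_natCast]
  rw [h2]
  refine sum_congr rfl fun l hl => ?_
  rw [sum_count_cons l.succ_pos (mem_range.1 hl) fun μ => (X μ b : ℂ)]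
  congr 1
  simp only [X_cons, dn, fr, Int.cast_sum, sum_div, sum_smul]
  rw [sum_comm]
  refine sum_congr rfl fun i _ => ?_
  split_ifs <;> simp

private theorem fr_zero (π : ℕ → R) (b : Fin N → ℕ) : fr π 0 b = (X 0 b : ℤ) := by
  rw [fr, Fintype.sum_unique, Nat.Partition.partition_zero_parts]
  simp [zc, pm, Algebra.smul_def]

private theorem Sch_eq_fr (π : ℕ → R) (n : ℕ) :
    ∀ b : Fin N → ℕ, ∑ i, b i = tri N + n → Sch π b = fr π n b := by
  induction n using Nat.strong_induction_on with | h n ih => ?_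
  intro b hb
  rcases n with _ | n
  · rw [fr_zero, X_zero, Sch, Int.cast_sum]
    refine sum_congr rfl fun σ _ => ?_
    by_cases h : Fin.val ∘ σ = b
    · subst h
      simp [nexp_zero]
    · rw [if_neg h, if_neg, Int.cast_zero]
      refine fun h' => h (funext fun i => ?_)
      have := sub_perm_le h' i
      have := h' i
      change (σ i : ℕ) = b i
      omega
  · refine natCast_succ_mul_cancel (n := n) ?_
    have h1 := Sch_rec π b (K := tri N + (n + 1)) fun i =>
      hb ▸ single_le_sum (f := b) (fun _ _ => Nat.zero_le _) (mem_univ i)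
    rw [hb, Nat.cast_add, add_sub_cancel_left] at h1
    rw [h1, fr_rec, ← sum_subset (s₁ := range (n + 1)) (range_subset_range.2 (by omega))]
    · refine sum_congr rfl fun l hl => congrArg _ (sum_congr rfl fun i _ => ?_)
      rw [mem_range] at hl
      split_ifs with h
      · have := sum_sub_single h
        exact ih _ (by omega) _ (by omega)
      · rfl
    · intro l _ hl
      rw [mem_range] at hl
      rw [dn, sum_eq_zero, mul_zero]
      intro i _
      split_ifs with h
      · have := sum_sub_single h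
        exact Sch_eq_zero fun h' => by have := tri_le h'; omega
      · rfl

theorem Sch_eq_sum (π : ℕ → R) (b : Fin N → ℕ) : Sch π b =
    ∑ μ : Nat.Partition (∑ i, b i - tri N), ((X μ.parts b : ℂ) / zc μ.parts) • pm π μ.parts := by
  by_cases h : tri N ≤ ∑ i, b i
  · exact Sch_eq_fr π _ b (by omega)
  · rw [Sch_eq_zero fun h' => h (tri_le h')]
    refine (sum_eq_zero fun μ _ => ?_).symm
    rw [show X μ.parts b = 0 from by_contra fun h' => h (tri_le (injective_of_X_ne_zero h'))]
    simp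

theorem Sch_congr {b : Fin N → ℕ} (e : ∀ j, 0 < j → j + tri N ≤ ∑ i, b i → π j = π' j) :
    Sch π b = Sch π' b := by
  refine sum_congr rfl fun σ _ => ?_
  split_ifs with h
  · refine congrArg _ (prod_congr rfl fun i _ => nexp_congr fun j h0 hj => e j h0 ?_)
    have := sub_perm_le h i
    omega
  · rfl

theorem map_Sch (φ : R →+* S) (π : ℕ → R) (b : Fin N → ℕ) : φ (Sch π b) = Sch (φ ∘ π) b := by
  rw [Sch, Sch, map_sum]
  refine sum_congr rfl fun σ _ => ?_
  split_ifs with h
  · simp only [map_zsmul, map_prod, map_nexp]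
  · exact map_zero φ

theorem Sch_mem_subring (A : Subring R) {b : Fin N → ℕ}
    (hA : ∀ j, j + tri N ≤ ∑ i, b i → nexp π j ∈ A) : Sch π b ∈ A := by
  refine A.sum_mem fun σ _ => ?_
  split_ifs with h
  · exact zsmul_mem (A.prod_mem fun i _ => hA _ (sub_perm_le h i)) _
  · exact A.zero_mem

theorem prod_mem_graded {ι : Type*} {A : ℕ → Submodule ℂ R} (h1 : 1 ∈ A 0)
    (hA : ∀ i j, ∀ x ∈ A i, ∀ y ∈ A j, x * y ∈ A (i + j)) (s : Finset ι) {x : ι → R} {d : ι → ℕ}
    (h : ∀ i ∈ s, x i ∈ A (d i)) : ∏ i ∈ s, x i ∈ A (∑ i ∈ s, d i) := by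
  classical
  induction s using Finset.induction_on with
  | empty => simpa using h1
  | insert a s ha ih =>
    rw [prod_insert ha, sum_insert ha]
    exact hA _ _ _ (h a (mem_insert_self a s)) _ (ih fun i hi => h i (mem_insert_of_mem hi))

theorem Sch_mem {A : ℕ → Submodule ℂ R} (h1 : 1 ∈ A 0)
    (hA : ∀ i j, ∀ x ∈ A i, ∀ y ∈ A j, x * y ∈ A (i + j)) {b : Fin N → ℕ}
    (hπ : ∀ j, 0 < j → j + tri N ≤ ∑ i, b i → π j ∈ A j) : Sch π b ∈ A (∑ i, b i - tri N) := by
  refine sum_mem fun σ _ => ?_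
  split_ifs with h
  · rw [← sum_sub_perm h, Nat.add_sub_cancel]
    refine zsmul_mem (prod_mem_graded h1 hA _ fun i _ => nexp_mem h1 hA fun j h0 hj =>
      hπ j h0 ?_) _
    have := sub_perm_le h i
    omega
  · exact zero_mem _

theorem mul_Sch (π : ℕ → R) {k : ℕ} (hk : 0 < k) {b : Fin N → ℕ} (hb : ∑ i, b i + k ≤ tri N + N) :
    π k * Sch π b = ∑ i, Sch π (b + Pi.single i k) := by
  have hs : ∀ i, ∑ j, (b + Pi.single i k : Fin N → ℕ) j = ∑ j, b j + k := fun i => by
    simp [sum_add_distrib]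
  have h1 : ∑ i, Sch π (b + Pi.single i k) = ∑ μ : Nat.Partition (∑ j, b j + k - tri N),
      (((k * μ.parts.count k : ℕ) : ℂ) * X (μ.parts.erase k) b / zc μ.parts) • pm π μ.parts := by
    have h2 : ∀ i, Sch π (b + Pi.single i k) = fr π (∑ j, b j + k - tri N) (b + Pi.single i k) :=
      fun i => by rw [Sch_eq_sum, hs]; rfl
    simp only [h2, fr]
    rw [sum_comm]
    refine sum_congr rfl fun μ _ => ?_
    have h3 := congrFun (up_X (N := N) hk (μ := μ.parts) (by rw [μ.parts_sum]; omega)) b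
    rw [← sum_smul, ← sum_div, ← Int.cast_sum, ← up, h3, Int.cast_mul, Int.cast_natCast]
  rw [h1]
  by_cases h : tri N ≤ ∑ i, b i
  · rw [sum_count_cons hk (by omega) fun μ => (X (μ.erase k) b : ℂ), Sch_eq_fr π _ b
      (show _ = tri N + (∑ j, b j + k - tri N - k) by omega)]
    simp only [Multiset.erase_cons_head, fr]
  · rw [Sch_eq_zero fun h' => h (tri_le h'), mul_zero]
    refine (sum_eq_zero fun μ _ => ?_).symm
    rw [show X (μ.parts.erase k) b = 0 from
      by_contra fun h' => h (tri_le (injective_of_X_ne_zero h'))]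
    simp

private theorem deriv_hh (ε : R →+* S) (E : R →ₗ[ℂ] S) {k : ℕ} (hk : 0 < k) (γ : ℂ) {M : ℕ}
    (hE : ∀ j, 0 < j → j ≤ M → ∀ f,
      E (π j * f) = (if j = k then (k : ℂ) * γ else 0) • ε f + ε (π j) * E f) {m : ℕ} (hm : m ≤ M) :
    ∀ a j, a ≤ j + m → ∀ f,
      E (hh π a j * f) = γ • (ε (hh π a (j + k)) * ε f) + ε (hh π a j) * E f := by
  induction m with
  | zero =>
    intro a j h f
    rw [hh_of_lt (j := j + k) (by omega)]
    rcases (show a ≤ j from h).eq_or_lt with rfl | h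
    · simp [hh_self]
    · simp [hh_of_lt h]
  | succ m ih =>
    intro a j h f
    rcases h.eq_or_lt with rfl | h
    swap
    · exact ih (by omega) a j (by omega) f
    refine natCast_succ_mul_cancel (n := m) ?_
    have e1 : ((j + (m + 1) : ℕ) : R) - j = (m + 1 : ℕ) := by push_cast; ring
    have h1 := hh_newton (π := π) (a := j + (m + 1)) (j := j) (K := m + 1) le_rfl
    have h2 := hh_newton (π := π) (a := j + (m + 1)) (j := j + k) (K := m + 1) (by omega)
    have e2 : ((j + (m + 1) : ℕ) : R) - (j + k : ℕ) = (m + 1 : ℕ) - k := by push_cast; ring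
    rw [e1] at h1
    rw [e2] at h2
    have h3 : ∑ l ∈ range (m + 1), (if l + 1 = k then (k : ℂ) * γ else 0) •
        ε (hh π (j + (m + 1)) (j + (l + 1)) * f) =
        γ • (k * (ε (hh π (j + (m + 1)) (j + k)) * ε f)) := by
      obtain ⟨k, rfl⟩ := Nat.exists_eq_succ_of_ne_zero hk.ne'
      rw [sum_eq_single k (fun l _ hl => by rw [if_neg (by omega), zero_smul]) fun hl => by
        rw [mem_range] at hl
        rw [hh_of_lt (by omega), zero_mul, map_zero, smul_zero]]
      rw [if_pos rfl, map_mul, mul_comm _ γ, mul_smul, Algebra.smul_def (_ : ℂ) (_ * _),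
        map_natCast]
    have h4 := congrArg ε h1
    have h5 := congrArg ε h2
    simp only [map_mul, map_sum, map_sub, map_natCast] at h4 h5
    calc ((m + 1 : ℕ) : S) * E (hh π (j + (m + 1)) j * f)
        = E (((m + 1 : ℕ) : R) * hh π (j + (m + 1)) j * f) := by
          rw [mul_assoc, ← nsmul_eq_mul, ← nsmul_eq_mul, map_nsmul]
      _ = ∑ l ∈ range (m + 1), ((if l + 1 = k then (k : ℂ) * γ else 0) •
            ε (hh π (j + (m + 1)) (j + (l + 1)) * f) +
            (γ • (ε (π (l + 1)) * ε (hh π (j + (m + 1)) (j + k + (l + 1))) * ε f) +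
              ε (π (l + 1)) * ε (hh π (j + (m + 1)) (j + (l + 1))) * E f)) := by
          rw [h1, sum_mul, map_sum]
          refine sum_congr rfl fun l hl => ?_
          rw [mem_range] at hl
          rw [mul_assoc, hE _ l.succ_pos (by omega), ih (by omega) _ _ (by omega), mul_add,
            mul_smul_comm, add_right_comm j k, mul_assoc, mul_assoc]
      _ = _ := by
          rw [sum_add_distrib, sum_add_distrib, h3, ← smul_sum, ← sum_mul, ← sum_mul, ← h4, ← h5,
            mul_add, mul_smul_comm, ← add_assoc, ← smul_add, mul_assoc _ _ (E f)]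
          congr 2
          ring

/-- An `ε`-derivation with `E (π j) = [j = k] k γ` removes `k`-hooks. -/
theorem deriv_Sch (ε : R →+* S) (E : R →ₗ[ℂ] S) {k : ℕ} (hk : 0 < k) (γ : ℂ) {b : Fin N → ℕ}
    (hE : ∀ j, 0 < j → j + tri N ≤ ∑ i, b i → ∀ f,
      E (π j * f) = (if j = k then (k : ℂ) * γ else 0) • ε f + ε (π j) * E f) (f : R) :
    E (Sch π b * f) = γ • (ε (dn k (Sch π) b) * ε f) + ε (Sch π b) * E f := by
  rw [dn_Sch, Sch_eq_hh]
  simp only [map_sum ε, map_sum E, sum_mul, smul_sum (s := (univ : Finset (Perm (Fin N)))),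
    ← sum_add_distrib, map_zsmul, smul_mul_assoc]
  refine sum_congr rfl fun σ _ => ?_
  rw [smul_comm γ, ← smul_add]
  congr 1
  by_cases h : ∀ i, (σ i : ℕ) ≤ b i
  · have key : ∀ (s : Finset (Fin N)) (f : R), E ((∏ i ∈ s, hh π (b i) (σ i)) * f) =
        γ • (ε (∑ i ∈ s, hh π (b i) (σ i + k) * ∏ j ∈ s.erase i, hh π (b j) (σ j)) * ε f) +
          ε (∏ i ∈ s, hh π (b i) (σ i)) * E f := by
      intro s
      induction s using Finset.induction_on with
      | empty => simp
      | insert a s ha ih =>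
        intro f
        have e : ∑ i ∈ s, hh π (b i) (σ i + k) * ∏ j ∈ (insert a s).erase i, hh π (b j) (σ j) =
            hh π (b a) (σ a) * ∑ i ∈ s, hh π (b i) (σ i + k) * ∏ j ∈ s.erase i,
              hh π (b j) (σ j) := by
          rw [mul_sum]
          refine sum_congr rfl fun i hi => ?_
          rw [erase_insert_of_ne (by rintro rfl; exact ha hi),
            prod_insert fun h => ha (mem_of_mem_erase h), mul_left_comm]
        rw [prod_insert ha, sum_insert ha, erase_insert ha, e, mul_assoc,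
          deriv_hh ε E hk γ (M := ∑ i, b i - tri N) (fun j h0 hj => hE j h0 (by omega)) le_rfl _ _
            (by have := sub_perm_le h a; omega), ih]
        simp only [map_add, map_mul, mul_add, add_mul, smul_add, mul_smul_comm, mul_assoc, add_assoc]
    simpa only [map_sum ε, sum_mul] using key univ f
  · obtain ⟨i, hi⟩ := not_forall.1 h
    rw [prod_eq_zero (mem_univ i) (if_neg hi), sum_eq_zero]
    · simp
    · intro j _
      by_cases hj : i = j
      · rw [← hj, hh_of_lt (by omega), zero_mul, map_zero, zero_mul]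
      · rw [prod_eq_zero (mem_erase.2 ⟨hj, mem_univ i⟩) (if_neg hi), mul_zero, map_zero, zero_mul]

theorem pm_eq_sum (π : ℕ → R) {μ : Multiset ℕ} (hμ : ∀ k ∈ μ, 0 < k) (hN : μ.sum ≤ N) :
    pm π μ = (N.factorial : ℂ)⁻¹ •
      ∑ a ∈ piAntidiag univ (tri N + μ.sum), (X (N := N) μ a : ℂ) • Sch π a := by
  rw [sum_congr rfl fun a ha => by rw [Sch_eq_fr π μ.sum a (mem_piAntidiag.1 ha).1]]
  simp only [fr, smul_sum, smul_smul]
  rw [sum_comm, sum_eq_single (⟨μ, fun {i} hi => hμ i hi, rfl⟩ : Nat.Partition μ.sum)]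
  · have h1 := sum_X_mul_X (N := N) hμ hμ hN
    rw [if_pos rfl] at h1
    simp only [← sum_smul, ← mul_sum, ← mul_div_assoc, ← sum_div, ← Int.cast_mul, ← Int.cast_sum, h1]
    have h2 : (zc μ : ℂ) ≠ 0 := Nat.cast_ne_zero.2 (zc_ne_zero hμ)
    have h3 : (N.factorial : ℂ) ≠ 0 := Nat.cast_ne_zero.2 N.factorial_ne_zero
    rw [Int.cast_natCast, Nat.cast_mul, inv_mul_cancel_left₀ h3, div_self h2, one_smul]
  · intro ν _ hν
    have h1 := sum_X_mul_X (N := N) hμ (fun k hk => ν.parts_pos hk) (ν.parts_sum.trans_le hN)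
    rw [if_neg fun h => hν (Nat.Partition.ext h.symm)] at h1
    simp only [← sum_smul, ← mul_sum, ← mul_div_assoc, ← sum_div, ← Int.cast_mul, ← Int.cast_sum, h1]
    simp
  · exact fun h => absurd (mem_univ _) h

/-- Row sums of the character table of `S_m`. -/
noncomputable def rowSum (m : ℕ) (a b : Fin N → ℕ) : ℂ :=
  ∑ μ : Nat.Partition m, (X μ.parts a : ℂ) * X μ.parts b / zc μ.parts

theorem exists_pt_eq {m : ℕ} (μ : Nat.Partition m) : ∃ g : Perm (Fin m), pt g = μ.parts := by
  have h1 := Multiset.filter_add_not (2 ≤ ·) μ.parts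
  have h2 : μ.parts.filter (¬ 2 ≤ ·) =
      Multiset.replicate (μ.parts.filter (¬ 2 ≤ ·)).card 1 := by
    refine Multiset.eq_replicate_card.2 fun x hx => ?_
    obtain ⟨h3, h4⟩ := Multiset.mem_filter.1 hx
    have := μ.parts_pos h3
    omega
  have h3 := congrArg Multiset.sum h1
  rw [Multiset.sum_add, μ.parts_sum, h2, Multiset.sum_replicate, smul_eq_mul, mul_one] at h3
  obtain ⟨g, hg⟩ := (Perm.exists_with_cycleType_iff (Fin m) (m := μ.parts.filter (2 ≤ ·))).2
    ⟨by rw [Fintype.card_fin]; omega, fun a ha => (Multiset.mem_filter.1 ha).2⟩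
  refine ⟨g, ?_⟩
  rw [pt_eq, ← Perm.sum_cycleType, hg, Fintype.card_fin]
  conv_rhs => rw [← h1, h2]
  congr 2
  omega

theorem rowSum_eq_ip (m : ℕ) (a b : Fin N → ℕ) :
    rowSum m a b = ip (XF (Fin m) a) (XF (Fin m) b) := by
  classical
  let φ : Perm (Fin m) → Nat.Partition m := fun g =>
    ⟨pt g, fun {i} hi => pt_pos i hi, by rw [sum_pt, Fintype.card_fin]⟩
  rw [ip_def, ← sum_fiberwise univ φ, mul_sum]
  refine sum_congr rfl fun μ _ => ?_
  obtain ⟨g, hg⟩ := exists_pt_eq μ
  have h1 : univ.filter (fun x => φ x = μ) = univ.filter (IsConj g) := by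
    ext x
    simp only [mem_filter, mem_univ, true_and, isConj_iff_pt, hg]
    exact ⟨fun h => (congrArg Nat.Partition.parts h).symm, fun h => Nat.Partition.ext h.symm⟩
  have h2 := sum_conj_eq g fun _ => (1 : ℂ)
  rw [card_centralizer_eq_zc, hg, sum_const, card_univ, ← Nat.card_eq_fintype_card] at h2
  rw [sum_congr rfl (g := fun _ => (X μ.parts a : ℂ) * X μ.parts b) fun x hx => by
    simp [XF, show pt x = μ.parts from congrArg Nat.Partition.parts (mem_filter.1 hx).2], h1]
  simp only [sum_const, nsmul_eq_mul, mul_one] at h2 ⊢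
  have h3 : (Nat.card (Perm (Fin m)) : ℂ) ≠ 0 := Nat.cast_ne_zero.2 Nat.card_pos.ne'
  rw [h2] at h3 ⊢
  have h4 := left_ne_zero_of_mul h3
  have h5 := right_ne_zero_of_mul h3
  field_simp

theorem rowSum_self {m : ℕ} (hm : m ≤ N) {a : Fin N → ℕ} (ha : Injective a)
    (h : ∑ i, a i = tri N + m) : rowSum m a a = 1 := by
  have hN : Fintype.card (Fin m) ≤ N := by rwa [Fintype.card_fin]
  obtain ⟨χ, hχ⟩ := exists_mult_ne_zero_of_inj (α := Fin m) ha (by rwa [Fintype.card_fin])
  rw [rowSum_eq_ip, XF_eq_smul hN hχ, ip_smul_left, ip_smul_right, χ.ip_self, mul_one,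
    map_intCast, ← Int.cast_mul, (mult_spec hN hχ).1, Int.cast_one]

theorem rowSum_eq_zero {m : ℕ} (hm : m ≤ N) {a b : Fin N → ℕ} (h : ms a ≠ ms b) :
    rowSum m a b = 0 := by
  classical
  have hN : Fintype.card (Fin m) ≤ N := by rwa [Fintype.card_fin]
  rw [rowSum_eq_ip]
  by_contra h0
  obtain ⟨ha, ha'⟩ := inj_of_XF_ne_zero (α := Fin m) (a := a) fun h' => h0 (by simp [h'])
  obtain ⟨hb, hb'⟩ := inj_of_XF_ne_zero (α := Fin m) (a := b) fun h' => h0 (by simp [h'])
  obtain ⟨χ, hχ⟩ := exists_mult_ne_zero_of_inj ha ha'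
  obtain ⟨ψ, hψ⟩ := exists_mult_ne_zero_of_inj hb hb'
  rw [XF_eq_smul hN hχ, XF_eq_smul hN hψ, ip_smul_left, ip_smul_right, IrrCharacter.ip_eq] at h0
  obtain rfl : χ = ψ := by_contra fun h' => h0 (by simp [h'])
  exact h (ms_eq_iff.2 ((mult_spec hN hχ).2 b hψ))

end Cfsg.Gln

set_option linter.all false in
theorem Cfsg.Rz.Gln_Schur_0 : True := by
  have := @_root_.Cfsg.Gln.IsNw.eq_def.{0}
  have := @_root_.Cfsg.Gln.IsNw.eq_1.{0}
  have := @_root_.Cfsg.Gln.IsNw.fun_cases
  have := @_root_.Cfsg.Gln.Sch.eq_def.{0}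
  have := @_root_.Cfsg.Gln.Sch.eq_1.{0}
  have := @_root_.Cfsg.Gln.Sch.fun_cases
  have := @_root_.Cfsg.Gln.nw.eq_1.{0}
  have := @_root_.Cfsg.Gln.nw.induct
  have := @_root_.Cfsg.Gln.nw.fun_cases
  have := @_root_.Cfsg.Gln.nexp.eq_1.{0}
  have := @_root_.Cfsg.Gln.nexp.induct
  have := @_root_.Cfsg.Gln.nexp.fun_cases
  have := @_root_.Cfsg.Gln.pm.eq_def.{0}
  have := @_root_.Cfsg.Gln.pm.eq_1.{0}
  have := @_root_.Cfsg.Gln.pm.fun_cases
  have := @_root_.Cfsg.Gln.rowSum.eq_def
  have := @_root_.Cfsg.Gln.rowSum.eq_1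
  have := @_root_.Cfsg.Gln.rowSum.fun_cases
  trivial
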