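import Cfsg.Agent.Gln.Eig
import Cfsg.Agent.Gln.Schur

/-!
# The primitive elements `pI n x` and `P n a` (S4536 project)

`Hx x` = indicator of "all eigenvalues conjugate to `x`", `pI n x = (fdeg x)⁻¹ • nw (comp · (Hx x)) n`.
`nw_mf`: `mf α = ∏_O mf (α 1_O)` over the Frobenius orbits `O` of `Mu k R` (`mf_mul_mf`), and
`comp j (mf (α 1_O)) = s ^ j • comp j (Hx x)` where `s ^ fdeg x = ∏_{i < fdeg x} α (x^(q^i))` (`ev_eq_of_conj`, `ℂ` has
roots); use `coeff_prod_comp`, `IsNw.prod`, `IsNw.scale`, `IsNw.right_eq`, `Per.sum_orb`.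
-/

set_option autoImplicit false
set_option linter.unusedSectionVars false
set_option linter.unusedVariables false
set_option linter.style.haveILetI false

namespace Cfsg.Gln

open Module Finset Polynomial

universe u

variable {F : Type u} [Field F] [Finite F] {k : Type*} [Field k] [Algebra F k] [IsAlgClosed k]
  [Algebra.IsAlgebraic F k] {R N n p : ℕ} [NeZero R]

variable (F) in
/-- The conjugates of `x`. -/
def cj (x : k) : Set k := {t | IsConjRoot F x t}

theorem conjCl_cj (x : k) : ConjCl F (cj F x) := fun _ h _ h' => IsConjRoot.trans h h'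

variable (F) in
/-- Indicator of the classes all of whose eigenvalues are conjugate to `x`. -/
noncomputable def Hx (x : k) : Hall F := mf F ((cj F x).indicator 1)

variable (F) in
/-- The primitive element of dimension `n` at the eigenvalue `x`. -/
noncomputable def pI (n : ℕ) (x : k) : Hall F :=
  (fdeg F x : ℂ)⁻¹ • nw (fun j => comp j (Hx F x)) n

theorem isNw_Hx (x : k) : IsNw (fun j => comp j (Hx F x)) fun n => (fdeg F x : ℂ) • pI F n x := by
  have h : (fdeg F x : ℂ) ≠ 0 := Nat.cast_ne_zero.2 (fdeg_pos x).ne'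
  simp only [pI, smul_smul, mul_inv_cancel₀ h, one_smul]
  exact isNw_nw (mult_mf _).comp_zero

theorem Hx_ne_zero {x : k} {c : Iso F} (h : Hx F x c ≠ 0) : ∀ t ∈ ev k c, IsConjRoot F x t := by
  intro t ht
  by_contra h'
  refine h (Multiset.prod_eq_zero (Multiset.mem_map.2 ⟨t, ht, ?_⟩))
  exact Set.indicator_of_notMem (s := cj F x) h' _

theorem pI_zero (x : k) : pI F 0 x = 0 := by rw [pI, nw, smul_zero]

theorem pI_mem_hom (n : ℕ) (x : k) : pI F n x ∈ hom F n :=
  Submodule.smul_mem _ _ (nw_mem mul_mem_hom (fun j => comp_mem j _) n)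

theorem pI_mem_supp (n : ℕ) (x : k) : pI F n x ∈ supp F (cj F x) := by
  refine Subalgebra.smul_mem _ (nw_mem (A := fun _ => (supp F (cj F x)).toSubmodule)
    (fun _ _ _ h _ h' => Subalgebra.mul_mem _ h h') (fun j => mem_supp.2 fun c hc => ?_) n) _
  rw [comp_apply] at hc
  split_ifs at hc
  · exact Hx_ne_zero hc
  · exact absurd rfl hc

theorem star_pI (n : ℕ) (x : k) : star (pI F n x) = pI F n x := by
  have h : (starRingEnd (Hall F)) ∘ (fun j => comp j (Hx F x)) = fun j => comp j (Hx F x) := by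
    funext j
    ext c
    change star (comp j (Hx F x) c) = _
    rw [comp_apply]
    split_ifs
    · change (starRingEnd ℂ) ((ev k c).map _).prod = ((ev k c).map _).prod
      rw [map_multiset_prod, Multiset.map_map]
      refine congrArg _ (Multiset.map_congr rfl fun t _ => ?_)
      by_cases ht : t ∈ cj F x <;> simp [ht]
    · exact star_zero _
  have h' := map_nw (starRingEnd (Hall F)) (fun j => comp j (Hx F x)) n
  rw [h] at h'
  rw [pI, star_smul, star_inv₀, star_natCast]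
  exact congrArg _ h'

theorem pI_congr (n : ℕ) {x y : k} (h : IsConjRoot F x y) : pI F n x = pI F n y := by
  have h1 : cj F x = cj F y := Set.ext fun t => ⟨h.symm.trans, h.trans⟩
  have h2 : fdeg F x = fdeg F y := congrArg natDegree h
  rw [pI, pI, Hx, Hx, h1, h2]

private theorem pI_key (α : k → ℂ) (n : ℕ) (x : k) : (mult_mf α).hom (pI F n x) =
    (∏ i ∈ range n, α (x ^ Nat.card F ^ i)) • pI F n x ∧ (¬ fdeg F x ∣ n → pI F n x = 0) := by
  let A : ℕ → Submodule ℂ (Hall F) := fun j =>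
    { carrier := {f | (mult_mf α).hom f = (∏ i ∈ range j, α (x ^ Nat.card F ^ i)) • f ∧
        (¬ fdeg F x ∣ j → f = 0)}
      zero_mem' := by simp
      add_mem' := fun hf hg => ⟨by rw [map_add, hf.1, hg.1, smul_add], fun h => by
        rw [hf.2 h, hg.2 h, add_zero]⟩
      smul_mem' := fun c f hf => ⟨by rw [map_smul, hf.1, smul_comm], fun h => by
        rw [hf.2 h, smul_zero]⟩ }
  refine (A n).smul_mem _ (nw_mem (A := A) (fun i j f hf g hg => ?_) (fun j => ⟨?_, fun h => ?_⟩) n)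
  · by_cases hi : fdeg F x ∣ i
    · refine ⟨?_, fun h => by rw [hg.2 fun hj => h (dvd_add hi hj), mul_zero]⟩
      rw [map_mul, hf.1, hg.1, smul_mul_smul_comm, prod_range_add]
      simp only [pow_add, pow_mul, pow_eq_iff_fdeg_dvd.2 hi]
    · rw [hf.2 hi, zero_mul]
      exact zero_mem _
  · ext c
    rw [Mult.hom_apply, Hall.smul_apply, comp_apply]
    split_ifs with hc
    · by_cases h0 : Hx F x c = 0
      · rw [h0, mul_zero, mul_zero]
      · congr 1
        change ((ev k c).map α).prod = _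
        rw [(ev_eq_of_conj (Hx_ne_zero h0)).2, hc, Multiset.map_map]
        rfl
    · rw [mul_zero, mul_zero]
  · ext c
    rw [comp_apply]
    split_ifs with hc
    · by_contra h0
      exact h (hc ▸ (ev_eq_of_conj (Hx_ne_zero h0)).1)
    · rfl

theorem pI_eq_zero {x : k} (h : ¬ fdeg F x ∣ n) : pI F n x = 0 :=
  (pI_key 1 n x).2 h

theorem hom_mf_pI (α : k → ℂ) (n : ℕ) (x : k) : (mult_mf α).hom (pI F n x) =
    (∏ i ∈ range n, α (x ^ Nat.card F ^ i)) • pI F n x :=
  (pI_key α n x).1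

open Classical in
theorem cut_pI {S : Set k} (hS : ConjCl F S) (n : ℕ) (x : k) :
    cut F S (pI F n x) = if x ∈ S then pI F n x else 0 := by
  split_ifs with h
  · exact cut_of_mem (supp_mono (fun t ht => hS x h t ht) (pI_mem_supp n x))
  · rcases n.eq_zero_or_pos with rfl | hn
    · rw [pI_zero, map_zero]
    · exact cut_eq_zero (Set.disjoint_left.2 fun t ht ht' => h (hS t ht x (IsConjRoot.symm ht')))
        (pI_mem_supp n x) hn (pI_mem_hom n x)

theorem mf_zero : mf F (0 : k → ℂ) = 1 := by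
  ext c
  rw [Hall.one_apply, ← card_ev k]
  change ((ev k c).map 0).prod = _
  split_ifs with h
  · rw [Multiset.card_eq_zero.1 h]; rfl
  · obtain ⟨t, ht⟩ := Multiset.exists_mem_of_ne_zero (mt Multiset.card_eq_zero.2 h)
    exact Multiset.prod_eq_zero (Multiset.mem_map.2 ⟨t, ht, rfl⟩)

theorem pow_eq_one_iff_fdeg_dvd {x : Mu k R} : x ^ (Nat.card F ^ n - 1) = 1 ↔ fdeg F (mv x) ∣ n := by
  rw [← pow_pow_eq_iff Nat.card_pos, ← pow_eq_iff_fdeg_dvd, ← mv_pow, mv_injective.eq_iff]

theorem comp_hom {a : Hall F} (ha : Mult a) (j : ℕ) (f : Hall F) :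
    comp j (ha.hom f) = ha.hom (comp j f) := by
  ext c
  simp only [comp_apply, Mult.hom_apply, mul_ite, mul_zero]

theorem nw_mf (hP : Par (Nat.card F) R N) {α : k → ℂ} (hα : ∀ t, α t ≠ 0 → t ^ R = 1)
    (hn : 0 < n) : nw (fun j => comp j (mf F α)) n =
      ∑ x : Mu k R with x ^ (Nat.card F ^ n - 1) = 1,
        (∏ i ∈ range n, α (mv x ^ Nat.card F ^ i)) • pI F n (mv x) := by
  classical
  have hper : Per (frob (Nat.card F) : Mu k R → Mu k R) := hP.per Mu.pow_eq_one
  let β : Orb (frob (Nat.card F) : Mu k R → Mu k R) → k → ℂ := fun o =>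
    α * (cj F (mv o.rep)).indicator 1
  have hβ : ∀ o t, β o t ≠ 0 → t ∈ cj F (mv o.rep) := fun o t h => by
    by_contra h'
    exact h (by simp [β, h'])
  have h1 : ∀ s : Finset (Orb (frob (Nat.card F) : Mu k R → Mu k R)),
      ∏ o ∈ s, mf F (β o) = mf F (∑ o ∈ s, β o) := by
    intro s
    induction s using Finset.induction_on with
    | empty => rw [prod_empty, sum_empty, mf_zero]
    | insert o s ho ih =>
      rw [prod_insert ho, sum_insert ho, ih]
      refine mf_mul_mf (conjCl_cj (mv o.rep)) (hβ o) fun t ht ht' => ?_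
      rw [Finset.sum_apply] at ht
      obtain ⟨o', ho', h⟩ := exists_ne_zero_of_sum_ne_zero ht
      have := (isConjRoot_mv hP).1 (IsConjRoot.trans ht' (IsConjRoot.symm (hβ o' t h)))
      rw [Orb.mk_rep, Orb.mk_rep] at this
      exact ho (this ▸ ho')
  have h2 : ∑ o, β o = α := by
    funext t
    rw [Finset.sum_apply]
    by_cases ht : α t = 0
    · exact (sum_eq_zero fun o _ => by simp [β, ht]).trans ht.symm
    · obtain ⟨y, rfl⟩ := exists_mv_eq (hα t ht)
      rw [sum_eq_single (Orb.mk _ y) (fun o _ ho => by_contra fun h => ho ?_) (by simp)]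
      · have : mv y ∈ cj F (mv (Orb.mk (frob (Nat.card F)) y).rep) :=
          (isConjRoot_mv hP).2 (Orb.mk_rep _)
        simp [β, this]
      · rw [← (isConjRoot_mv hP).1 (hβ o _ h), Orb.mk_rep]
  have h3 := IsNw.prod univ (h := fun o j => comp j (mf F (β o)))
    (π := fun o n => (fdeg F (mv o.rep) : ℂ) • (mult_mf α).hom (pI F n (mv o.rep))) fun o _ => by
      have := (isNw_Hx (F := F) (mv o.rep)).map (mult_mf (F := F) α).hom.toRingHom
      convert this using 1
      · funext j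
        rw [← pw_mf]
        exact comp_hom (mult_mf α) j _
      · funext j
        exact (map_smul _ _ _).symm
  simp only [coeff_prod_comp, h1, h2] at h3
  rw [(isNw_nw (mult_mf α).comp_zero).right_eq h3 (fun _ _ => rfl) hn le_rfl, Finset.sum_apply,
    sum_filter_of_ne fun x _ h => pow_eq_one_iff_fdeg_dvd.2 (by_contra fun h' => h (by
      rw [pI_eq_zero h', smul_zero]))]
  have h4 := hper.sum_orb' fun o => (mult_mf α).hom (pI F n (mv o.rep))
  rw [sum_congr rfl fun x _ => by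
    rw [pI_congr n ((isConjRoot_mv hP).2 (Orb.mk_rep _)), hom_mf_pI]] at h4
  rw [h4]
  exact sum_congr rfl fun o _ => by rw [fdeg_mv hP, Orb.mk_rep, Nat.cast_smul_eq_nsmul]

variable (F) in
/-- The primitive element of dimension `n` with label `a` (`±` Deligne–Lusztig character of the
Coxeter torus). -/
noncomputable def P (n : ℕ) (a : Lab k R) : Hall F :=
  ∑ x : Mu k R with x ^ (Nat.card F ^ n - 1) = 1, pr (Nat.card F ^ n - 1) x a • pI F n (mv x)

theorem P_mem_hom (n : ℕ) (a : Lab k R) : P F n a ∈ hom F n :=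
  sum_mem fun _ _ => Submodule.smul_mem _ _ (pI_mem_hom _ _)

theorem P_mem_supp (n : ℕ) (a : Lab k R) : P F n a ∈ supp F ({0}ᶜ : Set k) := by
  refine sum_mem fun x _ => Subalgebra.smul_mem _ (supp_mono (fun t ht => ?_) (pI_mem_supp _ _)) _
  obtain ⟨i, rfl⟩ := isConjRoot_iff.1 ht
  exact pow_ne_zero _ (mv_ne_zero x)

variable (hP : Par (Nat.card F) R N) (h0 : 0 < n) (hn : n ≤ N) {a b : Lab k R}
include hP h0 hn

theorem star_P (a : Lab k R) : star (P F n a) = P F n a⁻¹ := by
  rw [P, P, star_sum]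
  exact sum_congr rfl fun x _ => by
    rw [star_smul, star_pI, star_pr (cast_ne_zero_of_par k hP) (hP.dvd h0 hn)]

theorem P_pow (ha : a ^ (Nat.card F ^ n - 1) = 1) (i : ℕ) :
    P F n (a ^ Nat.card F ^ i) = P F n a := by
  have hR := cast_ne_zero_of_par k hP
  have hc : (Nat.card (Mu k R)).Coprime (Nat.card F ^ i) := by
    rw [Mu.card hR]; exact hP.coprime.symm.pow_right i
  refine sum_equiv (powCoprime hc) (fun x => ?_) fun x hx => ?_
  · simp only [mem_filter, mem_univ, true_and, powCoprime_apply]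
    rw [← pow_mul, mul_comm, pow_mul]
    exact ((powCoprime hc).injective.eq_iff' (one_pow _)).symm
  · rw [powCoprime_apply, pr_pow hR (hP.dvd h0 hn) (mem_filter.1 hx).2 ha, mv_pow,
      ← pI_congr n (isConjRoot_iff.2 ⟨i, rfl⟩)]

theorem hom_lfn_P (ha : a ^ (Nat.card F ^ n - 1) = 1) (ω : Lab k R) :
    (mult_mf (lfn ω)).hom (P F n a) = P F n (a * ω ^ (R / (Nat.card F - 1))) := by
  have hR := cast_ne_zero_of_par k hP
  have hm := hP.dvd h0 hn
  have hq : 1 < Nat.card F := hP.1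
  have e1 : (∑ i ∈ range n, Nat.card F ^ i) * (Nat.card F - 1) = Nat.card F ^ n - 1 :=
    geom_sum_mul_of_one_le hq.le n
  have e2 : R / (Nat.card F - 1) =
      (∑ i ∈ range n, Nat.card F ^ i) * (R / (Nat.card F ^ n - 1)) := by
    refine Nat.div_eq_of_eq_mul_left (by omega) ?_
    rw [mul_right_comm, e1, Nat.mul_div_cancel' hm]
  have hb : ((ω ^ ∑ i ∈ range n, Nat.card F ^ i) ^ (R / (Nat.card F ^ n - 1))) ^
      (Nat.card F ^ n - 1) = 1 := by
    rw [← pow_mul (ω ^ _), Nat.div_mul_cancel hm, Lab.pow_eq_one]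
  rw [P, P, map_sum, e2, pow_mul ω]
  refine sum_congr rfl fun x hx => ?_
  have hx' := (mem_filter.1 hx).2
  rw [map_smul, hom_mf_pI, smul_smul, pr_mul_right hR hm hx' ha hb, pr_pow_div' hR hm hx']
  congr 2
  simp only [← mv_pow, lfn_mv, map_pow, MonoidHom.pow_apply, Units.val_pow_eq_pow_val,
    prod_pow_eq_pow_sum]

theorem pI_eq_sum_P {x : Mu k R} (hx : x ^ (Nat.card F ^ n - 1) = 1) :
    pI F n (mv x) = ((Nat.card F ^ n - 1 : ℕ) : ℂ)⁻¹ •
      ∑ a : Lab k R with a ^ (Nat.card F ^ n - 1) = 1, pr (Nat.card F ^ n - 1) x⁻¹ a • P F n a := by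
  have hR := cast_ne_zero_of_par k hP
  have hm := hP.dvd h0 hn
  have hx' : x⁻¹ ^ (Nat.card F ^ n - 1) = 1 := by rw [inv_pow, hx, inv_one]
  have h1 : ((Nat.card F ^ n - 1 : ℕ) : ℂ) ≠ 0 :=
    Nat.cast_ne_zero.2 (ne_zero_of_dvd_ne_zero hP.ne_zero hm)
  simp only [P, smul_sum, smul_smul]
  rw [sum_comm, sum_eq_single x]
  · rw [← sum_smul, ← mul_sum, sum_congr rfl fun a ha => by
      rw [← pr_mul_left hR hm hx' hx (mem_filter.1 ha).2], inv_mul_cancel,
      sum_pr_right hR hm (one_pow _), if_pos rfl, inv_mul_cancel₀ h1, one_smul]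
  · intro y hy hyx
    have hy' := (mem_filter.1 hy).2
    rw [← sum_smul, ← mul_sum, sum_congr rfl fun a ha => by
      rw [← pr_mul_left hR hm hx' hy' (mem_filter.1 ha).2],
      sum_pr_right hR hm (by rw [mul_pow, hx', hy', one_mul]),
      if_neg fun h => hyx (inv_mul_eq_one.1 h).symm, mul_zero, zero_smul]
  · exact fun h => absurd (mem_filter.2 ⟨mem_univ x, hx⟩) h

open Classical in
omit hP h0 hn in
theorem cut_P_eq (a : Lab k R) : cut F (regS k p) (P F n a) =
    ∑ x : Mu k R with x ^ (Nat.card F ^ n - 1) = 1,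
      (if IsPRegular p x then pr (Nat.card F ^ n - 1) x a else 0) • pI F n (mv x) := by
  rw [P, map_sum]
  refine sum_congr rfl fun x _ => ?_
  rw [map_smul, cut_pI (conjCl_regS p)]
  simp only [mv_mem_regS]
  split_ifs <;> simp

theorem cut_P (hp : p.Prime) (ha : a ^ (Nat.card F ^ n - 1) = 1) :
    cut F (regS k p) (P F n a) = ((ordProj[p] (Nat.card F ^ n - 1) : ℕ) : ℂ)⁻¹ •
      ∑ b : Lab k R with b ^ ordProj[p] (Nat.card F ^ n - 1) = 1, P F n (a * b) := by
  classical
  have hR := cast_ne_zero_of_par k hP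
  have hm := hP.dvd h0 hn
  have h1 : ((ordProj[p] (Nat.card F ^ n - 1) : ℕ) : ℂ) ≠ 0 :=
    Nat.cast_ne_zero.2 (pow_ne_zero _ hp.ne_zero)
  rw [cut_P_eq]
  simp only [P, smul_sum, smul_smul]
  rw [sum_comm]
  refine sum_congr rfl fun x hx => ?_
  have hx' := (mem_filter.1 hx).2
  rw [← sum_smul, ← mul_sum, sum_congr rfl fun b hb => pr_mul_right hR hm hx' ha (by
    obtain ⟨c, hc⟩ := Nat.ordProj_dvd (Nat.card F ^ n - 1) p
    rw [hc, pow_mul b, (mem_filter.1 hb).2, one_pow (M := Lab k R)]), ← mul_sum,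
    sum_pr_pPart hR hm hp hx']
  congr 1
  split_ifs
  · rw [mul_comm (pr _ _ _), inv_mul_cancel_left₀ h1]
  · simp

theorem cut_P_pPrimePart (hp : p.Prime) (ha : a ^ (Nat.card F ^ n - 1) = 1) :
    cut F (regS k p) (P F n (pPrimePart p a)) = cut F (regS k p) (P F n a) := by
  haveI := Fact.mk hp
  have hR := cast_ne_zero_of_par k hP
  have hm := hP.dvd h0 hn
  have h1 : ∀ j : ℕ, (a ^ j) ^ (Nat.card F ^ n - 1) = 1 := fun j => by
    rw [← pow_mul a, mul_comm, pow_mul a, ha, one_pow (M := Lab k R)]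
  obtain ⟨i, hi⟩ := exists_pPart_eq_pow (p := p) a
  obtain ⟨j, hj⟩ := exists_pPrimePart_eq_pow (p := p) a
  rw [cut_P_eq, cut_P_eq]
  refine sum_congr rfl fun x hx => ?_
  have hx' := (mem_filter.1 hx).2
  split_ifs with h
  · conv_rhs => rw [← pPart_mul_pPrimePart (p := p) a]
    rw [pr_mul_right hR hm hx' (hi ▸ h1 i) (hj ▸ h1 j),
      pr_eq_one_of_coprime (a := pPart p a) hR hm hx' (hi ▸ h1 i)
      (by rw [orderOf_pPart]; exact (isPRegular_iff_coprime.1 h).pow_right _), one_mul]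
  · rfl

theorem cut_P_of_not_dvd (hp : p.Prime) (ha : a ^ (Nat.card F ^ n - 1) = 1)
    (h : ¬ p ∣ Nat.card F ^ n - 1) : cut F (regS k p) (P F n a) = P F n a := by
  rw [cut_P_eq, P]
  refine sum_congr rfl fun x hx => ?_
  rw [if_pos (show IsPRegular p x from
    fun h' => h (h'.trans (orderOf_dvd_of_pow_eq_one (mem_filter.1 hx).2)))]

end Cfsg.Gln

set_option linter.all false in
theorem Cfsg.Rz.Gln_Prim_0 : True := by
  have := @_root_.Cfsg.Gln.Hx.congr_simp.{0, 0}
  have := @_root_.Cfsg.Gln.Hx.eq_def.{0, 0}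
  have := @_root_.Cfsg.Gln.Hx.eq_1.{0, 0}
  have := @_root_.Cfsg.Gln.Hx.fun_cases
  have := @_root_.Cfsg.Gln.P.congr_simp.{0, 0}
  have := @_root_.Cfsg.Gln.P.eq_def.{0, 0}
  have := @_root_.Cfsg.Gln.P.eq_1.{0, 0}
  have := @_root_.Cfsg.Gln.P.fun_cases
  have := @_root_.Cfsg.Gln.pI.congr_simp.{0, 0}
  have := @_root_.Cfsg.Gln.pI.eq_def.{0, 0}
  have := @_root_.Cfsg.Gln.pI.eq_1.{0, 0}
  have := @_root_.Cfsg.Gln.pI.fun_cases
  have := @_root_.Cfsg.Gln.cj.eq_def.{0, 0}
  have := @_root_.Cfsg.Gln.cj.eq_1.{0, 0}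
  have := @_root_.Cfsg.Gln.cj.fun_cases
  trivial
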