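import Cfsg.Agent.Gln.IntegA
import Cfsg.Agent.Gln.Prim

/-!
# Integrality of the complete symmetric functions (necklace induction) (S4536 project)

Write `G n₀ l a = nexp (fun j => P F (n₀ * j) a) l`; induct on `n = n₀ l`, then on `l`.  Choose `ω` with
`a = ω ^ (R / (q ^ n₀ - 1))` (`Lab.exists_pow_eq`).  Work in `A = (Hall F)[X]` (or evaluate at all `t : ℂ`):
`α_t λ = if λ ^ R = 1 then 1 + t * lfn ω λ else 0`, `comp n (mf α_t) = ∑_j t^j comp n (cut {λ^R=1} (esy ω j))` and `res` of the cut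
is `res` of `esy` for `n ≤ N` (`pow_eq_one_of_mem_ev`).  With `L` from `Par`, `T = Finset (ZMod L)`, `σ` = translation by `1`
(`Per σ`), `a J = ω ^ ∑_{j ∈ J} q ^ j.val`, `w m J = #{i < m | (i : ZMod L) ∈ J}`.  `nw_mf` and
`∏_{i<m} (1 + t ω(x^(q^i))) = ∑_{J, σ^[m] J = J} t ^ (w m J) pr x (a J)` (`pr_pow_div'`; `R / (q^m - 1) = ∑_{s < L/m} q^(m s)`) give the
Newton sequence `m ↦ ∑_{σ^[m] J = J} t^(w m J) P m (a J) = ∑_{ν : Orb σ} [deg ν ∣ m] deg ν • t^(..) P m (a ν.rep)`
(`P_pow`, `Per.sum_orb`), which is the sum of the Newton sequences (`IsNw.expand`, `IsNw.scale`) of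
`m ↦ [deg ν ∣ m] t^(w (deg ν) ν * (m / deg ν)) G (deg ν) (m / deg ν) (a ν.rep)`.  `IsNw.prod`, `IsNw.left_eq` (up to `n ≤ N`) and
`coeff_prod_sub_mem`; take the coefficient of `t ^ l`: terms with `m / deg ν < l` are integral by induction and the
only orbit with `deg ν = n₀`, `w = 1` is that of `J = {j | n₀ ∣ j.val}`, `a J = a`.
-/

set_option autoImplicit false
set_option linter.unusedSectionVars false
set_option linter.unusedVariables false
set_option linter.style.haveILetI false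

namespace Cfsg.Gln

open Module Finset

universe u

section Neck

open Function

variable {L m : ℕ} {J J' : ZMod L → Bool}

/-- Rotation of necklaces. -/
def nkR (J : ZMod L → Bool) : ZMod L → Bool := fun z => J (z + 1)

/-- The number with digits `J`. -/
def nkS (g m : ℕ) (J : ZMod L → Bool) : ℕ := ∑ i ∈ range m, if J i then g ^ i else 0

theorem nkR_iterate (i : ℕ) (J : ZMod L → Bool) (z : ZMod L) : nkR^[i] J z = J (z + i) := by
  induction i generalizing z with
  | zero => simp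
  | succ i ih => rw [iterate_succ_apply', nkR, ih, Nat.cast_succ, add_assoc, add_comm 1]

theorem nkR_self (J : ZMod L → Bool) : nkR^[L] J = J := by
  funext z
  simp [nkR_iterate]

theorem per_nkR [NeZero L] : Per (nkR (L := L)) := ⟨L, NeZero.pos L, nkR_self⟩

theorem nk_add_mul (h : nkR^[m] J = J) (z : ZMod L) (c : ℕ) : J (z + (m * c : ℕ)) = J z := by
  rw [← nkR_iterate (m * c) J z, (IsPeriodicPt.mul_const h c : nkR^[m * c] J = J)]

theorem nkS_mul (h : nkR^[m] J = J) (g c : ℕ) :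
    nkS g (m * c) J = nkS g m J * ∑ s ∈ range c, (g ^ m) ^ s := by
  induction c with
  | zero => simp [nkS]
  | succ c ih =>
    rw [sum_range_succ, mul_add _ _ (_ ^ c), ← ih, mul_add_one, nkS, sum_range_add, nkS, nkS, sum_mul]
    congr 1
    refine sum_congr rfl fun i _ => ?_
    rw [Nat.cast_add, add_comm, nk_add_mul h, ← pow_mul]
    split_ifs <;> simp [pow_add, mul_comm]

theorem nkS_nkR (g m : ℕ) (J : ZMod L → Bool) : g * nkS g m (nkR J) + (if J 0 then 1 else 0) =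
    nkS g m J + if J m then g ^ m else 0 := by
  rw [nkS, nkS, ← sum_range_succ (fun i => if J i then g ^ i else 0), sum_range_succ', mul_sum]
  simp only [nkR, pow_succ', Nat.cast_succ, Nat.cast_zero, pow_zero]
  congr 1
  exact sum_congr rfl fun i _ => by by_cases h : J (i + 1) <;> simp [h]

theorem nkS_one_iterate (h : nkR^[m] J = J) (i : ℕ) : nkS 1 m (nkR^[i] J) = nkS 1 m J := by
  induction i with
  | zero => rfl
  | succ i ih =>
    have h1 := nkS_nkR 1 m (nkR^[i] J)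
    have h2 : nkR^[i] J m = nkR^[i] J 0 := by
      have := nk_add_mul h i 1
      rw [nkR_iterate, nkR_iterate, zero_add, add_comm, ← this, mul_one]
    rw [h2, one_pow, one_mul, add_left_inj] at h1
    rw [iterate_succ_apply', h1, ih]

theorem nk_ext [NeZero L] (hm : 0 < m) (h : nkR^[m] J = J) (h' : nkR^[m] J' = J')
    (e : ∀ i < m, J i = J' i) : J = J' := by
  funext z
  rw [← ZMod.natCast_zmod_val z, ← Nat.mod_add_div z.val m, Nat.cast_add, nk_add_mul h,
    nk_add_mul h', e _ (Nat.mod_lt _ hm)]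

theorem exists_nk [NeZero L] (hm : 0 < m) (hL : m ∣ L) (I : Finset ℕ) :
    ∃ J : ZMod L → Bool, nkR^[m] J = J ∧ ∀ i < m, J i ↔ i ∈ I := by
  refine ⟨fun z => z.val % m ∈ I, funext fun z => ?_, fun i hi => ?_⟩
  · rw [nkR_iterate, ZMod.val_add, Nat.mod_mod_of_dvd _ hL, ZMod.val_natCast, Nat.add_mod,
      Nat.mod_mod_of_dvd _ hL]
    simp
  · simp [Nat.mod_mod_of_dvd _ hL, Nat.mod_eq_of_lt hi]

theorem sum_nk [NeZero L] (hm : 0 < m) (hL : m ∣ L) {M : Type*} [AddCommMonoid M]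
    (f : Finset ℕ → M) : ∑ J : ZMod L → Bool with nkR^[m] J = J, f {i ∈ range m | J i} =
      ∑ I ∈ (range m).powerset, f I := by
  refine sum_nbij (fun J => {i ∈ range m | J i}) (fun J _ => by simp) (fun J hJ J' hJ' e => ?_)
    (fun I hI => ?_) fun _ _ => rfl
  · refine nk_ext hm (by simpa using hJ) (by simpa using hJ') fun i hi => ?_
    simpa [hi] using Finset.ext_iff.1 e i
  · obtain ⟨J, h1, h2⟩ := exists_nk hm hL I
    refine ⟨J, by simpa using h1, Finset.ext fun i => ?_⟩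
    have h3 : I ⊆ range m := mem_powerset.1 hI
    simp only [mem_filter, mem_range]
    exact ⟨fun h => (h2 i h.1).1 h.2, fun h => ⟨mem_range.1 (h3 h), (h2 i (mem_range.1 (h3 h))).2 h⟩⟩

theorem nkS_one_eq (m : ℕ) (J : ZMod L → Bool) : nkS 1 m J = #{i ∈ range m | J (i : ℕ)} := by
  simp [nkS]

theorem nk_eq_of_one [NeZero L] (hm : 0 < m) (h : nkR^[m] J = J) (h' : nkR^[m] J' = J')
    (e : nkS 1 m J = 1) (e' : nkS 1 m J' = 1) : Orb.mk nkR J = Orb.mk nkR J' := by
  have key : ∀ J : ZMod L → Bool, nkR^[m] J = J → nkS 1 m J = 1 → ∃ i, ∀ j < m,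
      nkR^[i] J j = decide (j = 0) := by
    intro J h e
    obtain ⟨i, hi⟩ := card_eq_one.1 (nkS_one_eq m J ▸ e)
    have h1 : J i := by
      have := mem_singleton_self i
      rw [← hi] at this
      exact (mem_filter.1 this).2
    rw [← nkS_one_iterate h i, nkS_one_eq] at e
    obtain ⟨i', hi'⟩ := card_eq_one.1 e
    have h2 : ∀ j < m, nkR^[i] J j ↔ j = i' := fun j hj => by
      simpa [hj] using Finset.ext_iff.1 hi' j
    have h3 := (h2 0 hm).1 (by simpa [nkR_iterate] using h1)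
    exact ⟨i, fun j hj => by rw [Bool.eq_iff_iff, h2 j hj, ← h3]; simp⟩
  obtain ⟨i, hi⟩ := key J h e
  obtain ⟨i', hi'⟩ := key J' h' e'
  rw [← Orb.mk_iterate i J, ← Orb.mk_iterate i' J', nk_ext hm (IsPeriodicPt.apply_iterate h i)
    (IsPeriodicPt.apply_iterate h' i') fun j hj => (hi j hj).trans (hi' j hj).symm]

variable {G : Type*} [Group G] {q R : ℕ} {ω : G}

theorem pow_nkS_nkR (hR : R + 1 = q ^ L) (hω : ω ^ R = 1) (J : ZMod L → Bool) :
    (ω ^ nkS q L (nkR J)) ^ q = ω ^ nkS q L J := by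
  have h := nkS_nkR q L J
  rw [ZMod.natCast_self, ← hR] at h
  rw [← pow_mul, mul_comm]
  split_ifs at h
  · rw [show q * nkS q L (nkR J) = nkS q L J + R by omega, pow_add, hω, mul_one]
  · rw [show q * nkS q L (nkR J) = nkS q L J by omega]

theorem pow_nkS_iterate (hR : R + 1 = q ^ L) (hω : ω ^ R = 1) (J : ZMod L → Bool) (i : ℕ) :
    (ω ^ nkS q L (nkR^[i] J)) ^ q ^ i = ω ^ nkS q L J := by
  induction i with
  | zero => simp
  | succ i ih => rw [iterate_succ_apply', pow_succ', pow_mul, pow_nkS_nkR hR hω, ih]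

theorem nkS_eq_mul_div (hq : 1 < q) (hR : R + 1 = q ^ L) (hm : 0 < m) (hL : m ∣ L)
    (h : nkR^[m] J = J) : nkS q L J = nkS q m J * (R / (q ^ m - 1)) := by
  obtain ⟨c, hc⟩ := hL
  have h1 := nkS_mul h q c
  rw [← hc, Nat.geomSum_eq (Nat.one_lt_pow hm.ne' hq), ← pow_mul, ← hc, ← hR] at h1
  exact h1

end Neck

theorem poly_ext_of_eval {S : Type*} [CommRing S] [Algebra ℂ S] {p q : Polynomial S}
    (h : ∀ t : ℂ, p.eval (algebraMap ℂ S t) = q.eval (algebraMap ℂ S t)) : p = q := by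
  rw [← sub_eq_zero]
  ext i
  rw [Polynomial.coeff_zero, ← Module.forall_dual_apply_eq_zero_iff ℂ]
  intro φ
  have h1 : ∑ j ∈ (p - q).support, Polynomial.monomial j (φ ((p - q).coeff j)) = 0 := by
    refine Polynomial.funext fun t => ?_
    have h2 := congrArg φ (sub_eq_zero.2 (h t))
    rw [← Polynomial.eval_sub, Polynomial.eval_eq_sum, Polynomial.sum_def, map_sum, map_zero] at h2
    rw [Polynomial.eval_zero, ← h2, Polynomial.eval_finsetSum]
    refine sum_congr rfl fun j _ => ?_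
    rw [Polynomial.eval_monomial, ← map_pow, mul_comm ((p - q).coeff j), ← Algebra.smul_def, map_smul,
      smul_eq_mul, mul_comm]
  have h2 := congrArg (Polynomial.coeff · i) h1
  by_cases hi : i ∈ (p - q).support
  · simpa [Polynomial.coeff_monomial, -Polynomial.mem_support_iff, hi] using h2
  · rw [Polynomial.notMem_support_iff.1 hi, map_zero]

theorem prod_one_add_mul (s : Multiset ℂ) (t : ℂ) : (s.map fun y => 1 + t * y).prod =
    ∑ j ∈ range (s.card + 1), t ^ j * s.esymm j := by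
  have h := congrArg (Polynomial.eval 1) (Multiset.prod_X_add_C_eq_sum_esymm (s.map (t • ·)))
  simp only [← Multiset.pow_smul_esymm] at h
  simpa [Polynomial.eval_multiset_prod, Polynomial.eval_finsetSum] using h

variable {F : Type u} [Field F] [Finite F] {k : Type*} [Field k] [Algebra F k] [IsAlgClosed k]
  [Algebra.IsAlgebraic F k] {R N : ℕ} [NeZero R]

theorem cut_esy_mem_intg (hP : Par (Nat.card F) R N) {n : ℕ} (hn : n ≤ N) (ω : Lab k R) (j : ℕ) :
    comp n (cut F {t : k | t ^ R = 1} (esy F ω j)) ∈ intg F := by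
  intro m
  convert esy_mem_intg hP hn ω j m using 1
  funext g
  simp only [res_apply, comp_apply, cut_apply]
  split_ifs with h1 h2
  · rfl
  · exact absurd (fun t ht => pow_eq_one_of_mem_ev hP (h1 ▸ hn) ht fun e =>
      (isUnit_rep_iff k).1 (isUnit_rep_cls.2 g.isUnit) (e ▸ ht)) h2
  · rfl

theorem comp_mf_eq (ω : Lab k R) (t : ℂ) (n : ℕ) :
    comp n (mf F (Set.indicator {s : k | s ^ R = 1} fun s => 1 + t * lfn ω s)) =
      ∑ j ∈ range (n + 1), t ^ j • comp n (cut F {s : k | s ^ R = 1} (esy F ω j)) := by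
  ext c
  simp only [Hall.sum_apply, Hall.smul_apply, comp_apply, cut_apply, mf, esy]
  split_ifs with h1 h2
  · rw [← h1, ← card_ev k, ← Multiset.card_map (lfn ω), ← prod_one_add_mul, Multiset.map_map]
    exact congrArg _ (Multiset.map_congr rfl fun s hs => Set.indicator_of_mem (h2 s hs) _)
  · push Not at h2
    obtain ⟨s, hs, hs'⟩ := h2
    simp only [mul_zero, sum_const_zero]
    exact Multiset.prod_eq_zero (Multiset.mem_map.2 ⟨s, hs, Set.indicator_of_notMem hs' _⟩)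
  · simp

variable {L m : ℕ} {J : ZMod L → Bool}

theorem nk_pow_eq_one (hP : Par (Nat.card F) R N) (hL : R + 1 = Nat.card F ^ L) (ω : Lab k R)
    (h : nkR^[m] J = J) : (ω ^ nkS (Nat.card F) L J) ^ (Nat.card F ^ m - 1) = 1 := by
  have h1 := pow_nkS_iterate (ω := ω) hL (Lab.pow_eq_one ω) J m
  rw [h] at h1
  exact (pow_pow_eq_iff Nat.card_pos _).1 h1

theorem P_nk_iterate (hP : Par (Nat.card F) R N) (hL : R + 1 = Nat.card F ^ L) (ω : Lab k R)
    (h0 : 0 < m) (hm : m ≤ N) (h : nkR^[m] J = J) (i : ℕ) :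
    P F m (ω ^ nkS (Nat.card F) L (nkR^[i] J)) = P F m (ω ^ nkS (Nat.card F) L J) := by
  rw [← P_pow hP h0 hm (nk_pow_eq_one hP hL ω (Function.IsPeriodicPt.apply_iterate h i)) i]
  exact congrArg _ (pow_nkS_iterate (ω := ω) hL (Lab.pow_eq_one ω) J i)

theorem nw_mf_nk [NeZero L] (hP : Par (Nat.card F) R N) (hL : R + 1 = Nat.card F ^ L) (ω : Lab k R)
    (h0 : 0 < m) (hm : m ≤ N) (hmL : m ∣ L) (t : ℂ) :
    nw (fun j => comp j (mf F (Set.indicator {s : k | s ^ R = 1} fun s => 1 + t * lfn ω s))) m =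
      ∑ J : ZMod L → Bool with nkR^[m] J = J, t ^ nkS 1 m J • P F m (ω ^ nkS (Nat.card F) L J) := by
  rw [nw_mf hP (α := Set.indicator {s : k | s ^ R = 1} fun s => 1 + t * lfn ω s)
    (fun s hs => (Set.mem_of_indicator_ne_zero hs :)) h0]
  simp only [P, smul_sum, smul_smul]
  rw [sum_comm]
  refine sum_congr rfl fun x hx => ?_
  rw [← sum_smul, prod_congr rfl (g := fun i => 1 + t * (ω (x ^ Nat.card F ^ i) : ℂ)) fun i _ => by
    rw [← mv_pow, Set.indicator_of_mem (s := {s : k | s ^ R = 1}) (mv_pow_eq_one _), lfn_mv], prod_one_add,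
    ← sum_nk h0 hmL]
  congr 1
  refine sum_congr rfl fun J hJ => ?_
  rw [nkS_eq_mul_div hP.1 hL h0 hmL (mem_filter.1 hJ).2, pow_mul ω,
    pr_pow_div' (cast_ne_zero_of_par k hP) (hP.dvd h0 hm) (mem_filter.1 hx).2, prod_mul_distrib,
    prod_const, nkS_one_eq, nkS, ← sum_filter, MonoidHom.pow_apply, ← prod_pow_eq_pow_sum]
  simp

variable (F) in
/-- The factor belonging to a necklace. -/
noncomputable def nkH (ω : Lab k R) (o : Orb (nkR (L := L))) (n : ℕ) : Polynomial (Hall F) :=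
  if o.deg ∣ n then (Polynomial.X ^ nkS 1 o.deg o.rep) ^ (n / o.deg) * Polynomial.C
    (nexp (fun j => P F (o.deg * j) (ω ^ nkS (Nat.card F) L o.rep)) (n / o.deg)) else 0

theorem isNw_nkH (ω : Lab k R) (hper : Per (nkR (L := L))) (o : Orb (nkR (L := L))) :
    IsNw (nkH F ω o) fun n => if o.deg ∣ n then (o.deg : Polynomial (Hall F)) *
      ((Polynomial.X ^ nkS 1 o.deg o.rep) ^ (n / o.deg) * Polynomial.C
        (P F (o.deg * (n / o.deg)) (ω ^ nkS (Nat.card F) L o.rep))) else 0 :=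
  (((isNw_nexp fun j => P F (o.deg * j) (ω ^ nkS (Nat.card F) L o.rep)).map Polynomial.C).scale
    (Polynomial.X ^ nkS 1 o.deg o.rep)).expand (hper.deg_pos o)

theorem coeff_prod_nkH [NeZero L] (hP : Par (Nat.card F) R N) (hL : R + 1 = Nat.card F ^ L)
    (hdvd : ∀ n, 0 < n → n ≤ N → n ∣ L) (ω : Lab k R) {n : ℕ} (hn : n ≤ N) :
    PowerSeries.coeff n (∏ o : Orb (nkR (L := L)), PowerSeries.mk (nkH F ω o)) =
      ∑ j ∈ range (n + 1), Polynomial.X ^ j *
        Polynomial.C (comp n (cut F {s : k | s ^ R = 1} (esy F ω j))) := by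
  have hper := per_nkR (L := L)
  refine poly_ext_of_eval fun t => ?_
  have h1 := (IsNw.prod univ fun o _ => isNw_nkH (F := F) ω hper o).map
    (Polynomial.evalRingHom (algebraMap ℂ (Hall F) t))
  refine (h1.left_eq (isNw_nw (h := fun j => comp j (mf F (Set.indicator {s : k | s ^ R = 1} fun s =>
    1 + t * lfn ω s))) (mult_mf _).comp_zero) (fun m h0 hm => ?_) le_rfl).trans ?_
  · have hm' := hm.trans hn
    rw [nw_mf_nk hP hL ω h0 hm' (hdvd m h0 hm'), sum_filter, hper.sum_orb]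
    simp only [Function.comp_apply, Finset.sum_apply, map_sum]
    refine sum_congr rfl fun o _ => ?_
    simp only [hper.iterate_eq_iff, Orb.mk_iterate, Orb.mk_rep]
    split_ifs with h
    swap
    · simp
    have h2 : nkR^[m] o.rep = o.rep := hper.iterate_eq_iff.2 (by rwa [Orb.mk_rep])
    have h3 := nkS_mul (hper.iterate_eq_iff.2 (by rw [Orb.mk_rep]) : nkR^[o.deg] o.rep = o.rep) 1
      (m / o.deg)
    rw [Nat.mul_div_cancel' h] at h3
    simp only [nkS_one_iterate h2, P_nk_iterate hP hL ω h0 hm' h2, Nat.mul_div_cancel' h]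
    simp [h3, pow_mul, Algebra.smul_def]
  · rw [comp_mf_eq]
    simp only [Polynomial.eval_finsetSum, Algebra.smul_def, Polynomial.eval_mul, Polynomial.eval_pow,
      Polynomial.eval_X, Polynomial.eval_C, map_pow]

theorem nexp_P_mem_intg (hP : Par (Nat.card F) R N) {n₀ l : ℕ} (h0 : 0 < n₀) (hn : n₀ * l ≤ N)
    {a : Lab k R} (ha : a ^ (Nat.card F ^ n₀ - 1) = 1) :
    nexp (fun j => P F (n₀ * j) a) l ∈ intg F := by
  generalize hn' : n₀ * l = n at hn
  induction n using Nat.strong_induction_on generalizing n₀ l a with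
  | _ n ihn =>
  induction l using Nat.strong_induction_on generalizing n₀ a with
  | _ l ihl =>
  rcases l.eq_zero_or_pos with rfl | hl
  · rw [nexp]
    exact one_mem _
  have hn0 : 0 < n := hn' ▸ Nat.mul_pos h0 hl
  have hn₀ : n₀ ≤ N := (hn' ▸ Nat.le_mul_of_pos_right n₀ hl :).trans hn
  obtain ⟨hq, L, hL0, hL, hdvd⟩ := id hP
  haveI : NeZero L := ⟨hL0.ne'⟩
  obtain ⟨ω, hω⟩ := Lab.exists_pow_eq (cast_ne_zero_of_par k hP) (hP.dvd h0 hn₀) ha
  have hper := per_nkR (L := L)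
  have hrep : ∀ o : Orb (nkR (L := L)), nkR^[o.deg] o.rep = o.rep := fun o =>
    hper.iterate_eq_iff.2 (by rw [Orb.mk_rep])
  have hA : ∀ o : Orb (nkR (L := L)), (ω ^ nkS (Nat.card F) L o.rep) ^ (Nat.card F ^ o.deg - 1) = 1 :=
    fun o => nk_pow_eq_one hP hL ω (hrep o)
  let B : Subring (Polynomial (Hall F)) := (Polynomial.mapRingHom (intg F).subtype).range
  have hC : ∀ f ∈ intg F, Polynomial.C f ∈ B := fun f hf => ⟨Polynomial.C ⟨f, hf⟩, by simp⟩
  have hX : Polynomial.X ∈ B := ⟨Polynomial.X, by simp⟩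
  have h1 := coeff_prod_sub_mem B univ (h := nkH F ω) hn0 (fun o _ => (isNw_nkH ω hper o).1)
    fun o _ j hj => by
      rw [nkH]
      split_ifs with h
      · exact mul_mem (pow_mem (pow_mem hX _) _) (hC _
          (ihn j hj (hper.deg_pos o) (hA o) (Nat.mul_div_cancel' h) (by omega)))
      · exact zero_mem _
  rw [coeff_prod_nkH hP hL hdvd ω hn] at h1
  obtain ⟨p, hp⟩ : ∑ o : Orb (nkR (L := L)), nkH F ω o n ∈ B := by
    have h2 := sub_mem (sum_mem fun j (_ : j ∈ range (n + 1)) => mul_mem (pow_mem hX j)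
      (hC _ (cut_esy_mem_intg hP hn ω j))) h1
    rwa [sub_sub_cancel] at h2
  have h2 : (∑ o : Orb (nkR (L := L)), nkH F ω o n).coeff l ∈ intg F := by
    rw [← hp, Polynomial.coe_mapRingHom, Polynomial.coeff_map]
    exact Subtype.property _
  obtain ⟨J, hJ, hJ'⟩ := exists_nk h0 (hdvd n₀ h0 hn₀) {0}
  have hJS : ∀ g, nkS g n₀ J = 1 := fun g => by
    rw [nkS, sum_eq_single 0 (fun i hi h => if_neg (by simpa [hJ' i (mem_range.1 hi)] using h))
      (fun h => absurd (mem_range.2 h0) h), if_pos ((hJ' 0 h0).2 (by simp)), pow_zero]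
  obtain ⟨i, hi⟩ := hper.mk_eq_iff.1 (Orb.mk_rep (Orb.mk nkR J))
  have hd : (Orb.mk nkR J).deg = n₀ := by
    obtain ⟨c, hc⟩ := hper.iterate_eq_iff.1 hJ
    have h3 := nkS_mul (hper.iterate_eq_iff.2 (dvd_refl (Orb.mk nkR J).deg)) 1 c
    rw [← hc, hJS] at h3
    have h4 : c = 1 := by simpa using Nat.eq_one_of_mul_eq_one_left h3.symm
    rw [hc, h4, mul_one]
  have hw : nkS 1 n₀ (Orb.mk nkR J).rep = 1 := by
    rw [← nkS_one_iterate (hd ▸ hrep _ :) i, ← hi, hJS]
  rw [Polynomial.finsetSum_coeff, ← add_sum_erase _ _ (mem_univ (Orb.mk nkR J))] at h2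
  have h3 := sub_mem h2 (sum_mem (t := univ.erase (Orb.mk nkR J))
    (f := fun o => (nkH F ω o n).coeff l) fun o ho => ?_)
  · rw [add_sub_cancel_right, nkH, hd, if_pos (hn' ▸ dvd_mul_right n₀ l), hw, ← hn',
      Nat.mul_div_cancel_left _ h0, pow_one, mul_comm, Polynomial.coeff_C_mul_X_pow, if_pos rfl] at h3
    rwa [nexp_congr fun j hj hjl => ?_]
    have h4 : nkR^[n₀ * j] (Orb.mk nkR J).rep = (Orb.mk nkR J).rep :=
      Function.IsPeriodicPt.mul_const (hd ▸ hrep _ :) j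
    rw [← P_nk_iterate hP hL ω (Nat.mul_pos h0 hj) ((Nat.mul_le_mul_left _ hjl).trans (hn' ▸ hn)) h4 i,
      ← hi, nkS_eq_mul_div hq hL h0 (hdvd n₀ h0 hn₀) hJ, hJS, one_mul, hω]
  · rw [nkH]
    split_ifs with h
    swap
    · simp
    rw [← pow_mul, mul_comm, Polynomial.coeff_C_mul_X_pow]
    split_ifs with h'
    swap
    · simp
    refine ihl _ (lt_of_le_of_ne (Nat.le_of_dvd hl (h' ▸ dvd_mul_left _ _)) fun e => ?_)
      (hper.deg_pos o) (hA o) (Nat.mul_div_cancel' h)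
    have h4 : o.deg = n₀ := Nat.eq_of_mul_eq_mul_right hl (by rw [hn', ← e, Nat.mul_div_cancel' h])
    rw [e, h4] at h'
    refine ne_of_mem_erase ho ?_
    rw [← o.mk_rep]
    exact nk_eq_of_one h0 (h4 ▸ hrep o :) hJ ((Nat.mul_eq_right hl.ne').1 h'.symm) (hJS 1)

end Cfsg.Gln

set_option linter.all false in
theorem Cfsg.Rz.Gln_Integ_0 : True := by
  have := @_root_.Cfsg.Gln.nkH.congr_simp.{0, 0}
  have := @_root_.Cfsg.Gln.nkH.eq_def.{0, 0}
  have := @_root_.Cfsg.Gln.nkH.fun_cases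
  have := @_root_.Cfsg.Gln.nkS.eq_def
  have := @_root_.Cfsg.Gln.nkS.fun_cases
  have := @_root_.Cfsg.Gln.nkR.eq_def
  have := @_root_.Cfsg.Gln.nkR.fun_cases
  trivial
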