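import Cfsg.Agent.Gln.Eig
import Cfsg.Agent.Char.BrauerInd
import Cfsg.Agent.Mod.Proj

/-!
# Integral elements of the Hall algebra; the Brauer lift (S4536 project)

`intg.mul_mem'` (parabolic induction): `(f * g)(x) = ∑_{i} ∑_{U invariant, dim U = i} …`; for fixed `i` and `U₀`
of dimension `i`, `GL(V)` is transitive on such `U`, and the inner sum is `ind (Stab U₀).subtype` of the product of
the pullbacks of `res U₀ f`, `res (V ⧸ U₀) g` along the homs `Stab U₀ →* GLV F U₀`, `Stab U₀ →* GLV F (V ⧸ U₀)`.
`esy_mem_intg` (Brauer lift).  Let `r = char F`, `M` a maximal ideal over `r` (`IsPModular r M` exists: grep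
`exists_isPModular`), embed `k → ResK M` (`IsAlgClosed.lift` over `ZMod r`), `ω₀ = teich ∘ ι` on `Mu k R` is an
injective label, so `ω = ω₀ ^ i` (`Lab.isCyclic`, `Lab.card`).  The function depends only on the `r'`-part of `g`
(`ev_pow`: replace `g` by `g ^ (r ^ a)`-type powers), so by `IsClassFunction.isGen_comp_pPrimePart` it suffices to treat
`r'`-subgroups `Q`.  There `χ(g) = ∑ ω₀(eigenvalues)` is `brauerChar` of the base change to `ResK M`, an ordinary
character (`isIBr_iff_of_not_dvd`, `isBrauerChar_iff`), afforded by a complex `W` on which `g` has eigenvalues `ω₀(λ)`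
(compare `χ(g^n)` for all `n`).  `e_j` of the eigenvalues is the character of `⋀^j W` (eigenbasis,
`Module.Basis.exteriorPower`; or use `S_j`-symmetrisation / any other route), and `e_j(λ^i)` is an integer polynomial
in the `e_l(λ)` (`MvPolynomial.esymmAlgEquiv`).
-/

set_option autoImplicit false
set_option linter.unusedSectionVars false
set_option linter.unusedVariables false
set_option linter.style.haveILetI false

namespace Cfsg.Gln

open Module Finset

universe u

variable {F : Type u} [Field F] [Finite F] {V : Type*} [AddCommGroup V] [Module F V] [Finite V]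
  {k : Type*} [Field k] [Algebra F k] [IsAlgClosed k] [Algebra.IsAlgebraic F k] {R N n : ℕ}
  [NeZero R]

theorem isGen_sum_fix {G Ω : Type*} [Group G] [Finite G] [Fintype Ω] [DecidableEq Ω]
    [MulAction G Ω] (θ : Ω → G → ℂ) (hθ : ∀ (x g : G) ω, θ (x • ω) g = θ ω (x⁻¹ * g * x))
    (h : ∀ ω, IsGeneralizedCharacter (MulAction.stabilizer G ω) fun g => θ ω g) :
    IsGeneralizedCharacter G fun g => ∑ ω with g • ω = ω, θ ω g := by
  classical
  haveI : Fintype (MulAction.orbitRel.Quotient G Ω) := Fintype.ofFinite _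
  haveI : ∀ ω : Ω, Fintype (G ⧸ MulAction.stabilizer G ω) := fun _ => Fintype.ofFinite _
  let Φ : (Σ q : MulAction.orbitRel.Quotient G Ω, G ⧸ MulAction.stabilizer G q.out) → Ω :=
    fun c => c.2.out • c.1.out
  have hΦ : Function.Bijective Φ := by
    constructor
    · rintro ⟨q, c⟩ ⟨q', c'⟩ e
      have e1 : q = q' := by
        rw [← q.out_eq, ← q'.out_eq, Quotient.eq]
        exact ⟨c.out⁻¹ * c'.out, by
          change (c.out⁻¹ * c'.out) • q'.out = _
          rw [mul_smul, inv_smul_eq_iff]; exact e.symm⟩
      subst e1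
      congr 1
      rw [← c.out_eq, ← c'.out_eq, QuotientGroup.eq, MulAction.mem_stabilizer_iff, mul_smul,
        inv_smul_eq_iff]
      exact e.symm
    · intro ω
      let q : MulAction.orbitRel.Quotient G Ω := Quotient.mk _ ω
      obtain ⟨x, hx⟩ : ω ∈ MulAction.orbit G q.out :=
        MulAction.orbitRel_apply.1 (Quotient.exact (q.out_eq.symm : q = _))
      refine ⟨⟨q, x⟩, ?_⟩
      obtain ⟨s, hs⟩ := QuotientGroup.mk_out_eq_mul (MulAction.stabilizer G q.out) x
      change (QuotientGroup.mk x : G ⧸ MulAction.stabilizer G q.out).out • q.out = ω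
      rw [hs, mul_smul, s.2]
      exact hx
  have : (fun g => ∑ ω with g • ω = ω, θ ω g) = ∑ q : MulAction.orbitRel.Quotient G Ω,
      ind (MulAction.stabilizer G q.out).subtype fun g => θ q.out g := by
    funext g
    rw [Finset.sum_apply, Finset.sum_filter, ← hΦ.sum_comp, Fintype.sum_sigma]
    refine Finset.sum_congr rfl fun q _ => ?_
    rw [ind_subtype_apply_eq_sum_quotient _ (h _).isClassFunction]
    refine Finset.sum_congr rfl fun c _ => ?_
    have e : g • Φ ⟨q, c⟩ = Φ ⟨q, c⟩ ↔ c.out⁻¹ * g * c.out ∈ MulAction.stabilizer G q.out := by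
      rw [MulAction.mem_stabilizer_iff, mul_smul, mul_smul, inv_smul_eq_iff]
    split_ifs with hc
    · rw [extendByZero_of_mem _ _ (e.1 hc)]
      exact hθ _ _ _
    · rw [extendByZero_of_notMem _ _ (mt e.2 hc)]
  exact this ▸ .sum fun q _ => (h _).ind _

theorem isGen_res_aux {f : Hall F}
    (h : ∀ n, IsGeneralizedCharacter (GLV F (Fin n → F)) (res (Fin n → F) f)) :
    IsGeneralizedCharacter (GLV F V) (res V f) := by
  let e := (finBasis F V).equivFun
  have := (h (finrank F V)).comp (Units.map (e.conjRingEquiv : End F V →* End F _))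
  convert this using 1
  funext g
  exact congrArg f (cls_eq_iff.2 (sim_conj e _))

theorem isGen_res_mul {f f' : Hall F}
    (h : ∀ n, IsGeneralizedCharacter (GLV F (Fin n → F)) (res (Fin n → F) f))
    (h' : ∀ n, IsGeneralizedCharacter (GLV F (Fin n → F)) (res (Fin n → F) f')) :
    IsGeneralizedCharacter (GLV F V) (res V (f * f')) := by
  classical
  letI : MulAction (GLV F V) (Submodule F V) :=
    { smul := fun g U => U.map (g : End F V)
      one_smul := fun U => Submodule.map_id U
      mul_smul := fun g h U => Submodule.map_comp (h : End F V) (g : End F V) U }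
  have hsm : ∀ (g : GLV F V) (U : Submodule F V), g • U = U.map (g : End F V) := fun _ _ => rfl
  have hmem : ∀ (g : GLV F V) (U : Submodule F V) (v : V),
      v ∈ g • U ↔ (g⁻¹ : GLV F V).1 v ∈ U := by
    intro g U v
    rw [hsm]
    constructor
    · rintro ⟨w, hw, rfl⟩
      rwa [← Module.End.mul_apply, Units.inv_mul]
    · intro hv
      exact ⟨_, hv, by rw [← Module.End.mul_apply, Units.mul_inv]; rfl⟩
  have hinj : ∀ g : GLV F V, Function.Injective (g : End F V) := fun g =>
    ((Module.End.isUnit_iff _).1 g.isUnit).1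
  have hfix : ∀ (g : GLV F V) (U : Submodule F V), g • U = U ↔ U ≤ U.comap (g : End F V) := by
    intro g U
    rw [← Submodule.map_le_iff_le_comap, hsm]
    refine ⟨le_of_eq, fun hle => Submodule.eq_of_le_of_finrank_eq hle ?_⟩
    exact (Submodule.equivMapOfInjective _ (hinj g) U).finrank_eq.symm
  haveI : Fintype (Submodule F V) := Fintype.ofFinite _
  let θ : Submodule F V → GLV F V → ℂ := fun U g =>
    if hU : U ≤ U.comap (g : End F V) then
      f (cls (Inv.sub ⟨U, hU⟩)) * f' (cls (Inv.quo ⟨U, hU⟩)) else 0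
  have key := isGen_sum_fix θ (fun x g U => ?_) (fun U => ?_)
  · convert key using 1
    funext g
    rw [res_apply, mul_cls]
    refine Finset.sum_bij (fun U _ => U.1) (fun U _ => by simpa using (hfix g U.1).2 U.2)
      (fun U _ U' _ e => Subtype.ext e)
      (fun U hU => ⟨⟨U, (hfix g U).1 (by simpa using hU)⟩, Finset.mem_univ _, rfl⟩) fun U _ => ?_
    simp only [θ, dif_pos U.2]
  · have e : x • U ≤ (x • U).comap (g : End F V) ↔
        U ≤ U.comap ((x⁻¹ * g * x : GLV F V) : End F V) := by
      rw [← hfix, ← hfix, mul_smul, mul_smul, inv_smul_eq_iff]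
    by_cases hU : U ≤ U.comap ((x⁻¹ * g * x : GLV F V) : End F V)
    · simp only [θ, dif_pos hU, dif_pos (e.2 hU)]
      have hx : ∀ v, (x : End F V) (((x⁻¹ * g * x : GLV F V) : End F V) v) =
          (g : End F V) ((x : End F V) v) := fun v => by
        rw [← Module.End.mul_apply, ← Units.val_mul, ← mul_assoc, ← mul_assoc, mul_inv_cancel,
          one_mul, Units.val_mul, Module.End.mul_apply]
      congr 2
      · refine cls_sub_eq _ ((x : End F V) ∘ₗ U.subtype) ((hinj x).comp Subtype.val_injective) ?_
          fun w => hx w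
        rw [LinearMap.range_comp, Submodule.range_subtype]; rfl
      · symm
        refine cls_quo_eq _ ((x • U).mkQ ∘ₗ (x : End F V))
          ((x • U).mkQ_surjective.comp ((Module.End.isUnit_iff _).1 x.isUnit).2) ?_ fun w => ?_
        · rw [LinearMap.ker_comp, Submodule.ker_mkQ]
          exact Submodule.comap_map_eq_of_injective (hinj x) U
        · change (x • U).mkQ ((x : End F V) _) = _
          rw [hx]; rfl
    · simp only [θ, dif_neg hU, dif_neg (mt e.1 hU)]
  · let φ₁ : MulAction.stabilizer (GLV F V) U →* End F U :=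
      { toFun := fun g => Inv.sub ⟨U, (hfix g.1 U).1 g.2⟩
        map_one' := LinearMap.ext fun _ => rfl
        map_mul' := fun _ _ => LinearMap.ext fun _ => rfl }
    let φ₂ : MulAction.stabilizer (GLV F V) U →* End F (V ⧸ U) :=
      { toFun := fun g => Inv.quo ⟨U, (hfix g.1 U).1 g.2⟩
        map_one' := LinearMap.ext fun v => by obtain ⟨v⟩ := v; rfl
        map_mul' := fun _ _ => LinearMap.ext fun v => by obtain ⟨v⟩ := v; rfl }
    convert ((isGen_res_aux h).comp φ₁.toHomUnits).mul ((isGen_res_aux h').comp φ₂.toHomUnits)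
      using 1
    funext g
    simp only [θ, dif_pos ((hfix g.1 U).1 g.2)]
    rfl

variable (F) in
/-- Elements restricting to generalized characters of all `GL_n(F)`. -/
def intg : Subring (Hall F) where
  carrier := {f | ∀ n, IsGeneralizedCharacter (GLV F (Fin n → F)) (res (Fin n → F) f)}
  mul_mem' h h' n := isGen_res_mul h h'
  one_mem' n := by
    by_cases hn : n = 0
    · convert (IsCharacter.one (G := GLV F (Fin n → F))).isGen using 1
      funext g
      rw [res_apply, Hall.one_apply, if_pos (by simpa using hn)]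
    · convert IsGeneralizedCharacter.zero (G := GLV F (Fin n → F)) using 1
      funext g
      rw [res_apply, Hall.one_apply, if_neg (by simpa using hn)]
      rfl
  add_mem' h h' n := (h n).add (h' n)
  zero_mem' n := .zero
  neg_mem' h n := (h n).neg

theorem isGen_res {f : Hall F} (h : f ∈ intg F) : IsGeneralizedCharacter (GLV F V) (res V f) :=
  isGen_res_aux h

theorem isGen_esymm_pow {G : Type*} [Group G] [Finite G] {n : ℕ} {m : G → Multiset ℂ}
    (hm : ∀ g, (m g).card = n) (h : ∀ l, IsGeneralizedCharacter G fun g => (m g).esymm l)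
    (i j : ℕ) : IsGeneralizedCharacter G fun g => ((m g).map (· ^ i)).esymm j := by
  obtain ⟨Q, hQ⟩ := MvPolynomial.esymmAlgHom_surjective (σ := Fin n) ℤ (n := n) (by simp)
    ⟨MvPolynomial.expand i (MvPolynomial.esymm (Fin n) ℤ j), fun e => by
      rw [MvPolynomial.rename_expand, MvPolynomial.rename_esymm]⟩
  have hQ' := (MvPolynomial.esymmAlgHom_apply Q).symm.trans (congrArg Subtype.val hQ)
  have key : ∀ Q : MvPolynomial (Fin n) ℤ, IsGeneralizedCharacter G fun g =>
      MvPolynomial.aeval (fun l : Fin n => (m g).esymm (l + 1)) Q := by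
    intro Q
    induction Q using MvPolynomial.induction_on with
    | C a =>
      convert (IsCharacter.one (G := G)).isGen.zsmul a using 1
      funext g
      simp
    | add P Q hP hQ =>
      convert hP.add hQ using 1
      funext g
      simp
    | mul_X P l hP =>
      convert hP.mul (h (l + 1)) using 1
      funext g
      simp
  convert key Q using 1
  funext g
  obtain ⟨x, hx⟩ : ∃ x : Fin n → ℂ, m g = univ.val.map x := by
    have : (m g).toList.length = n := by rw [Multiset.length_toList, hm]
    clear hQ hQ' key Q hm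
    subst this
    exact ⟨(m g).toList.get, by rw [Fin.univ_val_map, List.ofFn_get, Multiset.coe_toList]⟩
  have := congrArg (MvPolynomial.aeval x) hQ'
  rw [MvPolynomial.aeval_expand, MvPolynomial.aeval_esymm_eq_multiset_esymm,
    ← AlgHom.comp_apply, MvPolynomial.comp_aeval] at this
  simp_rw [MvPolynomial.aeval_esymm_eq_multiset_esymm, ← hx] at this
  rw [this, hx, Multiset.map_map]
  rfl

theorem isGen_esymm_teich {G : Type*} [Group G] [Finite G] {p : ℕ} {M : Ideal AlgInt}
    (hM : IsPModular p M) {W : Type*} [AddCommGroup W] [Module (ResK M) W]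
    [FiniteDimensional (ResK M) W] (ρ : Representation (ResK M) G W) (l : ℕ) :
    IsGeneralizedCharacter G fun g =>
      ((ρ (pPrimePart p g)).charpoly.roots.map (teich p M)).esymm l := by
  classical
  haveI := Fact.mk hM.prime
  haveI := hM.charP
  let σ : Representation (ResK M) G (⋀[ResK M]^l W) :=
    { toFun := fun g => exteriorPower.map l (ρ g)
      map_one' := by rw [map_one]; exact exteriorPower.map_id
      map_mul' := fun g h => by rw [map_mul]; exact exteriorPower.map_comp _ _ }
  convert (isBrauerChar_of_rep (p := p) σ).isGen_comp_pPrimePart hM using 2 with g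
  have hs := isPRegular_pPrimePart p g
  generalize pPrimePart p g = s at hs
  have hp : ¬ p ∣ orderOf s := hs
  obtain ⟨b, x, hx1, hx⟩ := exists_eigenbasis_of_pow_eq_one (ρ s) (m := orderOf s)
    (by rwa [Ne, CharP.cast_eq_zero_iff (ResK M) p]) (by rw [← map_pow, pow_orderOf_eq_one, map_one])
  rw [brauerChar_of_reg σ hs, roots_charpoly_of_eigenbasis b _ x hx,
    rootLift_charpoly_of_eigenbasis (b.exteriorPower l) (σ s) (fun S => ∏ i ∈ S.1, x i),
    Multiset.map_map, Finset.esymm_map_val]
  · symm
    refine Finset.sum_bij (fun S _ => S.1) (fun S _ => by simpa using S.2)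
      (fun S _ T _ e => Subtype.ext e)
      (fun S hS => ⟨⟨S, by simpa using hS⟩, Finset.mem_univ _, rfl⟩) fun S _ => ?_
    generalize S.1 = T
    induction T using Finset.induction_on with
    | empty => simpa using teich_one hM
    | insert a T ha ih =>
      rw [Finset.prod_insert ha, Finset.prod_insert ha, teich_mul hM hp (hx1 a), ih]
      · rfl
      · rw [← Finset.prod_pow, Finset.prod_eq_one fun i _ => hx1 i]
  · intro S
    rw [exteriorPower.basis_apply]
    refine (exteriorPower.map_apply_ιMulti_family _ _ _).trans ?_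
    rw [exteriorPower.ιMulti_family, exteriorPower.ιMulti_family]
    have : ((ρ s) ∘ b) ∘ (Set.powersetCard.ofFinEmbEquiv.symm S) = fun i =>
        x (Set.powersetCard.ofFinEmbEquiv.symm S i) •
          (b ∘ (Set.powersetCard.ofFinEmbEquiv.symm S)) i := funext fun i => hx _
    rw [this, AlternatingMap.map_smul_univ]
    congr 1
    rw [← Finset.prod_coe_sort S.1]
    exact Fintype.prod_equiv (S.1.orderIsoOfFin S.2).toEquiv _ _ fun i => rfl

theorem ev_pPrimePart {p : ℕ} [Fact p.Prime] [CharP F p] (g : GLV F V) :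
    ev k (cls ((pPrimePart p g : GLV F V) : End F V)) = ev k (cls (g : End F V)) := by
  haveI : Finite (End F V) := DFunLike.finite _
  haveI : CharP k p := charP_of_injective_algebraMap (algebraMap F k).injective p
  obtain ⟨a, ha⟩ := exists_pow_pPrimePart_eq (p := p) g
  refine Multiset.map_injective (iterateFrobenius_inj k p a) ?_
  have := congrArg (fun x : GLV F V => ev k (cls (x : End F V))) (ha a le_rfl)
  simp only [Units.val_pow_eq_pow_val, ev_pow] at this
  exact this.symm

theorem exists_lab_lift (hR : (R : k) ≠ 0) (ω : Lab k R) {p : ℕ} {M : Ideal AlgInt}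
    (hM : IsPModular p M) [CharP k p] (ι : k →+* ResK M) :
    ∃ i : ℕ, ∀ t : k, t ^ R = 1 → lfn ω t = teich p M (ι t) ^ i := by
  have hp : ¬ p ∣ R := by rwa [Ne, CharP.cast_eq_zero_iff k p] at hR
  have h1 : ∀ x : Mu k R, ι (mv x) ^ R = 1 := fun x => by rw [← map_pow, mv_pow_eq_one, map_one]
  let ν : Lab k R := MonoidHom.toHomUnits
    { toFun := fun x => teich p M (ι (mv x))
      map_one' := by rw [mv_one, map_one, teich_one hM]
      map_mul' := fun x y => by rw [mv_mul, map_mul, teich_mul hM hp (h1 x) (h1 y)] }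
  have hν' : ∀ x, (ν x : ℂ) = teich p M (ι (mv x)) := fun _ => rfl
  have hinj : Function.Injective ν := fun x y e => mv_injective (ι.injective (by
    rw [← red_teich hM hp (h1 x), ← red_teich hM hp (h1 y), ← hν', ← hν', e]))
  obtain ⟨x, hx⟩ := Mu.exists_orderOf_eq hR (dvd_refl R)
  have ho : orderOf ν = Nat.card (Lab k R) := by
    rw [Lab.card hR]
    refine Nat.dvd_antisymm (orderOf_dvd_of_pow_eq_one (Lab.pow_eq_one ν)) ?_
    conv_lhs => rw [← hx, ← orderOf_injective ν hinj]
    refine orderOf_dvd_of_pow_eq_one ?_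
    rw [← MonoidHom.pow_apply, pow_orderOf_eq_one ν, MonoidHom.one_apply]
  have hω : ω ∈ Subgroup.zpowers ν := by
    rw [Subgroup.eq_top_of_card_eq (Subgroup.zpowers ν) (by rw [Nat.card_zpowers, ho])]
    trivial
  obtain ⟨i, rfl⟩ := (mem_powers_iff_mem_zpowers.2 hω : ω ∈ Submonoid.powers ν)
  refine ⟨i, fun t ht => ?_⟩
  obtain ⟨x, rfl⟩ := exists_mv_eq ht
  rw [lfn_mv, ← hν']
  rfl

variable (F) in
/-- Elementary symmetric functions of the lifted eigenvalues. -/
noncomputable def esy (ω : Lab k R) (j : ℕ) : Hall F := fun c => ((ev k c).map (lfn ω)).esymm j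

theorem isGen_res_esy (hP : Par (Nat.card F) R N) (hn : n ≤ N) (ω : Lab k R) (j : ℕ) :
    IsGeneralizedCharacter (GLV F (Fin n → F)) (res (Fin n → F) (esy F ω j)) := by
  classical
  obtain ⟨p, hp⟩ := CharP.exists F
  haveI := Fact.mk (CharP.char_is_prime F p)
  haveI : CharP k p := charP_of_injective_algebraMap (algebraMap F k).injective p
  obtain ⟨M, hM⟩ := exists_isPModular (p := p) Fact.out
  haveI := hM.charP
  letI := ZMod.algebra F p
  letI := ZMod.algebra k p
  letI := ZMod.algebra (ResK M) p
  haveI : IsScalarTower (ZMod p) F k := .of_algebraMap_eq' (Subsingleton.elim _ _)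
  haveI : Algebra.IsAlgebraic (ZMod p) k := .trans (ZMod p) F k
  let ι : k →+* ResK M := (IsAlgClosed.lift : k →ₐ[ZMod p] ResK M)
  obtain ⟨i, hi⟩ := exists_lab_lift (cast_ne_zero_of_par k hP) ω hM ι
  let ρ : Representation (ResK M) (GLV F (Fin n → F)) (Fin n → ResK M) :=
    ((Matrix.toLinAlgEquiv' : Matrix (Fin n) (Fin n) (ResK M) ≃ₐ[ResK M] _) :
      Matrix (Fin n) (Fin n) (ResK M) →* End (ResK M) (Fin n → ResK M)).comp
      ((ι.comp (algebraMap F k)).mapMatrix.toMonoidHom.comp
        (((LinearMap.toMatrixAlgEquiv' : End F (Fin n → F) ≃ₐ[F] _) :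
          End F (Fin n → F) →* Matrix (Fin n) (Fin n) F).comp (Units.coeHom _)))
  have hρ : ∀ g, (ρ g).charpoly.roots = (ev k (cls (g : End F (Fin n → F)))).map ι := by
    intro g
    have : (ρ g).charpoly = ((g : End F (Fin n → F)).charpoly.map (algebraMap F k)).map ι := by
      rw [Polynomial.map_map, ← LinearMap.charpoly_toMatrix (g : End F (Fin n → F))
        (Pi.basisFun F (Fin n)), ← Matrix.charpoly_map, ← Matrix.charpoly_toLin']
      rfl
    rw [this, (IsAlgClosed.splits _).roots_map, ev, cp_cls]
  have := isGen_esymm_pow (n := n) (fun g => by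
    rw [Multiset.card_map, hρ, Multiset.card_map, card_ev, dim_cls, Module.finrank_fin_fun])
    (isGen_esymm_teich hM ρ) i j
  convert this using 1
  funext g
  rw [hρ, ev_pPrimePart, Multiset.map_map, Multiset.map_map, res_apply, esy]
  congr 1
  refine Multiset.map_congr rfl fun t ht => hi t (pow_eq_one_of_mem_ev hP (by simpa using hn) ht ?_)
  rintro rfl
  exact (isUnit_rep_iff k).1 (isUnit_rep_cls.2 g.isUnit) ht

theorem esy_mem_intg (hP : Par (Nat.card F) R N) (hn : n ≤ N) (ω : Lab k R) (j : ℕ) :
    comp n (esy F ω j) ∈ intg F := by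
  intro m
  by_cases hm : m = n
  · subst hm
    convert isGen_res_esy hP hn ω j using 1
    funext g
    rw [res_apply, comp_apply, if_pos (by simp), res_apply]
  · convert IsGeneralizedCharacter.zero (G := GLV F (Fin m → F)) using 1
    funext g
    rw [res_apply, comp_apply, if_neg (by simpa using hm)]
    rfl

end Cfsg.Gln

set_option linter.all false in
theorem Cfsg.Rz.Gln_IntegA_0 : True := by
  have := @_root_.Cfsg.Gln.esy.congr_simp.{0, 0}
  have := @_root_.Cfsg.Gln.esy.eq_def.{0, 0}
  have := @_root_.Cfsg.Gln.esy.eq_1.{0, 0}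
  have := @_root_.Cfsg.Gln.esy.fun_cases
  have := @_root_.Cfsg.Gln.intg.eq_def.{0}
  have := @_root_.Cfsg.Gln.intg.eq_1.{0}
  have := @_root_.Cfsg.Gln.intg.fun_cases
  trivial
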