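import Cfsg.Agent.Gln.Heis
import Cfsg.Agent.Gln.Integ
import Cfsg.Agent.Gln.Cent
import Cfsg.Agent.Gln.Clif

/-!
# The irreducible characters of `GL(V)` (Green) (S4536 project)

Colours = Frobenius orbits of labels, `pc φ j = P (deg φ * j) φ.rep`, `chi a = ∏_φ Sch (pc φ) (a φ)`.
`bf_chi`: expand by `Sch_eq_sum` + `Finset.prod_univ_sum`, apply `bf_monomial` (`γ (φ, j) = j`) and `rowSum`.
`span_mon` (completeness): the monomials `∏ pI (fdeg x * j) x` indexed by multisets `μ` of pairs (Frobenius orbit of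
`Mu k R`, `j > 0`) of total dimension `n` are orthogonal with nonzero norms (`bf_monomial`, `adj_pI_mul`), hence independent
in the space of functions on `{c | dim c = n, IsUnit c.rep}`; the same index set surjects onto this finite set by
`μ ↦ ∑ cls (cyc (minpoly x ^ j))` (`exists_decomp`, `cls_pi`), so they span; then `pI_eq_sum_P`, `P_eq_pc`.
`mon_mem_span`: `pm_eq_sum` colourwise.  `exists_isLab`: `χ = res f` with `f ∈ span chi`, so some `ip (res (chi a)) χ ≠ 0`.
-/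

set_option autoImplicit false
set_option linter.unusedSectionVars false
set_option linter.unusedVariables false
set_option linter.style.haveILetI false

namespace Cfsg.Gln

open Module Finset Function Sym

universe u

variable {F : Type u} [Field F] [Finite F] {V : Type*} [AddCommGroup V] [Module F V] [Finite V]
  {k : Type*} [Field k] [Algebra F k] [IsAlgClosed k] [Algebra.IsAlgebraic F k] {R N n : ℕ}
  [NeZero R]

variable (F k R) in
/-- Colours. -/
abbrev Col := Orb (frob (Nat.card F) : Lab k R → Lab k R)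

/-- The power sums of a colour. -/
noncomputable def pc (φ : Col F k R) (j : ℕ) : Hall F := P F (φ.deg * j) φ.rep

/-- The size of the partition with beta-set `b`. -/
def sz (b : Fin N → ℕ) : ℕ := ∑ i, b i - tri N

/-- The dimension attached to a label. -/
noncomputable def size (a : Col F k R → Fin N → ℕ) : ℕ := ∑ φ, φ.deg * sz (a φ)

/-- All beta-sets are injective. -/
def Good (a : Col F k R → Fin N → ℕ) : Prop := ∀ φ, Injective (a φ)

/-- Green's character. -/
noncomputable def chi (a : Col F k R → Fin N → ℕ) : Hall F := ∏ φ, Sch (pc φ) (a φ)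

/-- Monomials in the coloured power sums. -/
noncomputable def mon (μ : Multiset (Col F k R × ℕ)) : Hall F := (μ.map fun i => pc i.1 i.2).prod

/-- The dimension of a monomial. -/
noncomputable def mdeg (μ : Multiset (Col F k R × ℕ)) : ℕ := (μ.map fun i => i.1.deg * i.2).sum

/-- Remove (`dnl`) or add (`upl`) `j` at position `i` of colour `φ`. -/
noncomputable def dnl (a : Col F k R → Fin N → ℕ) (φ : Col F k R) (i : Fin N) (j : ℕ) :
    Col F k R → Fin N → ℕ := update a φ (a φ - Pi.single i j)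

@[inherit_doc dnl]
noncomputable def upl (a : Col F k R → Fin N → ℕ) (φ : Col F k R) (i : Fin N) (j : ℕ) :
    Col F k R → Fin N → ℕ := update a φ (a φ + Pi.single i j)

/-- `a` is a label of `χ`. -/
def IsLab (χ : IrrCharacter (GLV F V)) (a : Col F k R → Fin N → ℕ) : Prop :=
  Good a ∧ size a = finrank F V ∧ (res V (chi a) = χ.1 ∨ res V (chi a) = -χ.1)

variable (F k R) in
/-- The Frobenius-fixed labels. -/
def fixq : Subgroup (Lab k R) where
  carrier := {y | y ^ Nat.card F = y}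
  mul_mem' h h' := by simp_all [mul_pow]
  one_mem' := one_pow _
  inv_mem' h := by simp_all

theorem fixq_pow (y : fixq F k R) (i : ℕ) : y.1 ^ Nat.card F ^ i = y.1 := by
  induction i with
  | zero => rw [pow_zero, pow_one y.1]
  | succ i ih => rw [pow_succ, pow_mul y.1, ih]; exact y.2

theorem mk_rep_mul (y : fixq F k R) (a : Lab k R) :
    (Orb.mk _ ((Orb.mk _ a : Col F k R).rep * y.1) : Col F k R) = Orb.mk _ (a * y.1) := by
  obtain ⟨i, j, h⟩ := Quotient.exact (Orb.mk_rep (Orb.mk _ a : Col F k R))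
  refine Quotient.sound ⟨i, j, ?_⟩
  simp only [frob_iterate] at h ⊢
  rw [mul_pow a, mul_pow (M := Lab k R), h, fixq_pow, fixq_pow]

noncomputable instance : MulAction (fixq F k R) (Col F k R) where
  smul y φ := Orb.mk _ (φ.rep * y.1)
  one_smul φ := (congrArg _ (mul_one _)).trans φ.mk_rep
  mul_smul y z φ := (congrArg (Orb.mk _) (by rw [Subgroup.coe_mul, mul_comm y.1, mul_assoc φ.rep])).trans
    (mk_rep_mul y _).symm

theorem smul_mk (y : fixq F k R) (a : Lab k R) :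
    y • (Orb.mk _ a : Col F k R) = Orb.mk _ (a * y.1) := by
  exact mk_rep_mul y a

variable {a b : Col F k R → Fin N → ℕ} {φ : Col F k R} {χ ψ : IrrCharacter (GLV F V)}

theorem chi_eq_zero (h : ¬ Good a) : chi a = 0 := by
  obtain ⟨φ, h⟩ := not_forall.1 h
  exact prod_eq_zero (mem_univ φ) (Sch_eq_zero h)

theorem pc_mem_hom (φ : Col F k R) (j : ℕ) : pc φ j ∈ hom F (φ.deg * j) := P_mem_hom _ _

/-- The coloured multiset with the rows `f φ`. -/
noncomputable def cm (f : Col F k R → Multiset ℕ) : Multiset (Col F k R × ℕ) :=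
  ∑ φ, (f φ).map (Prod.mk φ)

theorem count_cm (f : Col F k R → Multiset ℕ) (i : Col F k R × ℕ) :
    (cm f).count i = (f i.1).count i.2 := by
  rw [cm, Multiset.count_sum', sum_eq_single i.1 (fun φ _ h => Multiset.count_eq_zero.2 fun e => by
    obtain ⟨j, -, rfl⟩ := Multiset.mem_map.1 e
    exact h rfl) (by simp)]
  exact Multiset.count_map_eq_count' _ _ (Prod.mk_right_injective i.1) _

theorem mem_cm {f : Col F k R → Multiset ℕ} {i : Col F k R × ℕ} : i ∈ cm f ↔ i.2 ∈ f i.1 := by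
  rw [← Multiset.count_pos, count_cm, Multiset.count_pos]

theorem cm_injective : Injective (cm : (Col F k R → Multiset ℕ) → _) := fun f g h =>
  funext fun φ => Multiset.ext.2 fun j => by rw [← count_cm f (φ, j), h, count_cm]

theorem exists_cm (μ : Multiset (Col F k R × ℕ)) : ∃ f, cm f = μ := by
  induction μ using Multiset.induction_on with
  | empty => exact ⟨0, by simp [cm]⟩
  | cons i μ ih =>
    obtain ⟨f, rfl⟩ := ih
    refine ⟨Pi.single i.1 {i.2} + f, ?_⟩
    simp only [cm, Pi.add_apply, Multiset.map_add, sum_add_distrib]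
    rw [sum_eq_single i.1 (fun φ _ h => by simp [h]) (by simp)]
    simp

theorem map_cm {M : Type*} (g : Col F k R × ℕ → M) (f : Col F k R → Multiset ℕ) :
    (cm f).map g = ∑ φ, (f φ).map fun j => g (φ, j) :=
  (map_sum (Multiset.mapAddMonoidHom g) _ _).trans (sum_congr rfl fun _ _ => Multiset.map_map _ _ _)

theorem prod_map_cm {M : Type*} [CommMonoid M] (g : Col F k R × ℕ → M)
    (f : Col F k R → Multiset ℕ) :
    ((cm f).map g).prod = ∏ φ, ((f φ).map fun j => g (φ, j)).prod := by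
  rw [map_cm, Multiset.prod_sum]

theorem mon_cm (f : Col F k R → Multiset ℕ) : mon (cm f) = ∏ φ, pm (pc φ) (f φ) := prod_map_cm _ _

theorem mdeg_cm (f : Col F k R → Multiset ℕ) : mdeg (cm f) = ∑ φ, φ.deg * (f φ).sum := by
  rw [mdeg, map_cm, Multiset.sum_sum]
  exact sum_congr rfl fun φ _ => by
    simpa using Multiset.sum_map_mul_left (s := f φ) (a := φ.deg) (f := id)

theorem chi_eq_sum (a : Col F k R → Fin N → ℕ) : chi a = ∑ f : ∀ φ, Nat.Partition (sz (a φ)),
    (∏ φ, (X (f φ).parts (a φ) : ℂ) / zc (f φ).parts) • mon (cm fun φ => (f φ).parts) := by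
  simp only [chi, Sch_eq_sum, mon_cm, ← prod_smul]
  exact Fintype.prod_sum _

theorem chi_eq_mul (a : Col F k R → Fin N → ℕ) (φ : Col F k R) (b : Fin N → ℕ) :
    chi (update a φ b) = Sch (pc φ) b * ∏ φ' ∈ univ.erase φ, Sch (pc φ') (a φ') := by
  rw [chi, ← mul_prod_erase _ _ (mem_univ φ), update_self]
  exact congrArg _ (prod_congr rfl fun φ' h => by rw [update_of_ne (ne_of_mem_erase h)])

theorem size_eq_add (a : Col F k R → Fin N → ℕ) (φ : Col F k R) (b : Fin N → ℕ) :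
    size (update a φ b) = φ.deg * sz b + ∑ φ' ∈ univ.erase φ, φ'.deg * sz (a φ') := by
  rw [size, ← add_sum_erase _ _ (mem_univ φ), update_self]
  exact congrArg _ (sum_congr rfl fun φ' h => by rw [update_of_ne (ne_of_mem_erase h)])

theorem deg_mul_le_size {j : ℕ} (h : j ≤ sz (a φ)) : φ.deg * j ≤ size a :=
  (Nat.mul_le_mul_left _ h).trans (single_le_sum (f := fun φ : Col F k R => φ.deg * sz (a φ))
    (fun _ _ => Nat.zero_le _) (mem_univ φ))

theorem sum_eq_tri_add_sz {b : Fin N → ℕ} (h : Injective b) : ∑ i, b i = tri N + sz b :=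
  (Nat.add_sub_cancel' (tri_le h)).symm

theorem chi_mem_hom (a : Col F k R → Fin N → ℕ) : chi a ∈ hom F (size a) := by
  refine prod_mem_graded one_mem_hom mul_mem_hom _ fun φ _ => ?_
  exact Sch_mem (A := fun j => hom F (φ.deg * j)) one_mem_hom
    (fun i j x hx y hy => mul_add φ.deg i j ▸ mul_mem_hom _ _ x hx y hy) fun j _ _ => pc_mem_hom φ j

theorem mon_mem_supp (μ : Multiset (Col F k R × ℕ)) : mon μ ∈ supp F ({0}ᶜ : Set k) :=
  multiset_prod_mem _ fun _ h => by
    obtain ⟨i, -, rfl⟩ := Multiset.mem_map.1 h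
    exact P_mem_supp _ _

theorem isInv_chi (a : Col F k R → Fin N → ℕ) : IsInv (chi a) := by
  rw [isInv_iff (k := k), chi_eq_sum]
  exact sum_mem fun f _ => Subalgebra.smul_mem _ (mon_mem_supp _) _

theorem prod_map_mem_hom {I : Type*} {g : I → Hall F} {d : I → ℕ} (h : ∀ i, g i ∈ hom F (d i))
    (μ : Multiset I) : (μ.map g).prod ∈ hom F (μ.map d).sum := by
  induction μ using Multiset.induction_on with
  | empty => exact one_mem_hom
  | cons i μ ih => simpa using mul_mem_hom _ _ _ (h i) _ ih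

theorem mon_cons (i : Col F k R × ℕ) (μ : Multiset (Col F k R × ℕ)) :
    mon (i ::ₘ μ) = pc i.1 i.2 * mon μ := by
  rw [mon, Multiset.map_cons, Multiset.prod_cons, mon]

theorem mdeg_cons (i : Col F k R × ℕ) (μ : Multiset (Col F k R × ℕ)) :
    mdeg (i ::ₘ μ) = i.1.deg * i.2 + mdeg μ := by
  rw [mdeg, Multiset.map_cons, Multiset.sum_cons, mdeg]

theorem mon_mem_hom (μ : Multiset (Col F k R × ℕ)) : mon μ ∈ hom F (mdeg μ) := by
  exact prod_map_mem_hom (fun i => pc_mem_hom _ _) μ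

theorem chi_congr (h : ∀ φ, ms (a φ) = ms (b φ)) : chi a = chi b ∨ chi a = -chi b := by
  choose σ hσ using fun φ => ms_eq_iff.1 (h φ)
  have : chi b = ((∏ φ, Equiv.Perm.sign (σ φ) : ℤˣ) : ℤ) • chi a := by
    simp only [chi, hσ, Sch_comp, prod_smul, Units.coe_prod]
  rcases Int.units_eq_one_or (∏ φ, Equiv.Perm.sign (σ φ)) with e | e <;> simp [this, e]

theorem size_dnl {i : Fin N} {j : ℕ} (hi : j ≤ a φ i) (h : Good (dnl a φ i j)) :
    size (dnl a φ i j) + φ.deg * j = size a := by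
  have h1 := sum_eq_tri_add_sz (b := a φ - Pi.single i j) (by simpa [dnl] using h φ)
  have h2 : ∑ l, a φ l = ∑ l, (a φ - Pi.single i j : Fin N → ℕ) l + j := by
    refine (sum_congr rfl fun l _ => (Nat.sub_add_cancel (m := Pi.single (M := fun _ => ℕ) i j l)
      ?_).symm).trans (by simp [sum_add_distrib])
    by_cases e : l = i <;> simp [e, hi]
  have h3 : sz (a φ) = sz (a φ - Pi.single i j) + j := by rw [sz]; omega
  conv_rhs => rw [← update_eq_self φ a]
  rw [dnl, size_eq_add, size_eq_add, h3]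
  ring

theorem chi_mem_span_mon (a : Col F k R → Fin N → ℕ) : chi a ∈ Submodule.span ℂ
    (mon '' {μ | (∀ i ∈ μ, 0 < i.2 ∧ i.2 ≤ sz (a i.1)) ∧ mdeg μ = size a}) := by
  rw [chi_eq_sum]
  refine sum_mem fun f _ => Submodule.smul_mem _ _ (Submodule.subset_span ⟨_, ⟨fun i hi => ?_, ?_⟩, rfl⟩)
  · exact ⟨(f _).parts_pos (mem_cm.1 hi), Nat.Partition.le_of_mem_parts (mem_cm.1 hi)⟩
  · simp only [mdeg_cm, Nat.Partition.parts_sum, size]

/-- An `ε`-derivation dual to `pc φ j` removes `j`-hooks in colour `φ`. -/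
theorem deriv_chi {S : Type*} [CommRing S] [Algebra ℂ S] (ε : Hall F →+* S) (E : Hall F →ₗ[ℂ] S)
    {j : ℕ} (hj : 0 < j) (γ : ℂ) (ha : Good a) (h1 : E 1 = 0)
    (hE : ∀ φ' j', 0 < j' → j' ≤ sz (a φ') → ∀ f, E (pc φ' j' * f) =
      (if φ' = φ ∧ j' = j then (j : ℂ) * γ else 0) • ε f + ε (pc φ' j') * E f) :
    E (chi a) = γ • ε (∑ i with j ≤ a φ i, chi (dnl a φ i j)) := by
  have h2 : ∀ s : Finset (Col F k R), φ ∉ s → E (∏ φ' ∈ s, Sch (pc φ') (a φ')) = 0 := fun s => by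
    induction s using Finset.induction_on with
    | empty => simpa using h1
    | insert φ' s hs ih =>
      intro h
      rw [mem_insert, not_or] at h
      rw [prod_insert hs, deriv_Sch ε E hj 0 fun j' h0 h' f => by
        simpa [Ne.symm h.1] using hE φ' j' h0 (Nat.le_sub_of_add_le h') f, ih h.2]
      simp
  conv_lhs => rw [← update_eq_self φ a]
  rw [chi_eq_mul, deriv_Sch ε E hj γ fun j' h0 h' f => by
    simpa using hE φ j' h0 (Nat.le_sub_of_add_le h') f, h2 _ (notMem_erase _ _), mul_zero, add_zero,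
    ← map_mul, dn, sum_mul, sum_filter]
  simp only [dnl, chi_eq_mul, ite_mul, zero_mul]

variable (hP : Par (Nat.card F) R N)
include hP

theorem per_lab : Per (frob (Nat.card F) : Lab k R → Lab k R) := hP.per Lab.pow_eq_one

theorem deg_pos (φ : Col F k R) : 0 < φ.deg := (per_lab hP).deg_pos φ

theorem deg_dvd_iff {c : Lab k R} : (Orb.mk _ c : Col F k R).deg ∣ n ↔
    c ^ (Nat.card F ^ n - 1) = 1 := by
  rw [← (per_lab hP).iterate_eq_iff, frob_iterate, pow_pow_eq_iff Nat.card_pos]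

theorem rep_pow (φ : Col F k R) (j : ℕ) : φ.rep ^ (Nat.card F ^ (φ.deg * j) - 1) = 1 := by
  exact (deg_dvd_iff hP).1 (φ.mk_rep.symm ▸ dvd_mul_right _ _)

theorem deg_smul (y : fixq F k R) (φ : Col F k R) : (y • φ).deg = φ.deg := by
  have : ∀ n, (y • φ).deg ∣ n ↔ φ.deg ∣ n := fun n => by
    rw [← φ.mk_rep, smul_mk, ← (per_lab hP).iterate_eq_iff, ← (per_lab hP).iterate_eq_iff,
      frob_iterate, frob_iterate, mul_pow φ.rep, fixq_pow, mul_left_inj]
  exact Nat.dvd_antisymm ((this _).2 dvd_rfl) ((this _).1 dvd_rfl)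

theorem P_eq_pc (h0 : 0 < n) (hn : n ≤ N) {c : Lab k R} (hc : c ^ (Nat.card F ^ n - 1) = 1) :
    P F n c = pc (Orb.mk _ c : Col F k R) (n / (Orb.mk _ c : Col F k R).deg) := by
  obtain ⟨i, hi⟩ := (per_lab hP).mk_eq_iff.1 (Orb.mk_rep (Orb.mk _ c : Col F k R)).symm
  rw [pc, Nat.mul_div_cancel' ((deg_dvd_iff hP).2 hc), hi, frob_iterate, P_pow hP h0 hn hc]

theorem adj_pc_mul {φ' : Col F k R} {j j' : ℕ} (hj : 0 < j) (hj' : 0 < j') (h : φ.deg * j ≤ N)
    (h' : φ'.deg * j' ≤ N) (f : Hall F) : adj (φ.deg * j) (star (pc φ j)) (pc φ' j' * f) =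
      pc φ' j' * adj (φ.deg * j) (star (pc φ j)) f + (if φ' = φ ∧ j' = j then (j : ℂ) else 0) • f := by
  have h1 := (per_lab hP).card_filter_iterate (a := φ'.rep) (b := φ.rep) (n := φ'.deg * j')
    (φ'.mk_rep.symm ▸ dvd_mul_right _ _)
  simp only [frob_iterate, Orb.mk_rep, Nat.mul_div_cancel_left _ (deg_pos hP _)] at h1
  rw [pc, pc, adj_P_mul hP (mul_pos (deg_pos hP _) hj) h (mul_pos (deg_pos hP _) hj') h'
    (rep_pow hP _ _) (rep_pow hP _ _), h1]
  congr 2
  by_cases e : φ' = φ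
  · subst e
    by_cases e' : j = j' <;> simp [e', (deg_pos hP φ').ne', eq_comm (a := j')]
  · simp [e]

theorem adj_pc_chi {j : ℕ} (hj : 0 < j) (h : φ.deg * j ≤ N) (ha : Good a) (hN : size a ≤ N) :
    adj (φ.deg * j) (star (pc φ j)) (chi a) = ∑ i with j ≤ a φ i, chi (dnl a φ i j) := by
  exact (deriv_chi (RingHom.id _) _ hj 1 ha (adj_eq_zero _ one_mem_hom (mul_pos (deg_pos hP _) hj))
    fun φ' j' h0 h' f => by
      simpa [add_comm] using adj_pc_mul hP hj h0 h ((deg_mul_le_size h').trans hN) f).trans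
        (one_smul _ _)

theorem pc_mul_chi {j : ℕ} (hj : 0 < j) (ha : Good a) (hN : size a + φ.deg * j ≤ N) :
    pc φ j * chi a = ∑ i, chi (upl a φ i j) := by
  have h1 := deg_mul_le_size (le_refl (sz (a φ)))
  have h2 := Nat.le_mul_of_pos_left (sz (a φ)) (deg_pos hP φ)
  have h3 := Nat.le_mul_of_pos_left j (deg_pos hP φ)
  conv_lhs => rw [← update_eq_self φ a]
  simp only [upl, chi_eq_mul]
  rw [← mul_assoc, mul_Sch _ hj (by rw [sum_eq_tri_add_sz (ha φ)]; omega), sum_mul]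

theorem chi_mem_intg (hN : size a ≤ N) : chi a ∈ intg F := by
  exact prod_mem fun φ _ => Sch_mem_subring _ fun j h => nexp_P_mem_intg hP (deg_pos hP φ)
    ((deg_mul_le_size (Nat.le_sub_of_add_le h)).trans hN) (by simpa using rep_pow hP φ 1)

theorem bf_mon {μ ν : Multiset (Col F k R × ℕ)} (hμ : ∀ i ∈ μ, 0 < i.2) (hν : ∀ i ∈ ν, 0 < i.2)
    (h : mdeg μ ≤ N) (h' : mdeg ν ≤ N) : bf (mdeg ν) (mon μ) (star (mon ν)) =
      if μ = ν then (μ.map fun i => (i.2 : ℂ)).prod * ∏ i ∈ μ.toFinset, ((μ.count i).factorial : ℂ)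
      else 0 := by
  have e : ∀ {μ : Multiset (Col F k R × ℕ)}, ∀ i ∈ μ, i.1.deg * i.2 ≤ mdeg μ := fun i hi =>
    Multiset.le_sum_of_mem (Multiset.mem_map_of_mem (fun i : Col F k R × ℕ => i.1.deg * i.2) hi)
  have e' : star (mon ν) = (ν.map fun i => star (pc i.1 i.2)).prod :=
    (map_multiset_prod (starRingEnd (Hall F)) _).trans (by rw [Multiset.map_map]; rfl)
  rw [e', mdeg, mon]
  have := bf_monomial (s := {i : Col F k R × ℕ | 0 < i.2 ∧ i.1.deg * i.2 ≤ N})
    (γ := fun i => (i.2 : ℂ)) (fun i hi => mul_pos (deg_pos hP _) hi.1)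
    (fun i _ => pc_mem_hom i.1 i.2) (fun i _ => star_mem_hom (pc_mem_hom i.1 i.2))
    (fun i hi j hj f => by
      rw [adj_pc_mul hP hi.1 hj.1 hi.2 hj.2]
      by_cases e : i = j
      · simp [e]
      · rw [if_neg e, if_neg fun h => e (Prod.ext h.1.symm h.2.symm)])
    (fun i hi => ⟨hμ i hi, (e i hi).trans h⟩) fun i hi => ⟨hν i hi, (e i hi).trans h'⟩
  convert this

theorem bf_mon_chi {f : Col F k R → Multiset ℕ} (hf : ∀ φ, ∀ j ∈ f φ, 0 < j)
    (h : mdeg (cm f) ≤ N) (hb : size b ≤ N) :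
    bf (size b) (mon (cm f)) (star (chi b)) = ∏ φ, (X (f φ) (b φ) : ℂ) := by
  have h1 : ∀ g : ∀ φ, Nat.Partition (sz (b φ)), mdeg (cm fun φ => (g φ).parts) = size b :=
    fun g => by simp only [mdeg_cm, Nat.Partition.parts_sum, size]
  have h2 := fun g : ∀ φ, Nat.Partition (sz (b φ)) => bf_mon hP (μ := cm f)
    (ν := cm fun φ => (g φ).parts) (fun i hi => hf _ _ (mem_cm.1 hi))
    (fun i hi => (g _).parts_pos (mem_cm.1 hi)) h ((h1 g).trans_le hb)
  simp only [h1, cm_injective.eq_iff] at h2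
  simp only [chi_eq_sum b, star_sum, star_smul, map_sum, map_smul, h2, smul_eq_mul]
  by_cases e : ∀ φ, (f φ).sum = sz (b φ)
  · rw [sum_eq_single (fun φ => ⟨f φ, hf φ _, e φ⟩) (fun g _ hg => by
      rw [if_neg fun e' => hg (funext fun φ => Nat.Partition.ext (congrFun e' φ).symm), mul_zero])
      (by simp), if_pos rfl, prod_map_cm, prod_finset_product _ univ (fun φ => (f φ).toFinset)
        (by simp [mem_cm]), star_prod, ← prod_mul_distrib, ← prod_mul_distrib]
    refine prod_congr rfl fun φ _ => ?_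
    rw [star_div₀, star_intCast, star_natCast, div_mul_eq_mul_div, div_eq_iff
      (Nat.cast_ne_zero.2 (zc_ne_zero (hf φ)))]
    simp [zc, count_cm]
  · obtain ⟨φ, e⟩ := not_forall.1 e
    rw [sum_eq_zero fun g _ => by
      rw [if_neg fun e' => e ((congrArg _ (congrFun e' φ)).trans (g φ).parts_sum), mul_zero],
      prod_eq_zero (mem_univ φ) (Int.cast_eq_zero.2 (not_not.1 fun h => e (by
        rw [sz, sum_eq_of_X_ne_zero h, Nat.add_sub_cancel_left])))]

theorem bf_chi (ha : size a ≤ N) (hb : size b ≤ N) :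
    bf (size b) (chi a) (star (chi b)) = ∏ φ, rowSum (sz (a φ)) (a φ) (b φ) := by
  simp only [rowSum, Fintype.prod_sum, chi_eq_sum a, map_sum, map_smul, LinearMap.sum_apply,
    LinearMap.smul_apply, smul_eq_mul]
  refine sum_congr rfl fun f _ => ?_
  rw [bf_mon_chi hP (fun φ _ => (f φ).parts_pos)
    (by simpa only [mdeg_cm, Nat.Partition.parts_sum, size] using ha) hb, ← prod_mul_distrib]
  exact prod_congr rfl fun φ _ => by ring

theorem sz_le_size (φ : Col F k R) : sz (a φ) ≤ size a :=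
  (Nat.le_mul_of_pos_left _ (deg_pos hP φ)).trans (deg_mul_le_size le_rfl)

theorem bf_chi_self (ha : Good a) (hN : size a ≤ N) : bf (size a) (chi a) (star (chi a)) = 1 := by
  rw [bf_chi hP hN hN]
  exact prod_eq_one fun φ _ => rowSum_self ((sz_le_size hP φ).trans hN) (ha φ)
    (sum_eq_tri_add_sz (ha φ))

theorem bf_chi_eq_zero (hn : n ≤ N) (h : ∃ φ, ms (a φ) ≠ ms (b φ)) :
    bf n (chi a) (star (chi b)) = 0 := by
  by_cases h1 : size a = n
  · by_cases h2 : size b = n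
    · obtain ⟨φ, h⟩ := h
      rw [← h2, bf_chi hP (h1 ▸ hn) (h2 ▸ hn)]
      exact prod_eq_zero (mem_univ φ) (rowSum_eq_zero ((sz_le_size hP φ).trans (h1 ▸ hn)) h)
    · rw [bf_comm, bf_eq_zero (star_mem_hom (chi_mem_hom b)) h2]
  · exact bf_eq_zero (chi_mem_hom a) h1 _

omit hP in
theorem finite_adjoinRoot (x : k) (j : ℕ) : Finite (AdjoinRoot (minpoly F x ^ j)) :=
  haveI := ((minpoly.monic (Algebra.IsIntegral.isIntegral (R := F) x)).pow j).finite_adjoinRoot
  Module.finite_of_finite F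

theorem exists_sum_cyc {c : Iso F} (hc : c.dim ≤ N) (hu : IsUnit c.rep) :
    ∃ μ : Multiset (Orb (frob (Nat.card F) : Mu k R → Mu k R) × ℕ), (∀ i ∈ μ, 0 < i.2) ∧
      (μ.map fun i => haveI := finite_adjoinRoot (F := F) (mv i.1.rep) i.2
        cls (cyc (minpoly F (mv i.1.rep) ^ i.2))).sum = c := by
  obtain ⟨m, f, e, h, φ, hφ⟩ := exists_decomp c.rep
  haveI : ∀ i, Finite (AdjoinRoot (f i ^ e i)) := fun i =>
    haveI := ((h i).2.1.pow (e i)).finite_adjoinRoot
    Module.finite_of_finite F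
  have h1 := (cls_rep c).symm.trans (cls_pi _ φ hφ)
  have : ∀ i, ∃ o : Orb (frob (Nat.card F) : Mu k R → Mu k R), minpoly F (mv o.rep) = f i :=
    fun i => by
      obtain ⟨x, hx⟩ := IsAlgClosed.exists_aeval_eq_zero k _ (Polynomial.degree_pos_of_irreducible
        (h i).1).ne'
      have h2 : x ∈ ev k c := by
        rw [h1, ← add_sum_erase _ _ (mem_univ i), ev_add, Multiset.mem_add, ev,
          cp_cyc ((h i).2.1.pow _), Polynomial.mem_aroots]
        exact .inl ⟨((h i).2.1.pow _).ne_zero, by simp [hx, (h i).2.2.ne']⟩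
      obtain ⟨y, rfl⟩ := exists_mv_eq (pow_eq_one_of_mem_ev hP hc h2
        fun e => (isUnit_rep_iff k).1 hu (e ▸ h2))
      exact ⟨Orb.mk _ y, Eq.trans ((isConjRoot_mv hP).2 (Orb.mk_rep _))
        (minpoly.eq_of_irreducible_of_monic (h i).1 hx (h i).2.1).symm⟩
  choose o ho using this
  refine ⟨univ.val.map fun i => (o i, e i), by simpa using fun i => (h i).2.2, ?_⟩
  rw [Multiset.map_map, h1]
  refine sum_congr rfl fun i _ => ?_
  dsimp
  congr! 2 <;> rw [ho]

omit hP in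
theorem mem_span_of_card {J : Type*} {m : J → Hall F} (hm : ∀ μ, m μ ∈ hom F n ∧ IsInv (m μ))
    (hb : ∀ μ ν, bf n (m μ) (m ν) = 0 ↔ μ ≠ ν)
    {σ : {c : Iso F // c.dim = n ∧ IsUnit c.rep} → J} (hσ : Injective σ) {f : Hall F}
    (hf : f ∈ hom F n) (hf' : IsInv f) : f ∈ Submodule.span ℂ (Set.range m) := by
  let W : Submodule ℂ (Hall F) := hom F n ⊓ (supp F ({0}ᶜ : Set (AlgebraicClosure F))).toSubmodule
  have hi : LinearIndependent ℂ m := linearIndependent_iff'.2 fun s c h μ hμ => by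
    have := congrArg (bf n (m μ)) h
    rw [map_sum, map_zero, sum_eq_single μ (fun ν _ e => by
      rw [map_smul, (hb μ ν).2 e.symm, smul_zero]) (by simp [hμ]), map_smul, smul_eq_mul] at this
    exact (mul_eq_zero.1 this).resolve_right fun e => (hb μ μ).1 e rfl
  haveI : Finite {c : Iso F // c.dim = n ∧ IsUnit c.rep} :=
    ((finite_dim n).subset fun c hc => hc.1).to_subtype
  let r : W →ₗ[ℂ] {c : Iso F // c.dim = n ∧ IsUnit c.rep} → ℂ :=
    .pi fun c => (LinearMap.proj c.1 : (Iso F → ℂ) →ₗ[ℂ] ℂ) ∘ₗ W.subtype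
  have hr : Injective r := (injective_iff_map_eq_zero r).2 fun u hu => Subtype.ext <| Hall.ext
    fun c => not_not.1 fun h => h (congrFun hu ⟨c, not_not.1 fun e => h (u.2.1 c e),
      isInv_iff.2 u.2.2 c h⟩)
  haveI := Module.Finite.of_injective r hr
  have hW : ∀ μ, m μ ∈ W := fun μ => ⟨(hm μ).1, isInv_iff.1 (hm μ).2⟩
  haveI : Finite J := LinearIndependent.finite_of_isNoetherian (M := W)
    (v := fun μ => ⟨m μ, hW μ⟩) (.of_comp W.subtype hi)
  haveI := Fintype.ofFinite J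
  haveI := Fintype.ofFinite {c : Iso F // c.dim = n ∧ IsUnit c.rep}
  rw [Submodule.eq_of_le_of_finrank_le (Submodule.span_le.2 (Set.range_subset_iff.2 hW))
    ((LinearMap.finrank_le_finrank_of_injective hr).trans (by
      rw [finrank_span_eq_card hi, finrank_fintype_fun_eq_card]
      exact Fintype.card_le_of_injective σ hσ))]
  exact ⟨hf, isInv_iff.1 hf'⟩

theorem fdeg_rep (o : Orb (frob (Nat.card F) : Mu k R → Mu k R)) : fdeg F (mv o.rep) = o.deg := by
  rw [fdeg_mv hP, Orb.mk_rep]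

theorem prod_pI_mem_span (μ : Multiset (Orb (frob (Nat.card F) : Mu k R → Mu k R) × ℕ))
    (h : ∀ i ∈ μ, 0 < i.2) (h' : (μ.map fun i => i.1.deg * i.2).sum ≤ N) :
    (μ.map fun i => pI F (i.1.deg * i.2) (mv i.1.rep)).prod ∈ Submodule.span ℂ
      (mon '' {ν : Multiset (Col F k R × ℕ) | (∀ i ∈ ν, 0 < i.2) ∧
        mdeg ν = (μ.map fun i => i.1.deg * i.2).sum}) := by
  induction μ using Multiset.induction_on with
  | empty => exact Submodule.subset_span ⟨0, by simp [mdeg], rfl⟩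
  | cons i μ ih =>
    simp only [Multiset.map_cons, Multiset.prod_cons, Multiset.sum_cons,
      Multiset.forall_mem_cons] at h h' ⊢
    have h0 := mul_pos ((hP.per Mu.pow_eq_one).deg_pos i.1) h.1
    have h1 := le_of_add_le_left h'
    rw [pI_eq_sum_P hP h0 h1 (pow_eq_one_iff_fdeg_dvd.2 ((fdeg_rep hP i.1).dvd.mul_right _)),
      smul_mul_assoc, sum_mul]
    refine Submodule.smul_mem _ _ (sum_mem fun a ha => ?_)
    have h2 := (deg_dvd_iff hP).2 (mem_filter.1 ha).2
    rw [smul_mul_assoc, P_eq_pc hP h0 h1 (mem_filter.1 ha).2]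
    refine Submodule.smul_mem _ _ (Submodule.mem_comap (f := LinearMap.mulLeft ℂ _).1
      (Submodule.span_le.2 ?_ (ih h.2 (le_of_add_le_right h'))))
    rintro _ ⟨ν, ⟨h3, h4⟩, rfl⟩
    refine Submodule.subset_span ⟨(_, _) ::ₘ ν, ⟨Multiset.forall_mem_cons.2
      ⟨Nat.div_pos (Nat.le_of_dvd h0 h2) (deg_pos hP _), h3⟩, ?_⟩, mon_cons _ _⟩
    rw [mdeg_cons, h4]
    exact congrArg (· + _) (Nat.mul_div_cancel' h2)

theorem bf_prod_pI {μ ν : Multiset (Orb (frob (Nat.card F) : Mu k R → Mu k R) × ℕ)}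
    (hμ : ∀ i ∈ μ, 0 < i.2) (hν : ∀ i ∈ ν, 0 < i.2) : bf (ν.map fun i => i.1.deg * i.2).sum
      (μ.map fun i => pI F (i.1.deg * i.2) (mv i.1.rep)).prod
      (ν.map fun i => pI F (i.1.deg * i.2) (mv i.1.rep)).prod = 0 ↔ μ ≠ ν := by
  have hp := (hP.per (Mu.pow_eq_one (k := k) (R := R))).deg_pos
  rw [bf_monomial (s := {i | 0 < i.2})
    (γ := fun i => (i.2 : ℂ) / ((Nat.card F : ℂ) ^ (i.1.deg * i.2) - 1))
    (fun i hi => mul_pos (hp _) hi) (fun i _ => pI_mem_hom _ _)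
    (fun i _ => pI_mem_hom _ _) (fun i hi j hj f => ?_) hμ hν, ite_eq_right_iff]
  · refine imp_iff_not (mul_ne_zero (Multiset.prod_ne_zero fun h => ?_)
      (prod_ne_zero_iff.2 fun i _ => Nat.cast_ne_zero.2 (Nat.factorial_ne_zero _)))
    obtain ⟨i, hi, e⟩ := Multiset.mem_map.1 h
    exact div_ne_zero (Nat.cast_ne_zero.2 (hμ i hi).ne')
      (card_pow_sub_one_ne (mul_pos (hp _) (hμ i hi))) e
  · rw [adj_pI_mul (mul_pos (hp _) hi) (mul_pos (hp _) hj)]
    simp only [isConjRoot_mv hP, Orb.mk_rep, fdeg_rep hP]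
    congr 2
    by_cases e : i = j
    · simp [e, (hp j.1).ne']
    · rw [if_neg e, if_neg]
      exact fun h => e (Prod.ext h.2.1.symm (Nat.eq_of_mul_eq_mul_left (hp j.1) (h.2.1 ▸ h.1)))

theorem span_mon (hn : n ≤ N) {f : Hall F} (hf : f ∈ hom F n) (hf' : IsInv f) :
    f ∈ Submodule.span ℂ (mon '' {μ : Multiset (Col F k R × ℕ) | (∀ i ∈ μ, 0 < i.2) ∧ mdeg μ = n}) := by
  choose σ h1 h2 using fun c : {c : Iso F // c.dim = n ∧ IsUnit c.rep} =>
    exists_sum_cyc (k := k) hP (c.2.1.trans_le hn) c.2.2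
  refine Submodule.span_le.2 ?_ (mem_span_of_card (J := {μ // (∀ i ∈ μ, 0 < i.2) ∧
    (Multiset.map (fun i : Orb (frob (Nat.card F) : Mu k R → Mu k R) × ℕ => i.1.deg * i.2) μ).sum = n})
    (m := fun μ => (μ.1.map fun i => pI F (i.1.deg * i.2) (mv i.1.rep)).prod)
    (fun μ => ⟨?_, (isInv_iff (k := k)).2
      (multiset_prod_mem _ fun _ h => ?_)⟩) (fun μ ν => ?_) (σ := fun c => ⟨σ c, h1 c, ?_⟩)
    (fun c c' e => Subtype.ext (by rw [← h2 c, ← h2 c', Subtype.mk.inj e])) hf hf')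
  · rintro _ ⟨μ, rfl⟩
    simpa only [μ.2.2, SetLike.mem_coe] using prod_pI_mem_span hP μ.1 μ.2.1 (μ.2.2.trans_le hn)
  · obtain ⟨μ, -, rfl⟩ := μ
    exact prod_map_mem_hom (fun i => pI_mem_hom _ _) μ
  · obtain ⟨i, -, rfl⟩ := Multiset.mem_map.1 h
    refine supp_mono (fun t ht => ?_) (pI_mem_supp _ _)
    obtain ⟨i, rfl⟩ := isConjRoot_iff.1 ht
    exact pow_ne_zero _ (mv_ne_zero _)
  · rw [← Subtype.coe_ne_coe, ← bf_prod_pI hP μ.2.1 ν.2.1, ν.2.2]
  · rw [← c.2.1, ← h2 c]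
    refine Eq.trans ?_ (map_multiset_sum (⟨⟨Iso.dim, dim_zero⟩, dim_add⟩ : Iso F →+ ℕ) _).symm
    rw [Multiset.map_map]
    refine congrArg _ (Multiset.map_congr rfl fun i _ => ?_)
    haveI := finite_adjoinRoot (F := F) (mv i.1.rep) i.2
    exact (fdeg_rep hP i.1 ▸ (cp_eq_iff.1 (cp_cyc
      ((minpoly.monic (Algebra.IsIntegral.isIntegral _)).pow _))).1).symm

theorem mon_mem_span {μ : Multiset (Col F k R × ℕ)} (hμ : ∀ i ∈ μ, 0 < i.2) (hN : mdeg μ ≤ N) :
    mon μ ∈ Submodule.span ℂ (chi '' {a : Col F k R → Fin N → ℕ | Good a ∧ size a = mdeg μ ∧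
      ∀ φ, (∀ i ∈ μ, i.1 ≠ φ) → sz (a φ) = 0}) := by
  obtain ⟨f, rfl⟩ := exists_cm μ
  have hf : ∀ φ, ∀ j ∈ f φ, 0 < j := fun φ j h => hμ (φ, j) (mem_cm.2 h)
  rw [mdeg_cm] at hN ⊢
  rw [mon_cm, prod_congr rfl fun φ _ => pm_eq_sum (N := N) (pc φ) (hf φ)
    (((Nat.le_mul_of_pos_left _ (deg_pos hP φ)).trans (single_le_sum
      (f := fun φ : Col F k R => φ.deg * (f φ).sum) (fun _ _ => Nat.zero_le _) (mem_univ φ))).trans
        hN), prod_smul, prod_univ_sum]
  refine Submodule.smul_mem _ _ (sum_mem fun a _ => ?_)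
  rw [prod_smul]
  by_cases h : ∀ φ, X (f φ) (a φ) ≠ 0
  · have h1 : ∀ φ, sz (a φ) = (f φ).sum := fun φ => by
      rw [sz, sum_eq_of_X_ne_zero (h φ), Nat.add_sub_cancel_left]
    refine Submodule.smul_mem _ _ (Submodule.subset_span ⟨a, ⟨fun φ => injective_of_X_ne_zero (h φ),
      by simp only [size, h1], fun φ hφ => ?_⟩, rfl⟩)
    rw [h1, Multiset.eq_zero_of_forall_notMem (s := f φ) fun j hj => hφ (φ, j) (mem_cm.2 hj) rfl,
      Multiset.sum_zero]
  · obtain ⟨φ, h⟩ := not_forall.1 h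
    rw [prod_eq_zero (mem_univ φ) (Int.cast_eq_zero.2 (not_not.1 h)), zero_smul]
    exact zero_mem _

theorem exists_irr (hV : finrank F V ≤ N) (ha : Good a) (h : size a = finrank F V) :
    ∃ χ : IrrCharacter (GLV F V), IsLab χ a := by
  obtain ⟨χ, hχ⟩ := (isGen_res (V := V) (chi_mem_intg hP (h ▸ hV))).exists_eq_of_ip_self_eq_one
    (by rw [ip_res (isInv_chi a), ← h, bf_chi_self hP ha (h ▸ hV)])
  exact ⟨χ, ha, h, hχ⟩

theorem span_chi (hn : n ≤ N) {f : Hall F} (hf : f ∈ hom F n) (hf' : IsInv f) :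
    f ∈ Submodule.span ℂ (chi '' {a : Col F k R → Fin N → ℕ | Good a ∧ size a = n}) := by
  refine Submodule.span_le.2 ?_ (span_mon (k := k) hP hn hf hf')
  rintro _ ⟨μ, ⟨h, rfl⟩, rfl⟩
  exact Submodule.span_mono (Set.image_mono fun a ha => And.intro ha.1 ha.2.1) (mon_mem_span hP h hn)

theorem exists_isLab (hV : finrank F V ≤ N) (χ : IrrCharacter (GLV F V)) :
    ∃ a : Col F k R → Fin N → ℕ, IsLab χ a := by
  obtain ⟨f, h1, h2, h3⟩ := exists_res_eq χ.isClassFunction
  by_contra h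
  have : ∀ g ∈ Submodule.span ℂ (chi '' {a : Col F k R → Fin N → ℕ | Good a ∧
      size a = finrank F V}), ip (res V g) χ.1 = 0 := fun g hg => by
    induction hg using Submodule.span_induction with
    | mem _ e =>
      obtain ⟨a, ha, rfl⟩ := e
      obtain ⟨ψ, hψ⟩ := exists_irr hP hV ha.1 ha.2
      have := IrrCharacter.ip_of_ne (χ := ψ) (ψ := χ) fun e => h ⟨a, e ▸ hψ⟩
      rcases hψ.2.2 with e | e <;> simp [e, this, ip_neg_left]
    | zero => simp
    | add _ _ _ _ e e' => rw [map_add, ip_add_left, e, e', add_zero]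
    | smul _ _ _ e => rw [map_smul, ip_smul_left, e, mul_zero]
  exact one_ne_zero (χ.ip_self.symm.trans (h3 ▸ this f (span_chi hP hV h1 h2)))

theorem IsLab.eq_iff (hV : finrank F V ≤ N) (h : IsLab χ a) (h' : IsLab ψ b) :
    χ = ψ ↔ ∀ φ, ms (a φ) = ms (b φ) := by
  constructor
  · rintro rfl
    by_contra e
    have := bf_chi_eq_zero hP hV (not_forall.1 e)
    rw [← ip_res (isInv_chi a)] at this
    rcases h.2.2 with e | e <;> rcases h'.2.2 with e' | e' <;>
      simp [e, e', ip_neg_left, ip_neg_right, χ.ip_self] at this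
  · intro e
    by_contra e'
    have h1 := IrrCharacter.ip_of_ne e'
    have h2 := bf_chi_self hP h.1 (h.2.1 ▸ hV)
    rw [h.2.1, ← ip_res (isInv_chi a)] at h2
    have h3 : ip (res V (chi a)) (res V (chi b)) = 0 := by
      rcases h.2.2 with e | e <;> rcases h'.2.2 with e' | e' <;>
        simp [e, e', ip_neg_left, ip_neg_right, h1]
    rcases chi_congr e with e | e
    · exact one_ne_zero (h2.symm.trans (e ▸ h3))
    · rw [← neg_eq_iff_eq_neg.2 e, map_neg, ip_neg_right, h2] at h3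
      simp at h3

theorem exists_irr_P (h0 : 0 < n) (hn : n ≤ N) (hV : finrank F V = n) {c : Lab k R}
    (hc : (Orb.mk _ c : Col F k R).deg = n) :
    ∃ θ : IrrCharacter (GLV F V), res V (P F n c) = (-1 : ℂ) ^ (n - 1) • θ.1 := by
  have hc' := (deg_dvd_iff hP).1 hc.dvd
  have h1 : P F n c ∈ intg F := by
    simpa [nexp_one] using nexp_P_mem_intg hP (l := 1) h0 (by simpa) hc'
  have h2 := (per_lab hP).card_filter_iterate (a := c) (b := c) hc.dvd
  simp only [frob_iterate, hc, Nat.div_self h0, if_true] at h2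
  have h3 := congrFun (adj_P_mul hP h0 hn h0 hn hc' hc' 1) 0
  rw [mul_one, adj_eq_zero _ one_mem_hom h0, mul_zero, zero_add, if_pos rfl, h2, Nat.cast_one,
    one_smul] at h3
  obtain ⟨θ, h⟩ := (isGen_res (V := V) h1).exists_eq_of_ip_self_eq_one (by
    rw [ip_res ((isInv_iff (k := k)).2 (P_mem_supp _ _)), hV, bf_comm, ← adj_apply_zero]
    exact h3.trans (if_pos dim_zero))
  have h4 := res_P_one hP h0 hn hV hc'
  obtain ⟨m, hm⟩ : ∃ m : ℕ, (m : ℂ) = ∏ i ∈ Ico 1 n, ((Nat.card F : ℂ) ^ i - 1) :=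
    ⟨∏ i ∈ Ico 1 n, (Nat.card F ^ i - 1), by
      simp [Nat.cast_sub (Nat.one_le_pow _ _ (Nat.card_pos (α := F)))]⟩
  have h5 : θ.1 1 ≠ -m := fun e => by
    rw [θ.apply_one, eq_neg_iff_add_eq_zero] at e
    have := θ.charDegree_pos
    norm_cast at e
    omega
  refine ⟨θ, ?_⟩
  rw [← hm] at h4
  have h6 : θ.1 1 ≠ 0 := θ.apply_one_ne_zero
  rcases neg_one_pow_eq_or ℂ (n - 1) with e | e <;> rcases h with h | h <;> rw [h, e] at h4 ⊢
  · rw [one_smul]
  · exact absurd (by simpa [neg_eq_iff_eq_neg] using h4) h5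
  · exact absurd (by simpa using h4) h5
  · rw [neg_smul, one_smul]

theorem adj_P_eq_zero (hn : n ≤ N) {c : Lab k R} (hc : c ^ (Nat.card F ^ n - 1) = 1) {i : ℕ}
    (h0 : 0 < i) (hi : i < n) {u : Hall F} (hu : IsInv u) : adj i u (P F n c) = 0 := by
  have h1 := span_mon (k := k) hP (hi.le.trans hn) (star_mem_hom (comp_mem i u)) fun c h =>
    hu c fun e => h (by simp [comp_apply, e])
  rw [← adj_comp, ← star_star (comp i u)]
  generalize star (comp i u) = v at h1
  induction h1 using Submodule.span_induction with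
  | mem _ e =>
    obtain ⟨μ, ⟨hμ, rfl⟩, rfl⟩ := e
    obtain ⟨j, hj⟩ := Multiset.exists_mem_of_ne_zero (s := μ) (by rintro rfl; exact h0.ne rfl)
    obtain ⟨μ, rfl⟩ := Multiset.exists_cons_of_mem hj
    rw [mdeg_cons] at hi
    have h1 := mul_pos (deg_pos hP j.1) (hμ j hj)
    rw [mon_cons, mdeg_cons, star_mul', adj_mul (star_mem_hom (pc_mem_hom _ _))
      (star_mem_hom (mon_mem_hom _)), ← mul_one (P F n c), pc, adj_P_mul hP h1 (by omega)
        (by omega) hn hc (rep_pow hP _ _), adj_eq_zero _ one_mem_hom h1, if_neg (by omega)]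
    simp
  | zero => simp
  | add _ _ _ _ e e' => simp [e, e']
  | smul _ _ _ e => simp [e]

theorem exists_dch : ∃ e : fixq F k R ≃* (Fˣ →* ℂˣ), ∀ (ω : Lab k R) (y : fixq F k R),
    y.1 = ω ^ (R / (Nat.card F - 1)) → ∀ c : Fˣ, (e y c : ℂ) = lfn ω (algebraMap F k c) := by
  have hR := cast_ne_zero_of_par k hP
  have hq : ∀ c : Fˣ, algebraMap F k c ^ R = 1 := fun c => by
    obtain ⟨l, hl⟩ := hP.dvd_one
    rw [← map_pow, ← Units.val_pow_eq_pow_val, hl, pow_mul, ← Nat.card_units, pow_card_eq_one',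
      one_pow, Units.val_one, map_one]
  choose ι hι using fun c => exists_mv_eq (hq c)
  let ι' : Fˣ →* Mu k R := .mk' ι fun c d => mv_injective (by simp [hι])
  let ρ : Lab k R →* Fˣ →* ℂˣ := MonoidHom.compHom' ι'
  have e : ∀ y : Lab k R, y ∈ fixq F k R ↔ y ^ (Nat.card F - 1) = 1 := fun y => by
    simpa [fixq] using pow_pow_eq_iff (n := 1) (Nat.card_pos (α := F)) y
  let π : Lab k R →* fixq F k R := (powMonoidHom (R / (Nat.card F - 1))).codRestrict _ fun ω => by
    rw [e, powMonoidHom_apply, ← pow_mul ω, Nat.div_mul_cancel hP.dvd_one, Lab.pow_eq_one]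
  have hπ : Surjective π := fun y => by
    obtain ⟨b, hb⟩ := Lab.exists_pow_eq hR hP.dvd_one ((e _).1 y.2)
    exact ⟨b, Subtype.ext hb⟩
  have hk : π.ker = ρ.ker := by
    ext ω
    simp only [MonoidHom.mem_ker, Subtype.ext_iff, MonoidHom.ext_iff]
    refine ⟨fun h c => ?_, fun h x => ?_⟩
    · obtain ⟨x, hx⟩ := Mu.exists_pow_eq hR hP.dvd_one (x := ι' c) (by
        rw [← map_pow, ← Nat.card_units, pow_card_eq_one', map_one])
      exact (congrArg ω hx).symm.trans ((map_pow ω x _).trans (h x))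
    · obtain ⟨c, hc⟩ := minpoly.natDegree_eq_one_iff.1 (Nat.dvd_one.1
        ((pow_eq_one_iff_fdeg_dvd (F := F) (x := x ^ (R / (Nat.card F - 1)))).1 (by
          rw [pow_one, ← pow_mul, Nat.div_mul_cancel hP.dvd_one, Mu.pow_eq_one])))
      have h0 : c ≠ 0 := fun e => mv_ne_zero _ (hc.symm.trans (by simp [e]))
      exact (map_pow ω x _).symm.trans ((congrArg ω (mv_injective ((hι _).trans hc))).symm.trans
        (h (Units.mk0 c h0)))
  have hρ : Surjective ρ := fun η => by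
    have hi : Injective ι' := fun c d h => Units.ext ((algebraMap F k).injective
      ((hι c).symm.trans ((congrArg mv h).trans (hι d))))
    obtain ⟨ω, h⟩ := MonoidHom.domRestrict_surjective (M := ℂ) ι'.range
      (η.comp (MonoidHom.ofInjective hi).symm.toMonoidHom)
    refine ⟨ω, MonoidHom.ext fun c => ?_⟩
    exact (DFunLike.congr_fun h (MonoidHom.ofInjective hi c)).trans (by simp)
  refine ⟨((QuotientGroup.quotientKerEquivOfSurjective π hπ).symm.trans
    (QuotientGroup.quotientMulEquivOfEq hk)).trans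
      (QuotientGroup.quotientKerEquivOfSurjective ρ hρ), fun ω y h c => ?_⟩
  obtain rfl : y = π ω := Subtype.ext h
  rw [← hι, lfn_mv, MulEquiv.trans_apply, MulEquiv.trans_apply, (MulEquiv.symm_apply_eq _).2
    (show π ω = QuotientGroup.quotientKerEquivOfSurjective π hπ ω from rfl)]
  rfl

/-- The character of `Fˣ` attached to a Frobenius-fixed label. -/
noncomputable def dch : fixq F k R ≃* (Fˣ →* ℂˣ) := (exists_dch hP).choose

theorem dch_spec (ω : Lab k R) (y : fixq F k R) (h : y.1 = ω ^ (R / (Nat.card F - 1))) (c : Fˣ) :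
    (dch hP y c : ℂ) = lfn ω (algebraMap F k c) := (exists_dch hP).choose_spec ω y h c

theorem res_hom_lfn (hV : finrank F V ≤ N) (ω : Lab k R) (y : fixq F k R)
    (h : y.1 = ω ^ (R / (Nat.card F - 1))) (f : Hall F) :
    IsTw ((dch hP y).comp dt) (res V f) (res V ((mult_mf (lfn ω)).hom f)) := by
  intro g
  have h1 : ∀ s : Multiset k, (∀ t ∈ s, t ^ R = 1) → ∃ x : Mu k R, mv x = s.prod ∧
      (s.map (lfn ω)).prod = ω x := fun s => by
    induction s using Multiset.induction_on with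
    | empty => exact fun _ => ⟨1, by simp⟩
    | cons t s ih =>
      intro h
      obtain ⟨x, h1, h2⟩ := ih fun t ht => h t (Multiset.mem_cons_of_mem ht)
      obtain ⟨z, rfl⟩ := exists_mv_eq (h t (Multiset.mem_cons_self _ _))
      exact ⟨z * x, by simp [h1, h2]⟩
  obtain ⟨x, h1, h2⟩ := h1 (ev k (cls (g : End F V))) fun t ht => pow_eq_one_of_mem_ev hP (c := cls _) hV ht
    fun e => (isUnit_rep_iff k).1 (isUnit_rep_cls.2 g.isUnit) (e ▸ ht)
  rw [res_apply, res_apply, Mult.hom_apply, mul_comm, MonoidHom.comp_apply, dch_spec hP ω y h, mf,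
    h2, ← lfn_mv, h1, prod_ev]
  rfl

theorem IsLab.tw (hV : finrank F V ≤ N) (h : IsLab χ a) (y : fixq F k R)
    (h' : IsTw ((dch hP y).comp dt) χ.1 ψ.1) : IsLab ψ fun φ => a (y⁻¹ • φ) := by
  obtain ⟨ω, hω⟩ := Lab.exists_pow_eq (cast_ne_zero_of_par k hP) hP.dvd_one (a := y.1)
    (by simpa using (pow_pow_eq_iff (n := 1) (Nat.card_pos (α := F)) y.1).1 (fixq_pow y 1))
  have h1 : (mult_mf (lfn ω)).hom (chi a) = chi fun φ => a (y⁻¹ • φ) := by
    rw [chi, chi, map_prod]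
    refine Fintype.prod_equiv (MulAction.toPerm y) _ _ fun φ => ?_
    rw [MulAction.toPerm_apply, inv_smul_smul]
    refine (map_Sch (mult_mf (lfn ω)).hom.toRingHom _ _).trans (Sch_congr fun j h0 hj => ?_)
    have h1 := mul_pos (deg_pos hP φ) h0
    have h2 := (deg_mul_le_size (Nat.le_sub_of_add_le hj)).trans (h.2.1.trans_le hV)
    have h3 : (Orb.mk _ (φ.rep * y.1) : Col F k R) = y • φ := rfl
    refine (hom_lfn_P hP h1 h2 (rep_pow hP φ j) ω).trans ?_
    rw [hω, P_eq_pc hP h1 h2 ((deg_dvd_iff hP).1 (by rw [h3, deg_smul hP]; exact dvd_mul_right _ _)),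
      h3, deg_smul hP, Nat.mul_div_cancel_left _ (deg_pos hP φ)]
  have h2 := res_hom_lfn hP hV ω y hω.symm (chi a)
  refine ⟨fun φ => h.1 _, Eq.trans ?_ h.2.1, h.2.2.imp (fun e => funext fun g => ?_)
    fun e => funext fun g => ?_⟩
  · exact (Fintype.sum_equiv (MulAction.toPerm y) _ _ fun φ => by
      simp only [MulAction.toPerm_apply, inv_smul_smul, deg_smul hP]).symm
  · rw [← h1, h2, e, h']
  · rw [← h1, h2, e, Pi.neg_apply, Pi.neg_apply, h', neg_mul]

end Cfsg.Gln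

set_option linter.all false in
theorem Cfsg.Rz.Gln_Irr_0 : True := by
  have := @_root_.Cfsg.Gln.sz.eq_def
  have := @_root_.Cfsg.Gln.sz.eq_1
  have := @_root_.Cfsg.Gln.sz.fun_cases
  have := @_root_.Cfsg.Gln.size.eq_def.{0, 0}
  have := @_root_.Cfsg.Gln.size.eq_1.{0, 0}
  have := @_root_.Cfsg.Gln.size.fun_cases
  have := @_root_.Cfsg.Gln.pc.congr_simp.{0, 0}
  have := @_root_.Cfsg.Gln.pc.eq_def.{0, 0}
  have := @_root_.Cfsg.Gln.pc.eq_1.{0, 0}
  have := @_root_.Cfsg.Gln.pc.fun_cases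
  have := @_root_.Cfsg.Gln.dch.congr_simp.{0, 0}
  have := @_root_.Cfsg.Gln.dch.eq_def.{0, 0}
  have := @_root_.Cfsg.Gln.dch.eq_1.{0, 0}
  have := @_root_.Cfsg.Gln.dch.fun_cases
  have := @_root_.Cfsg.Gln.Good.eq_def.{0, 0}
  have := @_root_.Cfsg.Gln.Good.eq_1.{0, 0}
  have := @_root_.Cfsg.Gln.Good.fun_cases
  have := @_root_.Cfsg.Gln.dnl.eq_def.{0, 0}
  have := @_root_.Cfsg.Gln.dnl.eq_1.{0, 0}
  have := @_root_.Cfsg.Gln.dnl.fun_cases
  have := @_root_.Cfsg.Gln.Col.eq_def.{0, 0}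
  have := @_root_.Cfsg.Gln.Col.eq_1.{0, 0}
  have := @_root_.Cfsg.Gln.Col.fun_cases
  have := @_root_.Cfsg.Gln.mon.congr_simp.{0, 0}
  have := @_root_.Cfsg.Gln.mon.eq_def.{0, 0}
  have := @_root_.Cfsg.Gln.mon.eq_1.{0, 0}
  have := @_root_.Cfsg.Gln.mon.fun_cases
  have := @_root_.Cfsg.Gln.instMulActionSubtypeLabMemSubgroupFixqCol.eq_def.{0, 0}
  have := @_root_.Cfsg.Gln.instMulActionSubtypeLabMemSubgroupFixqCol.eq_1.{0, 0}
  have := @_root_.Cfsg.Gln.instMulActionSubtypeLabMemSubgroupFixqCol.fun_cases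
  trivial

set_option linter.all false in
theorem Cfsg.Rz.Gln_Irr_1 : True := by
  have := @_root_.Cfsg.Gln.mdeg.eq_def.{0, 0}
  have := @_root_.Cfsg.Gln.mdeg.eq_1.{0, 0}
  have := @_root_.Cfsg.Gln.mdeg.fun_cases
  have := @_root_.Cfsg.Gln.chi.congr_simp.{0, 0}
  have := @_root_.Cfsg.Gln.chi.eq_def.{0, 0}
  have := @_root_.Cfsg.Gln.chi.eq_1.{0, 0}
  have := @_root_.Cfsg.Gln.chi.fun_cases
  have := @_root_.Cfsg.Gln.fixq.eq_def.{0, 0}
  have := @_root_.Cfsg.Gln.fixq.eq_1.{0, 0}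
  have := @_root_.Cfsg.Gln.fixq.fun_cases
  have := @_root_.Cfsg.Gln.upl.eq_def.{0, 0}
  have := @_root_.Cfsg.Gln.upl.eq_1.{0, 0}
  have := @_root_.Cfsg.Gln.upl.fun_cases
  have := @_root_.Cfsg.Gln.IsLab.congr_simp.{0, 0, 0}
  have := @_root_.Cfsg.Gln.IsLab.eq_def.{0, 0, 0}
  have := @_root_.Cfsg.Gln.IsLab.eq_1.{0, 0, 0}
  have := @_root_.Cfsg.Gln.IsLab.fun_cases
  trivial

set_option linter.all false in
theorem Cfsg.Rz.Gln_Irr_2 : True := by
  have := @_root_.Cfsg.Gln.instMulActionSubtypeLabMemSubgroupFixqCol.congr_simp.{0, 0}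
  have := @_root_.Cfsg.Gln.cm.eq_def.{0, 0}
  have := @_root_.Cfsg.Gln.cm.fun_cases
  trivial
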