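import Cfsg.Agent.Gln.TwA

/-!
# Twisted central elements (S4536 project)

`Tw M z` = elements `a` of `k[G]` with `a(g x g⁻¹) = z(g) a(x)`.  For `z ^ r = 1` they are supported on
`ker z` (as `x` centralises `x`; `red` is injective on `p'`-roots of unity), commute with `ker z`, hence with
each other, and `a ^ r`, `a₀ ^ (r-1) * a` are central.  If `lam χ (a₀ ^ r) ≠ 0` then for `a ∈ Tw`:
`lam χ (a ^ r) ≠ 0 ↔ lam χ (a₀ ^ (r-1) * a) ≠ 0` (take `r`-th powers), a *linear* condition on `a`.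
Every `a ∈ Tw` is the sum of its truncations `trunc (class) a ∈ Tw`; those supported on one class form a
space of dimension `≤ 1`, `= 1` iff `C(x) ≤ ker z`.

`step`: `resTo f` is multiplicative on `u`-fixed elements (`resTo_mul_of_range_eq`; `z u = 1`), and
`lam χ (a ^ r) = lam ξ ((resTo f a) ^ r)` (`Induces.lam_eq`).  `resTo f a` splits along the classes
`(y₁, y₂)` of `H₁ × H₂`; a nonzero piece is `c • tens a₁ a₂` with `aᵢ` twisted on the class of `yᵢ`, and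
`lam (tens ..)^r = lam a₁^r * lam a₂^r`.  Maximality + `hu` leave one nonnilpotent piece.

`base`, `cusp`: take an irreducible matrix representation `ρ` affording `χ` (Char/MatRep) and `T` with
`T ρ(g) = μ(g) ρ(g) T`, `T ^ r = 1` (Schur, rescale).  `τ(g) = tr (T⁻¹ ρ g)` is a sum of roots of unity
(`T⁻¹ ρ g` has finite order).  A twisted `â ∈ ℂ[G]` acts as `ω T^{±1}`, `ω = ∑ â(g) τ(g) / χ(1)`, and
`omega χ (â ^ r) = ω ^ r`.  `base`: `â(g) = χ(1)/|G| * conj`-type coefficients give `ρ â = T^{±j}`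
(`z = μ ^ j`), coefficients in `locO` since defect zero; lift a twisted class sum of `k[G]` to `ℂ[G]`
with coefficients `z(h)`; `τ(x) ≠ 0 ⇒ μ(x) = 1` by conjugating with `T`.  `cusp`: `e_ψ` is a rank one
projection commuting with `T`, so `|∑_{u ∈ U} conj ψ(u) τ(u)| = |U|`, some `τ(u)` is a unit; then
`C(u) ≤ ker z`, `ω = |u^G| τ(u)/θ(1)` has `ω ^ r ∈ locO` and valuation `≤ 0` as `Z ≤ C(u)`.

`blockStab_le`: `X` = `p`-regular linear characters trivial on `f.range` (a `p'`-group), `K = ⋂ ker`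
(`K/G` a `p`-group), `e = blockIdem Bt`.  `μ • a := ` coefficientwise product with `red μ` is an algebra
automorphism with `μ • blockIdem B' = blockIdem (B' μ^{±1})`.  `a' = |X| trunc K (a e) = ∑_μ μ • (a e)` has
`a' e = |Y| a e` (`Y` = stabiliser of `Bt`, `μ • a = μ(x) a = a`), is twisted and supported on `K`.  Let `B_K` be
the block of `K` over `B` (unique: `irrOver`, Blk/PExt, Blk/FongReynolds) — it is covered by `Bt` (take
`ψ ∈ B`, `χ ∈ Bt` over it and a constituent in between).  `g ∈ blockStab f B` fixes `B_K`, so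
`lam ξ a' = lam ξ (cj g a') = red (z g)^{±1} lam ξ a'` with `(lam ξ a') ^ r = lam χ (a' ^ r) ≠ 0`.
-/

set_option autoImplicit false
set_option linter.unusedSectionVars false
set_option linter.unusedVariables false
set_option linter.style.haveILetI false

namespace Cfsg.Gln

open MonoidAlgebra GA Subgroup
open scoped commutatorElement

variable {G : Type*} [Group G] [Finite G] {p r : ℕ} {M : Ideal AlgInt}

theorem lin_mem_locO (z : G →* ℂˣ) (g : G) : (z g : ℂ) ∈ locO M :=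
  mem_locO_of_pow_eq_one (Nat.card_pos (α := G)).ne' (by
    rw [← Units.val_pow_eq_pow_val, ← map_pow, pow_card_eq_one', map_one, Units.val_one])

variable (M) in
/-- the reduction of a linear character -/
noncomputable def rz (z : G →* ℂˣ) : G →* ResK M where
  toFun g := red M (z g)
  map_one' := by simp
  map_mul' g h := by rw [map_mul, Units.val_mul, red_mul (lin_mem_locO z g) (lin_mem_locO z h)]

theorem rz_mul (y z : G →* ℂˣ) (g : G) : rz M (y * z) g = rz M y g * rz M z g :=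
  red_mul (lin_mem_locO y g) (lin_mem_locO z g)

theorem rz_of_eq_one {z : G →* ℂˣ} {g : G} (h : z g = 1) : rz M z g = 1 := by
  simp [rz, h]

theorem eq_one_of_rz (hM : IsPModular p M) {z : G →* ℂˣ} (hz : z ^ r = 1) (hr : ¬ p ∣ r) {g : G}
    (h : rz M z g = 1) : z g = 1 :=
  Units.ext (hM.eq_of_red_eq_of_pow hr (by
    rw [← Units.val_pow_eq_pow_val, ← MonoidHom.pow_apply, hz]; rfl) (one_pow r)
    (h.trans red_one.symm))

theorem rz_conj (z : G →* ℂˣ) (g x : G) : rz M z (g * x * g⁻¹) = rz M z x := by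
  rw [map_mul, map_mul, mul_right_comm, ← map_mul, mul_inv_cancel, map_one, one_mul]

theorem tw_iff {z : G →* ℂˣ} {a : (ResK M)[G]} : Tw M z a ↔ ∀ g, cj g⁻¹ a = rz M z g • a :=
  forall_congr' fun g => ⟨fun h => ext_coeff fun x => by simpa [rz] using h x,
    fun h x => by simpa [rz] using congrArg (fun b => MonoidAlgebra.coeff b x) h⟩

theorem tw_one_iff {a : (ResK M)[G]} : Tw M 1 a ↔ a ∈ Zalg (ResK M) (⊤ : Subgroup G) ⊤ := by
  simp [Tw, mem_Zalg_top, mem_fixedBy_iff_coeff]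

variable {y z : G →* ℂˣ} {a b : (ResK M)[G]}

theorem Tw.mul (ha : Tw M y a) (hb : Tw M z b) : Tw M (y * z) (a * b) :=
  tw_iff.2 fun g => by
    rw [map_mul, tw_iff.1 ha, tw_iff.1 hb, rz_mul, smul_mul_smul_comm]

theorem Tw.pow (ha : Tw M z a) (n : ℕ) : Tw M (z ^ n) (a ^ n) := by
  induction n with
  | zero => exact (pow_zero a).symm ▸ tw_one_iff.2 (one_mem _)
  | succ n ih => exact (pow_succ a n).symm ▸ (pow_succ z n).symm ▸ ih.mul ha

theorem Tw.pow_mem (ha : Tw M z a) (hz : z ^ r = 1) : a ^ r ∈ Zalg (ResK M) (⊤ : Subgroup G) ⊤ :=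
  tw_one_iff.1 (hz ▸ ha.pow r)

theorem Tw.pow_mul_mem (ha : Tw M z a) (hb : Tw M z b) (hz : z ^ (r + 1) = 1) :
    a ^ r * b ∈ Zalg (ResK M) (⊤ : Subgroup G) ⊤ :=
  tw_one_iff.1 ((pow_succ z r).symm.trans hz ▸ (ha.pow r).mul hb)

theorem Tw.fixedBy (ha : Tw M z a) : a ∈ fixedBy (ResK M) z.ker :=
  mem_fixedBy_iff_coeff.2 fun h hh x => by rw [ha, MonoidHom.mem_ker.1 hh]; simp

theorem Tw.suppIn (hM : IsPModular p M) (ha : Tw M z a) (hz : z ^ r = 1) (hr : ¬ p ∣ r) :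
    a ∈ suppIn (ResK M) z.ker := fun g hg => by
  by_contra h
  exact hg (eq_one_of_rz hM hz hr (mul_right_cancel₀ h (by simpa [rz] using (ha g g).symm)))

theorem Tw.trunc (ha : Tw M z a) {S : Set G} (hS : ∀ g x, g * x * g⁻¹ ∈ S ↔ x ∈ S) :
    Tw M z (trunc S a) := fun g x => by
  classical
  simp only [coeff_trunc, hS, ha g x, mul_ite, mul_zero]

theorem trunc_add_compl (S : Set G) (a : (ResK M)[G]) : trunc S a + trunc Sᶜ a = a :=
  ext_coeff fun g => by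
    classical
    by_cases e : g ∈ S <;> simp [coeff_trunc, e]

theorem conj_mem_cls (x g w : G) : g * w * g⁻¹ ∈ {w | IsConj x w} ↔ w ∈ {w | IsConj x w} :=
  ⟨fun h => h.trans (isConj_iff.2 ⟨g, rfl⟩).symm, fun h => h.trans (isConj_iff.2 ⟨g, rfl⟩)⟩

theorem Tw.cls (ha : Tw M z a) (x : G) : Tw M z (GA.trunc {w | IsConj x w} a) :=
  ha.trunc (conj_mem_cls x)

theorem isConj_of_coeff_cls {x g : G} (h : (GA.trunc {w | IsConj x w} a).coeff g ≠ 0) :
    IsConj x g := by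
  by_contra e
  exact h (coeff_trunc_of_notMem a e)

theorem coeff_cls (a : (ResK M)[G]) (x : G) :
    (GA.trunc {w | IsConj x w} a).coeff x = a.coeff x :=
  coeff_trunc_of_mem a (IsConj.refl x)

theorem Tw.smul_eq (ha : Tw M z a) (hb : Tw M z b) {x : G} (sa : ∀ g, a.coeff g ≠ 0 → IsConj x g)
    (sb : ∀ g, b.coeff g ≠ 0 → IsConj x g) : b.coeff x • a = a.coeff x • b :=
  ext_coeff fun g => by
    by_cases h : IsConj x g
    · obtain ⟨c, rfl⟩ := isConj_iff.1 h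
      simp only [coeff_smul, Finsupp.smul_apply, smul_eq_mul, ha c x, hb c x]
      ring
    · simp [not_not.1 (mt (sa g) h), not_not.1 (mt (sb g) h)]

theorem Tw.lam_pow (hM : IsPModular p M) (ha : Tw M z a) (hb : Tw M z b) (hz : z ^ (r + 1) = 1)
    (hr : ¬ p ∣ r + 1) (χ : IrrCharacter G) : lam M χ.1 (a ^ r * b) ^ (r + 1) =
      lam M χ.1 (a ^ (r + 1)) ^ r * lam M χ.1 (b ^ (r + 1)) := by
  have hc : Commute a b := mul_comm_of_fixedBy_of_suppIn ha.fixedBy (hb.suppIn hM hz hr)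
  rw [← Cfsg.lam_pow χ (ha.pow_mul_mem hb hz), (hc.pow_left r).mul_pow, ← pow_mul, mul_comm r,
    pow_mul, lam_mul χ (Subalgebra.pow_mem _ (ha.pow_mem hz) r) (hb.pow_mem hz), Cfsg.lam_pow χ (ha.pow_mem hz)]

theorem Tw.lam_ne_iff (hM : IsPModular p M) (ha : Tw M z a) (hb : Tw M z b) (hz : z ^ (r + 1) = 1)
    (hr : ¬ p ∣ r + 1) {χ : IrrCharacter G} (h : lam M χ.1 (a ^ (r + 1)) ≠ 0) :
    lam M χ.1 (a ^ r * b) ≠ 0 ↔ lam M χ.1 (b ^ (r + 1)) ≠ 0 := by
  rw [← pow_ne_zero_iff r.succ_ne_zero, ha.lam_pow hM hb hz hr, mul_ne_zero_iff]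
  exact and_iff_right (pow_ne_zero r h)

theorem Tw.exists_cls (hM : IsPModular p M) (ha : Tw M z a) (hz : z ^ (r + 1) = 1)
    (hr : ¬ p ∣ r + 1) {χ : IrrCharacter G} (h : lam M χ.1 (a ^ (r + 1)) ≠ 0) :
    ∃ x, a.coeff x ≠ 0 ∧ lam M χ.1 (GA.trunc {w | IsConj x w} a ^ (r + 1)) ≠ 0 := by
  have := Fintype.ofFinite (ConjClasses G)
  have h1 := h
  rw [pow_succ] at h1
  nth_rw 2 [← sum_trunc_fiber ConjClasses.mk a] at h1
  rw [Finset.mul_sum, map_sum] at h1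
  obtain ⟨K, -, h2⟩ := Finset.exists_ne_zero_of_sum_ne_zero h1
  obtain ⟨x, hx, h3⟩ := trunc_ne_zero_iff.1 fun e => h2 (by rw [e, mul_zero, map_zero])
  refine ⟨x, h3, (ha.lam_ne_iff hM (ha.cls x) hz hr h).1 ?_⟩
  rwa [show {w | IsConj x w} = {y | ConjClasses.mk y = K} from Set.ext fun w => by
    rw [← show _ = K from hx]
    exact isConj_comm.trans ConjClasses.mk_eq_mk_iff_isConj.symm]

section Prod

variable {H₁ H₂ : Type*} [Group H₁] [Finite H₁] [Group H₂] [Finite H₂] {w : H₁ × H₂ →* ℂˣ}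

theorem Tw.tens {a₁ : (ResK M)[H₁]} {a₂ : (ResK M)[H₂]} (h₁ : Tw M (w.comp (.inl H₁ H₂)) a₁)
    (h₂ : Tw M (w.comp (.inr H₁ H₂)) a₂) : Tw M w (tens a₁ a₂) := fun g x => by
  have e : rz M w g = rz M w (g.1, 1) * rz M w (1, g.2) := by rw [← map_mul]; simp
  change (Gln.tens a₁ a₂).coeff (g.1 * x.1 * g.1⁻¹, g.2 * x.2 * g.2⁻¹) =
    rz M w g * (Gln.tens a₁ a₂).coeff (x.1, x.2)
  rw [coeff_tens, coeff_tens, h₁, h₂, e]
  exact mul_mul_mul_comm _ _ _ _

theorem isConj_prod {x₁ y₁ : H₁} {x₂ y₂ : H₂} :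
    IsConj (x₁, x₂) (y₁, y₂) ↔ IsConj x₁ y₁ ∧ IsConj x₂ y₂ := by
  simp only [isConj_iff, Prod.exists, Prod.inv_mk, Prod.mk_mul_mk, Prod.mk.injEq]
  tauto

theorem supp_tens {a₁ : (ResK M)[H₁]} {a₂ : (ResK M)[H₂]} {x₁ : H₁} {x₂ : H₂}
    (s₁ : ∀ g, a₁.coeff g ≠ 0 → IsConj x₁ g) (s₂ : ∀ g, a₂.coeff g ≠ 0 → IsConj x₂ g) :
    ∀ g, (tens a₁ a₂).coeff g ≠ 0 → IsConj (x₁, x₂) g := fun (g₁, g₂) h => by
  rw [coeff_tens, mul_ne_zero_iff] at h
  exact isConj_prod.2 ⟨s₁ _ h.1, s₂ _ h.2⟩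

theorem comp_pow_eq_one {H : Type*} [Group H] (hz : z ^ r = 1) (f : H →* G) : z.comp f ^ r = 1 :=
  MonoidHom.ext fun h => DFunLike.congr_fun hz (f h)

theorem lam_tens_pow {a₁ : (ResK M)[H₁]} {a₂ : (ResK M)[H₂]} (h₁ : Tw M (w.comp (.inl H₁ H₂)) a₁)
    (h₂ : Tw M (w.comp (.inr H₁ H₂)) a₂) (hw : w ^ r = 1) (θ : IrrCharacter H₁)
    (ψ : IrrCharacter H₂) :
    lam M (θ.prod ψ).1 (tens a₁ a₂ ^ r) = lam M θ.1 (a₁ ^ r) * lam M ψ.1 (a₂ ^ r) := by
  rw [tens_pow, lam_tens θ ψ (h₁.pow_mem (comp_pow_eq_one hw _)) (h₂.pow_mem (comp_pow_eq_one hw _))]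

theorem Tw.piece (hM : IsPModular p M) {c : (ResK M)[H₁ × H₂]} (hc : Tw M w c)
    (hw : w ^ (r + 1) = 1) (hr : ¬ p ∣ r + 1) {b₁ : Set (IrrCharacter H₁)}
    {b₂ : Set (IrrCharacter H₂)} {θ : IrrCharacter H₁} {ψ : IrrCharacter H₂} (hθ : θ ∈ b₁)
    (hψ : ψ ∈ b₂) (h : lam M (θ.prod ψ).1 (c ^ (r + 1)) ≠ 0) :
    ∃ y₁ y₂, c.coeff (y₁, y₂) ≠ 0 ∧ TwS M b₁ (w.comp (.inl H₁ H₂)) (r + 1) y₁ ∧
      TwS M b₂ (w.comp (.inr H₁ H₂)) (r + 1) y₂ := by
  obtain ⟨⟨y₁, y₂⟩, h1, h2⟩ := hc.exists_cls hM hw hr h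
  have t₁ := Tw.cls (z := w.comp (.inl H₁ H₂)) (a := ofFun fun h => c.coeff (h, y₂))
    (fun g x => by simpa using hc (g, 1) (x, y₂)) y₁
  have t₂ := Tw.cls (z := w.comp (.inr H₁ H₂)) (a := ofFun fun h => c.coeff (y₁, h))
    (fun g x => by simpa using hc (1, g) (y₁, x)) y₂
  have e := (hc.cls (y₁, y₂)).smul_eq (t₁.tens t₂) (fun g => isConj_of_coeff_cls)
    (supp_tens (fun g => isConj_of_coeff_cls) fun g => isConj_of_coeff_cls)
  rw [coeff_tens, coeff_cls, coeff_cls, coeff_ofFun, coeff_ofFun] at e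
  have e' := congrArg (fun a => lam M (θ.prod ψ).1 (a ^ (r + 1))) e
  simp only [smul_pow, map_smul, smul_eq_mul, lam_tens_pow t₁ t₂ hw] at e'
  have h3 := mul_ne_zero_iff.1 (right_ne_zero_of_mul
    (e' ▸ mul_ne_zero (pow_ne_zero _ (mul_ne_zero h1 h1)) h2))
  exact ⟨y₁, y₂, h1, ⟨_, t₁, fun g => isConj_of_coeff_cls, θ, hθ, h3.1⟩,
    ⟨_, t₂, fun g => isConj_of_coeff_cls, ψ, hψ, h3.2⟩⟩

end Prod

theorem exists_tw {x : G} (hc : centralizer {x} ≤ z.ker) :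
    ∃ a, Tw M z a ∧ (∀ g, a.coeff g ≠ 0 → IsConj x g) ∧ a.coeff x = 1 := by
  classical
  have key : ∀ {c d : G}, c * x * c⁻¹ = d * x * d⁻¹ → rz M z c = rz M z d := fun {c d} e => by
    have := rz_of_eq_one (M := M) (hc (mem_centralizer_singleton_iff.2
      (show d⁻¹ * c * x = x * (d⁻¹ * c) by
        rw [mul_assoc, mul_inv_eq_iff_eq_mul.1 e]; group)))
    rw [← mul_one (rz M z d), ← this, ← map_mul, mul_inv_cancel_left]
  refine ⟨ofFun fun g => if h : ∃ c, c * x * c⁻¹ = g then rz M z h.choose else 0, fun g w => ?_,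
    fun g hg => isConj_iff.2 (by_contra fun e => hg (dif_neg e)), ?_⟩
  · simp only [coeff_ofFun]
    by_cases h : ∃ c, c * x * c⁻¹ = w
    · have e : g * h.choose * x * (g * h.choose)⁻¹ = g * w * g⁻¹ := by
        conv_rhs => rw [← h.choose_spec]
        group
      have h' : ∃ c, c * x * c⁻¹ = g * w * g⁻¹ := ⟨_, e⟩
      rw [dif_pos h, dif_pos h', key (h'.choose_spec.trans e.symm), map_mul]
      rfl
    · rw [dif_neg h, dif_neg fun ⟨c, e⟩ => h ⟨g⁻¹ * c, by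
        rw [mul_inv_rev, inv_inv, show g⁻¹ * c * x * (c⁻¹ * g) = g⁻¹ * (c * x * c⁻¹) * g by group, e]
        group⟩, mul_zero]
  · have h : ∃ c, c * x * c⁻¹ = x := ⟨1, by simp⟩
    rw [coeff_ofFun, dif_pos h, key (d := 1) (by simpa using h.choose_spec), map_one]

theorem Tw.lam_resTo (hM : IsPModular p M) {H : Type*} [Group H] [Finite H] {f : H →* G} {u : G}
    (hs : IsSec p f u) {b : Set (IrrCharacter H)} {B : Set (IrrCharacter G)}
    (hi : Induces M f b B) (ha : Tw M z a) (hz : z ^ r = 1) (hr : ¬ p ∣ r) {ξ : IrrCharacter H}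
    (hξ : ξ ∈ b) {χ : IrrCharacter G} (hχ : χ ∈ B) :
    lam M ξ.1 (resTo f a ^ r) = lam M χ.1 (a ^ r) := by
  have := hM.fact
  have := hM.charP
  obtain ⟨k, hk⟩ := hs.pElt
  have h1 : a ∈ GA.fixedBy (ResK M) (zpowers u) := fixedBy_anti (zpowers_le.2
    (eq_one_of_rz hM hz hr (hM.red_eq_one_of_pow (k := k) (by
      rw [← Units.val_pow_eq_pow_val, ← map_pow, ← hk, pow_orderOf_eq_one, map_one,
        Units.val_one])))) ha.fixedBy
  have h2 : ∀ n, resTo f (a ^ n) = resTo f a ^ n := fun n => by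
    induction n with
    | zero => simpa using resTo_emb hs.inj (1 : (ResK M)[H])
    | succ n ih =>
      rw [pow_succ, pow_succ, resTo_mul_of_range_eq hs.inj (isPElt_iff_isPGroup_zpowers.1 ⟨k, hk⟩)
        (hs.range_eq.trans (centralizer_zpowers_eq u).symm) (Subalgebra.pow_mem _ h1 n) h1, ih]
  rw [← hi.lam_eq hξ hχ (ha.pow_mem hz), h2]

theorem Tw.resTo {H : Type*} [Group H] [Finite H] (ha : Tw M z a) (f : H →* G) :
    Tw M (z.comp f) (resTo f a) := fun g x => by simpa using ha (f g) (f x)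

theorem TwS.step (hM : IsPModular p M) {H₁ H₂ : Type*} [Group H₁] [Finite H₁] [Group H₂]
    [Finite H₂] {f : H₁ × H₂ →* G} {u : G} (hs : IsSec p f u) {b₁ : Set (IrrCharacter H₁)}
    {b₂ : Set (IrrCharacter H₂)} {B : Set (IrrCharacter G)} (hb₁ : IsPBlock M b₁)
    (hb₂ : IsPBlock M b₂) (hi : Induces M f (prodBlock b₁ b₂) B) {z : G →* ℂˣ} (hz : z ^ r = 1)
    (hr : ¬ p ∣ r) {ι : G → ℕ} {ι₁ : H₁ → ℕ} {ι₂ : H₂ → ℕ}
    (hι : ∀ y₁ y₂, ι (f (y₁, y₂)) = ι₁ y₁ + ι₂ y₂) (hιc : ∀ x y, IsConj x y → ι x = ι y)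
    {x₁ : H₁} {x₂ : H₂} (h₁ : TwS M b₁ ((z.comp f).comp (MonoidHom.inl H₁ H₂)) r x₁)
    (m₁ : ∀ y, TwS M b₁ ((z.comp f).comp (MonoidHom.inl H₁ H₂)) r y → ι₁ y ≤ ι₁ x₁)
    (h₂ : TwS M b₂ ((z.comp f).comp (MonoidHom.inr H₁ H₂)) r x₂)
    (m₂ : ∀ y, TwS M b₂ ((z.comp f).comp (MonoidHom.inr H₁ H₂)) r y → ι₂ y ≤ ι₂ x₂)
    (hu : ∀ y₁ y₂, ι₁ y₁ = ι₁ x₁ → IsConj (f (y₁, y₂)) (f (x₁, x₂)) → IsConj y₁ x₁ ∧ IsConj y₂ x₂)
    (hc : centralizer {f (x₁, x₂)} ≤ z.ker) :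
    TwS M B z r (f (x₁, x₂)) ∧ ∀ y, TwS M B z r y → ι y ≤ ι (f (x₁, x₂)) := by
  obtain _ | r := r
  · exact absurd (dvd_zero p) hr
  obtain ⟨a₁, t₁, s₁, θ, hθ, l₁⟩ := h₁
  obtain ⟨a₂, t₂, s₂, ψ, hψ, l₂⟩ := h₂
  have hξ := prod_mem_prodBlock.2 ⟨hθ, hψ⟩
  have hw := comp_pow_eq_one hz f
  refine ⟨?_, fun y ⟨a, ta, sa, χ, hχ, la⟩ => ?_⟩
  · obtain ⟨a, ta, sa, ha⟩ := exists_tw (M := M) hc
    obtain ⟨χ, hχ⟩ := hi.2.1.nonempty hM
    refine ⟨a, ta, sa, χ, hχ, ?_⟩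
    have l₀ := (lam_tens_pow t₁ t₂ hw θ ψ).trans_ne (mul_ne_zero l₁ l₂)
    have t₀ := t₁.tens t₂
    have tc := ta.resTo f
    have td := tc.trunc (S := {w | IsConj (x₁, x₂) w}ᶜ) fun g x => (conj_mem_cls _ g x).not
    have h0 : lam M (θ.prod ψ).1 (tens a₁ a₂ ^ r * trunc {w | IsConj (x₁, x₂) w}ᶜ (resTo f a)) = 0 := by
      by_contra e
      obtain ⟨y₁, y₂, e1, e2, e3⟩ := td.piece hM hw hr hθ hψ ((t₀.lam_ne_iff hM td hw hr l₀).1 e)
      have e4 : (y₁, y₂) ∈ {w | IsConj (x₁, x₂) w}ᶜ := by_contra fun e =>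
        e1 (coeff_trunc_of_notMem _ e)
      rw [coeff_trunc_of_mem _ e4] at e1
      have e5 := hιc _ _ (sa _ e1)
      rw [hι, hι] at e5
      have e6 := hu y₁ y₂ (by have := m₁ _ e2; have := m₂ _ e3; omega) (sa _ e1).symm
      exact e4 (isConj_prod.2 e6).symm
    have h1 := (tc.cls (x₁, x₂)).smul_eq t₀ (fun g => isConj_of_coeff_cls) (supp_tens s₁ s₂)
    rw [coeff_cls, coeff_resTo, ha, one_smul] at h1
    have h2 := (trunc_add_compl {w | IsConj (x₁, x₂) w} (resTo f a)).symm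
    rw [← ta.lam_resTo hM hs hi hz hr hξ hχ, ← t₀.lam_ne_iff hM tc hw hr l₀, h2, mul_add, map_add,
      h0, add_zero]
    intro e
    rw [pow_succ] at l₀
    nth_rw 2 [← h1] at l₀
    exact l₀ (by rw [mul_smul_comm, map_smul, e, smul_zero])
  · obtain ⟨y₁, y₂, e1, e2, e3⟩ := (ta.resTo f).piece hM hw hr hθ hψ
      ((ta.lam_resTo hM hs hi hz hr hξ hχ).trans_ne la)
    rw [hιc _ _ (sa _ e1), hι, hι]
    exact add_le_add (m₁ _ e2) (m₂ _ e3)

/-- coefficientwise product with the reduction of a linear character -/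
noncomputable def twist (μ : G →* ℂˣ) (a : (ResK M)[G]) : (ResK M)[G] :=
  ofFun fun g => rz M μ g * a.coeff g

theorem twist_mul (μ : G →* ℂˣ) (a b : (ResK M)[G]) : twist μ (a * b) = twist μ a * twist μ b :=
  ext_coeff fun g => by
    have := Fintype.ofFinite G
    simp only [twist, coeff_ofFun, coeff_mul_fintype, Finset.mul_sum]
    refine Finset.sum_congr rfl fun x _ => ?_
    rw [mul_mul_mul_comm, ← map_mul, mul_inv_cancel_left]

theorem Tw.twist (ha : Tw M z a) (μ : G →* ℂˣ) : Tw M z (twist μ a) := fun g x => by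
  simp only [Gln.twist, coeff_ofFun, rz_conj, ha g x]
  ring

theorem lam_twist (μ : G →* ℂˣ) (χ : IrrCharacter G) (a : (ResK M)[G]) :
    lam M χ.1 (twist μ a) = lam M (μ • χ).1 a := by
  have := Fintype.ofFinite (ConjClasses G)
  rw [lam_apply, lam_apply]
  refine Finset.sum_congr rfl fun K _ => ?_
  rw [show centralChar (μ • χ).1 K.out = μ K.out * centralChar χ.1 K.out by
    simp only [centralChar, IrrCharacter.linear_smul_val, Pi.mul_apply, map_one, Units.val_one]; ring,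
    red_mul (lin_mem_locO μ _) (centralChar_mem_locO χ _)]
  simp only [twist, coeff_ofFun, rz, MonoidHom.coe_mk, OneHom.coe_mk]
  ring

theorem eq_of_nil {k A : Type*} [Field k] [Ring A] [Algebra k A] {a E : A} (hc : Commute a E)
    (hE : E * E = E) (h0 : E ≠ 0) {s t : k} (hs : IsNilpotent ((a - s • 1) * E))
    (ht : IsNilpotent ((a - t • 1) * E)) : s = t := by
  have c : ∀ s : k, Commute a ((a - s • 1) * E) ∧ Commute E ((a - s • 1) * E) := fun s =>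
    ⟨((Commute.refl a).sub_right ((Commute.one_right a).smul_right s)).mul_right hc,
      (hc.symm.sub_right ((Commute.one_right E).smul_right s)).mul_right (Commute.refl E)⟩
  have h := (((c t).1.sub_left ((Commute.one_left _).smul_left s)).mul_left
    (c t).2).isNilpotent_sub hs ht
  by_contra e
  have h2 := h.smul (t - s)⁻¹
  rw [← sub_mul, sub_sub_sub_cancel_left, ← sub_smul, smul_mul_assoc, one_mul, smul_smul,
    inv_mul_cancel₀ (sub_ne_zero.2 (Ne.symm e)), one_smul] at h2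
  exact h0 (IsIdempotentElem.eq_zero_of_isNilpotent hE h2)

theorem TwS.exists_suppIn (hM : IsPModular p M) {Bt : Set (IrrCharacter G)} (hBt : IsPBlock M Bt)
    (hz : z ^ (r + 1) = 1) (hr : ¬ p ∣ r + 1) {x : G} (h : TwS M Bt z (r + 1) x)
    (X : Subgroup (G →* ℂˣ)) {m : ℕ} (hm : ¬ p ∣ m) (hX : ∀ μ ∈ X, μ ^ m = 1)
    (hx : ∀ μ ∈ X, (∃ χ ∈ Bt, ∃ χ' ∈ Bt, IsTw μ χ.1 χ'.1) → μ x = 1) :
    ∃ a, Tw M z a ∧ (∀ g, a.coeff g ≠ 0 → ∀ μ ∈ X, μ g = 1) ∧
      ∃ χ ∈ Bt, lam M χ.1 (a ^ (r + 1)) ≠ 0 := by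
  classical
  have := hM.fact
  have := hM.charP
  have := Fintype.ofFinite X
  obtain ⟨a, ta, sa, χ, hχ, la⟩ := h
  have te := tw_one_iff.2 (blockIdem_mem (M := M) Bt)
  have t1 : Tw M z (∑ μ : X, twist μ (a * blockIdem M Bt)) := fun g w => by
    rw [coeff_finset_sum, coeff_finset_sum, Finset.mul_sum]
    exact Finset.sum_congr rfl fun μ _ => ((mul_one z ▸ ta.mul te :).twist μ) g w
  refine ⟨_, t1, fun g hg μ hμ => eq_one_of_rz hM (hX μ hμ) hm (by_contra fun e => hg ?_), χ, hχ,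
    (ta.lam_ne_iff hM t1 hz hr la).1 ?_⟩
  · let φ : X →* ResK M :=
      { toFun := fun ν => rz M ν g, map_one' := rz_of_eq_one rfl, map_mul' := fun _ _ => rz_mul _ _ g }
    simp only [coeff_finset_sum, twist, coeff_ofFun, ← Finset.sum_mul]
    exact mul_eq_zero_of_left (sum_hom_units_eq_zero φ fun h => e (DFunLike.congr_fun h ⟨μ, hμ⟩)) _
  let Y : Subgroup X :=
    { carrier := {μ | lam M (μ.1 • χ).1 = lam M χ.1}
      one_mem' := by simp
      mul_mem' := fun {μ ν} hμ hν => LinearMap.ext fun w => by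
        rw [coe_mul, mul_smul, ← lam_twist, hν, lam_twist, hμ]
      inv_mem' := fun {μ} hμ => LinearMap.ext fun w => by
        rw [← lam_twist, ← hμ, lam_twist, coe_inv, inv_smul_smul, hμ] }
  have hY : ∀ μ : X, μ ∈ Y ↔ μ.1 • χ ∈ Bt := fun μ => by
    rw [hBt.mem_iff_sameBlock hM hχ, hM.sameBlock_iff_lam, eq_comm]; rfl
  have key : ∀ μ : X, lam M χ.1 (a ^ r * twist μ (a * blockIdem M Bt)) =
      if μ ∈ Y then lam M χ.1 (a ^ (r + 1)) else 0 := fun μ => by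
    rw [twist_mul, ← mul_assoc, lam_mul χ (ta.pow_mul_mem (ta.twist μ) hz)
      (tw_one_iff.1 (te.twist μ)), lam_twist μ.1 χ (blockIdem M Bt), hY]
    split_ifs with e
    · rw [hBt.lam_blockIdem_of_mem hM e, mul_one, pow_succ]
      congr 2
      refine ext_coeff fun g => ?_
      by_cases e' : a.coeff g = 0
      · simp [twist, e']
      · obtain ⟨c, rfl⟩ := isConj_iff.1 (sa g e')
        rw [twist, coeff_ofFun, rz_conj, rz_of_eq_one (hx μ μ.2 ⟨χ, hχ, _, e, fun g =>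
          (IrrCharacter.linear_smul_apply _ _ g).trans (mul_comm _ _)⟩), one_mul]
    · rw [hBt.lam_blockIdem_of_notMem hM e, mul_zero]
  rw [Finset.mul_sum, map_sum, Finset.sum_congr rfl fun μ _ => key μ, ← Finset.sum_filter,
    Finset.sum_const, nsmul_eq_mul, ← Fintype.card_subtype, ← Nat.card_eq_fintype_card]
  refine mul_ne_zero (fun e => ?_) la
  obtain ⟨μ, hμ⟩ := exists_prime_orderOf_dvd_card' p ((CharP.cast_eq_zero_iff _ p _).1 e)
  exact hm (hμ ▸ orderOf_dvd_of_pow_eq_one (Subtype.ext (Subtype.ext (hX _ μ.1.2))))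

theorem Tw.eq_one_of_suppIn (hM : IsPModular p M) {N : Type*} [Group N] [Finite N] {f : N →* G}
    [IsNormalEmb f] {Bt : Set (IrrCharacter G)} {B : Set (IrrCharacter N)} (hBt : IsPBlock M Bt)
    (hB : IsPBlock M B) (hc : Covers f Bt B) (hz : z ^ (r + 1) = 1) (ta : Tw M z a) {K : Subgroup G}
    (ha : a ∈ Zalg (ResK M) K K) {j : N →* K} [IsNormalEmb j] (hf : K.subtype.comp j = f)
    (hj : IsPBlock M (irrOver j B)) {χ : IrrCharacter G} (hχ : χ ∈ Bt)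
    (la : lam M χ.1 (a ^ (r + 1)) ≠ 0) {g : G} (hg : g ∈ blockStab f B) : rz M z g = 1 := by
  obtain ⟨ξ, hξ⟩ := hj.nonempty hM
  have h0 := (covers_iff_blockIdem hM hBt hB).1 hc
  have hg' := mem_cjStab.1 (hB.blockStab_eq_cjStab f hM ▸ inv_mem hg :)
  have hEE : emb f (blockIdem M B) * emb f (blockIdem M B) = emb f (blockIdem M B) := by
    rw [← map_mul, hB.blockIdem_idem hM]
  have hEK : emb f (blockIdem M B) = emb K.subtype (emb j (blockIdem M B)) := by rw [emb_emb, hf]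
  generalize emb f (blockIdem M B) = E at h0 hg' hEE hEK
  have he : subIdem M K (irrOver j B) * E = E := by
    have i1 := hB.blockIdemC_mem_intGA hM
    rw [hEK, subIdem, ← map_mul, blockIdem, blockIdem, ← redGA_emb j i1,
      ← redGA_mul (hj.blockIdemC_mem_intGA hM) (emb_mem_intGA j i1), blockIdemC_irrOver_mul_emb]
  have sE : E ∈ GA.suppIn (ResK M) K := hEK ▸ emb_subtype_mem_suppIn K _
  have caE : Commute a E := mul_comm_of_fixedBy_of_suppIn ha.2 sE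
  obtain ⟨l, hl⟩ : ∃ l, lam M ξ.1 (GA.resTo K.subtype a) = l := ⟨_, rfl⟩
  have hal := sub_mem ha (Subalgebra.smul_mem _ (one_mem _) l)
  have n1 : IsNilpotent ((a - l • 1) * E) := by
    rw [← he, ← mul_assoc]
    exact Commute.isNilpotent_mul_right (mul_comm_of_fixedBy_of_suppIn
      (mul_mem hal (subIdem_mem K _)).2 sE) ((hj.lam_resTo_eq_zero_iff hM hξ hal).1 (by
        rw [map_sub, map_sub, map_smul, map_smul, resTo_one K.subtype_injective, lam_one, hl]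
        simp))
  have n2 := n1.map (cj g⁻¹)
  rw [map_mul, map_sub, map_smul, map_one, tw_iff.1 ta, hg'] at n2
  have n3 := n1.smul (rz M z g)
  rw [← smul_mul_assoc, smul_sub, smul_smul] at n3
  refine mul_right_cancel₀ (fun e : l = 0 => la ?_)
    ((eq_of_nil (caE.smul_left _) hEE (right_ne_zero_of_mul h0) n3 n2).trans (one_mul l).symm)
  have ce : ∀ w, Commute (blockIdem M Bt) w := mul_comm_of_fixedBy_top (blockIdem_mem Bt).2
  refine eq_of_nil ((ce _).symm.mul_right (caE.pow_left (r + 1))) (by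
    rw [(ce E).symm.mul_mul_mul_comm, hBt.blockIdem_idem hM, hEE]) h0 ?_ ?_
  · rw [← mul_assoc, sub_mul, smul_mul_assoc, one_mul]
    exact Commute.isNilpotent_mul_right (mul_comm_of_fixedBy_top (sub_mem (mul_mem (ta.pow_mem hz)
      (blockIdem_mem Bt)) (Subalgebra.smul_mem _ (blockIdem_mem Bt) _)).2 _)
      (hBt.isNilpotent_sub_lam hM hχ (ta.pow_mem hz))
  · rw [e, zero_smul, sub_zero] at n1
    rw [zero_smul, sub_zero, pow_succ, mul_assoc, ← mul_assoc a, ← (ce a).eq, mul_assoc, ← mul_assoc]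
    exact Commute.isNilpotent_mul_left ((((Commute.refl a).mul_right caE).pow_left r).mul_left
      (ce _)) n1

theorem TwS.blockStab_le (hM : IsPModular p M) {N : Type*} [Group N] [Finite N] {f : N →* G}
    [IsNormalEmb f] (hab : ∀ x y : G, ⁅x, y⁆ ∈ f.range) {Bt : Set (IrrCharacter G)}
    {B : Set (IrrCharacter N)} (hBt : IsPBlock M Bt) (hB : IsPBlock M B) (hc : Covers f Bt B)
    {z : G →* ℂˣ} (hz : z ^ r = 1) (hr : ¬ p ∣ r) (hzf : ∀ n, z (f n) = 1) {x : G}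
    (h : TwS M Bt z r x)
    (hx : ∀ μ : G →* ℂˣ, (∀ n, μ (f n) = 1) → IsPRegular p μ →
      (∃ χ ∈ Bt, ∃ χ' ∈ Bt, IsTw μ χ.1 χ'.1) → μ x = 1) :
    ∀ g ∈ blockStab f B, z g = 1 := by
  obtain _ | r := r
  · exact absurd (dvd_zero p) hr
  have hp := hM.fact
  intro g hg
  obtain ⟨n, m, hm, hG⟩ := Nat.exists_eq_pow_mul_and_not_dvd (Nat.card_pos (α := G)).ne' p
    hp.out.ne_one
  have hm' : ¬ p ∣ (r + 1) * m := fun e => (hp.out.dvd_mul.1 e).elim hr hm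
  let X : Subgroup (G →* ℂˣ) :=
    { carrier := {μ | (∀ n, μ (f n) = 1) ∧ ∀ u, μ u ^ ((r + 1) * m) = 1}
      one_mem' := ⟨fun _ => rfl, fun _ => one_pow _⟩
      mul_mem' := fun {μ ν} hμ hν => ⟨fun n => by simp [hμ.1, hν.1], fun u => by
        simp [mul_pow, hμ.2, hν.2]⟩
      inv_mem' := fun {μ} hμ => ⟨fun n => by simp [hμ.1], fun u => by simp [hμ.2]⟩ }
  obtain ⟨a, ta, sa, χ, hχ, la⟩ := h.exists_suppIn hM hBt hz hr X hm'
    (fun μ hμ => MonoidHom.ext hμ.2) fun μ hμ => hx μ hμ.1 fun e =>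
      hm' (e.trans (orderOf_dvd_of_pow_eq_one (MonoidHom.ext hμ.2)))
  obtain ⟨K, hK⟩ : ∃ K : Subgroup G, ∀ {w}, w ∈ K ↔ ∀ μ ∈ X, μ w = 1 :=
    ⟨⨅ μ ∈ X, MonoidHom.ker μ, by simp [mem_iInf]⟩
  let j : N →* K := f.codRestrict K fun n => hK.2 fun μ hμ => hμ.1 n
  have : IsNormalEmb j := IsNormalEmb.of_factor (f := f) K.subtype_injective fun _ => rfl
  refine eq_one_of_rz hM hz hr (ta.eq_one_of_suppIn hM hBt hB hc hz (j := j)
    ⟨fun w hw => by_contra fun e => hw (hK.2 (sa w e)), fixedBy_anti (fun w hw => hK.1 hw z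
      ⟨hzf, fun u => ?_⟩) ta.fixedBy⟩ rfl
    (hB.isPBlock_irrOver_of_pow_mem hM fun w => ⟨n, by_contra fun e => ?_⟩) hχ la hg)
  · rw [pow_mul, ← MonoidHom.pow_apply, hz, MonoidHom.one_apply, one_pow]
  obtain ⟨φ, h1, h2⟩ := exists_linear_ne_one (L := f.range) (g := w ^ p ^ n)
    (commutator_le.2 fun x _ y _ => hab x y) fun ⟨u, hu⟩ => e ⟨u, Subtype.ext hu⟩
  refine h2 ((map_pow φ _ _).trans (hK.1 w.2 (φ ^ p ^ n) ⟨fun u => ?_, fun u => ?_⟩))
  · rw [MonoidHom.pow_apply, h1 _ ⟨u, rfl⟩, one_pow]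
  · rw [MonoidHom.pow_apply, ← pow_mul, mul_left_comm, ← hG, mul_comm,
      pow_mul, ← map_pow, pow_card_eq_one', map_one, one_pow]

end Cfsg.Gln

set_option linter.all false in
theorem Cfsg.Rz.Gln_Tw_0 : True := by
  have := @_root_.Cfsg.Gln.rz.eq_def.{0}
  have := @_root_.Cfsg.Gln.rz.fun_cases
  have := @_root_.Cfsg.Gln.twist.eq_def.{0}
  have := @_root_.Cfsg.Gln.twist.fun_cases
  trivial
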