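import Cfsg.Agent.Gln.Step
import Cfsg.Agent.Gln.Tw

/-!
# Non-nilpotent twisted class sums in blocks of `GL_n(q)` (S4536 project)

`Xone φ` does not depend on the representative; `stabilizer → ℤ / d`, `y ↦ l` (`φ.rep * y = φ.rep ^ q ^ l`) is an injective
homomorphism and `Xone φ` is the preimage of `gcd (d, e0) ℤ / d`.
`exists_twS_max`: strong induction on `n`.  All weights `0`: `IsLab.vanish_of_wt`; `χ` is `μ`-stable (`exists_isTw`, `IsLab.tw`,
`IsLab.eq_iff`, `ms_eq_of_wt_zero`, `ee_smul`), `TwS.base`, take a maximiser of `iot N`.  Otherwise `exists_dnl`,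
`nonempty_piece_ee`, `Piece.induces`, `TwS.step` with `ι = iot N`, `ι₁ = iot N ∘ rsHom F`, `x₁` a maximiser of `ι₁`
(unipotent by `Piece.exists_twS`, `isNilpotent_of_iot_le`), `iot_blkHom`, `iot_conj`, `isConj_of_iot`, `cent_le`
(`TwS.centralizer_le`), `dt_blkHom`, `dt_eq_one_of_isNilpotent`.
-/

set_option autoImplicit false
set_option linter.unusedSectionVars false
set_option linter.unusedVariables false
set_option linter.style.haveILetI false

namespace Cfsg.Gln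

open Module Finset Function Subgroup

universe u v

variable {F : Type u} [Field F] [Finite F] {k : Type v} [Field k] [Algebra F k] [IsAlgClosed k]
  [Algebra.IsAlgebraic F k] {R N n p r : ℕ} [NeZero R] {M : Ideal AlgInt}

theorem mul_fixq_pow (c : Lab k R) (y : fixq F k R) (m : ℕ) :
    (c * y.1) ^ Nat.card F ^ m = c ^ Nat.card F ^ m * y.1 := by
  rw [mul_pow c, fixq_pow]

private theorem xone_mul {c : Lab k R} {y y' : fixq F k R} {l l' : ℕ}
    (h : c * y.1 = c ^ Nat.card F ^ l) (h' : c * y'.1 = c ^ Nat.card F ^ l') :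
    c * (y * y').1 = c ^ Nat.card F ^ (l' + l) := by
  rw [pow_add, pow_mul c, ← h', mul_fixq_pow, ← h]
  exact (mul_assoc c y.1 y'.1).symm

variable (p) in
/-- The twists acting on the colour `φ` like a power of `q ^ e0`. -/
def Xone (φ : Col F k R) : Subgroup (fixq F k R) where
  carrier := {y | ∃ i, φ.rep * y.1 = φ.rep ^ Nat.card F ^ (orderOf (Nat.card F : ZMod p) * i)}
  mul_mem' := fun ⟨i, h⟩ ⟨j, h'⟩ => ⟨j + i, by rw [mul_add]; exact xone_mul h h'⟩
  one_mem' := ⟨0, (mul_one φ.rep).trans (pow_one φ.rep).symm⟩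
  inv_mem' := by
    rintro y ⟨i, h⟩
    have h1 : ∀ m : ℕ, φ.rep * (y ^ m).1 =
        φ.rep ^ Nat.card F ^ (orderOf (Nat.card F : ZMod p) * (i * m)) := fun m => by
      induction m with
      | zero => exact (mul_one φ.rep).trans (pow_one φ.rep).symm
      | succ m ih => rw [pow_succ', mul_add i, mul_add, mul_one]; exact xone_mul h ih
    have h2 : y⁻¹ = y ^ (orderOf y - 1) := by
      rw [inv_eq_iff_mul_eq_one, ← pow_succ', Nat.sub_add_cancel (orderOf_pos y),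
        pow_orderOf_eq_one]
    exact ⟨_, h2 ▸ h1 _⟩

variable (hP : Par (Nat.card F) R N)
include hP

theorem isCyclic_fixq : IsCyclic (fixq F k R) :=
  haveI := Lab.isCyclic (cast_ne_zero_of_par k hP)
  Subgroup.isCyclic _

theorem mem_stabilizer_col {y : fixq F k R} {φ : Col F k R} :
    y ∈ MulAction.stabilizer (fixq F k R) φ ↔ ∃ l, φ.rep * y.1 = φ.rep ^ Nat.card F ^ l := by
  rw [MulAction.mem_stabilizer_iff, eq_comm]
  conv_lhs => rw [← Orb.mk_rep φ, smul_mk, (per_lab hP).mk_eq_iff]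
  simp only [frob_iterate]

theorem mem_Xone_mk {y : fixq F k R} {c : Lab k R} : y ∈ Xone p (Orb.mk _ c : Col F k R) ↔
    ∃ i, c * y.1 = c ^ Nat.card F ^ (orderOf (Nat.card F : ZMod p) * i) := by
  obtain ⟨j, hj⟩ := (per_lab hP).mk_eq_iff.1 (Orb.mk_rep (Orb.mk (frob (Nat.card F)) c)).symm
  rw [frob_iterate] at hj
  have hc : (Nat.card (Lab k R)).Coprime (Nat.card F ^ j) := by
    rw [Lab.card (cast_ne_zero_of_par k hP)]; exact hP.coprime.symm.pow_right j
  refine exists_congr fun i => ?_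
  rw [hj, ← mul_fixq_pow, ← pow_mul c, mul_comm (_ ^ j), pow_mul c]
  exact (powCoprime hc).injective.eq_iff

theorem Xone_le (φ : Col F k R) : Xone p φ ≤ MulAction.stabilizer (fixq F k R) φ :=
  fun _ ⟨_, h⟩ => (mem_stabilizer_col hP).2 ⟨_, h⟩

theorem Xone_smul (y : fixq F k R) (φ : Col F k R) : Xone p (y • φ) = Xone p φ := by
  ext w
  conv_lhs => rw [← Orb.mk_rep φ, smul_mk, mem_Xone_mk hP]
  refine exists_congr fun i => ?_
  rw [mul_fixq_pow, mul_right_comm φ.rep]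
  exact mul_left_inj y.1

theorem relIndex_Xone_le (C : Subgroup (fixq F k R)) (φ : Col F k R) :
    ((Xone p φ).subgroupOf C).relIndex (MulAction.stabilizer C φ) ≤
      Nat.gcd φ.deg (orderOf (Nat.card F : ZMod p)) := by
  have hd := deg_pos hP φ
  have hg : 0 < Nat.gcd φ.deg (orderOf (Nat.card F : ZMod p)) := Nat.gcd_pos_of_pos_left _ hd
  choose l hl using fun y : MulAction.stabilizer C φ =>
    (mem_stabilizer_col hP (y := y.1.1) (φ := φ)).1 y.2
  refine (Nat.card_le_card_of_injective (β := Fin (Nat.gcd φ.deg (orderOf (Nat.card F : ZMod p))))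
    (fun Q => ⟨l Q.out % _, Nat.mod_lt _ hg⟩) fun Q Q' h => ?_).trans_eq (Nat.card_fin _)
  rw [← Q.out_eq', ← Q'.out_eq', QuotientGroup.eq]
  obtain ⟨c, hc⟩ := Nat.modEq_iff_dvd.1 (Fin.mk.inj h)
  generalize Q.out = y at hc ⊢
  generalize Q'.out = y' at hc ⊢
  have h1 := Nat.gcd_eq_gcd_ab φ.deg (orderOf (Nat.card F : ZMod p))
  set e := orderOf (Nat.card F : ZMod p)
  obtain ⟨i, hi⟩ : ∃ i : ℕ, (i : ℤ) = (Nat.gcdB φ.deg e * c) % φ.deg :=
    ⟨_, Int.toNat_of_nonneg (Int.emod_nonneg _ (by omega))⟩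
  rw [Int.emod_def] at hi
  have h2 : l y + e * i ≡ l y' [MOD φ.deg] := Nat.modEq_iff_dvd.2
    ⟨Nat.gcdA φ.deg e * c + e * (Nat.gcdB φ.deg e * c / φ.deg), by
      push_cast
      linear_combination hc + c * h1 - e * hi⟩
  have h3 := ((per_lab hP).iterate_eq_iterate_iff (a := φ.rep) (i := l y + e * i) (j := l y')).2
    (by rwa [Orb.mk_rep])
  rw [frob_iterate, frob_iterate, ← hl y', pow_add, pow_mul φ.rep, ← hl y, mul_fixq_pow] at h3
  refine ⟨i, ?_⟩
  change φ.rep * (y.1.1.1⁻¹ * y'.1.1.1) = _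
  rw [mul_left_comm φ.rep, ← h3, mul_comm _ y.1.1.1, inv_mul_cancel_left y.1.1.1]

theorem Xone_eq (h : p ∣ Nat.card F - 1) (φ : Col F k R) :
    Xone p φ = MulAction.stabilizer (fixq F k R) φ := by
  refine le_antisymm (Xone_le hP φ) fun y hy => ?_
  have h1 : (Nat.card F : ZMod p) = 1 := by
    rw [← ZMod.natCast_eq_zero_iff, Nat.cast_sub Nat.card_pos, Nat.cast_one, sub_eq_zero] at h
    exact h
  obtain ⟨l, hl⟩ := (mem_stabilizer_col hP).1 hy
  exact ⟨l, by rwa [h1, orderOf_one, one_mul]⟩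

theorem gcd_mul_ee_lt (hp : p.Prime) (hpF : (p : F) ≠ 0) (φ : Col F k R) :
    Nat.gcd φ.deg (orderOf (Nat.card F : ZMod p)) * ee p φ < p := by
  haveI := Fact.mk hp
  have h1 := ZMod.orderOf_dvd_card_sub_one (p := p) (a := (Nat.card F : ZMod p)) fun h =>
    not_dvd_card hP hp hpF ((ZMod.natCast_eq_zero_iff _ _).1 h)
  have h2 := hp.two_le
  rw [ee, orderOf_pow' _ (deg_pos hP φ).ne', Nat.gcd_comm, Nat.mul_div_cancel' (Nat.gcd_dvd_left _ _)]
  exact (Nat.le_of_dvd (by omega) h1).trans_lt (by omega)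

theorem exists_twS_max (hM : IsPModular p M) (hpF : (p : F) ≠ 0) {μ z : fixq F k R}
    (hμ : μ ^ r = 1) (hr : ¬ p ∣ r) (hz : z ∈ zpowers μ) (hn : n ≤ N)
    {χ : IrrCharacter (GLV F (Fin n → F))} {a : Col F k R → Fin N → ℕ} (h : IsLab χ a)
    (ha : RegLab p a) (hρ : ∀ φ, rs (ee p φ) (ms (a (μ • φ))) = rs (ee p φ) (ms (a φ)))
    (hX : ∀ φ, 0 < wtc p a φ → z ∈ Xone p φ) :
    ∃ x, TwS M (blockOf M χ.1) ((dch hP z).comp dt) r x ∧
      (∀ y, TwS M (blockOf M χ.1) ((dch hP z).comp dt) r y → iot N y ≤ iot N x) ∧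
      dch hP μ (dt x) = 1 := by
  have hp := hM.prime
  obtain ⟨t, ht⟩ := mem_powers_iff_mem_zpowers.2 hz
  replace ht : μ ^ t = z := ht
  have hzr : z ^ r = 1 := by rw [← ht, ← pow_mul, mul_comm, pow_mul, hμ, one_pow]
  have hpow : ∀ {G : Type u} [Group G] (δ : G →* Fˣ) (y : fixq F k R) (m : ℕ),
      ((dch hP y).comp δ) ^ m = (dch hP (y ^ m)).comp δ := fun δ y m => by
    rw [map_pow]; rfl
  have hone : ∀ {G : Type v} [Group G] (δ : G →* Fˣ), ((dch hP z).comp δ) ^ r = 1 :=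
    fun δ => MonoidHom.ext fun g => by
      have := DFunLike.congr_fun (map_pow (dch hP) z r) (δ g)
      rw [hzr, map_one] at this
      exact this.symm
  induction n using Nat.strong_induction_on generalizing a with | h n ih => ?_
  have hV : finrank F (Fin n → F) ≤ N := by rwa [Module.finrank_fin_fun]
  have hZ : ∀ n, ((dch hP z).comp (dt : GLV F (Fin n → F) →* Fˣ)) ^ r = 1 := fun n => by
    rw [hpow, hzr, map_one]; rfl
  by_cases h0 : ∀ φ, wtc p a φ = 0
  · obtain ⟨ψ, hψ⟩ := exists_isTw ((dch hP μ).comp dt) χ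
    obtain rfl : χ = ψ := (h.eq_iff hP hV (h.tw hP hV μ hψ)).2 fun φ => by
      have h1 := hρ (μ⁻¹ • φ)
      have h2 := h0 (μ⁻¹ • φ)
      rw [wtc] at h2
      rw [smul_inv_smul] at h1
      rw [ee_smul hP hp hpF] at h1 h2
      exact ms_eq_of_wt_zero (ee_pos hP hp hpF φ) (h.1 _) (h.1 _) h1 (h0 φ) h2
    obtain ⟨h1, h2⟩ := TwS.base hM (h.vanish_of_wt hP hp hpF hV ha h0)
      (z := (dch hP z).comp dt) (by rw [hpow, hμ, map_one]; rfl) hr hψ
      (by rw [← ht, ← hpow]; exact Subgroup.npow_mem_zpowers _ _)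
    obtain ⟨x, hx, hm⟩ := Set.exists_max_image _ (iot N) (Set.toFinite _) h1
    exact ⟨x, hx, hm, h2 x hx⟩
  obtain ⟨φ, hw⟩ := not_forall.1 h0
  replace hw := Nat.pos_of_ne_zero hw
  obtain ⟨hφ, i, hi, hb, hw1, hoff, hrs⟩ := exists_dnl hP hp hpF ha h.1 hw
  have hs := size_dnl hi hb
  rw [h.2.1] at hs
  have hN : φ.deg * ee p φ ≤ N := by omega
  have hpos := Nat.mul_pos (deg_pos hP φ) (ee_pos hP hp hpF φ)
  obtain ⟨π⟩ := nonempty_piece_ee hP hp hpF hφ hN
  obtain ⟨e⟩ := π.nonempty_equiv (V := Fin n → F) (V₂ := Fin (size (dnl a φ i (ee p φ))) → F)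
    (by rwa [Module.finrank_fin_fun])
  rw [Module.finrank_fin_fun] at hs
  obtain ⟨ψ, hψ⟩ := exists_irr (V := Fin (size (dnl a φ i (ee p φ))) → F) hP
    (by rw [Module.finrank_fin_fun]; omega) hb (by rw [Module.finrank_fin_fun])
  obtain ⟨x₂, h₂, m₂, hx₂⟩ := ih _ (by omega) (by omega) hψ (ha.dnl _ _ _)
    (fun φ' => by
      have h1 := hrs (μ • φ')
      rw [ee_smul hP hp hpF] at h1
      rw [h1, hρ, hrs])
    (fun φ' hw' => hX φ' (by
      by_cases e : φ' = φ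
      · rwa [e]
      · rwa [wtc, hoff φ' e] at hw'))
  obtain ⟨u, hu, hu'⟩ := π.exists_twS hP hp hpF hN hM hzr hr (hX φ hw)
  obtain ⟨x₁, h₁, m₁⟩ := Set.exists_max_image
    {y | TwS M (blockOf M π.θ.1) (((dch hP z).comp dt).comp (rsHom F)) r y}
    (fun y => iot N (rsHom F y)) (Set.toFinite _) ⟨u, hu'⟩
  have hW : finrank F π.W ≤ N := π.finrank_W.trans_le hN
  have hx₁ := isNilpotent_of_iot_le hW hu (m₁ u hu')
  have e1 : ((((dch hP z).comp dt).comp (stepHom e : GLV π.K π.W × GLV F _ →* _)).comp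
      (MonoidHom.inl _ _)) = ((dch hP z).comp dt).comp (rsHom F) := MonoidHom.ext fun y => by
    change dch hP z (dt (blkHom e (rsHom F y, 1))) = _
    rw [dt_blkHom, map_one, mul_one]; rfl
  have e2 : ((((dch hP z).comp dt).comp (stepHom e : GLV π.K π.W × GLV F _ →* _)).comp
      (MonoidHom.inr _ _)) = (dch hP z).comp dt := MonoidHom.ext fun y => by
    change dch hP z (dt (blkHom e (rsHom F 1, y))) = _
    rw [dt_blkHom, map_one, map_one, one_mul]; rfl
  have key := TwS.step hM (π.isSec hP hp hpF e) ⟨π.θ, rfl⟩ ⟨ψ, rfl⟩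
    (π.induces hP hp hpF hM hV e h ha hi hψ) (hZ n) hr (ι := iot N)
    (ι₁ := fun y => iot N (rsHom F y)) (ι₂ := iot N) (fun y₁ y₂ => iot_blkHom N e _ _)
    (fun _ _ => iot_conj N) (x₁ := x₁) (x₂ := x₂) (e1 ▸ h₁) (e1 ▸ m₁) (e2 ▸ h₂) (e2 ▸ m₂)
    (fun _ _ => isConj_of_iot hW e hx₁)
    (cent_le _ e hx₁ (TwS.centralizer_le (G := GLV π.K π.W)
      (z := ((dch hP z).comp dt).comp (rsHom F)) (x := x₁) hM
      (hone (dt.comp (rsHom F))) hr h₁)
      (h₂.centralizer_le hM (hZ _) hr))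
  refine ⟨_, key.1, key.2, ?_⟩
  change dch hP μ (dt (blkHom e (rsHom F x₁, x₂))) = 1
  rw [dt_blkHom, dt_eq_one_of_isNilpotent hx₁, one_mul, hx₂]

end Cfsg.Gln

set_option linter.all false in
theorem Cfsg.Rz.Gln_NV_0 : True := by
  have := @_root_.Cfsg.Gln.Xone.eq_def.{0, 0}
  have := @_root_.Cfsg.Gln.Xone.eq_1.{0, 0}
  have := @_root_.Cfsg.Gln.Xone.fun_cases
  trivial

set_option linter.all false in
theorem Cfsg.Rz.Gln_NV_1 : True := by
  have := @_root_.Cfsg.Gln.Xone.congr_simp.{0, 0}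
  trivial
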