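import Cfsg.Agent.Gln.Prim

/-!
# Integral and degree of the primitive elements (S4536 project)

`int_pI`.  Let `σ(c)` = number of cyclic vectors (`v` whose `x`-orbit spans; `σ 0 = 1`).  Grouping `v ∈ V` by the
invariant subspace it generates gives `q^(dim c) H(c) = (pw σ H * H)(c)` for `H = Hx x`.  `int n (pw σ H) = [d ∣ n]`:
`(x, v) ↦` the basis `(v, x v, …, x^(n-1) v)` is a bijection from pairs with `v` cyclic and
`charpoly = minpoly^(n/d)` (`cp_eq_iff`) onto ordered bases (Cayley–Hamilton; companion matrix), i.e. onto `GL`.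
`z n = int n H` gives a ring map on components (`int_mul`, `comp_mul`), so `IsNw z c` with
`c n = int n (d • pI n x)`; `q^n z n = ∑ [d ∣ i] z (n-i)`; `IsNw.scale`, `IsNw.conv`, and the Newton sequence of
`n ↦ [d ∣ n]` is `n ↦ d [d ∣ n]` (`IsNw.expand`): `q^n c n = c n + d [d ∣ n]`.
`pI_one`.  `e n f = f (cls 1) q^(choose n 2) / |GL_n|` satisfies `e (i+j) (a * b) = e i a * e j b` (`bf_mul_left` with `g` the
indicator of `cls 1`, `adj_cls`; or count subspaces), `E n = e n (Hx 1) = 1 / ∏_{i=1}^n (q^i - 1)` (`card_GLV_eq`), so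
`q^n E n = E n + E (n-1)`; the Newton sequence of `1 + t` is `(-1)^(n-1)`.
-/

set_option autoImplicit false
set_option linter.unusedSectionVars false
set_option linter.unusedVariables false
set_option linter.style.haveILetI false

namespace Cfsg.Gln

open Module Finset Polynomial

universe u

variable {F : Type u} [Field F] [Finite F] {V : Type*} [AddCommGroup V] [Module F V] [Finite V]
  {k : Type*} [Field k] [Algebra F k] [IsAlgClosed k] [Algebra.IsAlgebraic F k] {R N n : ℕ}
  [NeZero R]

/-- A graded multiplicative functional preserves Newton's identities. -/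
theorem IsNw.graded (e : ℕ → Hall F →ₗ[ℂ] ℂ) (h1 : e 0 1 = 1)
    (hm : ∀ i j, ∀ a ∈ hom F i, ∀ b ∈ hom F j, e (i + j) (a * b) = e i a * e j b)
    {h π : ℕ → Hall F} (H : IsNw h π) (hh : ∀ n, h n ∈ hom F n) (hπ : ∀ n, π n ∈ hom F n) :
    IsNw (fun n => e n (h n)) fun n => e n (π n) := by
  refine ⟨by simp only [H.1, h1], fun n => ?_⟩
  have := congrArg (e (n + 1)) (H.2 n)
  rw [← nsmul_eq_mul, map_nsmul, nsmul_eq_mul, map_sum] at this
  refine this.trans (Finset.sum_congr rfl fun x hx => ?_)
  rw [← hm _ _ _ (hπ _) _ (hh _), ← mem_antidiagonal.1 hx, add_right_comm]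

theorem IsNw.of_rec {z c T τ : ℕ → ℂ} (H : IsNw z c) (HT : IsNw T τ) (q : ℂ)
    (hrec : ∀ n, q ^ n * z n = ∑ x ∈ antidiagonal n, T x.1 * z x.2) (h0 : 0 < n) :
    (q ^ n - 1) * c n = τ n := by
  have := (H.scale q).right_eq (HT.conv H) (n := n) (fun j _ => hrec j) h0 le_rfl
  rw [Pi.add_apply] at this
  rw [sub_mul, this]
  ring

theorem isNw_one_one : IsNw (fun _ : ℕ => (1 : ℂ)) fun _ => 1 :=
  ⟨rfl, fun n => by simp⟩

theorem isNw_two : IsNw (fun n : ℕ => if n ≤ 1 then (1 : ℂ) else 0) fun n => (-1) ^ (n - 1) := by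
  refine ⟨by simp, fun n => ?_⟩
  rcases n with _ | n
  · simp
  · rw [Finset.Nat.sum_antidiagonal_succ', Finset.sum_eq_single (n, 0)]
    · simp [pow_succ]
    · rintro ⟨a, b⟩ hab hne
      have h1 : a + b = n := mem_antidiagonal.1 hab
      have : ¬ b + 1 ≤ 1 := fun h => hne (Prod.ext (by simp only; omega) (by simp only; omega))
      simp only [if_neg this, mul_zero]
    · simp

open Classical in
theorem Hx_apply (x : k) (c : Iso F) :
    Hx F x c = if ∀ t ∈ ev k c, IsConjRoot F x t then 1 else 0 := by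
  let o : Hall F := fun _ => 1
  have := cut_apply (cj F x) o c
  rw [cut, Mult.hom_apply] at this
  exact ((mul_one _).symm.trans this).trans (by congr)

theorem one_lt_card_F : 1 < Nat.card F := Finite.one_lt_card

theorem card_pow_sub_one_ne (h0 : 0 < n) : (Nat.card F : ℂ) ^ n - 1 ≠ 0 := by
  rw [sub_ne_zero]
  exact_mod_cast (Nat.one_lt_pow h0.ne' (one_lt_card_F (F := F))).ne'

section cyclic

variable {W : Type*} [AddCommGroup W] [Module F W] [Finite W]

/-- The invariant subspace generated by a vector. -/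
def genSub (x : End F V) (v : V) : Submodule F V :=
  Submodule.span F (Set.range fun i : ℕ => (x ^ i) v)

theorem genSub_le_comap (x : End F V) (v : V) : genSub x v ≤ (genSub x v).comap x := by
  refine Submodule.span_le.2 ?_
  rintro _ ⟨i, rfl⟩
  exact Submodule.subset_span ⟨i + 1, by simp only [pow_succ']; rfl⟩

theorem map_genSub {x : End F V} {y : End F W} (φ : V →ₗ[F] W) (h : ∀ v, φ (x v) = y (φ v))
    (v : V) : (genSub x v).map φ = genSub y (φ v) := by
  have hp : ∀ (n : ℕ) v, φ ((x ^ n) v) = (y ^ n) (φ v) := fun n => by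
    induction n with
    | zero => simp
    | succ n ih => intro v; rw [pow_succ, pow_succ, Module.End.mul_apply, ih, h, Module.End.mul_apply]
  rw [genSub, Submodule.map_span, ← Set.range_comp, genSub]
  congr 2
  exact funext fun i => hp i v

theorem genSub_top_iff {x : End F V} {y : End F W} (φ : V ≃ₗ[F] W) (h : ∀ v, φ (x v) = y (φ v))
    (v : V) : genSub x v = ⊤ ↔ genSub y (φ v) = ⊤ := by
  have := map_genSub φ.toLinearMap h v
  rw [LinearEquiv.coe_coe] at this
  rw [← this]
  exact (Submodule.map_eq_top_iff (e := φ)).symm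

/-- The number of cyclic vectors. -/
noncomputable def cycN : Hall F := fun c => (Nat.card {v // genSub c.rep v = ⊤} : ℂ)

theorem cycN_cls (x : End F V) : cycN (cls x) = (Nat.card {v // genSub x v = ⊤} : ℂ) := by
  obtain ⟨e, h⟩ := sim_rep x
  exact congrArg _ (Nat.card_congr (e.toEquiv.subtypeEquiv fun v => genSub_top_iff e h v))

theorem sum_cycN (x : End F V) : ∑ U : Inv x, cycN (cls U.sub) = (Nat.card V : ℂ) := by
  simp only [cycN_cls]
  rw [← Nat.cast_sum, ← Nat.card_sigma]
  refine congrArg _ (Nat.card_congr (Equiv.ofBijective (fun p => (p.2.1 : V)) ⟨?_, fun v => ?_⟩))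
  · have key : ∀ (U : Inv x) (w : U.1), genSub U.sub w = ⊤ → genSub x w = U.1 := fun U w hw => by
      have := map_genSub (x := U.sub) (y := x) U.1.subtype (fun _ => rfl) w
      rw [hw, Submodule.map_subtype_top] at this
      exact this.symm
    rintro ⟨U, w, hw⟩ ⟨U', w', hw'⟩ h
    have h' : (w : V) = w' := h
    obtain rfl : U = U' := Subtype.ext (by rw [← key U w hw, ← key U' w' hw', h'])
    obtain rfl : w = w' := Subtype.ext h'
    rfl
  · let U : Inv x := ⟨genSub x v, genSub_le_comap x v⟩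
    refine ⟨⟨U, ⟨v, Submodule.subset_span ⟨0, rfl⟩⟩, ?_⟩, rfl⟩
    refine Submodule.map_injective_of_injective U.1.injective_subtype ?_
    rw [Submodule.map_subtype_top]
    exact map_genSub U.1.subtype (fun _ => rfl) _

theorem pw_cycN_mul {H : Hall F} (hH : Mult H) (c : Iso F) :
    (pw cycN H * H) c = (Nat.card F : ℂ) ^ c.dim * H c := by
  rw [← cls_rep c, mul_cls]
  simp only [pw_apply, mul_assoc, ← hH.cls]
  rw [← Finset.sum_mul, sum_cycN, dim_cls, Module.natCard_eq_pow_finrank (K := F), Nat.cast_pow]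

theorem genSub_cyc {f : F[X]} (hf : f.Monic) : genSub (cyc f) (1 : AdjoinRoot f) = ⊤ := by
  have hp : ∀ i : ℕ, (cyc f ^ i) (1 : AdjoinRoot f) = AdjoinRoot.root f ^ i := fun i => by
    rw [cyc, LinearMap.pow_mulLeft, LinearMap.mulLeft_apply, mul_one]
  rw [eq_top_iff, ← (AdjoinRoot.powerBasis' hf).basis.span_eq]
  refine Submodule.span_mono ?_
  rintro _ ⟨i, rfl⟩
  exact ⟨i, (hp i).trans ((AdjoinRoot.powerBasis' hf).basis_eq_pow i).symm⟩

/-- Pairs `(y, v)` with prescribed characteristic polynomial and `v` cyclic. -/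
theorem card_cyc_pairs {f : F[X]} (hf : f.Monic) [Finite (AdjoinRoot f)] :
    Nat.card {p : End F (AdjoinRoot f) × AdjoinRoot f // (cls p.1).cp = f ∧ genSub p.1 p.2 = ⊤} =
      Nat.card (GLV F (AdjoinRoot f)) := by
  symm
  let T := LinearMap.GeneralLinearGroup.generalLinearEquiv F (AdjoinRoot f)
  rw [Nat.card_congr T.toEquiv]
  have hc : ∀ (g : AdjoinRoot f ≃ₗ[F] AdjoinRoot f) v, g (cyc f v) = g.conj (cyc f) (g v) :=
    fun g v => by simp [LinearEquiv.conj_apply]
  refine Nat.card_congr (Equiv.ofBijective (fun g => ⟨(g.conj (cyc f), g 1), ?_, ?_⟩) ⟨?_, ?_⟩)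
  · rw [← cls_eq_iff.2 (sim_conj g (cyc f)), cp_cyc hf]
  · exact (genSub_top_iff g (hc g) 1).1 (genSub_cyc hf)
  · intro g g' h
    have h1 : g.conj (cyc f) = g'.conj (cyc f) := congrArg (fun p => p.1.1) h
    have h2 : g 1 = g' 1 := congrArg (fun p => p.1.2) h
    refine LinearEquiv.toLinearMap_injective (LinearMap.ext_on (genSub_cyc hf) ?_)
    rintro _ ⟨i, rfl⟩
    induction i with
    | zero => exact h2
    | succ i ih =>
      simp only [pow_succ', Module.End.mul_apply, LinearEquiv.coe_coe] at ih ⊢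
      rw [hc, hc, ih, h1]
  · rintro ⟨⟨y, v⟩, hy, hv⟩
    have h0 : aeval y f = 0 :=
      (congrArg (aeval y) ((cp_cls y).symm.trans hy)).symm.trans (LinearMap.aeval_self_charpoly y)
    let θ : AdjoinRoot f →ₐ[F] End F (AdjoinRoot f) :=
      Ideal.Quotient.liftₐ (Ideal.span {f}) (aeval y) fun a ha => by
        obtain ⟨b, rfl⟩ := Ideal.mem_span_singleton.1 ha
        rw [map_mul, h0, zero_mul]
    have hθ : θ (AdjoinRoot.root f) = y := aeval_X y
    let g : AdjoinRoot f →ₗ[F] AdjoinRoot f := LinearMap.applyₗ v ∘ₗ θ.toLinearMap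
    have hg : ∀ a, g a = θ a v := fun _ => rfl
    have hgc : ∀ a, g (cyc f a) = y (g a) := fun a => by
      rw [hg, hg, cyc, LinearMap.mulLeft_apply, map_mul, hθ, Module.End.mul_apply]
    have hg1 : g 1 = v := by rw [hg, map_one, Module.End.one_apply]
    have hs : Function.Surjective g := by
      have := map_genSub g hgc 1
      rwa [genSub_cyc hf, hg1, hv, ← LinearMap.range_eq_map, LinearMap.range_eq_top] at this
    let e := LinearEquiv.ofBijective g ⟨Finite.injective_iff_surjective.2 hs, hs⟩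
    have he : e.conj (cyc f) = y := LinearMap.ext fun w => by
      obtain ⟨a, rfl⟩ := e.surjective w
      rw [← hc]
      exact hgc a
    exact ⟨e, Subtype.ext (Prod.ext he hg1)⟩

theorem int_pw_cycN (x : k) (n : ℕ) :
    int n (pw cycN (Hx F x)) = if fdeg F x ∣ n then 1 else 0 := by
  classical
  split_ifs with h
  · obtain ⟨j, rfl⟩ := h
    have hf : (minpoly F x ^ j).Monic := (minpoly.monic (Algebra.IsIntegral.isIntegral x)).pow j
    haveI := hf.finite_adjoinRoot
    haveI : Finite (AdjoinRoot (minpoly F x ^ j)) := Module.finite_of_finite F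
    have hd : finrank F (AdjoinRoot (minpoly F x ^ j)) = fdeg F x * j := by
      rw [(AdjoinRoot.powerBasis' hf).finrank, AdjoinRoot.powerBasis'_dim, natDegree_pow, mul_comm]
      rfl
    have hne : (Nat.card (GLV F (AdjoinRoot (minpoly F x ^ j))) : ℂ) ≠ 0 := by
      exact_mod_cast Nat.card_pos.ne'
    rw [int_eq hd, inv_mul_eq_one₀ hne, ← card_cyc_pairs hf, Nat.card_congr
      (Equiv.subtypeProdEquivSigmaSubtype fun y v => (cls y).cp = minpoly F x ^ j ∧ genSub y v = ⊤),
      Nat.card_sigma, Nat.cast_sum]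
    refine Finset.sum_congr (by congr) fun y _ => ?_
    rw [pw_apply, Hx_apply, cycN_cls]
    have hy : (cls y).cp = minpoly F x ^ j ↔ ∀ t ∈ ev k (cls y), IsConjRoot F x t := by
      rw [cp_eq_iff, dim_cls, and_iff_right hd]
    split_ifs with h
    · simp only [hy.2 h, true_and, mul_one]
    · simp [mt hy.1 h]
  · rw [int_congr (g := 0), map_zero]
    intro c hc
    rw [pw_apply, Hx_apply, if_neg, mul_zero, Hall.zero_apply]
    exact fun h' => h (hc ▸ (ev_eq_of_conj h').1)

end cyclic

theorem int_comp (n : ℕ) (f : Hall F) : int n (comp n f) = int n f :=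
  int_congr fun c hc => by rw [comp_apply, if_pos hc]

theorem int_pI (h0 : 0 < n) {x : k} (hx : fdeg F x ∣ n) :
    int n (pI F n x) = ((Nat.card F : ℂ) ^ n - 1)⁻¹ := by
  have H := (isNw_Hx (F := F) x).graded int (by rw [int_zero, Hall.one_apply, if_pos dim_zero])
    (fun i j a ha b hb => int_mul ha hb) (fun n => comp_mem n _)
    fun n => Submodule.smul_mem _ _ (pI_mem_hom n x)
  have := H.of_rec (isNw_one_one.expand (fdeg_pos (F := F) x)) (Nat.card F : ℂ) (fun m => by
    have h1 : int m (comp m (pw cycN (Hx F x) * Hx F x)) =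
        (Nat.card F : ℂ) ^ m * int m (comp m (Hx F x)) := by
      rw [int_comp, int_comp, ← smul_eq_mul _ (int m _), ← map_smul]
      exact int_congr fun c hc => by
        rw [Hall.smul_apply, ← hc]
        exact pw_cycN_mul (mult_mf _) c
    rw [← h1, comp_mul, map_sum]
    refine Finset.sum_congr rfl fun y hy => ?_
    rw [← mem_antidiagonal.1 hy, int_mul (comp_mem _ _) (comp_mem _ _), int_comp, int_pw_cycN]) h0
  rw [if_pos hx, map_smul, smul_eq_mul, mul_left_comm] at this
  have hd : (fdeg F x : ℂ) ≠ 0 := by exact_mod_cast (fdeg_pos (F := F) x).ne'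
  exact eq_inv_of_mul_eq_one_right (mul_left_cancel₀ hd this)

section one

variable {W : Type*} [AddCommGroup W] [Module F W] [Finite W]

open Classical in
/-- The indicator of the identity maps. -/
noncomputable def idH : Hall F := fun c => if c.rep = 1 then 1 else 0

theorem Sim.eq_one_iff {x : End F V} {y : End F W} (h : Sim x y) : x = 1 ↔ y = 1 := by
  obtain ⟨e, h⟩ := h
  constructor
  · rintro rfl
    exact LinearMap.ext fun w => by
      obtain ⟨v, rfl⟩ := e.surjective w
      exact (h v).symm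
  · rintro rfl
    exact LinearMap.ext fun v => e.injective (h v)

open Classical in
theorem idH_cls (x : End F V) : idH (cls x) = if x = 1 then 1 else 0 := by
  simp only [idH, (sim_rep x).eq_one_iff]

theorem bf_idH (h : finrank F V = n) (f : Hall F) :
    bf n f idH = (Nat.card (GLV F V) : ℂ)⁻¹ * f (cls (1 : End F V)) := by
  classical
  rw [bf_def, int_eq h]
  simp only [pw_apply, idH_cls, mul_ite, mul_one, mul_zero]
  rw [Finset.sum_ite_eq', if_pos (mem_univ _)]

theorem ext_eq_one_iff (x : End F V) (z : End F W) (y : W →ₗ[F] V) :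
    ext x z y = 1 ↔ y = 0 ∧ x = 1 ∧ z = 1 := by
  constructor
  · intro h
    have h' := LinearMap.congr_fun h
    refine ⟨LinearMap.ext fun w => ?_, LinearMap.ext fun v => ?_, LinearMap.ext fun w => ?_⟩
    · simpa using congrArg Prod.fst (h' (0, w))
    · simpa using congrArg Prod.fst (h' (v, 0))
    · simpa using congrArg Prod.snd (h' (0, w))
  · rintro ⟨rfl, rfl, rfl⟩
    exact LinearMap.ext fun v => by simp

theorem adj_idH (i : ℕ) (a : Hall F) (c : Iso F) :
    adj i a idH c = ((Nat.card F : ℂ) ^ (i * c.dim))⁻¹ * bf i a idH * idH c := by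
  classical
  have hi : finrank F (Fin i → F) = i := Module.finrank_fin_fun F
  rw [← cls_rep c, adj_cls hi, bf_idH hi, dim_cls, idH_cls]
  have hco : ∀ x : End F (Fin i → F), co idH x c.rep =
      if x = 1 then ((Nat.card F : ℂ) ^ (i * finrank F (Fin c.dim → F)))⁻¹ *
        if c.rep = 1 then 1 else 0 else 0 := fun x => by
    rw [co, Module.natCard_eq_pow_finrank (K := F), Module.finrank_linearMap, hi, Nat.cast_pow,
      mul_comm (finrank F _) i]
    simp only [idH_cls, ext_eq_one_iff, ite_and]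
    rw [Finset.sum_ite_eq', if_pos (mem_univ _)]
    split_ifs <;> simp
  simp only [hco, mul_ite, mul_zero]
  rw [Finset.sum_ite_eq', if_pos (mem_univ _)]
  split_ifs <;> ring

theorem bf_mul_idH {i j : ℕ} {a : Hall F} (ha : a ∈ hom F i) (b : Hall F) :
    bf (i + j) (a * b) idH = ((Nat.card F : ℂ) ^ (i * j))⁻¹ * bf i a idH * bf j b idH := by
  rw [bf_mul_left ha, bf_def, bf_def j, ← smul_eq_mul _ (int j _), ← map_smul]
  refine int_congr fun c hc => ?_
  rw [pw_apply, adj_idH, Hall.smul_apply, pw_apply, hc, mul_left_comm]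

theorem card_GLV_cast (h : finrank F V = n) : (Nat.card (GLV F V) : ℂ) =
    (Nat.card F : ℂ) ^ n.choose 2 * ∏ i ∈ range n, ((Nat.card F : ℂ) ^ (i + 1) - 1) := by
  rw [card_GLV_eq, h, Nat.cast_prod, ← Finset.prod_range_reflect (fun i => (Nat.card F : ℂ) ^ (i + 1) - 1),
    Nat.choose_two_right, ← Finset.sum_range_id, ← Finset.prod_pow_eq_pow_sum, ← Finset.prod_mul_distrib]
  refine Finset.prod_congr rfl fun i hi => ?_
  have hi' := mem_range.1 hi
  rw [Nat.cast_sub (Nat.pow_le_pow_right Nat.card_pos hi'.le), mul_sub, ← pow_add, mul_one,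
    show i + (n - 1 - i + 1) = n by omega, Nat.cast_pow, Nat.cast_pow]

end one

private theorem choose_two_add (i j : ℕ) : (i + j).choose 2 = i.choose 2 + j.choose 2 + i * j := by
  induction j with
  | zero => simp
  | succ j ih =>
    rw [← add_assoc, Nat.choose_succ_succ' (i + j), Nat.choose_succ_succ' j,
      Nat.choose_one_right, Nat.choose_one_right, ih]
    ring

theorem fdeg_one : fdeg F (1 : k) = 1 := by
  rw [fdeg, minpoly.one, ← C_1, natDegree_X_sub_C]

theorem isConjRoot_one {t : k} : IsConjRoot F (1 : k) t ↔ t = 1 := by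
  rw [isConjRoot_iff]
  simp

theorem ev_one : ev k (cls (1 : End F V)) = Multiset.replicate (finrank F V) 1 := by
  have := ev_smul_one (V := V) k (1 : F)
  rwa [one_smul, map_one] at this

theorem pI_one (h0 : 0 < n) (hV : finrank F V = n) : pI F n (1 : k) (cls (1 : End F V)) =
    (-1) ^ (n - 1) * ∏ i ∈ Ico 1 n, ((Nat.card F : ℂ) ^ i - 1) := by
  have hq : (Nat.card F : ℂ) ≠ 0 := by exact_mod_cast Nat.card_pos.ne'
  let e : ℕ → Hall F →ₗ[ℂ] ℂ := fun m => (Nat.card F : ℂ) ^ m.choose 2 • (bf m).flip idH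
  have he : ∀ m f, e m f = (Nat.card F : ℂ) ^ m.choose 2 * bf m f idH := fun _ _ => rfl
  have hA : ∀ m, ∏ i ∈ range m, ((Nat.card F : ℂ) ^ (i + 1) - 1) ≠ 0 := fun m =>
    Finset.prod_ne_zero_iff.2 fun i _ => card_pow_sub_one_ne i.succ_pos
  have he' : ∀ {m : ℕ} {W : Type _} [AddCommGroup W] [Module F W] [Finite W] (h : finrank F W = m) f,
      e m f = (∏ i ∈ range m, ((Nat.card F : ℂ) ^ (i + 1) - 1))⁻¹ * f (cls (1 : End F W)) := by
    intro m W _ _ _ h f
    rw [he, bf_idH h, card_GLV_cast h, mul_inv, ← mul_assoc, ← mul_assoc,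
      mul_inv_cancel₀ (pow_ne_zero _ hq), one_mul]
  have hE : ∀ m, e m (comp m (Hx F (1 : k))) =
      (∏ i ∈ range m, ((Nat.card F : ℂ) ^ (i + 1) - 1))⁻¹ := fun m => by
    have hm : finrank F (Fin m → F) = m := Module.finrank_fin_fun F
    rw [he, bf_idH hm, card_GLV_cast hm, mul_inv, ← mul_assoc, ← mul_assoc,
      mul_inv_cancel₀ (pow_ne_zero _ hq), one_mul, comp_apply, dim_cls, if_pos hm, Hx_apply, if_pos, mul_one]
    intro t ht
    rw [ev_one] at ht
    exact isConjRoot_one.2 (Multiset.eq_of_mem_replicate ht)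
  have H := (isNw_Hx (F := F) (1 : k)).graded e
    (by rw [← (mult_mf (F := F) ((cj F (1 : k)).indicator 1)).comp_zero]; exact (hE 0).trans (by simp))
    (fun i j a ha b hb => by
      rw [he, he, he, bf_mul_idH ha, show (i + j).choose 2 = i.choose 2 + j.choose 2 + i * j from ?_,
        pow_add, pow_add]
      · field_simp
      · exact choose_two_add i j)
    (fun n => comp_mem n _) fun n => Submodule.smul_mem _ _ (pI_mem_hom n (1 : k))
  have := H.of_rec isNw_two (Nat.card F : ℂ) (fun m => by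
    rcases m with _ | m
    · simp
    · rw [Finset.Nat.sum_antidiagonal_succ, Finset.sum_eq_single (0, m)]
      · simp only [hE, Finset.prod_range_succ, zero_add, le_refl, zero_le, if_true, one_mul]
        have := hA m
        have := card_pow_sub_one_ne (F := F) m.succ_pos
        field_simp
        ring
      · rintro ⟨a, b⟩ hab hne
        have h1 : a + b = m := mem_antidiagonal.1 hab
        have : ¬ a + 1 ≤ 1 := fun h => hne (Prod.ext (by simp only; omega) (by simp only; omega))
        simp only [if_neg this, zero_mul]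
      · simp) h0
  rw [fdeg_one, Nat.cast_one, one_smul, he' hV] at this
  obtain ⟨m, rfl⟩ := Nat.exists_eq_succ_of_ne_zero h0.ne'
  rw [Finset.prod_Ico_eq_prod_range, ← this, Finset.prod_range_succ]
  simp only [Nat.succ_eq_add_one, Nat.add_sub_cancel, add_comm 1]
  have := hA m
  have := card_pow_sub_one_ne (F := F) m.succ_pos
  field_simp

theorem res_P_one (hP : Par (Nat.card F) R N) (h0 : 0 < n) (hn : n ≤ N) (hV : finrank F V = n)
    {a : Lab k R} (ha : a ^ (Nat.card F ^ n - 1) = 1) :
    res V (P F n a) 1 = (-1) ^ (n - 1) * ∏ i ∈ Ico 1 n, ((Nat.card F : ℂ) ^ i - 1) := by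
  rw [res_apply, P, Hall.sum_apply, Finset.sum_eq_single 1, Hall.smul_apply, mv_one]
  · rw [pr_one_left (cast_ne_zero_of_par k hP) (hP.dvd h0 hn) ha, one_mul]
    exact pI_one h0 hV
  · intro x _ hx
    rw [Hall.smul_apply]
    refine mul_eq_zero_of_right _ (by_contra fun h => hx (mv_injective ?_))
    have := pI_mem_supp n (mv x) _ h 1 (by
      rw [Units.val_one, ev_one, Multiset.mem_replicate, hV]; exact ⟨h0.ne', rfl⟩)
    rw [mv_one]
    exact isConjRoot_one.1 (IsConjRoot.symm this)
  · simp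

end Cfsg.Gln

set_option linter.all false in
theorem Cfsg.Rz.Gln_Norm_0 : True := by
  have := @_root_.Cfsg.Gln.cycN.eq_def.{0}
  have := @_root_.Cfsg.Gln.cycN.eq_1.{0}
  have := @_root_.Cfsg.Gln.cycN.fun_cases
  have := @_root_.Cfsg.Gln.idH.eq_def.{0}
  have := @_root_.Cfsg.Gln.idH.fun_cases.{0}
  have := @_root_.Cfsg.Gln.genSub.eq_def.{0, 0}
  have := @_root_.Cfsg.Gln.genSub.fun_cases
  trivial
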