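import Cfsg.Agent.Gln.BlkProd
import Cfsg.Agent.Gln.Clif
import Cfsg.Agent.Mod.Dade

/-! # Twisted central elements: definitions, defect zero and cuspidal case (see `Gln/Tw`) -/

set_option autoImplicit false
set_option linter.unusedSectionVars false
set_option linter.unusedVariables false
set_option linter.style.haveILetI false

namespace Cfsg.Gln

open MonoidAlgebra GA Subgroup
open scoped commutatorElement

variable {G : Type*} [Group G] [Finite G] {p r : ℕ} {M : Ideal AlgInt}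

/-- `z`-twisted central elements. -/
def Tw (M : Ideal AlgInt) (z : G →* ℂˣ) (a : (ResK M)[G]) : Prop :=
  ∀ g x, a.coeff (g * x * g⁻¹) = red M (z g : ℂ) * a.coeff x

/-- `x` carries a twisted class sum which is not nilpotent in `B`. -/
def TwS (M : Ideal AlgInt) (B : Set (IrrCharacter G)) (z : G →* ℂˣ) (r : ℕ) (x : G) : Prop :=
  ∃ a, Tw M z a ∧ (∀ g, a.coeff g ≠ 0 → IsConj x g) ∧ ∃ χ ∈ B, lam M χ.1 (a ^ r) ≠ 0

theorem ne_zero_of_not_dvd (hr : ¬ p ∣ r) : r ≠ 0 := by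
  rintro rfl
  exact hr (dvd_zero p)

theorem coe_pow_eq_one {z : G →* ℂˣ} (hz : z ^ r = 1) (g : G) : (z g : ℂ) ^ r = 1 := by
  rw [← Units.val_pow_eq_pow_val, ← MonoidHom.pow_apply, hz, MonoidHom.one_apply, Units.val_one]

theorem Tw.coeff_ne_zero {z : G →* ℂˣ} {a : (ResK M)[G]} (h : Tw M z a) {x : G}
    (hx : ∀ g, a.coeff g ≠ 0 → IsConj x g) (ha : a ≠ 0) : a.coeff x ≠ 0 := fun e => by
  obtain ⟨g, hg⟩ := ne_zero_iff_coeff.1 ha
  obtain ⟨c, rfl⟩ := isConj_iff.1 (hx g hg)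
  exact hg (by rw [h, e, mul_zero])

theorem TwS.centralizer_le (hM : IsPModular p M) {z : G →* ℂˣ} (hz : z ^ r = 1) (hr : ¬ p ∣ r)
    {B : Set (IrrCharacter G)} {x : G} (h : TwS M B z r x) : centralizer {x} ≤ z.ker := by
  obtain ⟨a, h1, h2, χ, -, h3⟩ := h
  intro c hc
  have h4 := h1 c x
  rw [mem_centralizer_singleton_iff.1 hc, mul_inv_cancel_right, eq_comm, mul_eq_right₀
    (h1.coeff_ne_zero h2 fun e => h3 (by
      rw [e, zero_pow (ne_zero_of_not_dvd hr), map_zero]))] at h4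
  exact Units.val_eq_one.1 (hM.eq_of_red_eq_of_pow hr (coe_pow_eq_one hz c) (one_pow r)
    (h4.trans red_one.symm))

section
variable {n : Type*} [Fintype n] [DecidableEq n] {X : G →* Matrix n n ℂ} {T : Matrix n n ℂ}
  {χ : IrrCharacter G} {z : G →* ℂˣ}

theorem exists_trace_roots {A P : Matrix n n ℂ} {k : ℕ} (hk : k ≠ 0) (hA : A ^ k = 1)
    (hP : P * P = P) (hc : Commute P A) : ∃ (d : ℕ) (ε : Fin d → ℂ), (d : ℂ) = P.trace ∧
      (∀ i, ε i ^ k = 1) ∧ (A * P).trace = ∑ i, ε i := by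
  let u := Units.ofPowEqOne A k hA hk
  have hu : u ^ k = 1 := Units.ext hA
  haveI : Finite (zpowers u) := (isOfFinOrder_iff_pow_eq_one.2 ⟨k, hk.bot_lt, hu⟩).finite_zpowers
  have h := isCharacter_matrix_trace_mul_idem ((Units.coeHom _).comp (zpowers u).subtype) P hP
    fun ⟨_, j, rfl⟩ => (Commute.units_zpow_right (u := u) hc j).symm
  obtain ⟨ε, h1, h2, -⟩ := h.exists_roots ⟨u, mem_zpowers u⟩
  refine ⟨_, ε, by simpa using h.apply_one.symm, fun i => ?_, by simpa [u] using h2 1⟩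
  obtain ⟨c, hc⟩ := orderOf_dvd_of_pow_eq_one (x := (⟨u, mem_zpowers u⟩ : zpowers u))
    (Subtype.ext hu)
  rw [hc, pow_mul, h1, one_pow]

/-- `X` affords `χ` and `T` intertwines `X` with its twist by `z`. -/
structure TwRep (χ : IrrCharacter G) (z : G →* ℂˣ) (r : ℕ) (X : G →* Matrix n n ℂ)
    (T : Matrix n n ℂ) : Prop where
  tr : ∀ g, (X g).trace = χ g
  pow : T ^ r = 1
  comm : ∀ g, X g * T = (z g : ℂ) • (T * X g)

theorem comm_pow_of_tw (h : ∀ g, X g * T = (z g : ℂ) • (T * X g)) (j : ℕ) (g : G) :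
    X g * T ^ j = ((z ^ j) g : ℂ) • (T ^ j * X g) := by
  induction j with
  | zero => simp
  | succ j ih =>
    rw [pow_succ, ← mul_assoc, ih, smul_mul_assoc, mul_assoc, h, mul_smul_comm, smul_smul,
      ← mul_assoc, pow_succ z, MonoidHom.mul_apply, Units.val_mul]

theorem exists_twRep (hz : z ^ r = 1) (hr : r ≠ 0) (hχ : IsTw z χ.1 χ.1) :
    ∃ (X : G →* Matrix (Fin (charDegree χ.1)) (Fin (charDegree χ.1)) ℂ) (T : _),
      TwRep χ z r X T := by
  cases nonempty_fintype G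
  obtain ⟨X, hX⟩ := χ.isCharacter.exists_matrix
  have hI : IsIrrCharacter G fun g => (X g).trace := by rw [funext hX]; exact χ.2
  let Y : G →* Matrix _ _ ℂ := ⟨⟨fun g => (z g : ℂ) • X g, by simp⟩, fun g h => by
    simp [smul_smul, mul_comm]⟩
  have h1 := finrank_matIntertwiners X Y
  rw [show (fun g => (Y g).trace) = χ.1 from funext fun g => by
    simp only [Y, MonoidHom.coe_mk, OneHom.coe_mk, Matrix.trace_smul, hX, smul_eq_mul]
    rw [mul_comm]; exact (hχ g).symm, funext hX, IrrCharacter.ip_self, Nat.cast_eq_one] at h1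
  obtain ⟨⟨T, hT⟩, h0, -⟩ := finrank_eq_one_iff'.1 h1
  replace hT : ∀ g, X g * T = (z g : ℂ) • (T * X g) := fun g => (hT g).trans (mul_smul_comm _ _ _)
  obtain ⟨d, hd⟩ := matrix_schur hI (T := T ^ r) fun g => by
    rw [comm_pow_of_tw hT, hz, MonoidHom.one_apply, Units.val_one, one_smul]
  have hd0 : d ≠ 0 := by
    rintro rfl
    refine h0 (Subtype.ext ((isOrthRep_of_isIrr hI).eq_of_trace (by simp) fun x => ?_))
    have : ∀ k : ℕ, ∃ c : ℂ, (T * X x) ^ k = c • (T ^ k * X (x ^ k)) := fun k => by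
      induction k with
      | zero => exact ⟨1, by simp⟩
      | succ k ih =>
        obtain ⟨c, hc⟩ := ih
        exact ⟨c * z (x ^ k), by rw [pow_succ, hc, smul_mul_assoc, mul_assoc, ← mul_assoc (X _), hT,
          smul_mul_assoc, mul_smul_comm, smul_smul, pow_succ, pow_succ, map_mul, mul_assoc, mul_assoc]⟩
    obtain ⟨c, hc⟩ := this r
    simpa using (Matrix.isNilpotent_trace_of_isNilpotent ⟨r, by rw [hc, hd]; simp⟩).eq_zero
  obtain ⟨e, he⟩ := IsAlgClosed.exists_pow_nat_eq d⁻¹ hr.bot_lt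
  exact ⟨X, e • T, hX, by rw [smul_pow, he, hd, smul_smul, inv_mul_cancel₀ hd0, one_smul],
    fun g => by rw [mul_smul_comm, hT, smul_comm, smul_mul_assoc]⟩

theorem TwRep.pow_right (h : TwRep χ z r X T) (j : ℕ) : TwRep χ (z ^ j) r X (T ^ j) :=
  ⟨h.tr, by rw [← pow_mul, mul_comm, pow_mul, h.pow, one_pow], comm_pow_of_tw h.comm j⟩

theorem TwRep.conj (h : TwRep χ z r X T) (g x : G) :
    z g * (X (g * x * g⁻¹) * T).trace = (X x * T).trace := by
  rw [map_mul, mul_assoc, h.comm, mul_smul_comm, Matrix.trace_smul, ← mul_assoc,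
    Matrix.trace_mul_comm, map_mul, ← mul_assoc, ← mul_assoc, matRep_inv_mul, one_mul]
  simp

theorem TwRep.eq_one (h : TwRep χ z r X T) (hr : r ≠ 0) {j : ℕ} {x : G}
    (hx : (X x * T ^ j).trace ≠ 0) : z x = 1 := by
  obtain ⟨k, rfl⟩ := Nat.exists_eq_succ_of_ne_zero hr
  have : (X x * T ^ j).trace = z x * (X x * T ^ j).trace := by
    conv_lhs => rw [← mul_one (T ^ j), ← h.pow, pow_succ', ← mul_assoc (T ^ j), ← pow_succ,
      pow_succ', ← mul_assoc, ← mul_assoc, h.comm, smul_mul_assoc, smul_mul_assoc, Matrix.trace_smul,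
      Matrix.trace_mul_comm, ← mul_assoc, ← mul_assoc, ← pow_succ, h.pow, one_mul, smul_eq_mul]
  exact Units.val_eq_one.1 ((mul_eq_right₀ hx).1 this.symm)

theorem TwRep.mem_locO (h : TwRep χ z r X T) (hr : r ≠ 0) (x : G) : (X x * T).trace ∈ locO M := by
  by_cases hx : (X x * T).trace = 0
  · exact hx ▸ zero_mem _
  have hc : Commute (X x) T := (h.comm x).trans (by
    rw [h.eq_one hr (j := 1) (by rwa [pow_one]), Units.val_one, one_smul])
  obtain ⟨d, ε, -, h1, h2⟩ := exists_trace_roots (mul_ne_zero hr (Nat.card_pos (α := G)).ne')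
    (A := X x * T) (by rw [hc.mul_pow, ← map_pow, mul_comm r, pow_mul, pow_card_eq_one', mul_comm _ r,
      pow_mul, h.pow]; simp) (mul_one 1) (Commute.one_left _)
  rw [← mul_one (X x * T), h2]
  exact sum_mem fun i _ => mem_locO_of_pow_eq_one (mul_ne_zero hr Nat.card_pos.ne') (h1 i)

theorem exists_twSum {x : G} (hc : centralizer {x} ≤ z.ker) : ∃ F : G → ℂ,
    (∀ h, F (h * x * h⁻¹) = z h) ∧ ∀ y, ¬ IsConj x y → F y = 0 := by
  classical
  refine ⟨fun y => if e : IsConj x y then z (isConj_iff.1 e).choose else 0, fun h => ?_,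
    fun y hy => dif_neg hy⟩
  have e : IsConj x (h * x * h⁻¹) := isConj_iff.2 ⟨h, rfl⟩
  have h1 := (isConj_iff.1 e).choose_spec
  simp only [dif_pos e]
  generalize (isConj_iff.1 e).choose = c at h1
  have := hc (x := h⁻¹ * c) (mem_centralizer_singleton_iff.2 (by
    rw [mul_assoc, mul_inv_eq_iff_eq_mul.1 h1]; group))
  rw [MonoidHom.mem_ker, map_mul, map_inv, inv_mul_eq_one] at this
  rw [this]

theorem TwRep.lam_pow (h : TwRep χ z r X T) (hz : z ^ r = 1) (hr : r ≠ 0) {x : G} {F : G → ℂ}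
    (h1 : ∀ h, F (h * x * h⁻¹) = z h) (h2 : ∀ y, ¬ IsConj x y → F y = 0) :
    Tw M z (redGA M (ofFun F)) ∧
    ((centralizer {x}).index * (X x * T).trace / χ 1) ^ r ∈ locO M ∧
    lam M χ.1 (redGA M (ofFun F) ^ r) =
      red M (((centralizer {x}).index * (X x * T).trace / χ 1) ^ r) := by
  classical
  cases nonempty_fintype G
  have zO : ∀ g, (z g : ℂ) ∈ locO M := fun g => mem_locO_of_pow_eq_one hr (coe_pow_eq_one hz g)
  have h3 : ∀ g y, F (g * y * g⁻¹) = z g * F y := fun g y => by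
    by_cases hy : IsConj x y
    · obtain ⟨c, rfl⟩ := isConj_iff.1 hy
      rw [h1, ← Units.val_mul, ← map_mul, ← h1]
      congr 1; group
    · rw [h2 y hy, mul_zero, h2 _ fun e => hy (e.trans (isConj_iff.2 ⟨g, rfl⟩).symm)]
  have h4 : ofFun F ∈ intGA G M := fun y => by
    by_cases hy : IsConj x y
    · obtain ⟨c, rfl⟩ := isConj_iff.1 hy
      rw [coeff_ofFun, h1]; exact zO c
    · rw [coeff_ofFun, h2 y hy]; exact zero_mem _
  have h5 : ∀ g, cj g (ofFun F) = ((z g⁻¹ : ℂˣ) : ℂ) • ofFun F := fun g => ext_coeff fun y => by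
    simpa using h3 g⁻¹ y
  have h6 : ofFun F ^ r ∈ Zalg ℂ (⊤ : Subgroup G) ⊤ := mem_Zalg_top.2 fun g _ => by
    rw [map_pow, h5, smul_pow, coe_pow_eq_one hz, one_smul]
  let ρ := MonoidAlgebra.lift ℂ (Matrix n n ℂ) G X
  have hρ : ∀ a : ℂ[G], ρ a = ∑ g, a.coeff g • X g := fun a => by
    conv_lhs => rw [eq_sum_single a, map_sum]
    simp [ρ]
  have h7 : ∀ g, X g * ρ (ofFun F) = ((z g⁻¹ : ℂˣ) : ℂ) • (ρ (ofFun F) * X g) := fun g => by
    have := congrArg ρ (cj_mul_single g (ofFun F))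
    rw [h5, map_mul, map_mul, map_smul] at this
    simpa [ρ] using this.symm
  obtain ⟨c, hc⟩ := matrix_schur (X := X) (by rw [funext h.tr]; exact χ.2)
    (T := ρ (ofFun F) * T) fun g => by
      rw [← mul_assoc, h7, smul_mul_assoc, mul_assoc, mul_assoc, h.comm, mul_smul_comm, smul_smul]
      simp
  have h8 : (Fintype.card n : ℂ) = χ 1 := by rw [← h.tr, map_one, Matrix.trace_one]
  have h9 : (centralizer {x}).index * (X x * T).trace / χ 1 = c := by
    have := congrArg Matrix.trace hc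
    rw [hρ, Finset.sum_mul, Matrix.trace_sum, Matrix.trace_smul, Matrix.trace_one, h8,
      Finset.sum_congr rfl (g := fun y => if IsConj x y then (X x * T).trace else 0) fun y _ => ?_,
      ← Finset.sum_filter, Finset.sum_const, card_filter_isConj, nsmul_eq_mul] at this
    · rw [this, smul_eq_mul, mul_div_cancel_right₀ _ χ.apply_one_ne_zero]
    · rw [smul_mul_assoc, Matrix.trace_smul, coeff_ofFun, smul_eq_mul]
      split_ifs with hy
      · obtain ⟨c, rfl⟩ := isConj_iff.1 hy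
        rw [h1, h.conj]
      · rw [h2 y hy, zero_mul]
  have h10 : omega χ.1 (ofFun F ^ r) = c ^ r := by
    obtain ⟨k, rfl⟩ := Nat.exists_eq_succ_of_ne_zero hr
    have e : ρ (ofFun F) = c • T ^ k := by
      rw [← mul_one (ρ _), ← h.pow, pow_succ', ← mul_assoc, hc, smul_mul_assoc, one_mul]
    have e' : charExt χ.1 (ofFun F ^ (k + 1)) = (ρ (ofFun F ^ (k + 1))).trace := by
      simp only [charExt_apply, hρ, Matrix.trace_sum, Matrix.trace_smul, h.tr, smul_eq_mul]
    rw [omega, e', map_pow, e, smul_pow, ← pow_mul, mul_comm, pow_mul, h.pow, one_pow,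
      Matrix.trace_smul, Matrix.trace_one, h8, smul_eq_mul,
      mul_div_cancel_right₀ _ χ.apply_one_ne_zero]
  rw [h9, ← h10, ← redGA_pow h4]
  exact ⟨fun g y => by rw [coeff_redGA, coeff_ofFun, h3]; exact red_mul (zO g) (h4 y),
    omega_mem_locO χ h6 (pow_mem h4 r), lam_redGA χ h6 (pow_mem h4 r)⟩

theorem TwRep.twS (h : TwRep χ z r X T) (hM : IsPModular p M) (hz : z ^ r = 1) (hr : r ≠ 0) {x : G}
    (hx : 1 ≤ vM M ((centralizer {x}).index * (X x * T).trace / χ 1)) :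
    TwS M (blockOf M χ.1) z r x := by
  have h0 : (X x * T).trace ≠ 0 := fun e => by simp [e] at hx
  obtain ⟨F, h1, h2⟩ := exists_twSum (z := z) (x := x) fun c hc => by
    have := h.conj c x
    rw [mem_centralizer_singleton_iff.1 hc, mul_inv_cancel_right, mul_eq_right₀ h0] at this
    exact Units.val_eq_one.1 this
  obtain ⟨h3, h4, h5⟩ := h.lam_pow (M := M) hz hr h1 h2
  refine ⟨_, h3, fun g hg => by_contra fun e => hg (by simp [h2 g e]), χ, hM.mem_blockOf_self χ, ?_⟩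
  rw [h5, red_ne_zero_iff h4]
  exact le_antisymm (mem_locO_iff.1 h4) (by rw [map_pow]; exact one_le_pow₀ hx)

theorem TwRep.ne_zero (h : TwRep χ z r X T) (hM : IsPModular p M) (hz : z ^ r = 1) (hr : ¬ p ∣ r)
    {x : G} (hx : TwS M (blockOf M χ.1) z r x) : (X x * T).trace ≠ 0 := fun e => by
  obtain ⟨F, h1, h2⟩ := exists_twSum (hx.centralizer_le hM hz hr)
  obtain ⟨a, a1, a2, ψ, hψ, a3⟩ := hx
  have hr' := ne_zero_of_not_dvd hr
  have : a = a.coeff x • redGA M (ofFun F) := ext_coeff fun y => by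
    by_cases hy : IsConj x y
    · obtain ⟨c, rfl⟩ := isConj_iff.1 hy
      simp [a1 c x, h1, mul_comm]
    · simp [h2 y hy, not_imp_comm.1 (a2 y) hy]
  rw [this, smul_pow, map_smul, (isPBlock_blockOf χ).lam_eq hM hψ (hM.mem_blockOf_self χ),
    (h.lam_pow hz hr' h1 h2).2.2, e] at a3
  simp [hr'] at a3

end

theorem TwS.base (hM : IsPModular p M) {χ : IrrCharacter G} (h0 : ∀ g, p ∣ orderOf g → χ g = 0)
    {μ z : G →* ℂˣ} (hμ : μ ^ r = 1) (hr : ¬ p ∣ r) (hχ : IsTw μ χ.1 χ.1) (hz : z ∈ zpowers μ) :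
    (∃ x, TwS M (blockOf M χ.1) z r x) ∧ ∀ x, TwS M (blockOf M χ.1) z r x → μ x = 1 := by
  cases nonempty_fintype G
  have := Fintype.ofFinite (ConjClasses G)
  have hr' := ne_zero_of_not_dvd hr
  obtain ⟨X, T, h⟩ := exists_twRep hμ hr' hχ
  obtain ⟨j, rfl⟩ := (isOfFinOrder_iff_pow_eq_one.2 ⟨r, hr'.bot_lt, hμ⟩).mem_powers_iff_mem_zpowers.2 hz
  have h' := h.pow_right j
  have hz' : (μ ^ j) ^ r = 1 := MonoidHom.ext fun g => Units.ext (by
    simp [pow_right_comm _ j, coe_pow_eq_one hμ g])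
  refine ⟨?_, fun x hx => h.eq_one hr' (h'.ne_zero hM hz' hr hx)⟩
  beta_reduce
  generalize T ^ j = T, μ ^ j = z at h' hz' ⊢
  haveI := hM.fact
  obtain ⟨k, rfl⟩ := Nat.exists_eq_succ_of_ne_zero hr'
  have h1 := congrArg (fun A => (A * T).trace)
    (isOrthRep_of_isIrr (X := X) (by rw [funext h.tr]; exact χ.2) (T ^ k))
  have h2 : IsClassFunction G fun x => (X x⁻¹ * T ^ k).trace * (X x * T).trace := fun x g => by
    have e : ((z ^ k) g : ℂ) * z g = 1 := by
      rw [← coe_pow_eq_one hz' g, pow_succ, MonoidHom.pow_apply, Units.val_pow_eq_pow_val]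
    have e1 := (h'.pow_right k).conj g x⁻¹
    rw [show g * x⁻¹ * g⁻¹ = (g * x * g⁻¹)⁻¹ by group] at e1
    simp only [← e1, ← h'.conj g x]
    linear_combination (-(X (g * x * g⁻¹)⁻¹ * T ^ k).trace * (X (g * x * g⁻¹) * T).trace) * e
  simp only [smul_mul_assoc, Finset.sum_mul, Matrix.trace_smul, Matrix.trace_sum, ← pow_succ, h'.pow,
    Matrix.trace_one, smul_eq_mul, Matrix.trace_mul_comm (T ^ k), h2.sum_eq_sum_conjClasses] at h1
  have hd : (χ 1 : ℂ) / Nat.card G ∈ locO M := by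
    rw [χ.apply_one, hM.natCast_div_mem_iff χ.charDegree_pos.ne' Nat.card_pos.ne']
    exact (χ.defect_zero_iff_vanish.2 h0).ge
  by_contra! H
  have h3 := vM_sum_lt_one (M := M) (s := Finset.univ) (f := fun K : ConjClasses G =>
    (centralizer {K.out}).index * (X K.out * T).trace / χ 1 *
      (χ 1 / Nat.card G * (X K.out⁻¹ * T ^ k).trace)) fun K _ =>
    vM_mul_lt_one (not_le.1 fun e => H _ (h'.twS hM hz' hr' e))
      (mul_mem hd ((h'.pow_right k).mem_locO hr' _))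
  refine h3.ne ((congrArg _ ?_).trans (map_one _))
  have h4 := χ.apply_one_ne_zero
  have h5 : (Nat.card G : ℂ) ≠ 0 := Nat.cast_ne_zero.2 Nat.card_pos.ne'
  rw [Fintype.card_fin, ← χ.apply_one, mul_comm, mul_left_inj' h4, Fintype.card_eq_nat_card] at h1
  rw [← div_self h5]
  conv_rhs => rw [div_eq_mul_inv]; lhs; rw [← h1]
  rw [Finset.sum_mul]
  exact Finset.sum_congr rfl fun K _ => by field_simp

theorem TwS.cusp (hM : IsPModular p M) {θ : IrrCharacter G} {z : G →* ℂˣ} (hz : z ^ r = 1)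
    (hr : ¬ p ∣ r) (hθ : IsTw z θ.1 θ.1) {U : Subgroup G} (hU : ¬ p ∣ Nat.card U) (hUz : U ≤ z.ker)
    (ψ : U →* ℂˣ) (hψ : ip (θ.1 ∘ U.subtype) (fun u => (ψ u : ℂ)) = 1) {Z : Subgroup G}
    (hZ : Z ≤ center G) (hd : (Nat.card G).factorization p ≤
      (charDegree θ.1).factorization p + (Nat.card Z).factorization p) :
    ∃ u ∈ U, TwS M (blockOf M θ.1) z r u := by
  cases nonempty_fintype U
  have hr' := ne_zero_of_not_dvd hr
  obtain ⟨X, T, h⟩ := exists_twRep hz hr' hθ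
  have hU' : (Nat.card U : ℂ) ≠ 0 := Nat.cast_ne_zero.2 Nat.card_pos.ne'
  obtain ⟨P, hP⟩ : ∃ P, P = (Nat.card U : ℂ)⁻¹ • ∑ u : U, ((ψ u⁻¹ : ℂˣ) : ℂ) • X u := ⟨_, rfl⟩
  have h1 : ∀ v : U, X v * P = (ψ v : ℂ) • P := fun v => by
    rw [hP, mul_smul_comm, smul_comm (ψ v : ℂ), Finset.mul_sum,
      ← Equiv.sum_comp (Equiv.mulLeft v) (fun u => ((ψ u⁻¹ : ℂˣ) : ℂ) • X u)]
    congr 1
    rw [Finset.smul_sum]
    refine Finset.sum_congr rfl fun u _ => ?_
    simp [smul_smul, mul_comm]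
  obtain ⟨d, ε, e1, e2, e3⟩ := exists_trace_roots hr' h.pow (P := P) (by
    conv_lhs => lhs; rw [hP]
    simp only [smul_mul_assoc, Finset.sum_mul, h1, smul_smul, ← Units.val_mul, ← map_mul,
      inv_mul_cancel, map_one, Units.val_one, ← Finset.sum_smul]
    simp [← Fintype.card_eq_nat_card]) (by
    rw [hP]
    refine .smul_left (.sum_left _ _ _ fun u _ => .smul_left ?_ _) _
    exact (h.comm u).trans (by rw [hUz u.2, Units.val_one, one_smul]))
  obtain rfl : d = 1 := Nat.cast_eq_one.1 (e1.trans (by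
    rw [← hψ, ip_def, hP, Matrix.trace_smul, Matrix.trace_sum]
    simp [h.tr, mul_comm, linear_conj_apply]))
  have e4 : ∑ u : U, (X u * T).trace * ((ψ u⁻¹ : ℂˣ) : ℂ) = Nat.card U * ε 0 := by
    rw [Fin.sum_univ_one, Matrix.trace_mul_comm] at e3
    rw [← e3, hP, smul_mul_assoc, Matrix.trace_smul, smul_eq_mul, mul_inv_cancel_left₀ hU',
      Finset.sum_mul, Matrix.trace_sum]
    simp [mul_comm]
  by_contra! H
  have h3 := vM_sum_lt_one (M := M) (s := Finset.univ) (f := fun u : U =>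
    (X u * T).trace * ((ψ u⁻¹ : ℂˣ) : ℂ)) fun u _ => vM_mul_lt_one (not_le.1 fun e =>
      H _ u.2 (h.twS hM hz hr' ?_)) (mem_locO_of_pow_eq_one (Nat.card_pos (α := U)).ne' (by
        rw [← Units.val_pow_eq_pow_val, ← map_pow, pow_card_eq_one', map_one, Units.val_one]))
  · rw [e4, map_mul, hM.vM_natCast_eq_one hU, one_mul] at h3
    exact (pow_lt_one₀ zero_le h3 hr').ne (by rw [← map_pow, e2, map_one])
  · have h4 : (θ 1 : ℂ) / (centralizer {(u : G)}).index ∈ locO M := by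
      rw [θ.apply_one, hM.natCast_div_mem_iff θ.charDegree_pos.ne' index_ne_zero_of_finite]
      have h5 := (Nat.factorization_le_iff_dvd Nat.card_pos.ne' Nat.card_pos.ne').2
        (card_dvd_of_le (hZ.trans (center_le_centralizer {(u : G)}))) p
      rw [← (centralizer {(u : G)}).index_mul_card,
        Nat.factorization_mul index_ne_zero_of_finite Nat.card_pos.ne', Finsupp.add_apply] at hd
      omega
    rw [div_mem_locO_iff (Nat.cast_ne_zero.2 index_ne_zero_of_finite)] at h4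
    rw [map_div₀, map_mul, one_le_div₀ (by simpa [pos_iff_ne_zero] using θ.apply_one_ne_zero)]
    exact h4.trans (le_mul_of_one_le_right' e)

end Cfsg.Gln

set_option linter.all false in
theorem Cfsg.Rz.Gln_TwA_0 : True := by
  have := @_root_.Cfsg.Gln.Tw.eq_def.{0}
  have := @_root_.Cfsg.Gln.Tw.eq_1.{0}
  have := @_root_.Cfsg.Gln.Tw.fun_cases
  have := @_root_.Cfsg.Gln.TwS.congr_simp.{0}
  have := @_root_.Cfsg.Gln.TwS.eq_def.{0}
  have := @_root_.Cfsg.Gln.TwS.eq_1.{0}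
  have := @_root_.Cfsg.Gln.TwS.fun_cases
  trivial

set_option linter.all false in
theorem Cfsg.Rz.Gln_TwA_1 : True := by
  have := @_root_.Cfsg.Gln.TwRep.mk.congr_simp.{0, 0}
  trivial
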