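import Cfsg.Agent.Gln.StepA
import Cfsg.Agent.Gln.Cut
import Cfsg.Agent.Gln.GG
import Cfsg.Agent.Gln.TwA

/-!
# One step of Brauer induction in `GL(V)` (S4536 project)

A `Piece p φ j` is `K = F(ζ)`, `ζ` of order `M = (q^(dj) - 1)_p` (`d = deg φ`), `m = dj / [K:F]` and the cuspidal character
`θ = ± P K m φ.rep` of `GL_m(K)`.
`nonempty_piece`: `ζ₀ = mv x` from `Mu.exists_orderOf_eq`, `K = F⟮ζ₀⟯`, `c = fdeg ζ₀`, `c ∣ i ↔ M ∣ q^i - 1`
(`pow_eq_iff_fdeg_dvd`); the orbit of `φ.rep` under `frob (q^c)` has length `m`: `d ∣ c i ↔ (∃ l, c i = d l, j ∣ l) ↔ m ∣ i`;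
`exists_irr_P` over `K` with `Par.pow`, `Par.mono`.
`induces`: `deriv_chi` with `ε = cut`, `E = EE ζ m (star (P K m φ.rep))`, `γ = M⁻¹` (`EE_P_mul`, `bf_tau_P`, `star_P`,
`adj_P_eq_zero`, `Per.card_filter_iterate`; only regular colours occur as `j' ≤ sz (a φ')`).  So
`res (EE (chi a)) = γ • pRegularPart (∑ ± ψ_i)`, the `ψ_i` (`i` with `Good (dnl a φ i j)`) pairwise distinct basic characters
(`IsLab.eq_iff`, `eq_of_ms_sub_single`).  If this were orthogonal to all `ψ' ∈ blockOf ψ`, then so would be the part with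
`ψ_i ∈ blockOf ψ` (`IsPBlock.ip_pRegularPart_eq_zero`), which is then orthogonal to all characters, i.e. `0`, against
`linearIndependent_basic`.  Finish with `ip_secFun`, `induces_of_ip_ne_zero`, `blockOf_prod`.
`θ_scal`: `tau_P`, `tau_cls` with `F = F' = K` and the `p`-elements `ζ ^ i` and `1`.
`isDefectGroup`: `IsPBlock.isDefectGroup_iff_exists_char`, `card_factorization`.
`exists_twS`: write `y = ω^(R/(q-1))`; with `ω' = ω^((q^c-1)/(q-1))`, `y = ω'^(R/(q^c-1))` and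
`dch y (det_F x) = lfn ω (N (det_K x)) = lfn ω' (det_K x)` (`LinearMap.det_restrictScalars`,
`FiniteField.algebraMap_norm_eq_pow`), so the twist of `P K m a` is `P K m (a y)` (`hom_lfn_P`, `prod_ev`).  From
`a y = a^t`, `t = q^(e0 i)`: `a^(t^s) = a y^s`; choose `s = p^K s'`, `s ≡ 1 mod r`, `c ∣ e0 p^K`; `P_pow`.  Then
`exists_whittaker`, `res_P_one`, `TwS.cusp`, `dt_eq_one_of_isNilpotent`.
`sameBlock_of_sameCls`: induction on `n`; if all weights vanish `ms_eq_of_wt_zero`; else remove an `ee φ`-hook on both sides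
(`exists_sub_single_of_wt`, `wt_eq_of_sum_eq`), use one piece, one `e`, and `Induces.unique`.
-/

set_option autoImplicit false
set_option linter.unusedSectionVars false
set_option linter.unusedVariables false
set_option linter.style.haveILetI false

namespace Cfsg.Gln

open Module Finset Function Subgroup

universe u v

variable {F : Type u} [Field F] [Finite F] {k : Type v} [Field k] [Algebra F k] [IsAlgClosed k]
  [Algebra.IsAlgebraic F k] {R N n p j : ℕ} [NeZero R] {M : Ideal AlgInt}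
  {V V₂ : Type*} [AddCommGroup V] [Module F V] [Finite V] [AddCommGroup V₂] [Module F V₂] [Finite V₂]

variable (p) in
/-- The data of a cuspidal block with central defect group. -/
structure Piece (φ : Col F k R) (j : ℕ) where
  /-- the field -/
  K : IntermediateField F k
  [fin : Finite K]
  /-- the generator -/
  ζ : Kˣ
  /-- the dimension -/
  m : ℕ
  /-- the character -/
  θ : IrrCharacter (GLV K (Fin m → K))
  reg : IsReg p φ
  pos : 0 < j
  adj : Algebra.adjoin F {(ζ : K)} = ⊤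
  ord : orderOf ζ = ordProj[p] (Nat.card F ^ (φ.deg * j) - 1)
  ne_one : ζ ≠ 1
  dim : finrank F K * m = φ.deg * j
  res_eq : res (Fin m → K) (P K m φ.rep) = (-1 : ℂ) ^ (m - 1) • θ.1

attribute [instance] Piece.fin

variable {φ : Col F k R} {a b : Col F k R → Fin N → ℕ}

/-- The underlying space. -/
abbrev Piece.W (π : Piece p φ j) : Type v := Fin π.m → π.K

/-- The defect group. -/
abbrev Piece.Q (π : Piece p φ j) : Subgroup (GLV π.K π.W) := zpowers (scal π.W π.ζ)

theorem Piece.finrank_W (π : Piece p φ j) : finrank F π.W = φ.deg * j := by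
  rw [← π.dim, ← Module.finrank_mul_finrank F π.K π.W, Module.finrank_fin_fun]

theorem Piece.card_K (π : Piece p φ j) : Nat.card π.K = Nat.card F ^ finrank F π.K := card_eq_pow

theorem Piece.finrank_dvd_iff (π : Piece p φ j) (n : ℕ) :
    finrank F π.K ∣ n ↔ π.ζ ^ (Nat.card F ^ n - 1) = 1 := by
  have h1 : fdeg F (algebraMap π.K k π.ζ) = finrank F π.K := by
    rw [fdeg, minpoly.algebraMap_eq (algebraMap π.K k).injective,
      ← Field.primitive_element_iff_minpoly_natDegree_eq,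
      ← IntermediateField.toSubalgebra_injective.eq_iff,
      IntermediateField.adjoin_simple_toSubalgebra_of_isAlgebraic (Algebra.IsAlgebraic.isAlgebraic _),
      π.adj, IntermediateField.top_toSubalgebra]
  rw [← h1, ← pow_eq_iff_fdeg_dvd, ← pow_pow_eq_iff Nat.card_pos, ← map_pow,
    (algebraMap π.K k).injective.eq_iff, Units.ext_iff, Units.val_pow_eq_pow_val]

theorem Piece.isPElt (π : Piece p φ j) : IsPElt p π.ζ := ⟨_, π.ord⟩

theorem Piece.nonempty_equiv (π : Piece p φ j) (h : finrank F V₂ + φ.deg * j = finrank F V) :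
    Nonempty ((π.W × V₂) ≃ₗ[F] V) := by
  refine FiniteDimensional.nonempty_linearEquiv_of_finrank_eq ?_
  rw [Module.finrank_prod, π.finrank_W, add_comm, h]

private theorem pow_eq_one_of_dvd' {G : Type*} [Monoid G] {a : G} {m n : ℕ} (h : a ^ m = 1)
    (h' : m ∣ n) : a ^ n = 1 := by
  obtain ⟨c, rfl⟩ := h'
  rw [pow_mul, h, one_pow]

/-- A combination of a family with independent regular parts has a nonzero regular block part. -/
theorem exists_ip_pRegularPart_ne_zero {G : Type*} [Group G] [Finite G] [Fact p.Prime]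
    (hM : IsPModular p M) {E : Set (IrrCharacter G)}
    (hE : LinearIndependent ℂ fun χ : E => pRegularPart p (χ.1.1 : G → ℂ)) {Θ : G → ℂ}
    (hΘ : Θ ∈ Submodule.span ℂ (Set.range fun χ : E => (χ.1.1 : G → ℂ))) {ψ : IrrCharacter G}
    (h : ip Θ ψ.1 ≠ 0) : ∃ ψ' ∈ blockOf M ψ.1, ip (pRegularPart p Θ) ψ'.1 ≠ 0 := by
  by_contra! hc
  let L : (G → ℂ) →ₗ[ℂ] G → ℂ :=
    { toFun := pRegularPart p
      map_add' := fun _ _ => by simp only [pRegularPart_eq_indicator, Set.indicator_add']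
      map_smul' := fun _ _ => funext fun g => by
        simp only [pRegularPart_apply, RingHom.id_apply, Pi.smul_apply]
        split_ifs <;> simp }
  have h1 : IsClassFunction G Θ ∧ blockPart (blockOf M ψ.1) Θ ∈
      Submodule.span ℂ (Set.range fun χ : E => (χ.1.1 : G → ℂ)) := by
    clear h hc
    induction hΘ using Submodule.span_induction with
    | mem x hx =>
      obtain ⟨χ, rfl⟩ := hx
      refine ⟨χ.1.isClassFunction, ?_⟩
      by_cases hχ : χ.1 ∈ blockOf M ψ.1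
      · rw [blockPart_irr_of_mem hχ]; exact Submodule.subset_span ⟨χ, rfl⟩
      · rw [blockPart_irr_of_notMem hχ]; exact zero_mem _
    | zero => exact ⟨fun _ _ => rfl, by rw [blockPart_zero]; exact zero_mem _⟩
    | add x y _ _ hx hy => exact ⟨hx.1.add hy.1, by rw [blockPart_add]; exact add_mem hx.2 hy.2⟩
    | smul c x _ hx =>
      exact ⟨hx.1.smul c, by rw [blockPart_smul]; exact Submodule.smul_mem _ _ hx.2⟩
  have h2 := blockPart_eq_zero_iff.2 hc
  rw [(isPBlock_blockOf ψ).blockPart_pRegularPart hM h1.1] at h2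
  obtain ⟨l, hl⟩ := (Finsupp.mem_span_range_iff_exists_finsupp).1 h1.2
  have h3 : l = 0 := linearIndependent_iff.1 hE l (by
    rw [← h2, ← hl]
    refine Eq.trans ?_ (map_finsuppSum L l _).symm
    simp only [map_smul]
    rfl)
  rw [h3, Finsupp.sum_zero_index] at hl
  exact h (by rw [← ip_blockPart_of_mem Θ (hM.mem_blockOf_self ψ), ← hl, ip_zero_left])

private theorem mul_pow_eq_pow_pow {G : Type*} [CommGroup G] {a y : G} {t : ℕ} (h : a * y = a ^ t)
    (hy : y ^ t = y) (n : ℕ) : a * y ^ n = a ^ t ^ n := by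
  induction n with
  | zero => simp
  | succ n ih =>
    rw [pow_succ t, pow_mul, ← ih, mul_pow, ← h, ← pow_mul, mul_comm n, pow_mul, hy, pow_succ',
      mul_assoc]

variable (hP : Par (Nat.card F) R N) (hp : p.Prime) (hpF : (p : F) ≠ 0)
include hP hp hpF

theorem nonempty_piece (hφ : IsReg p φ) (hj : 0 < j) (hN : φ.deg * j ≤ N)
    (h1 : p ∣ Nat.card F ^ (φ.deg * j) - 1)
    (h2 : ∀ i, ordProj[p] (Nat.card F ^ (φ.deg * j) - 1) ∣ Nat.card F ^ (φ.deg * i) - 1 → j ∣ i) :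
    Nonempty (Piece p φ j) := by
  have hq : 0 < Nat.card F := Nat.card_pos
  have hd := deg_pos hP φ
  have hdj := Nat.mul_pos hd hj
  obtain ⟨x, hx⟩ := Mu.exists_orderOf_eq (cast_ne_zero_of_par k hP)
    ((Nat.ordProj_dvd _ p).trans (hP.dvd hdj hN))
  have hi : IsIntegral F (mv x) := Algebra.IsIntegral.isIntegral _
  let K := IntermediateField.adjoin F {mv x}
  haveI : FiniteDimensional F K := IntermediateField.adjoin.finiteDimensional hi
  haveI : Finite K := Module.finite_of_finite F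
  have hc : ∀ i, finrank F K ∣ i ↔
      ordProj[p] (Nat.card F ^ (φ.deg * j) - 1) ∣ Nat.card F ^ i - 1 := fun i => by
    rw [IntermediateField.adjoin.finrank hi, ← hx, orderOf_dvd_iff_pow_eq_one,
      ← pow_pow_eq_iff hq, ← mv_injective.eq_iff, mv_pow, pow_eq_iff_fdeg_dvd, fdeg]
  obtain ⟨m, hm⟩ := (hc _).2 (Nat.ordProj_dvd _ p)
  have hc0 : 0 < finrank F K := Module.finrank_pos
  have hm0 : 0 < m := Nat.pos_of_mul_pos_left (hm ▸ hdj)
  have hK : Nat.card K = Nat.card F ^ finrank F K := card_eq_pow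
  have hP' : Par (Nat.card K) R m := hK ▸ hP.pow hc0 hm0 (hm ▸ hN)
  have hdeg : ∀ n, (Orb.mk _ φ.rep : Col K k R).deg ∣ n ↔ m ∣ n := fun n => by
    rw [deg_dvd_iff hP', hK, ← pow_mul, ← deg_dvd_iff hP, Orb.mk_rep]
    constructor
    · rintro ⟨l, hl⟩
      obtain ⟨l', rfl⟩ := h2 l ((hc _).1 ⟨n, hl.symm⟩)
      rw [← mul_assoc, hm, mul_assoc] at hl
      exact ⟨l', Nat.eq_of_mul_eq_mul_left hc0 hl⟩
    · rintro ⟨l, rfl⟩
      exact ⟨j * l, by rw [← mul_assoc, ← hm, mul_assoc]⟩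
  obtain ⟨θ, hθ⟩ := exists_irr_P (V := Fin m → K) hP' hm0 le_rfl (Module.finrank_fin_fun K)
    (Nat.dvd_antisymm ((hdeg m).2 dvd_rfl) ((hdeg _).1 dvd_rfl))
  let ζ : Kˣ := Units.mk0 (IntermediateField.AdjoinSimple.gen F (mv x)) fun h =>
    mv_ne_zero x (congrArg Subtype.val h)
  have hζ : orderOf ζ = orderOf x := orderOf_eq_orderOf_iff.2 fun n => by
    rw [Units.ext_iff, Subtype.ext_iff, ← mv_injective.eq_iff, mv_pow, mv_one]
    rfl
  refine ⟨⟨K, ζ, m, θ, hφ, hj, (IntermediateField.adjoin.powerBasis hi).adjoin_gen_eq_top,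
    hζ.trans hx, fun h => ?_, hm.symm, hθ⟩⟩
  rw [h, orderOf_one, hx] at hζ
  have h0 : Nat.card F ^ (φ.deg * j) - 1 ≠ 0 :=
    Nat.sub_ne_zero_of_lt (Nat.one_lt_pow hdj.ne' one_lt_card_F)
  exact (Nat.one_lt_pow (hp.factorization_pos_of_dvd h0 h1).ne' hp.one_lt).ne hζ

theorem nonempty_piece_ee (hφ : IsReg p φ) (hN : φ.deg * ee p φ ≤ N) :
    Nonempty (Piece p φ (ee p φ)) := by
  have h1 := (ee_dvd_iff hP hp hpF φ _).1 dvd_rfl
  have hj := ee_pos hP hp hpF φ
  refine nonempty_piece hP hp hpF hφ hj hN h1 fun i hi => (ee_dvd_iff hP hp hpF φ _).2 ?_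
  refine (dvd_pow_self p (hp.factorization_pos_of_dvd ?_ h1).ne').trans hi
  exact Nat.sub_ne_zero_of_lt (Nat.one_lt_pow (Nat.mul_pos (deg_pos hP φ) hj).ne' one_lt_card_F)

/-- Removing one hook at a colour of positive weight. -/
theorem exists_dnl (h : RegLab p a) (ha : Good a) (hw : 0 < wtc p a φ) : IsReg p φ ∧
    ∃ i, ee p φ ≤ a φ i ∧ Good (dnl a φ i (ee p φ)) ∧ wtc p (dnl a φ i (ee p φ)) φ + 1 = wtc p a φ ∧
      (∀ φ', φ' ≠ φ → dnl a φ i (ee p φ) φ' = a φ') ∧
      ∀ φ', rs (ee p φ') (ms (dnl a φ i (ee p φ) φ')) = rs (ee p φ') (ms (a φ')) := by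
  have he := ee_pos hP hp hpF φ
  obtain ⟨i, hi, hi'⟩ := exists_sub_single_of_wt he (ha φ) hw
  have h1 : dnl a φ i (ee p φ) φ = a φ - Pi.single i (ee p φ) := update_self ..
  have h2 : ∀ φ', φ' ≠ φ → dnl a φ i (ee p φ) φ' = a φ' := fun φ' h => update_of_ne h ..
  refine ⟨by_contra fun hφ => hw.ne' (h.wtc_eq_zero hP hp hpF ha hφ), i, hi, fun φ' => ?_, ?_, h2,
    fun φ' => ?_⟩
  · by_cases e : φ' = φ
    · rw [e, h1]; exact hi'
    · rw [h2 _ e]; exact ha _
  · have := wt_sub_single (j := 1) he (i := i) (a := a φ) (by rwa [mul_one]) (by rwa [mul_one])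
    rwa [mul_one, ← h1] at this
  · by_cases e : φ' = φ
    · rw [e, h1]; exact rs_sub_single dvd_rfl hi
    · rw [h2 _ e]

theorem Piece.m_pos (π : Piece p φ j) : 0 < π.m := by
  exact Nat.pos_of_mul_pos_left (π.dim ▸ Nat.mul_pos (deg_pos hP φ) π.pos)

theorem Piece.par (π : Piece p φ j) (hN : φ.deg * j ≤ N) : Par (Nat.card π.K) R π.m :=
  π.card_K ▸ hP.pow Module.finrank_pos (π.m_pos hP hp hpF) (π.dim ▸ hN)

theorem Piece.rep_pow (π : Piece p φ j) : φ.rep ^ (Nat.card π.K ^ π.m - 1) = 1 := by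
  rw [π.card_K, ← pow_mul, π.dim]
  exact Gln.rep_pow hP φ j

theorem Piece.cast_ne (π : Piece p φ j) : (p : π.K) ≠ 0 := fun h =>
  hpF ((algebraMap F π.K).injective (by rw [map_natCast, h, map_zero]))

theorem Piece.isSec (π : Piece p φ j) (e : (π.W × V₂) ≃ₗ[F] V) :
    IsSec p (stepHom e : GLV π.K π.W × GLV F V₂ →* GLV F V) (stepHom e (scal π.W π.ζ, 1)) := by
  haveI := Fact.mk hp
  refine ⟨(blkHom_injective e).comp (rsHom_injective.prodMap injective_id),
    π.isPElt.map ((stepHom e).comp ((MonoidHom.inl _ _).comp (scal π.W))), ?_⟩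
  ext g
  rw [mem_range_stepHom e π.adj π.ne_one, mem_centralizer_singleton_iff, eq_comm]

theorem Piece.finrank_dvd (π : Piece p φ j) :
    ∃ t, finrank F π.K ∣ orderOf (Nat.card F : ZMod p) * p ^ t := by
  refine ⟨(Nat.card F ^ (φ.deg * j) - 1).factorization p, (π.finrank_dvd_iff _).2 ?_⟩
  rw [← orderOf_dvd_iff_pow_eq_one, π.ord]
  generalize (Nat.card F ^ (φ.deg * j) - 1).factorization p = t
  rw [pow_mul]
  have h1 : (p : ℤ) ∣ (Nat.card F : ℤ) ^ orderOf (Nat.card F : ZMod p) - 1 := by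
    rw [← ZMod.intCast_zmod_eq_zero_iff_dvd]
    push_cast
    rw [pow_orderOf_eq_one, sub_self]
  have h2 := dvd_sub_pow_of_dvd_sub h1 t
  rw [one_pow] at h2
  rw [← Int.natCast_dvd_natCast, Nat.cast_sub (Nat.one_le_pow _ _ (pow_pos Nat.card_pos _))]
  push_cast
  exact (pow_dvd_pow _ t.le_succ).trans h2

theorem Piece.card_Q (π : Piece p φ j) :
    Nat.card π.Q = ordProj[p] (Nat.card F ^ (φ.deg * j) - 1) := by
  haveI : NeZero π.m := ⟨(π.m_pos hP hp hpF).ne'⟩
  rw [Nat.card_zpowers, orderOf_injective _ scal_injective, π.ord]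

theorem Piece.EE_chi (π : Piece p φ j) (hN : φ.deg * j ≤ N) (ha : RegLab p a) (ha' : Good a)
    (hs : size a ≤ N) : EE k p π.ζ π.m (star (P π.K π.m φ.rep)) (chi a) =
      ((ordProj[p] (Nat.card F ^ (φ.deg * j) - 1) : ℕ) : ℂ)⁻¹ •
        cut F (regS k p) (∑ i with j ≤ a φ i, chi (dnl a φ i j)) := by
  classical
  have hP' := π.par hP hp hpF hN
  have hm := π.m_pos hP hp hpF
  refine deriv_chi (cut F (regS k p)).toRingHom _ π.pos _ ha' (EE_one _ hm _)
    fun φ' j' h0 hj' f => ?_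
  have hn := Nat.mul_pos (deg_pos hP φ') h0
  have hn' : φ'.deg * j' ≤ N := (Nat.mul_le_mul_left _ hj').trans
    ((Finset.single_le_sum (f := fun φ => φ.deg * sz (a φ)) (fun _ _ => Nat.zero_le _)
      (mem_univ φ')).trans hs)
  rw [pc, EE_P_mul hp hpF π.adj π.isPElt π.ne_one (fun i h0 hi u hu => by
      rw [star_P hP' hm le_rfl]
      refine adj_P_eq_zero hP' le_rfl ?_ h0 hi hu
      rw [inv_pow φ.rep, π.rep_pow hP hp hpF]
      exact inv_one (G := Lab k R)) hn,
    bf_tau_P hp hpF π.adj π.isPElt hP hm (π.dim ▸ hN) hn hn' (π.dim ▸ Gln.rep_pow hP φ j)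
      (Gln.rep_pow hP φ' j') π.reg (by_contra fun h => by have := ha φ' h; omega), π.dim]
  congr 2
  have := (per_lab hP).card_filter_iterate (a := φ'.rep) (b := φ.rep) (n := φ'.deg * j')
    (by rw [Orb.mk_rep]; exact dvd_mul_right _ _)
  simp only [frob_iterate, Orb.mk_rep] at this
  rw [this]
  by_cases e : φ' = φ
  · subst e
    simp only [(mul_right_injective₀ (deg_pos hP φ').ne').eq_iff, true_and, if_true,
      Nat.mul_div_cancel_left _ (deg_pos hP φ')]
    split_ifs with e'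
    · rw [e', div_eq_mul_inv]
    · rfl
  · simp [e]

theorem Piece.induces (π : Piece p φ j) (hM : IsPModular p M) (hV : finrank F V ≤ N)
    (e : (π.W × V₂) ≃ₗ[F] V) {χ : IrrCharacter (GLV F V)} {ψ : IrrCharacter (GLV F V₂)}
    (h : IsLab χ a) (ha : RegLab p a) {i : Fin N} (hi : j ≤ a φ i) (h' : IsLab ψ (dnl a φ i j)) :
    Induces M (stepHom e : GLV π.K π.W × GLV F V₂ →* GLV F V)
      (prodBlock (blockOf M π.θ.1) (blockOf M ψ.1)) (blockOf M χ.1) := by
  classical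
  haveI := Fact.mk hp
  have hdim : φ.deg * j + finrank F V₂ = finrank F V := by
    rw [← e.finrank_eq, Module.finrank_prod, π.finrank_W]
  have hV₂ : finrank F V₂ ≤ N := by omega
  have hl : ∀ i', j ≤ a φ i' → Good (dnl a φ i' j) →
      ∃ ψ' : IrrCharacter (GLV F V₂), IsLab ψ' (dnl a φ i' j) := fun i' hi' hg =>
    exists_irr hP hV₂ hg (by have := size_dnl hi' hg; have := h.2.1; omega)
  obtain ⟨ψ', hψ', hne⟩ := exists_ip_pRegularPart_ne_zero hM
    (linearIndependent_basic hP hp hpF hV₂)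
    (Θ := res V₂ (∑ i with j ≤ a φ i, chi (dnl a φ i j))) (ψ := ψ) (by
      rw [map_sum]
      refine sum_mem fun i' hi' => ?_
      by_cases hg : Good (dnl a φ i' j)
      · obtain ⟨ψ', hψ'⟩ := hl i' (mem_filter.1 hi').2 hg
        have : ψ'.1 ∈ Submodule.span ℂ (Set.range fun χ : basic V₂ k R N p => χ.1.1) :=
          Submodule.subset_span ⟨⟨ψ', _, hψ', ha.dnl _ _ _⟩, rfl⟩
        rcases hψ'.2.2 with h1 | h1 <;> rw [h1]
        · exact this
        · exact neg_mem this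
      · rw [chi_eq_zero hg, map_zero]; exact zero_mem _) (by
      rw [map_sum, ip_sum_left, Finset.sum_eq_single_of_mem i (mem_filter.2 ⟨mem_univ _, hi⟩)]
      · rcases h'.2.2 with h1 | h1 <;> simp [h1, ip_neg_left, ψ.ip_self]
      · intro i' hi' hne
        by_cases hg : Good (dnl a φ i' j)
        · obtain ⟨ψ', hψ'⟩ := hl i' (mem_filter.1 hi').2 hg
          have : ψ' ≠ ψ := fun e' => hne (by
            have := (hψ'.eq_iff hP hV₂ h').1 e' φ
            rw [dnl, dnl, update_self, update_self] at this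
            exact eq_of_ms_sub_single (h.1 φ) π.pos (mem_filter.1 hi').2 hi this)
          rcases hψ'.2.2 with h1 | h1 <;> simp [h1, ip_neg_left, IrrCharacter.ip_of_ne this]
        · rw [chi_eq_zero hg, map_zero, ip_zero_left])
  have key := ip_secFun (k := k) hp hpF e π.ζ (chi a) (P π.K π.m φ.rep) ψ'.1
  rw [Module.finrank_fin_fun, π.EE_chi hP hp hpF (by omega) ha h.1 (h.2.1 ▸ hV), map_smul, res_cut hp hpF,
    ip_smul_left, π.res_eq] at key
  have hne' := mul_ne_zero (inv_ne_zero (Nat.cast_ne_zero.2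
    (Nat.ordProj_pos (Nat.card F ^ (φ.deg * j) - 1) p).ne')) hne
  rw [← key] at hne'
  rw [(isPBlock_blockOf ψ).eq_blockOf hM hψ', ← blockOf_prod hM]
  refine induces_of_ip_ne_zero hM (π.isSec hP hp hpF e) fun h0 => hne' ?_
  have h1 : (fun x : GLV π.K π.W × GLV F V₂ => ((-1 : ℂ) ^ (π.m - 1) • π.θ.1) x.1 * ψ'.1 x.2) =
      (-1 : ℂ) ^ (π.m - 1) • (π.θ.prod ψ').1 := funext fun x => mul_assoc _ _ _
  rw [h1, ip_smul_right]
  refine mul_eq_zero_of_right _ ?_
  rcases h.2.2 with h2 | h2 <;> rw [h2]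
  · exact h0
  · rw [← neg_eq_zero, ← ip_neg_left, ← h0]
    congr 1
    funext x
    simp only [pRegularPart_apply, Pi.neg_apply, secFun_apply]
    split_ifs <;> simp

variable (π : Piece p φ j) (hN : φ.deg * j ≤ N)
include hN

theorem Piece.θ_scal (z : GLV π.K π.W) (hz : z ∈ π.Q) : π.θ z = π.θ 1 := by
  haveI := Fact.mk hp
  obtain ⟨i, rfl⟩ := (Submonoid.mem_powers_iff _ _).1 (mem_powers_iff_mem_zpowers.2 hz)
  have key : ∀ ζ : π.Kˣ, IsPElt p ζ → res π.W (P π.K π.m φ.rep) (scal π.W ζ) =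
      (∑ i ∈ range (finrank π.K π.K), cut π.K (regS k p) (P π.K π.m (φ.rep ^ Nat.card π.K ^ i)))
        (cls ((1 : GLV π.K π.W) : End π.K π.W)) := fun ζ hζ => by
    have h1 := tau_P (F := π.K) (k := k) hp (π.cast_ne hP hp hpF) (ζ := ζ) (Subsingleton.elim _ _)
      hζ (π.par hP hp hpF hN) (π.m_pos hP hp hpF) (by rw [finrank_self, one_mul]) (a := φ.rep)
      (by rw [finrank_self, one_mul]; exact π.rep_pow hP hp hpF) π.reg
    rw [← h1, tau_cls hp (π.cast_ne hP hp hpF) _ _ isPRegular_one, mul_one, finrank_self, one_mul]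
    rfl
  have h := (key _ (π.isPElt.pow i)).trans (key 1 ⟨0, orderOf_one⟩).symm
  rw [π.res_eq, map_pow, map_one] at h
  exact mul_left_cancel₀ (pow_ne_zero _ (neg_ne_zero.2 one_ne_zero)) h

theorem Piece.θ_one : π.θ 1 = ∏ i ∈ Ico 1 π.m, ((Nat.card π.K : ℂ) ^ i - 1) := by
  have h := res_P_one (V := π.W) (π.par hP hp hpF hN) (π.m_pos hP hp hpF) le_rfl
    (Module.finrank_fin_fun _) (π.rep_pow hP hp hpF)
  rw [π.res_eq] at h
  exact mul_left_cancel₀ (pow_ne_zero _ (neg_ne_zero.2 one_ne_zero)) h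

theorem Piece.card_factorization : (charDegree π.θ.1).factorization p +
    (Nat.card π.Q).factorization p = (Nat.card (GLV π.K π.W)).factorization p := by
  have hm := π.m_pos hP hp hpF
  have h1 : (Nat.card (GLV π.K π.W) : ℂ) = (Nat.card π.K ^ π.m.choose 2 *
      (charDegree π.θ.1 * (Nat.card π.K ^ π.m - 1)) : ℕ) := by
    rw [card_GLV_cast (Module.finrank_fin_fun _), Nat.cast_mul, Nat.cast_mul, ← π.θ.apply_one,
      π.θ_one hP hp hpF hN, Nat.cast_sub (Nat.one_le_pow _ _ Nat.card_pos), Nat.cast_pow,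
      Nat.cast_pow, Nat.cast_one, ← Finset.prod_Ico_succ_top hm, Finset.prod_Ico_eq_prod_range]
    simp only [add_comm 1, Nat.add_sub_cancel]
  have h0 : Nat.card π.K ^ π.m - 1 ≠ 0 :=
    Nat.sub_ne_zero_of_lt (Nat.one_lt_pow hm.ne' one_lt_card_F)
  rw [Nat.cast_injective h1, Nat.factorization_mul (pow_pos Nat.card_pos _).ne'
    (mul_ne_zero π.θ.charDegree_pos.ne' h0), Nat.factorization_mul π.θ.charDegree_pos.ne' h0,
    π.card_Q hP hp hpF, Finsupp.add_apply, Finsupp.add_apply, Nat.factorization_pow,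
    Nat.factorization_pow, Finsupp.smul_apply, Finsupp.smul_apply, hp.factorization_self,
    Nat.factorization_eq_zero_of_not_dvd
      (not_dvd_card (π.par hP hp hpF hN) hp (π.cast_ne hP hp hpF)), π.card_K, ← pow_mul, π.dim]
  simp

theorem Piece.isDefectGroup (hM : IsPModular p M) :
    IsDefectGroup p M (blockOf M π.θ.1) π.Q := by
  haveI := Fact.mk hp
  have hc : π.Q ≤ center _ := zpowers_le.2 (scal_mem_center _)
  haveI : π.Q.Normal := ⟨fun z hz g => by
    rw [mem_center_iff.1 (hc hz) g, mul_inv_cancel_right]; exact hz⟩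
  refine ((isPBlock_blockOf _).isDefectGroup_iff_exists_char hM
    (IsPGroup.of_card (π.card_Q hP hp hpF)) fun g _ z hz => (mem_center_iff.1 (hc hz) g).symm).2
    ⟨π.θ, hM.mem_blockOf_self _, π.θ_scal hP hp hpF hN, π.card_factorization hP hp hpF hN⟩

theorem Piece.isTw {y : fixq F k R} {r : ℕ} (hy : y ^ r = 1) (hr : ¬ p ∣ r)
    (h : ∃ i, φ.rep * y.1 = φ.rep ^ Nat.card F ^ (orderOf (Nat.card F : ZMod p) * i)) :
    IsTw (((dch hP y).comp dt).comp (rsHom F)) π.θ.1 π.θ.1 := by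
  have hP' := π.par hP hp hpF hN
  have hm := π.m_pos hP hp hpF
  have hq : 0 < Nat.card F := Nat.card_pos
  have hR := cast_ne_zero_of_par k hP
  have hyq : ∀ i, y.1 ^ Nat.card F ^ i = y.1 := fun i =>
    (frob_iterate _ i y.1).symm.trans 
      (iterate_fixed (f := frob (Nat.card F)) (show y.1 ^ Nat.card F = y.1 from y.2) i)
  obtain ⟨ω, hω⟩ := Lab.exists_pow_eq hR hP.dvd_one (a := y.1)
    (by simpa only [pow_one] using (pow_pow_eq_iff hq y.1).1 (hyq 1))
  have hdv : Nat.card F - 1 ∣ Nat.card π.K - 1 := by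
    rw [π.card_K]
    simpa only [one_pow] using Nat.sub_dvd_pow_sub_pow (Nat.card F) 1 (finrank F π.K)
  let s := (Nat.card π.K - 1) / (Nat.card F - 1)
  have hω' : y.1 = (ω ^ s) ^ (R / (Nat.card π.K - 1)) := by
    rw [← pow_mul ω, ← hω, mul_comm, Nat.div_mul_div hP'.dvd_one hdv]
  let y' : fixq π.K k R := ⟨y.1, by
    show y.1 ^ Nat.card π.K = y.1
    rw [π.card_K]; exact hyq _⟩
  have h1 := res_hom_lfn (V := π.W) hP' (Module.finrank_fin_fun _).le (ω ^ s) y' hω'
    (P π.K π.m φ.rep)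
  have h2 : ∃ l, φ.rep * y.1 = φ.rep ^ Nat.card π.K ^ l := by
    obtain ⟨i, hi⟩ := h
    obtain ⟨t, l, hl⟩ := π.finrank_dvd hP hp hpF
    obtain ⟨s', hs'⟩ := exists_pow_eq_self_of_coprime (x := y) (n := p ^ t)
      (Nat.Coprime.pow_left t ((Nat.Prime.coprime_iff_not_dvd hp).2
        fun h => hr (h.trans (orderOf_dvd_of_pow_eq_one hy))))
    have h3 : ∀ n, φ.rep * y.1 ^ n =
        φ.rep ^ Nat.card F ^ (orderOf (Nat.card F : ZMod p) * i * n) := fun n => by
      rw [pow_mul (Nat.card F)]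
      exact mul_pow_eq_pow_pow (G := Lab k R) hi (hyq _) n
    refine ⟨l * i * s', ?_⟩
    rw [π.card_K, ← pow_mul, ← mul_assoc, ← mul_assoc, ← hl, mul_right_comm _ _ i, mul_assoc, ← h3,
      pow_mul y.1]
    exact congrArg (fun z : fixq F k R => φ.rep * z.1) hs'.symm
  obtain ⟨l, hl⟩ := h2
  rw [hom_lfn_P hP' hm le_rfl (π.rep_pow hP hp hpF), ← hω', hl,
    P_pow hP' hm le_rfl (π.rep_pow hP hp hpF), π.res_eq] at h1
  intro g
  have h4 := h1 g
  rw [Pi.smul_apply, smul_eq_mul, mul_assoc] at h4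
  refine (mul_left_cancel₀ (pow_ne_zero _ (neg_ne_zero.2 one_ne_zero)) h4).trans ?_
  congr 1
  rw [MonoidHom.comp_apply, MonoidHom.comp_apply, MonoidHom.comp_apply, dch_spec hP' _ _ hω',
    dch_spec hP _ _ hω.symm]
  obtain ⟨x, hx⟩ := exists_mv_eq (k := k) (R := R) (t := algebraMap π.K k (dt g)) (by
    refine pow_eq_one_of_dvd' ?_ hP'.dvd_one
    haveI := Fintype.ofFinite π.K
    rw [← map_pow, Nat.card_eq_fintype_card,
      FiniteField.pow_card_sub_one_eq_one _ (dt g).ne_zero, map_one])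
  have h5 : algebraMap F k (dt (rsHom F g) : Fˣ) = mv (x ^ s) := by
    rw [mv_pow, hx, ← map_pow, ← FiniteField.algebraMap_norm_eq_pow,
      ← IsScalarTower.algebraMap_apply, dt_val, dt_val, ← LinearMap.det_restrictScalars]
    rfl
  rw [h5, ← hx, lfn_mv, lfn_mv, map_pow]
  rfl

theorem Piece.exists_twS (hM : IsPModular p M) {y : fixq F k R} {r : ℕ} (hy : y ^ r = 1)
    (hr : ¬ p ∣ r)
    (h : ∃ i, φ.rep * y.1 = φ.rep ^ Nat.card F ^ (orderOf (Nat.card F : ZMod p) * i)) :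
    ∃ u : GLV π.K π.W, IsNilpotent ((rsHom F u : End F π.W) - 1) ∧
      TwS M (blockOf M π.θ.1) (((dch hP y).comp dt).comp (rsHom F)) r u := by
  haveI := Fact.mk hp
  have hP' := π.par hP hp hpF hN
  have hm := π.m_pos hP hp hpF
  obtain ⟨U, hU, ⟨t, ht⟩, ψ, hψ⟩ := exists_whittaker hm (θ := P π.K π.m φ.rep)
    fun i h0 hi u hu => adj_P_eq_zero hP' le_rfl (π.rep_pow hP hp hpF) h0 hi hu
  have hn : ∀ u ∈ U, IsNilpotent ((rsHom F u : End F π.W) - 1) := fun u hu => by
    obtain ⟨n, hn⟩ := hU u hu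
    exact ⟨n, LinearMap.ext fun v => by rw [rsHom_sub_pow, hn]; rfl⟩
  obtain ⟨u, hu, h'⟩ := TwS.cusp hM (MonoidHom.ext fun g => DFunLike.congr_fun
    ((map_pow (dch hP) y r).symm.trans (by rw [hy, map_one])) (dt (rsHom F g))) hr (π.isTw hP hp hpF hN hy hr h) (U := U)
    (fun h => not_dvd_card hP' hp (π.cast_ne hP hp hpF) (hp.dvd_of_dvd_pow (ht ▸ h)))
    (fun u hu => by
      rw [MonoidHom.mem_ker, MonoidHom.comp_apply, MonoidHom.comp_apply,
        dt_eq_one_of_isNilpotent (hn u hu), map_one]) ψ (by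
      rw [π.res_eq, Pi.smul_apply, π.θ_one hP hp hpF hN, Pi.smul_comp, ip_smul_left, smul_eq_mul,
        mul_left_comm] at hψ
      have h1 := mul_left_cancel₀ (pow_ne_zero _ (neg_ne_zero.2 one_ne_zero)) hψ
      have h2 : ∏ i ∈ Ico 1 π.m, ((Nat.card π.K : ℂ) ^ i - 1) ≠ 0 :=
        Finset.prod_ne_zero_iff.2 fun i hi => card_pow_sub_one_ne (mem_Ico.1 hi).1
      exact mul_left_cancel₀ h2 (h1.symm.trans (mul_one _).symm))
    (Z := π.Q) (zpowers_le.2 (scal_mem_center _)) (π.card_factorization hP hp hpF hN).ge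
  exact ⟨u, hn u hu, h'⟩

omit hN in
theorem sameBlock_of_sameCls (hM : IsPModular p M) (hn : n ≤ N)
    {χ ψ : IrrCharacter (GLV F (Fin n → F))} (h : IsLab χ a) (h' : IsLab ψ b) (ha : RegLab p a)
    (hb : RegLab p b) (e : SameCls p a b) : blockOf M χ.1 = blockOf M ψ.1 := by
  induction n using Nat.strong_induction_on generalizing a b with
  | _ n ih =>
  haveI := Fact.mk hp
  have hV : finrank F (Fin n → F) = n := Module.finrank_fin_fun F
  have e' := (ha.sameCls_iff hP hp hpF hb h.1 h'.1).1 e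
  have hw : ∀ φ, wtc p a φ = wtc p b φ := fun φ =>
    wt_eq_of_sum_eq (ee_pos hP hp hpF φ) (e' φ).2 (by
      have h1 := (e' φ).1
      have h2 := Sym.tri_le (h.1 φ)
      have h3 := Sym.tri_le (h'.1 φ)
      simp only [sz] at h1
      omega)
  by_cases h0 : ∀ φ, wtc p a φ = 0
  · rw [(h.eq_iff hP (hV.trans_le hn) h').2 fun φ => ms_eq_of_wt_zero (ee_pos hP hp hpF φ) (h.1 φ)
      (h'.1 φ) (e' φ).2 (h0 φ) ((hw φ).symm.trans (h0 φ))]
  obtain ⟨φ, hφ⟩ := not_forall.1 h0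
  obtain ⟨hr, i, hi, hg, w1, o1, r1⟩ := exists_dnl hP hp hpF ha h.1 (Nat.pos_of_ne_zero hφ)
  obtain ⟨-, i', hi', hg', w2, o2, r2⟩ :=
    exists_dnl hP hp hpF hb h'.1 (hw φ ▸ Nat.pos_of_ne_zero hφ)
  have s1 := size_dnl hi hg
  have s2 := size_dnl hi' hg'
  rw [h.2.1, hV] at s1
  rw [h'.2.1, hV] at s2
  have hpos := Nat.mul_pos (deg_pos hP φ) (ee_pos hP hp hpF φ)
  generalize hn' : size (dnl a φ i (ee p φ)) = n' at s1
  have hV' : finrank F (Fin n' → F) = n' := Module.finrank_fin_fun F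
  obtain ⟨π⟩ := nonempty_piece_ee hP hp hpF hr (by omega)
  obtain ⟨ε⟩ := π.nonempty_equiv (V := Fin n → F) (V₂ := Fin n' → F) (by omega)
  obtain ⟨χ', hχ'⟩ := exists_irr (V := Fin n' → F) hP (by omega) hg (by omega)
  obtain ⟨ψ', hψ'⟩ := exists_irr (V := Fin n' → F) hP (by omega) hg' (by omega)
  have h1 := π.induces hP hp hpF hM (hV.trans_le hn) ε h ha hi hχ'
  have h2 := π.induces hP hp hpF hM (hV.trans_le hn) ε h' hb hi' hψ'
  rw [ih n' (by omega) (by omega) hχ' hψ' (ha.dnl _ _ _) (hb.dnl _ _ _)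
    (((ha.dnl _ _ _).sameCls_iff hP hp hpF (hb.dnl _ _ _) hg hg').2 fun φ' => ?_)] at h1
  · exact h1.unique hM h2
  have r3 := (r1 φ').trans ((e' φ').2.trans (r2 φ').symm)
  refine ⟨?_, r3⟩
  by_cases e'' : φ' = φ
  · subst e''
    rw [sz, sz, sum_eq_of_wt_eq (ee_pos hP hp hpF φ') (hg φ') (hg' φ') r3
      (Nat.add_right_cancel (w1.trans ((hw φ').trans w2.symm)))]
  · rw [o1 _ e'', o2 _ e'', (e' φ').1]

end Cfsg.Gln

set_option linter.all false in
theorem Cfsg.Rz.Gln_Step_0 : True := by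
  have := @_root_.Cfsg.Gln.Piece.Q.eq_def.{0, 0}
  have := @_root_.Cfsg.Gln.Piece.Q.eq_1.{0, 0}
  have := @_root_.Cfsg.Gln.Piece.Q.fun_cases
  have := @_root_.Cfsg.Gln.Piece.W.eq_def.{0, 0}
  have := @_root_.Cfsg.Gln.Piece.W.eq_1.{0, 0}
  have := @_root_.Cfsg.Gln.Piece.W.fun_cases
  have := @_root_.Cfsg.Gln.Piece.congr_simp.{0, 0}
  have := @_root_.Cfsg.Gln.Piece.mk.congr_simp.{0, 0}
  trivial
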