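import Cfsg.Agent.Gln.Irr
import Cfsg.Agent.Blk.Second

/-!
# Restriction of class functions of `GL(V)` to a `p`-section (S4536 project)

`F ≤ F' = F[ζ] ≤ k`, `ζ` a `p`-element, `c = [F' : F]`, `q = |F|`.  `resS ζ (cls x) = cls ((ζ x)|_F)`,
`tau f = ` the function `cls x ↦ f (resS ζ (cls x))` cut down to `p`-regular `x`.
`ev_resS`: `exists_add_eq`-type induction (`exists_decomp` over `F'`) or `charpoly` of the restriction of scalars; a slick way:
both sides have the same `∏ (s - t)` for all `s` in every finite extension; or: `(ζ x)|_F ⊗ F' ≅ ⊕_σ σ(ζ x)`.  One may also triangulate: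
by `ev_sub_add_quo` and induction on `dim` reduce to `x` without proper invariant subspace, where `W ≅ F'[t]` is a field and
`LinearMap.charpoly` of multiplication by `ζ t` is a power of `minpoly` (`ev_eq_of_conj` over `F` and over `F'`).
`tau_mul`: if all eigenvalues of `x` are `p`-regular then `x ^ m = 1` for some `m` prime to `p` (`isPRegular_iff_ev`), so `ζ` is
a power of `ζ x`; hence `(ζ x)|_F`-invariant `F`-subspaces are `F[ζ] = F'`-subspaces invariant under `x`.
`tau_pI`: `tau (Hx (ζ y)) = Hx y` (compare `p`-parts: `ζ t = (ζ y)^(q^i)` forces `ζ^(q^i) = ζ`, `c ∣ i`), `map_nw`, `tau_comp`,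
`IsNw.expand`, `fdeg F (ζ y) = c * fdeg F' y`.
`tau_P`: the `x ∈ μ_(q^n-1)` conjugate to some `ζ y` are the `(ζ y)^(q^i)`, `i < c`, `y ∈ μ_(q^n-1)` `p`-regular (a bijection);
`pr_pow`, `pr_mul_left`, `pr_eq_one_of_coprime`, `cut_pI` (`ζ` as an element of `Mu k R`: `ζ^(q^c-1) = 1`).
`EE_mul_of_reg`, `EE_mul_of_not`: `mul_apply_add` (eigenvalues of `resS ζ c₁` are `p`-singular for `p`-regular `c₁`, `ζ ≠ 1`);
`bf_mul_left`, `bf_mul_left_of_lt`, `adj_apply_zero`.  `EE_P_mul`: `P = cut regS P + cut regSᶜ P`, `tau (cut regS P) = 0`.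
`bf_tau_P`: `adj_cut_P_mul` over `F'` with `f = 1` at `0`; `range (c * m) ≃ range c × range m`.
-/

set_option autoImplicit false
set_option linter.unusedSectionVars false
set_option linter.unusedVariables false
set_option linter.style.haveILetI false

namespace Cfsg.Gln

open Module Finset Function

universe u v

variable {F : Type u} [Field F] [Finite F] {F' : Type v} [Field F'] [Finite F'] [Algebra F F']
  {k : Type*} [Field k] [Algebra F k] [Algebra F' k] [IsScalarTower F F' k] [IsAlgClosed k]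
  [Algebra.IsAlgebraic F k] [Algebra.IsAlgebraic F' k] {R N n m p : ℕ} [NeZero R]
  {V V₁ V₂ : Type*} [AddCommGroup V] [Module F V] [Finite V] [AddCommGroup V₁] [Module F V₁]
  [Module F' V₁] [IsScalarTower F F' V₁] [Finite V₁] [AddCommGroup V₂] [Module F V₂] [Finite V₂]

variable (F) in
/-- Multiply by `ζ` and restrict scalars. -/
noncomputable def resS (ζ : F'ˣ) (c : Iso F') : Iso F :=
  cls (((ζ : F') • c.rep).restrictScalars F : End F (Fin c.dim → F'))

theorem resS_cls (ζ : F'ˣ) (x : End F' V₁) :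
    resS F ζ (cls x) = cls (((ζ : F') • x).restrictScalars F : End F V₁) := by
  obtain ⟨e, h⟩ := sim_rep x
  exact cls_eq_iff.2 ⟨e.restrictScalars F, fun v => (map_smul e _ _).trans (congrArg _ (h v))⟩

theorem dim_resS (ζ : F'ˣ) (c : Iso F') : (resS F ζ c).dim = finrank F F' * c.dim := by
  rw [resS, dim_cls, ← Module.finrank_mul_finrank F F', Module.finrank_fin_fun]

theorem resS_add (ζ : F'ˣ) (c d : Iso F') : resS F ζ (c + d) = resS F ζ c + resS F ζ d := by
  conv_lhs => rw [← cls_rep c, ← cls_rep d, ← cls_prodMap, resS_cls]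
  rw [resS, resS, ← cls_prodMap]
  rfl

theorem card_eq_pow : Nat.card F' = Nat.card F ^ finrank F F' := by
  exact Module.natCard_eq_pow_finrank

theorem sum_range_mul' {M : Type*} [AddCommMonoid M] (c d : ℕ) (g : ℕ → M) :
    ∑ i ∈ range (c * d), g i = ∑ i ∈ range c, ∑ j ∈ range d, g (c * j + i) := by
  induction d with
  | zero => simp
  | succ d ih => simp only [mul_add_one, sum_range_add, ih, sum_add_distrib, sum_range_one, add_zero]

theorem pow_card_pow_mul_add (x : k) (i j : ℕ) : x ^ Nat.card F ^ (finrank F F' * j + i) =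
    (x ^ Nat.card F' ^ j) ^ Nat.card F ^ i := by
  rw [card_eq_pow (F := F) (F' := F'), pow_add, pow_mul (Nat.card F), pow_mul]

theorem resS_zero (ζ : F'ˣ) : resS F ζ (0 : Iso F') = 0 :=
  dim_eq_zero.1 (by rw [dim_resS, dim_zero, mul_zero])

variable (k) in
theorem ev_resS_one (c : Iso F') : ev k (resS F 1 c) =
    ∑ i ∈ range (finrank F F'), (ev k c).map fun t => t ^ Nat.card F ^ i := by
  induction hn : c.dim using Nat.strong_induction_on generalizing c with
  | _ n ih =>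
  rcases n.eq_zero_or_pos with rfl | h0
  · rw [dim_eq_zero.1 hn, resS_zero]
    simp
  obtain ⟨x, hx⟩ := Multiset.card_pos_iff_exists_mem.1 ((card_ev k c).trans hn ▸ h0)
  obtain ⟨c₁, c₂, rfl, h₁, h₂⟩ := exists_add_eq (conjCl_cj (F := F') x) c
  rw [ev_add, Multiset.mem_add, or_iff_left fun h => h₂ x h IsConjRoot.refl] at hx
  have h3 : 0 < c₁.dim := card_ev k c₁ ▸ Multiset.card_pos_iff_exists_mem.2 ⟨x, hx⟩
  rw [resS_add, ev_add, ih c₂.dim (by rw [← hn, dim_add]; omega) c₂ rfl, ev_add]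
  simp only [Multiset.map_add, sum_add_distrib]
  congr 1
  have h4 : IsNilpotent (Polynomial.aeval c₁.rep ((minpoly F x).map (algebraMap F F')) - (0 : F') • 1) := by
    rw [isNilpotent_sub_iff k, ev_aeval, cls_rep]
    intro t ht
    obtain ⟨s, hs, rfl⟩ := Multiset.mem_map.1 ht
    rw [Polynomial.aeval_map_algebraMap, map_zero]
    exact (IsConjRoot.of_isScalarTower (Algebra.IsIntegral.isIntegral x) (h₁ s hs)).aeval_eq_zero
  have h5 : ∀ t ∈ ev k (resS F 1 c₁), IsConjRoot F x t := fun t ht => by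
    let φ : End F' (Fin c₁.dim → F') →ₐ[F] End F (Fin c₁.dim → F') :=
      { toFun := fun y => y.restrictScalars F, map_one' := rfl, map_mul' := fun _ _ => rfl,
        map_zero' := rfl, map_add' := fun _ _ => rfl, commutes' := fun a => by ext; simp }
    have h6 := h4.map φ
    rw [zero_smul, sub_zero, Polynomial.aeval_map_algebraMap, ← Polynomial.aeval_algHom_apply,
      ← sub_zero (Polynomial.aeval _ _), ← zero_smul F (1 : End F _), isNilpotent_sub_iff k, ev_aeval]
      at h6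
    rw [resS, Units.val_one, one_smul] at ht
    exact isConjRoot_of_aeval_eq_zero (Algebra.IsIntegral.isIntegral x)
      ((h6 _ (Multiset.mem_map_of_mem _ ht)).trans (map_zero _))
  have h6 : ∀ (n : ℕ) (g : ℕ → k), (Multiset.range n).map g = ∑ i ∈ range n, {g i} := fun n g => by
    induction n with
    | zero => simp
    | succ n ih => rw [sum_range_succ, ← ih, Multiset.range_succ, Multiset.map_cons, add_comm,
        Multiset.singleton_add]
  rw [(ev_eq_of_conj h5).2, (ev_eq_of_conj h₁).2, dim_resS, h6, sum_range_mul']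
  simp only [Multiset.map_map]
  simp only [h6, pow_card_pow_mul_add, Function.comp_apply]

variable (k) in
theorem ev_resS (ζ : F'ˣ) (c : Iso F') : ev k (resS F ζ c) =
    ∑ i ∈ range (finrank F F'), (ev k c).map fun t => (algebraMap F' k ζ * t) ^ Nat.card F ^ i := by
  have h1 : resS F ζ c = resS F 1 (cls ((ζ : F') • c.rep)) := by
    rw [resS_cls, Units.val_one, one_smul, resS]
  have h2 := ev_aeval k c.rep (Polynomial.C (ζ : F') * Polynomial.X)
  rw [map_mul, Polynomial.aeval_C, Polynomial.aeval_X, ← Algebra.smul_def, cls_rep] at h2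
  rw [h1, ev_resS_one, h2]
  simp [Multiset.map_map]

theorem mem_ev_resS {ζ : F'ˣ} {c : Iso F'} {t : k} : t ∈ ev k (resS F ζ c) ↔
    ∃ i < finrank F F', ∃ s ∈ ev k c, (algebraMap F' k ζ * s) ^ Nat.card F ^ i = t := by
  simp [ev_resS, Multiset.mem_sum]

variable (k p) in
/-- Restriction to the `p`-section of `ζ`. -/
noncomputable def tau (ζ : F'ˣ) : Hall F →ₗ[ℂ] Hall F' :=
  (cut F' (regS k p)).toLinearMap ∘ₗ
    { toFun := fun f c => f (resS F ζ c), map_add' := fun _ _ => rfl, map_smul' := fun _ _ => rfl }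

open Classical in
theorem tau_apply (ζ : F'ˣ) (f : Hall F) (c : Iso F') :
    tau k p ζ f c = if ∀ t ∈ ev k c, t ∈ regS k p then f (resS F ζ c) else 0 :=
  cut_apply _ _ c

variable (k p) in
/-- Pairing the `ζ`-part with `θ`. -/
noncomputable def EE (ζ : F'ˣ) (m : ℕ) (θ : Hall F') : Hall F →ₗ[ℂ] Hall F :=
  (cut F (regS k p)).toLinearMap ∘ₗ
    { toFun := fun f c => bf m (tau k p ζ (shift c f)) θ
      map_add' := fun f g => Hall.ext fun c => by
        change bf m (tau k p ζ (shift c f + shift c g)) θ = _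
        rw [map_add, map_add]
        rfl
      map_smul' := fun s f => Hall.ext fun c => by
        change bf m (tau k p ζ (s • shift c f)) θ = _
        rw [map_smul, map_smul]
        rfl }

open Classical in
theorem EE_apply (ζ : F'ˣ) (θ : Hall F') (f : Hall F) (c : Iso F) : EE k p ζ m θ f c =
    if ∀ t ∈ ev k c, t ∈ regS k p then bf m (tau k p ζ (shift c f)) θ else 0 :=
  cut_apply _ _ c

theorem EE_one (ζ : F'ˣ) (hm : 0 < m) (θ : Hall F') : EE k p ζ m θ (1 : Hall F) = 0 := by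
  ext c
  rw [EE_apply, bf_eq_zero (m := 0) (mem_hom.2 fun d hd => ?_) hm.ne, ite_self, Hall.zero_apply]
  rw [tau_apply, shift_apply, Hall.one_apply, if_neg (c := Iso.dim _ = 0), ite_self]
  rw [dim_add, dim_resS]
  have := Nat.mul_pos (finrank_pos (R := F) (M := F')) (Nat.pos_of_ne_zero hd)
  omega

theorem tau_one (ζ : F'ˣ) : tau k p ζ (1 : Hall F) = 1 := by
  ext c
  rw [tau_apply, Hall.one_apply, Hall.one_apply, dim_resS]
  by_cases h : c.dim = 0
  · simp [dim_eq_zero.1 h]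
  · simp [h, (finrank_pos (R := F) (M := F')).ne']

theorem tau_comp (ζ : F'ˣ) (f : Hall F) (n : ℕ) : tau k p ζ (comp n f) =
    if finrank F F' ∣ n then comp (n / finrank F F') (tau k p ζ f) else 0 := by
  ext c
  have h0 := finrank_pos (R := F) (M := F')
  rw [tau_apply, comp_apply, dim_resS]
  split_ifs with h1 h2 h3 h3 h3
  · rw [comp_apply, tau_apply, if_pos h1, if_pos (by rw [← h2, Nat.mul_div_cancel_left _ h0])]
  · exact absurd ⟨_, h2.symm⟩ h3
  · rw [comp_apply, if_neg fun e => h2 (by rw [e, Nat.mul_div_cancel' h3])]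
  · rfl
  · rw [comp_apply, tau_apply, if_neg h1, ite_self]
  · rfl

theorem tau_mem_supp (ζ : F'ˣ) (f : Hall F) : tau k p ζ f ∈ supp F' (regS k p) := cut_mem _ _

theorem tau_mem_hom (ζ : F'ˣ) {f : Hall F} (h : f ∈ hom F n) :
    tau k p ζ f ∈ hom F' (n / finrank F F') ∧ (¬ finrank F F' ∣ n → tau k p ζ f = 0) := by
  rw [← comp_of_mem h, tau_comp]
  split_ifs with h1
  · exact ⟨comp_mem _ _, fun h2 => absurd h1 h2⟩
  · exact ⟨zero_mem _, fun _ => rfl⟩

theorem tau_eq_zero (ζ : F'ˣ) {f : Hall F} {S : Set k} (h : f ∈ supp F S) (h0 : 0 < n)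
    (h' : f ∈ hom F n) (hS : ∀ y ∈ regS k p, algebraMap F' k ζ * y ∉ S) : tau k p ζ f = 0 := by
  classical
  ext c
  rw [tau_apply, Hall.zero_apply]
  refine ite_eq_right_iff.2 fun e => by_contra fun e' => ?_
  have h1 : (resS F ζ c).dim = n := not_not.1 fun e'' => e' (mem_hom.1 h' _ e'')
  rw [dim_resS, ← card_ev k] at h1
  obtain ⟨t, ht⟩ := Multiset.card_pos_iff_exists_mem.1 (Nat.pos_of_mul_pos_left (h1 ▸ h0))
  exact hS t (e t ht) (h _ e' _ (mem_ev_resS.2 ⟨0, finrank_pos, t, ht, by simp⟩))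

theorem eq_of_pow_eq_regS (hp : p.Prime) {z w y t : k} {a : ℕ} (hz : z ^ p ^ a = 1)
    (hw : w ^ p ^ a = 1) (hy : y ∈ regS k p) (ht : t ∈ regS k p) (h : z * y = w * t) :
    z = w ∧ y = t := by
  obtain ⟨m, hm, hy⟩ := hy
  obtain ⟨m', hm', ht⟩ := ht
  have hw0 : w ≠ 0 := fun e => by simp [e, hp.ne_zero] at hw
  have h1 := congrArg (· ^ (m * m')) h
  simp only [mul_pow] at h1
  rw [pow_mul y, hy, mul_comm m, pow_mul t, ht, one_pow, one_pow, mul_one, mul_one] at h1
  have h2 : z / w = 1 := (pow_eq_one_iff_of_coprime (Nat.Coprime.pow_left a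
    (hp.coprime_iff_not_dvd.2 (hp.not_dvd_mul hm' hm)))).1
    ⟨by rw [div_pow, hz, hw, div_one], by rw [div_pow, h1, div_self (pow_ne_zero _ hw0)]⟩
  obtain rfl := (div_eq_one_iff_eq hw0).1 h2
  exact ⟨rfl, mul_left_cancel₀ hw0 h⟩

theorem pow_mem_regS {y : k} (hy : y ∈ regS k p) (i : ℕ) : y ^ i ∈ regS k p :=
  hy.imp fun m h => ⟨h.1, by rw [pow_right_comm, h.2, one_pow]⟩

theorem conjCl_compl {S : Set k} (h : ConjCl F S) : ConjCl F Sᶜ :=
  fun x hx t ht e => hx (h t e x ht.symm)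

theorem isInv_tau (ζ : F'ˣ) (f : Hall F) : IsInv (tau k p ζ f) := by
  refine (isInv_iff (k := k)).2 (supp_mono ?_ (tau_mem_supp ζ f))
  rintro t ⟨m, hm, h⟩ rfl
  rw [zero_pow (by rintro rfl; exact hm (dvd_zero p))] at h
  exact zero_ne_one h

variable (hp : p.Prime) (hpF : (p : F) ≠ 0)
include hp hpF

theorem cast_ne_zero_ext : (p : F') ≠ 0 := fun e =>
  hpF ((algebraMap F F').injective (by simpa using e))

theorem tau_cls (ζ : F'ˣ) (f : Hall F) {x : GLV F' V₁} (hx : IsPRegular p x) :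
    tau k p ζ f (cls (x : End F' V₁)) = res V₁ f (rsHom F (scal V₁ ζ * x)) := by
  rw [tau_apply, if_pos ((isPRegular_iff_ev hp (cast_ne_zero_ext hp hpF) x).1 hx), resS_cls]
  rfl

theorem ip_secFun (e : (V₁ × V₂) ≃ₗ[F] V) (ζ : F'ˣ) (f : Hall F) (θ : Hall F') (ψ : GLV F V₂ → ℂ) :
    ip (pRegularPart p (secFun (stepHom e : GLV F' V₁ × GLV F V₂ →* GLV F V)
      (stepHom e (scal V₁ ζ, 1)) (res V f))) (fun x => res V₁ θ x.1 * ψ x.2) =
      ip (res V₂ (EE k p ζ (finrank F' V₁) (star θ) f)) ψ := by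
  classical
  haveI := Fact.mk hp
  have isPRegular_prod_iff : ∀ {x : GLV F' V₁} {y : GLV F V₂},
      IsPRegular p (x, y) ↔ IsPRegular p x ∧ IsPRegular p y := by
    simp [IsPRegular, Prod.orderOf, hp.dvd_lcm]
  letI := Fintype.ofFinite (GLV F' V₁)
  letI := Fintype.ofFinite (GLV F V₂)
  rw [ip_def, ip_def, Fintype.sum_prod_type_right, Nat.card_prod, Nat.cast_mul, mul_inv, mul_comm
    (_ : ℂ)⁻¹, mul_assoc, mul_sum]
  congr 1
  refine sum_congr rfl fun y _ => ?_
  rw [res_apply, EE_apply, ← ip_res (isInv_tau _ _), ip_def]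
  split_ifs with hy <;> rw [← isPRegular_iff_ev hp hpF] at hy
  · rw [mul_assoc, sum_mul]
    congr 1
    refine sum_congr rfl fun x _ => ?_
    rw [map_mul, ← mul_assoc]
    congr 2
    by_cases hx : IsPRegular p x
    · rw [pRegularPart_of_reg (isPRegular_prod_iff.2 ⟨hx, hy⟩), res_apply, tau_cls hp hpF _ _ hx,
        secFun_apply, ← map_mul, res_apply, res_apply, shift_apply, ← cls_blkHom e]
      simp [stepHom]
    · rw [pRegularPart_of_not_reg fun h => hx (isPRegular_prod_iff.1 h).1, res_apply, tau_apply,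
        if_neg (mt (isPRegular_iff_ev hp (cast_ne_zero_ext hp hpF) x).2 hx)]
  · rw [sum_eq_zero fun x _ => by
      rw [pRegularPart_of_not_reg fun h => hy (isPRegular_prod_iff.1 h).2, zero_mul]]
    simp

variable {ζ : F'ˣ} (hζ : Algebra.adjoin F {(ζ : F')} = ⊤) (hζp : IsPElt p ζ)
include hζ hζp

theorem tau_mul (f g : Hall F) : tau k p ζ (f * g) = tau k p ζ f * tau k p ζ g := by
  haveI := Fact.mk hp
  ext c
  rw [tau_apply]
  split_ifs with h
  swap
  · exact (not_not.1 fun e => h (mul_mem (tau_mem_supp ζ f) (tau_mem_supp ζ g) c e)).symm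
  obtain ⟨x, hx⟩ : IsUnit c.rep := (isUnit_rep_iff k).2 fun e => by
    obtain ⟨m, hm, h⟩ := h 0 e
    rw [zero_pow (by rintro rfl; exact hm (dvd_zero p))] at h
    exact zero_ne_one h
  rw [← cls_rep c, ← hx] at h ⊢
  obtain ⟨j, hj⟩ := exists_pPart_eq_pow (p := p) (scal _ ζ * x)
  rw [pPart_mul_eq (Subgroup.mem_center_iff.1 (scal_mem_center ζ) x).symm (hζp.map _)
    ((isPRegular_iff_ev hp (cast_ne_zero_ext hp hpF) x).2 h)] at hj
  rw [resS_cls, mul_cls, mul_cls]
  let ι : Inv (x : End F' (Fin c.dim → F')) →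
      Inv (((ζ : F') • (x : End F' (Fin c.dim → F'))).restrictScalars F) :=
    fun W => ⟨W.1.restrictScalars F, fun v hv => W.1.smul_mem _ (W.2 hv)⟩
  refine (Fintype.sum_bijective ι ⟨fun W W' e => Subtype.ext
    (Submodule.restrictScalars_injective F _ _ (congrArg Subtype.val e)), fun U => ?_⟩ _ _
    fun W => ?_).symm
  · have h1 : ∀ v ∈ U.1, (ζ : F') • v ∈ U.1 := fun v hv => by
      have := End.pow_apply_mem_of_forall_mem (p := U.1) j (fun v hv => U.2 hv) v hv
      change ((rsHom F (scal _ ζ * x) : End F (Fin c.dim → F')) ^ j) v ∈ _ at this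
      rwa [← Units.val_pow_eq_pow_val, ← map_pow, ← hj] at this
    have h2 : ∀ a : F', ∀ v ∈ U.1, a • v ∈ U.1 := fun a => by
      induction (hζ ▸ Algebra.mem_top : a ∈ Algebra.adjoin F {(ζ : F')}) using
        Algebra.adjoin_induction with
      | mem a ha => exact ha ▸ h1
      | algebraMap a => exact fun v hv => by simpa using U.1.smul_mem a hv
      | add a b _ _ ha hb => exact fun v hv => by simpa [add_smul] using add_mem (ha v hv) (hb v hv)
      | mul a b _ _ ha hb => exact fun v hv => by simpa [mul_smul] using ha _ (hb v hv)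
    exact ⟨⟨{ U.1 with smul_mem' := fun a v hv => h2 a v hv }, fun v hv => by
      simpa using h2 (ζ : F')⁻¹ _ (U.2 hv)⟩, rfl⟩
  · rw [← ev_sub_add_quo k W] at h
    rw [tau_apply, tau_apply, if_pos fun t ht => h t (Multiset.mem_add.2 (.inl ht)),
      if_pos fun t ht => h t (Multiset.mem_add.2 (.inr ht)), resS_cls, resS_cls,
      cls_sub_eq (ι W) (y := ((ζ : F') • W.sub).restrictScalars F) (W.1.subtype.restrictScalars F)
        Subtype.val_injective (by ext; simp [ι]) fun _ => rfl,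
      cls_quo_eq (ι W) (y := ((ζ : F') • W.quo).restrictScalars F) (W.1.mkQ.restrictScalars F)
        W.1.mkQ_surjective (by ext; simp [ι]) fun _ => rfl]

omit hp hpF hζp in
theorem fdeg_algebraMap : fdeg F (algebraMap F' k ζ) = finrank F F' := by
  rw [fdeg, minpoly.algebraMap_eq (algebraMap F' k).injective,
    ← Field.primitive_element_iff_minpoly_natDegree_eq]
  exact IntermediateField.adjoin_eq_top_of_algebra F _ hζ

omit hpF hζ in
theorem exists_pow_algebraMap : ∃ a, (algebraMap F' k ζ) ^ p ^ a = 1 := by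
  haveI := Fact.mk hp
  obtain ⟨a, ha⟩ := isPElt_iff_pow_eq_one.1 hζp
  exact ⟨a, by rw [← map_pow, ← Units.val_pow_eq_pow_val, ha, Units.val_one, map_one]⟩

theorem dvd_of_pow_eq {y t : k} (hy : y ∈ regS k p) (ht : t ∈ regS k p) {i : ℕ}
    (h : (algebraMap F' k ζ * y) ^ Nat.card F ^ i = algebraMap F' k ζ * t) :
    finrank F F' ∣ i ∧ y ^ Nat.card F ^ i = t := by
  obtain ⟨a, ha⟩ := exists_pow_algebraMap (k := k) hp hζp
  rw [mul_pow] at h
  have h1 := eq_of_pow_eq_regS hp (by rw [pow_right_comm, ha, one_pow]) ha (pow_mem_regS hy _) ht h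
  exact ⟨fdeg_algebraMap (k := k) hζ ▸ pow_eq_iff_fdeg_dvd.1 h1.1, h1.2⟩

theorem fdeg_mul {y : k} (hy : y ∈ regS k p) :
    fdeg F (algebraMap F' k ζ * y) = finrank F F' * fdeg F' y := by
  refine Nat.dvd_antisymm (pow_eq_iff_fdeg_dvd.1 ?_) ?_
  · rw [mul_pow, pow_eq_iff_fdeg_dvd.2 (fdeg_algebraMap (k := k) hζ ▸ dvd_mul_right _ _),
      pow_mul (Nat.card F), ← card_eq_pow, pow_eq_iff_fdeg_dvd.2 dvd_rfl]
  · obtain ⟨⟨l, hl⟩, h⟩ := dvd_of_pow_eq hp hpF hζ hζp hy hy (pow_eq_iff_fdeg_dvd.2 dvd_rfl)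
    rw [hl, pow_mul (Nat.card F), ← card_eq_pow, pow_eq_iff_fdeg_dvd] at h
    exact hl ▸ mul_dvd_mul_left _ h

theorem tau_pI {y : k} (hy : y ∈ regS k p) (n : ℕ) : tau k p ζ (pI F n (algebraMap F' k ζ * y)) =
    if finrank F F' ∣ n then pI F' (n / finrank F F') y else 0 := by
  classical
  have h1 : tau k p ζ (Hx F (algebraMap F' k ζ * y)) = Hx F' y := by
    ext c
    rw [tau_apply, Hx_apply, Hx_apply, ← ite_and]
    refine if_congr ⟨fun ⟨h, h'⟩ t ht => ?_, fun h => ⟨fun t ht => conjCl_regS p y hy t (h t ht),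
      fun t ht => ?_⟩⟩ rfl rfl
    · obtain ⟨i, hi⟩ := isConjRoot_iff.1 (h' _ (mem_ev_resS.2 ⟨0, finrank_pos, t, ht, rfl⟩))
      rw [pow_zero, pow_one] at hi
      obtain ⟨⟨l, rfl⟩, h2⟩ := dvd_of_pow_eq hp hpF hζ hζp hy (h t ht) hi.symm
      exact isConjRoot_iff.2 ⟨l, by rw [← h2, card_eq_pow (F := F) (F' := F'), ← pow_mul (Nat.card F)]⟩
    · obtain ⟨i, -, s, hs, rfl⟩ := mem_ev_resS.1 ht
      obtain ⟨l, rfl⟩ := isConjRoot_iff.1 (h s hs)
      refine isConjRoot_iff.2 ⟨finrank F F' * l + i, ?_⟩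
      rw [pow_card_pow_mul_add, mul_pow _ y,
        (pow_eq_iff_fdeg_dvd (x := algebraMap F' k ζ)).2 (by simp [fdeg, minpoly.eq_X_sub_C])]
  rcases n.eq_zero_or_pos with rfl | h0
  · simp [pI_zero]
  let τ : Hall F →+* Hall F' :=
    { toFun := tau k p ζ, map_one' := tau_one ζ, map_mul' := tau_mul hp hpF hζ hζp,
      map_zero' := map_zero _, map_add' := map_add _ }
  have h2 := ((isNw_Hx (F := F) (algebraMap F' k ζ * y)).map τ).right_eq
    ((isNw_Hx (F := F') y).expand (finrank_pos (R := F) (M := F'))) (n := n)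
    (fun j _ => (tau_comp ζ _ j).trans (by rw [h1])) h0 le_rfl
  change tau k p ζ _ = _ at h2
  have h3 : (fdeg F (algebraMap F' k ζ * y) : ℂ) ≠ 0 := Nat.cast_ne_zero.2 (fdeg_pos _).ne'
  refine smul_right_injective _ h3 ?_
  simp only
  rw [← map_smul, h2, fdeg_mul hp hpF hζ hζp hy]
  split_ifs
  · rw [Nat.cast_mul, mul_smul, Nat.cast_smul_eq_nsmul ℂ (finrank F F'), nsmul_eq_mul]
  · rw [smul_zero]

theorem tau_pI_eq_zero {x : k} (hx : ∀ y ∈ regS k p, ¬ IsConjRoot F (algebraMap F' k ζ * y) x)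
    (n : ℕ) : tau k p ζ (pI F n x) = 0 := by
  rcases n.eq_zero_or_pos with rfl | h0
  · rw [pI_zero, map_zero]
  · exact tau_eq_zero ζ (pI_mem_supp n x) h0 (pI_mem_hom n x) fun y hy e => hx y hy (IsConjRoot.symm e)

theorem tau_P (hP : Par (Nat.card F) R N) (hm : 0 < m) (hN : finrank F F' * m ≤ N) {a : Lab k R}
    (ha : a ^ (Nat.card F ^ (finrank F F' * m) - 1) = 1) (ha' : IsPRegular p a) :
    tau k p ζ (P F (finrank F F' * m) a) =
      ∑ i ∈ range (finrank F F'), cut F' (regS k p) (P F' m (a ^ Nat.card F ^ i)) := by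
  classical
  haveI := Fact.mk hp
  have hc := finrank_pos (R := F) (M := F')
  have hR := cast_ne_zero_of_par k hP
  have hd := hP.dvd (Nat.mul_pos hc hm) hN
  have hq : Nat.card F' ^ m = Nat.card F ^ (finrank F F' * m) := by
    rw [card_eq_pow (F := F) (F' := F'), pow_mul]
  have hpow : ∀ {t : k}, t ≠ 0 → t ^ Nat.card F ^ (finrank F F' * m) = t →
      ∃ x : Mu k R, mv x = t ∧ x ^ (Nat.card F ^ (finrank F F' * m) - 1) = 1 := fun {t} h0 h => by
    have h1 : t ^ (Nat.card F ^ (finrank F F' * m) - 1) = 1 := by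
      rw [← Nat.sub_add_cancel (Nat.one_le_pow _ _ (Nat.card_pos (α := F))), pow_succ] at h
      exact mul_right_cancel₀ h0 (h.trans (one_mul t).symm)
    obtain ⟨x, rfl⟩ := exists_mv_eq (R := R) (t := t) (by
      obtain ⟨l, hl⟩ := hd
      rw [hl, pow_mul, h1, one_pow])
    exact ⟨x, rfl, mv_injective (by simpa using h1)⟩
  have hz0 : algebraMap F' k ζ ≠ 0 := by simp
  have hz : ∀ l, algebraMap F' k ζ ^ Nat.card F ^ (finrank F F' * l) = algebraMap F' k ζ := fun l =>
    pow_eq_iff_fdeg_dvd.2 (fdeg_algebraMap (k := k) hζ ▸ dvd_mul_right _ _)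
  obtain ⟨Z, hZ, hZ'⟩ := hpow hz0 (hz m)
  obtain ⟨s, hs⟩ := exists_pow_algebraMap (k := k) hp hζp
  have hZs : Z ^ p ^ s = 1 := mv_injective (by rw [mv_pow, hZ, hs, mv_one])
  simp only [cut_P_eq, hq, ite_smul, zero_smul, ← sum_filter]
  rw [← sum_product', P, map_sum]
  refine (sum_of_injOn (fun x : ℕ × Mu k R => (Z * x.2) ^ Nat.card F ^ x.1) ?_ (fun x hx => ?_)
    (fun x hx hx' => ?_) fun x hx => ?_).symm
  · have key : ∀ {i i' : ℕ} {y y' : Mu k R}, i ≤ i' → i' < finrank F F' → IsPRegular p y →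
        IsPRegular p y' → (Z * y) ^ Nat.card F ^ i = (Z * y') ^ Nat.card F ^ i' → i = i' ∧ y = y' := by
      intro i i' y y' hi hi' hy hy' e
      obtain ⟨l, rfl⟩ := Nat.exists_eq_add_of_le hi
      obtain ⟨σ, hσ⟩ := exists_frob (F := F) (k := k) i
      have h1 := congrArg mv e
      rw [pow_add, mul_comm (_ ^ i), pow_mul, mv_pow, mv_pow, ← hσ, ← hσ, mv_pow, mv_mul, mv_mul,
        hZ] at h1
      obtain ⟨h2, h3⟩ := dvd_of_pow_eq hp hpF hζ hζp (mv_mem_regS.2 hy') (mv_mem_regS.2 hy)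
        (σ.injective h1).symm
      obtain rfl := Nat.eq_zero_of_dvd_of_lt h2 (by omega)
      exact ⟨rfl, mv_injective (by simpa using h3.symm)⟩
    intro x hx x' hx' e
    simp only [coe_product, coe_range, coe_filter, Set.mem_prod, Set.mem_Iio, Set.mem_ofPred_eq]
      at hx hx'
    rcases le_total x.1 x'.1 with h | h
    · exact Prod.ext_iff.2 (key h hx'.1 hx.2.2 hx'.2.2 e)
    · exact (Prod.ext_iff.2 (key h hx.1 hx'.2.2 hx.2.2 e.symm)).symm
  · simp only [coe_product, coe_range, coe_filter, Set.mem_prod, Set.mem_Iio, Set.mem_ofPred_eq,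
      mem_filter, mem_univ, true_and] at hx ⊢
    rw [pow_right_comm, mul_pow, hZ', hx.2.1, one_mul, one_pow]
  · rw [map_smul, tau_pI_eq_zero hp hpF hζ hζp (fun y hy e => hx' ?_), smul_zero]
    obtain ⟨i, hi⟩ := isConjRoot_iff.1 e
    rw [← Nat.div_add_mod i (finrank F F'), pow_add, pow_mul _ (_ ^ _), mul_pow _ y, hz] at hi
    have hy' := pow_mem_regS hy (Nat.card F ^ (finrank F F' * (i / finrank F F')))
    generalize y ^ Nat.card F ^ (finrank F F' * (i / finrank F F')) = y' at hi hy'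
    obtain ⟨σ, hσ⟩ := exists_frob (F := F) (k := k) (i % finrank F F')
    have h1 := congrArg mv ((pow_pow_eq_iff Nat.card_pos x).2 (mem_filter.1 hx).2)
    rw [mv_pow, hi, pow_right_comm, ← hσ, ← hσ, σ.injective.eq_iff, mul_pow, hz] at h1
    obtain ⟨Y, rfl, hY⟩ := hpow (fun e => mv_ne_zero x (by
      rw [hi, e, mul_zero, zero_pow (pow_ne_zero _ Nat.card_pos.ne')])) (mul_left_cancel₀ hz0 h1)
    refine ⟨(i % finrank F F', Y), ?_, mv_injective (by rw [hi, mv_pow, mv_mul, hZ])⟩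
    simpa [hY, Nat.mod_lt _ hc] using mv_mem_regS.1 hy'
  · simp only [mem_product, mem_filter, mem_univ, true_and] at hx
    have h1 : (a ^ Nat.card F ^ x.1) ^ (Nat.card F ^ (finrank F F' * m) - 1) = 1 := by
      rw [pow_right_comm a, ha, one_pow (M := Lab k R)]
    rw [map_smul, mv_pow, ← pI_congr _ (isConjRoot_pow _ _), mv_mul, hZ,
      tau_pI hp hpF hζ hζp (mv_mem_regS.2 hx.2.2), if_pos (dvd_mul_right _ _),
      Nat.mul_div_cancel_left _ hc, pr_pow hR hd (by rw [mul_pow, hZ', hx.2.1, one_mul]) ha,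
      pr_mul_left hR hd hZ' hx.2.1 h1, pr_eq_one_of_coprime hR hd hZ' h1
        (((isPRegular_iff_coprime.1 (ha'.pow _)).symm.pow_left s).coprime_dvd_left
          (orderOf_dvd_of_pow_eq_one hZs)), one_mul]

theorem bf_tau_P (hP : Par (Nat.card F) R N) (hm : 0 < m) (hN : finrank F F' * m ≤ N) (h0 : 0 < n)
    (hn : n ≤ N) {a b : Lab k R} (ha : a ^ (Nat.card F ^ (finrank F F' * m) - 1) = 1)
    (hb : b ^ (Nat.card F ^ n - 1) = 1) (ha' : IsPRegular p a) (hb' : IsPRegular p b) :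
    bf m (tau k p ζ (P F n b)) (star (P F' m a)) = if n = finrank F F' * m then
      (#{i ∈ range n | b ^ Nat.card F ^ i = a} : ℂ) / (ordProj[p] (Nat.card F ^ n - 1) : ℕ) else 0 := by
  classical
  have hc := finrank_pos (R := F) (M := F')
  split_ifs with h
  swap
  · have h1 := tau_mem_hom (k := k) (p := p) ζ (P_mem_hom (F := F) n b)
    by_cases h2 : finrank F F' ∣ n
    · exact bf_eq_zero h1.1 (fun e => h (by rw [← e, Nat.mul_div_cancel' h2])) _
    · rw [h1.2 h2, map_zero, LinearMap.zero_apply]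
  subst h
  have hq : Nat.card F' ^ m = Nat.card F ^ (finrank F F' * m) := by
    rw [card_eq_pow (F := F) (F' := F'), pow_mul]
  have hP' : Par (Nat.card F') R m := card_eq_pow (F := F) (F' := F') ▸ hP.pow hc hm hN
  rw [tau_P hp hpF hζ hζp hP hm hN hb hb', map_sum, LinearMap.sum_apply, card_filter, sum_range_mul',
    Nat.cast_sum, sum_div]
  refine sum_congr rfl fun i _ => ?_
  have h1 := congrFun (adj_cut_P_mul hP' hp hm le_rfl hm le_rfl (a := b ^ Nat.card F ^ i) (b := a)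
    (by rw [hq, pow_right_comm b, hb, one_pow (M := Lab k R)]) (hq ▸ ha) (hb'.pow _) ha' 1) 0
  rw [adj_apply_zero, mul_one, adj_eq_zero _ one_mem_hom hm, mul_zero, zero_add, if_pos rfl,
    Hall.smul_apply, Hall.one_apply, if_pos dim_zero, mul_one] at h1
  rw [bf_comm, h1, hq, card_filter]
  congr 2
  refine sum_congr rfl fun j _ => ?_
  rw [card_eq_pow (F := F) (F' := F'), ← pow_mul b, ← pow_mul, ← pow_add, add_comm]

variable (h1 : ζ ≠ 1)
include h1

omit hpF hζ in
theorem mul_not_mem_regS {y : k} (hy : y ∈ regS k p) : algebraMap F' k ζ * y ∉ regS k p := fun h => by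
  obtain ⟨a, ha⟩ := exists_pow_algebraMap (k := k) hp hζp
  have := (eq_of_pow_eq_regS hp ha (one_pow _) hy h (one_mul _).symm).1
  exact h1 (Units.ext ((algebraMap F' k).injective (by simpa using this)))

omit hpF hζ in
theorem not_mem_regS_of_mem_ev {d : Iso F'} (h : ∀ t ∈ ev k d, t ∈ regS k p) :
    ∀ t ∈ ev k (resS F ζ d), t ∉ regS k p := fun t ht => by
  obtain ⟨i, -, s, hs, rfl⟩ := mem_ev_resS.1 ht
  exact conjCl_compl (conjCl_regS (F := F) p) _ (mul_not_mem_regS hp hζp h1 (h s hs)) _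
    (isConjRoot_pow _ i)

theorem EE_mul_of_reg (θ : Hall F') {u : Hall F} (hu : u ∈ supp F (regS k p)) (f : Hall F) :
    EE k p ζ m θ (u * f) = u * EE k p ζ m θ f := by
  let G : Hall F := fun c => bf m (tau k p ζ (shift c f)) θ
  have h2 : EE k p ζ m θ (u * f) = cut F (regS k p) (u * G) := by
    refine congrArg (cut F (regS k p)) (Hall.ext fun c => ?_)
    have h3 : tau k p ζ (shift c (u * f)) =
        ∑ U : Inv c.rep, u (cls U.sub) • tau k p ζ (shift (cls U.quo) f) := by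
      ext d
      simp only [Hall.sum_apply, Hall.smul_apply, tau_apply, shift_apply]
      split_ifs with h
      · rw [add_comm, mul_apply_add hu _ _ (not_mem_regS_of_mem_ev hp hζp h1 h)]
        conv_lhs => rw [← cls_rep c, mul_cls]
        simp only [shift_apply, add_comm]
      · simp
    change bf m (tau k p ζ (shift c (u * f))) θ = _
    conv_rhs => rw [← cls_rep c, mul_cls]
    simp [h3, G]
  rw [h2, map_mul, cut_of_mem hu]
  rfl

theorem EE_mul_of_not {θ : Hall F'} (hθ : ∀ i, 0 < i → i < m → ∀ u, IsInv u → adj i u θ = 0)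
    {u : Hall F} (hu : u ∈ supp F (regS k p)ᶜ) (h0 : 0 < n) (hu' : u ∈ hom F n) (f : Hall F) :
    EE k p ζ m θ (u * f) = bf m (tau k p ζ u) θ • cut F (regS k p) f := by
  ext c
  rw [EE_apply, Hall.smul_apply, cut_apply]
  split_ifs with h
  swap
  · rw [mul_zero]
  have h2 : tau k p ζ (shift c (u * f)) = tau k p ζ (u * shift c f) := by
    ext d
    rw [tau_apply, tau_apply, shift_apply, mul_apply_add hu _ _ fun t ht e => e (h t ht)]
  rw [h2, tau_mul hp hpF hζ hζp]
  have h3 := tau_mem_hom (k := k) (p := p) ζ hu'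
  by_cases h4 : finrank F F' ∣ n
  swap
  · simp [h3.2 h4]
  have h5 : 0 < n / finrank F F' := Nat.div_pos (Nat.le_of_dvd h0 h4) finrank_pos
  rcases lt_trichotomy (n / finrank F F') m with h6 | rfl | h6
  · rw [bf_eq_zero h3.1 h6.ne, ← Nat.add_sub_cancel' h6.le, bf_mul_left h3.1,
      hθ _ h5 h6 _ (isInv_tau _ _), map_zero, zero_mul]
  · have h7 := bf_mul_left h3.1 0 (tau k p ζ (shift c f)) θ
    rw [add_zero] at h7
    rw [h7, bf_def, int_zero, pw_apply, adj_apply_zero, tau_apply, if_pos (by simp), shift_apply,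
      resS_zero, zero_add, mul_comm]
  · rw [bf_eq_zero h3.1 h6.ne', bf_mul_left_of_lt h3.1 h6, zero_mul]

theorem EE_P_mul {θ : Hall F'} (hθ : ∀ i, 0 < i → i < m → ∀ u, IsInv u → adj i u θ = 0)
    (h0 : 0 < n) (b : Lab k R) (f : Hall F) : EE k p ζ m θ (P F n b * f) =
      bf m (tau k p ζ (P F n b)) θ • cut F (regS k p) f +
        cut F (regS k p) (P F n b) * EE k p ζ m θ f := by
  have h2 : P F n b = cut F (regS k p) (P F n b) + cut F (regS k p)ᶜ (P F n b) := by
    classical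
    rw [P, map_sum, map_sum, ← sum_add_distrib]
    refine sum_congr rfl fun x _ => ?_
    rw [map_smul, map_smul, ← smul_add, cut_pI (conjCl_regS p), cut_pI (conjCl_compl (conjCl_regS p))]
    by_cases h : mv x ∈ regS k p <;> simp [h]
  have h3 : tau k p ζ (P F n b) = tau k p ζ (cut F (regS k p)ᶜ (P F n b)) := by
    conv_lhs => rw [h2, map_add, tau_eq_zero ζ (cut_mem _ _) h0 (Mult.hom_mem _ (P_mem_hom n b))
      (fun y hy => mul_not_mem_regS hp hζp h1 hy), zero_add]
  conv_lhs => rw [h2, add_mul, map_add]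
  rw [EE_mul_of_reg hp hpF hζ hζp h1 θ (cut_mem _ _), EE_mul_of_not hp hpF hζ hζp h1 hθ (cut_mem _ _)
    h0 (Mult.hom_mem _ (P_mem_hom n b)), h3, add_comm]

end Cfsg.Gln

set_option linter.all false in
theorem Cfsg.Rz.Gln_StepA_0 : True := by
  have := @_root_.Cfsg.Gln.resS.congr_simp.{0, 0}
  have := @_root_.Cfsg.Gln.resS.eq_def.{0, 0}
  have := @_root_.Cfsg.Gln.resS.eq_1.{0, 0}
  have := @_root_.Cfsg.Gln.resS.fun_cases
  have := @_root_.Cfsg.Gln.tau.congr_simp.{0, 0, 0}
  have := @_root_.Cfsg.Gln.tau.eq_def.{0, 0, 0}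
  have := @_root_.Cfsg.Gln.tau.eq_1.{0, 0, 0}
  have := @_root_.Cfsg.Gln.tau.fun_cases
  have := @_root_.Cfsg.Gln.EE.congr_simp.{0, 0, 0}
  have := @_root_.Cfsg.Gln.EE.eq_def.{0, 0, 0}
  have := @_root_.Cfsg.Gln.EE.eq_1.{0, 0, 0}
  have := @_root_.Cfsg.Gln.EE.fun_cases
  trivial
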