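import Cfsg.Agent.Gln.Hall
import Cfsg.Agent.Char.Defs

/-!
# Integration, adjoints and the commutation relation in the Hall algebra (S4536 project)

General unfolding: if a finite group `G` acts transitively on `Ω ∋ ω₀` and on `E`, and `Ψ : Ω → E → ℂ` is
invariant, then `∑_{ω,e} Ψ = |G| / |Stab ω₀| * ∑_e Ψ ω₀ e`.
`int_Phi` (the key lemma): `G = GL(V₁ × V₂ × V₃)`, `Ω` = pairs `(N₁, N₂)` of subspaces of dimensions `i, j` with
`N₁ ⊓ N₂ = ⊥`, `E = End`; an `x` stabilising `V₁` and `V₂` is `[[x₁,0,y₁],[0,x₂,y₂],[0,0,x₃]]`, the stabiliser has order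
`|GL V₁| |GL V₂| |GL V₃| |Hom(V₃,V₁)| |Hom(V₃,V₂)|`; `V/V₁ ≅ ext x₂ x₃ y₂`, `V/V₂ ≅ ext x₁ x₃ y₁`.
`bf_mul_left` is the case `j = 0`, `b = 1` (`Phi a 1 f g = pw (a * f) g`, `adj 0 1 f = f`), `int_mul` the case `g = fun _ => 1`
of that.  `heis`: test against any `g` with `ext_bf`:
`bf (comp i a * f) (comp j b * g)` is `int` of the sum over pairs `(N₁,N₂)`; group by `I = N₁ ⊓ N₂` and use
`a(N₁) = a(I) a(N₁/I)`: pointwise
`pw (comp i a * f) (comp j b * g) = ∑_l comp l (pw a b) * Phi (comp (i-l) a) (comp (j-l) b) f g`; then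
`int_mul`, `int_Phi`, `bf_mul_left`.
-/

set_option autoImplicit false
set_option linter.unusedSectionVars false
set_option linter.unusedVariables false
set_option linter.style.haveILetI false

namespace Cfsg.Gln

open Module Finset

universe u

variable {F : Type u} [Field F] [Finite F] {V W : Type*} [AddCommGroup V] [Module F V] [Finite V]
  [AddCommGroup W] [Module F W] [Finite W]

instance finite_hom : Finite (V →ₗ[F] W) := DFunLike.finite _

noncomputable instance fintypeHom : Fintype (V →ₗ[F] W) := Fintype.ofFinite _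

/-- Normalised sum over all endomorphisms of an `n`-dimensional space. -/
noncomputable def int (n : ℕ) : Hall F →ₗ[ℂ] ℂ where
  toFun f := (Nat.card (GLV F (Fin n → F)) : ℂ)⁻¹ * ∑ x : (Fin n → F) →ₗ[F] (Fin n → F), f (cls x)
  map_add' f g := by simp [sum_add_distrib, mul_add]
  map_smul' s f := by simp [← mul_sum, mul_left_comm]

theorem int_def (n : ℕ) (f : Hall F) : int n f = (Nat.card (GLV F (Fin n → F)) : ℂ)⁻¹ *
    ∑ x : (Fin n → F) →ₗ[F] (Fin n → F), f (cls x) := rfl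

theorem cls_conj (e : V ≃ₗ[F] W) (x : End F V) : cls (e.conj x) = cls x :=
  (cls_eq_iff.2 (sim_conj e x)).symm

theorem card_GLV (h : finrank F V = finrank F W) : Nat.card (GLV F V) = Nat.card (GLV F W) :=
  Nat.card_congr (Units.mapEquiv (LinearEquiv.ofFinrankEq V W h).conjRingEquiv.toMulEquiv).toEquiv

theorem card_GLV_ne : (Nat.card (GLV F V) : ℂ) ≠ 0 := Nat.cast_ne_zero.2 Nat.card_pos.ne'

theorem card_hom_ne : (Nat.card (V →ₗ[F] W) : ℂ) ≠ 0 := Nat.cast_ne_zero.2 Nat.card_pos.ne'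

theorem int_eq {n : ℕ} (h : finrank F V = n) (f : Hall F) :
    int n f = (Nat.card (GLV F V) : ℂ)⁻¹ * ∑ x : V →ₗ[F] V, f (cls x) := by
  have h' : finrank F V = finrank F (Fin n → F) := by simp [h]
  rw [card_GLV h', int_def]
  congr 1
  exact (Fintype.sum_equiv (LinearEquiv.ofFinrankEq V _ h').conj.toEquiv _ _
    fun x => congrArg f (cls_conj (LinearEquiv.ofFinrankEq V _ h') x).symm).symm

theorem int_congr {n : ℕ} {f g : Hall F} (h : ∀ c, c.dim = n → f c = g c) : int n f = int n g := by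
  rw [int_def, int_def, sum_congr rfl fun x _ => h (cls x) (by simp)]

theorem int_eq_zero {n : ℕ} {f : Hall F} (h : ∀ c, c.dim = n → f c = 0) : int n f = 0 :=
  (int_congr (g := 0) h).trans (map_zero _)

theorem int_zero (f : Hall F) : int 0 f = f 0 := by
  haveI : Unique ((Fin 0 → F) →ₗ[F] (Fin 0 → F)) := uniqueOfSubsingleton 0
  rw [int_eq (V := Fin 0 → F) (by simp), Fintype.sum_unique, Nat.card_unique, Nat.cast_one, inv_one,
    one_mul, dim_eq_zero.1 (show (cls _).dim = 0 by simp)]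

theorem card_GLV_eq : Nat.card (GLV F V) =
    ∏ i ∈ range (finrank F V), (Nat.card F ^ finrank F V - Nat.card F ^ i) := by
  haveI := Fintype.ofFinite F
  rw [card_GLV (W := Fin (finrank F V) → F) (by simp), ← Fin.prod_univ_eq_prod_range
    (fun i => Nat.card F ^ finrank F V - Nat.card F ^ i), Nat.card_eq_fintype_card (α := F),
    ← Matrix.card_GL_field]
  exact (Nat.card_congr Matrix.GeneralLinearGroup.toLin.toEquiv).symm

/-- The bilinear form in dimension `n`. -/
noncomputable def bf (n : ℕ) : Hall F →ₗ[ℂ] Hall F →ₗ[ℂ] ℂ := pw.compr₂ (int n)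

theorem bf_def (n : ℕ) (f g : Hall F) : bf n f g = int n (pw f g) := rfl

theorem bf_comm (n : ℕ) (f g : Hall F) : bf n f g = bf n g f :=
  int_congr fun _ _ => mul_comm _ _

theorem bf_eq_zero {m n : ℕ} {f : Hall F} (h : f ∈ hom F m) (e : m ≠ n) (g : Hall F) :
    bf n f g = 0 :=
  int_eq_zero fun c hc => by rw [pw_apply, h c (hc ▸ e.symm), zero_mul]

theorem ext_bf {f g : Hall F} (h : ∀ n, ∀ u ∈ hom F n, bf n u f = bf n u g) : f = g := by
  classical
  ext c
  let u : Hall F := fun d => if d = c then 1 else 0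
  have h1 : ∀ k : Hall F, bf c.dim u k = int c.dim u * k c := fun k => by
    rw [mul_comm, ← smul_eq_mul, ← map_smul]
    refine int_congr fun d _ => ?_
    change (if d = c then 1 else 0) * k d = k c * if d = c then 1 else 0
    by_cases e : d = c <;> simp [e]
  have h2 := h c.dim u fun d hd => if_neg fun e : d = c => hd (e ▸ rfl)
  rw [h1, h1] at h2
  refine mul_left_cancel₀ (mul_ne_zero (inv_ne_zero card_GLV_ne) ?_) h2
  simp only [u, sum_boole, Nat.cast_ne_zero]
  exact (card_pos.2 ⟨c.rep, by simp⟩).ne'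

/-- `f` vanishes on non-invertible endomorphisms. -/
def IsInv (f : Hall F) : Prop := ∀ c, f c ≠ 0 → IsUnit c.rep

theorem Sim.isUnit {x : End F V} {y : End F W} (h : Sim x y) (hx : IsUnit x) : IsUnit y := by
  obtain ⟨e, h⟩ := h
  have : y = e.conjRingEquiv x := LinearMap.ext fun w => by
    simpa using (h (e.symm w)).symm
  exact this ▸ hx.map _

theorem isUnit_rep_cls {x : End F V} : IsUnit (cls x).rep ↔ IsUnit x :=
  ⟨(cls_eq_iff.1 (cls_rep _)).isUnit, (cls_eq_iff.1 (cls_rep _)).symm.isUnit⟩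

theorem ip_res {f : Hall F} (hf : IsInv f) (g : Hall F) :
    ip (res V f) (res V g) = bf (finrank F V) f (star g) := by
  haveI := Fintype.ofFinite (GLV F V)
  rw [ip_def, bf_def, int_eq (V := V) rfl]
  refine congrArg _ (Fintype.sum_of_injective Units.val Units.val_injective _ _ (fun x hx => ?_)
    fun _ => rfl)
  rw [pw_apply, not_not.1 fun h => hx (isUnit_rep_cls.1 (hf _ h)), zero_mul]

theorem eq_of_res_eq {f g : Hall F} (hf : IsInv f) (hg : IsInv g) (hf' : f ∈ hom F (finrank F V))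
    (hg' : g ∈ hom F (finrank F V)) (h : res V f = res V g) : f = g := by
  ext c
  by_cases hc : c.dim = finrank F V
  · obtain ⟨x, rfl⟩ := exists_cls (V := V) c hc.symm
    by_cases hx : IsUnit x
    · exact congrFun h hx.unit
    · rw [not_not.1 fun h => hx (isUnit_rep_cls.1 (hf _ h)),
        not_not.1 fun h => hx (isUnit_rep_cls.1 (hg _ h))]
  · rw [hf' c hc, hg' c hc]

theorem isClassFunction_res (f : Hall F) : IsClassFunction (GLV F V) (res V f) :=
  fun g h => congrArg f (cls_eq_iff_isConj.2 (isConj_iff.2 ⟨h, rfl⟩)).symm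

theorem exists_res_eq {θ : GLV F V → ℂ} (h : IsClassFunction (GLV F V) θ) :
    ∃ f ∈ hom F (finrank F V), IsInv f ∧ res V f = θ := by
  classical
  refine ⟨fun c => if hc : ∃ g : GLV F V, cls (g : End F V) = c then θ hc.choose else 0,
    fun c hc => dif_neg ?_, fun c hc => ?_, funext fun g => ?_⟩
  · rintro ⟨g, rfl⟩
    exact hc rfl
  · obtain ⟨g, rfl⟩ := not_not.1 fun e => hc (dif_neg e)
    exact isUnit_rep_cls.2 g.isUnit
  · have hc : ∃ g' : GLV F V, cls (g' : End F V) = cls (g : End F V) := ⟨g, rfl⟩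
    obtain ⟨k, hk⟩ := isConj_iff.1 (cls_eq_iff_isConj.1 hc.choose_spec)
    exact (dif_pos hc).trans ((h _ k).symm.trans (congrArg θ hk))

/-- The block triangular map `[[x, y], [0, z]]`. -/
def ext (x : End F V) (z : End F W) (y : W →ₗ[F] V) : End F (V × W) :=
  (x.coprod y).prod (z ∘ₗ LinearMap.snd F V W)

@[simp] theorem ext_apply (x : End F V) (z : End F W) (y : W →ₗ[F] V) (v : V × W) :
    ext x z y v = (x v.1 + y v.2, z v.2) := rfl

/-- Harish-Chandra restriction. -/
noncomputable def co (f : Hall F) (x : End F V) (z : End F W) : ℂ :=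
  (Nat.card (W →ₗ[F] V) : ℂ)⁻¹ * ∑ y : W →ₗ[F] V, f (cls (ext x z y))

theorem co_congr {V' W' : Type*} [AddCommGroup V'] [Module F V'] [Finite V'] [AddCommGroup W']
    [Module F W'] [Finite W'] (f : Hall F) {x : End F V} {z : End F W} {x' : End F V'}
    {z' : End F W'} (h : cls x = cls x') (h' : cls z = cls z') : co f x z = co f x' z' := by
  obtain ⟨e, h⟩ := cls_eq_iff.1 h
  obtain ⟨e', h'⟩ := cls_eq_iff.1 h'
  rw [co, co, Nat.card_congr (e'.arrowCongr e).toEquiv]
  refine congrArg _ (Fintype.sum_equiv (e'.arrowCongr e).toEquiv _ _ fun y => congrArg f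
    (cls_eq_iff.2 ⟨e.prodCongr e', fun v => ?_⟩))
  simp [h, h']

theorem co_add (f g : Hall F) (x : End F V) (z : End F W) :
    co (f + g) x z = co f x z + co g x z := by
  simp [co, sum_add_distrib, mul_add]

theorem co_smul (s : ℂ) (f : Hall F) (x : End F V) (z : End F W) :
    co (s • f) x z = s * co f x z := by
  simp [co, ← mul_sum, mul_left_comm]

theorem co_of_left [Subsingleton V] (f : Hall F) (x : End F V) (z : End F W) :
    co f x z = f (cls z) := by
  haveI : Unique (W →ₗ[F] V) := uniqueOfSubsingleton 0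
  haveI : Unique V := uniqueOfSubsingleton 0
  rw [co, Fintype.sum_unique, Nat.card_unique, Nat.cast_one, inv_one, one_mul]
  exact congrArg f (cls_eq_iff.2 ⟨LinearEquiv.uniqueProd, fun v => rfl⟩)

theorem co_of_right [Subsingleton W] (f : Hall F) (x : End F V) (z : End F W) :
    co f x z = f (cls x) := by
  haveI : Unique (W →ₗ[F] V) := uniqueOfSubsingleton 0
  haveI : Unique W := uniqueOfSubsingleton 0
  rw [co, Fintype.sum_unique, Nat.card_unique, Nat.cast_one, inv_one, one_mul]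
  refine congrArg f (cls_eq_iff.2 ⟨LinearEquiv.prodUnique, fun v => ?_⟩)
  simp [Subsingleton.elim v.2 0]

theorem co_eq_zero {f : Hall F} {n : ℕ} (h : f ∈ hom F n) (x : End F V) (z : End F W)
    (e : finrank F V + finrank F W ≠ n) : co f x z = 0 := by
  rw [co, sum_eq_zero fun y _ => h _ (by rwa [dim_cls, finrank_prod]), mul_zero]

/-- The adjoint of multiplication with the `i`-dimensional part of `a`. -/
noncomputable def adj (i : ℕ) : Hall F →ₗ[ℂ] Hall F →ₗ[ℂ] Hall F :=
  LinearMap.mk₂ ℂ (fun a f c => int i fun d => a d * co f d.rep c.rep)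
    (fun a a' f => funext fun c => (int_congr fun d _ => add_mul _ _ _).trans (map_add (int i) _ _))
    (fun s a f => funext fun c => (int_congr fun d _ => mul_assoc _ _ _).trans
      (map_smul (int i) s _))
    (fun a f f' => funext fun c => (int_congr fun d _ => (congrArg (a d * ·) (co_add _ _ _ _)).trans
      (mul_add _ _ _)).trans (map_add (int i) _ _))
    (fun s a f => funext fun c => (int_congr fun d _ => (congrArg (a d * ·) (co_smul _ _ _ _)).trans
      (mul_left_comm _ _ _)).trans (map_smul (int i) s _))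

theorem adj_apply (i : ℕ) (a f : Hall F) (c : Iso F) :
    adj i a f c = int i fun d => a d * co f d.rep c.rep := rfl

theorem adj_cls {i : ℕ} (h : finrank F V = i) (a f : Hall F) (z : End F W) : adj i a f (cls z) =
    (Nat.card (GLV F V) : ℂ)⁻¹ * ∑ x : V →ₗ[F] V, a (cls x) * co f x z := by
  rw [adj_apply]
  refine (int_eq h _).trans ?_
  congr 1
  exact sum_congr rfl fun x _ => congrArg (a (cls x) * ·) (co_congr f (cls_rep _) (cls_rep _))

theorem adj_comp (i : ℕ) (a f : Hall F) : adj i (comp i a) f = adj i a f := by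
  ext c
  rw [adj_apply, adj_apply]
  exact int_congr fun d hd => congrArg (· * co f d.rep c.rep) (if_pos hd)

instance subsingleton_zero : Subsingleton (Fin (0 : Iso F).dim → F) := by
  rw [dim_zero]; infer_instance

theorem adj_zero (a f : Hall F) : adj 0 a f = a 0 • f := by
  ext c
  rw [adj_apply]
  refine (int_zero _).trans ?_
  rw [co_of_left, cls_rep]; rfl

theorem adj_mem {i n : ℕ} (a : Hall F) {f : Hall F} (h : f ∈ hom F (i + n)) :
    adj i a f ∈ hom F n := fun c hc => by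
  rw [adj_apply]
  refine int_eq_zero fun d hd => ?_
  rw [co_eq_zero h _ _ (by simpa [hd] using hc), mul_zero]

theorem adj_eq_zero {i n : ℕ} (a : Hall F) {f : Hall F} (h : f ∈ hom F n) (hi : n < i) :
    adj i a f = 0 := by
  ext c
  rw [adj_apply]
  refine int_eq_zero fun d hd => ?_
  rw [co_eq_zero h _ _ (by simp only [finrank_fin_fun, hd]; omega), mul_zero]

theorem star_adj (i : ℕ) (a f : Hall F) : star (adj i a f) = adj i (star a) (star f) := by
  ext c
  rw [Hall.star_apply, adj_apply, adj_apply]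
  erw [int_def, int_def]
  simp [co]

open Classical in
/-- Sum over pairs of invariant subspaces meeting trivially. -/
noncomputable def Phi (a b f g : Hall F) : Hall F := fun c =>
  ∑ U : Inv c.rep × Inv c.rep with U.1.1 ⊓ U.2.1 = ⊥,
    a (cls U.1.sub) * b (cls U.2.sub) * f (cls U.1.quo) * g (cls U.2.quo)

section Unfold

variable {x : End F V} {y : End F W} {N : Submodule F V}

noncomputable local instance fintypeSub : Fintype (Submodule F V) := Fintype.ofFinite _

open Classical in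
/-- the value at the restriction to `N` -/
noncomputable def sv (a : Hall F) (x : End F V) (N : Submodule F V) : ℂ :=
  if h : N ≤ N.comap x then a (cls (Inv.sub ⟨N, h⟩)) else 0

open Classical in
/-- the value at the quotient by `N` -/
noncomputable def qv (a : Hall F) (x : End F V) (N : Submodule F V) : ℂ :=
  if h : N ≤ N.comap x then a (cls (Inv.quo ⟨N, h⟩)) else 0

theorem sv_inv (a : Hall F) (U : Inv x) : sv a x U.1 = a (cls U.sub) := dif_pos U.2

theorem qv_inv (a : Hall F) (U : Inv x) : qv a x U.1 = a (cls U.quo) := dif_pos U.2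

theorem sv_of_not (a : Hall F) (h : ¬ N ≤ N.comap x) : sv a x N = 0 := dif_neg h

theorem qv_of_not (a : Hall F) (h : ¬ N ≤ N.comap x) : qv a x N = 0 := dif_neg h

theorem sv_eq_zero {i : ℕ} {a : Hall F} (ha : a ∈ hom F i) (h : finrank F N ≠ i) :
    sv a x N = 0 := by
  by_cases e : N ≤ N.comap x
  · exact (sv_inv a ⟨N, e⟩).trans (ha _ h)
  · exact sv_of_not a e

theorem sum_inv_sub_eq (H : Submodule F V → ℂ) (h : ∀ N, ¬ N ≤ N.comap x → H N = 0) :
    ∑ U : Inv x, H U.1 = ∑ N, H N :=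
  Fintype.sum_of_injective Subtype.val Subtype.val_injective _ _
    (fun N hN => h N fun e => hN ⟨⟨N, e⟩, rfl⟩) fun _ => rfl

theorem mul_cls' (f g : Hall F) (x : End F V) : (f * g) (cls x) = ∑ N, sv f x N * qv g x N := by
  rw [mul_cls, ← sum_inv_sub_eq (x := x) _ fun N h => by rw [sv_of_not f h, zero_mul]]
  simp only [sv_inv, qv_inv]

theorem inv_map_iff (e : V ≃ₗ[F] W) (h : ∀ v, e (x v) = y (e v)) :
    N.map (e : V →ₗ[F] W) ≤ (N.map (e : V →ₗ[F] W)).comap y ↔ N ≤ N.comap x := by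
  constructor
  · intro H v hv
    obtain ⟨w, hw, e'⟩ := H ⟨v, hv, rfl⟩
    exact Submodule.mem_comap.2 (e.injective (e'.trans (h v).symm) ▸ hw)
  · rintro H _ ⟨v, hv, rfl⟩
    exact ⟨x v, H hv, h v⟩

theorem sv_map (a : Hall F) (e : V ≃ₗ[F] W) (h : ∀ v, e (x v) = y (e v)) (N : Submodule F V) :
    sv a y (N.map (e : V →ₗ[F] W)) = sv a x N := by
  by_cases H : N ≤ N.comap x
  · refine (sv_inv a ⟨_, (inv_map_iff e h).2 H⟩).trans (Eq.trans (congrArg a ?_)
      (sv_inv a ⟨N, H⟩).symm)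
    exact cls_sub_eq _ (e ∘ₗ N.subtype) (e.injective.comp N.injective_subtype)
      (by rw [LinearMap.range_comp, Submodule.range_subtype]) fun w => h w
  · rw [sv_of_not a H, sv_of_not a fun H' => H ((inv_map_iff e h).1 H')]

theorem qv_map (a : Hall F) (e : V ≃ₗ[F] W) (h : ∀ v, e (x v) = y (e v)) (N : Submodule F V) :
    qv a y (N.map (e : V →ₗ[F] W)) = qv a x N := by
  by_cases H : N ≤ N.comap x
  · refine (qv_inv a ⟨_, (inv_map_iff e h).2 H⟩).trans (Eq.trans (congrArg a ?_)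
      (qv_inv a ⟨N, H⟩).symm)
    refine (cls_quo_eq ⟨N, H⟩ ((N.map (e : V →ₗ[F] W)).mkQ ∘ₗ e)
      ((Submodule.mkQ_surjective _).comp e.surjective) ?_ fun v => congrArg _ (h v)).symm
    rw [LinearMap.ker_comp, Submodule.ker_mkQ, Submodule.comap_map_eq_of_injective e.injective]
  · rw [qv_of_not a H, qv_of_not a fun H' => H ((inv_map_iff e h).1 H')]

open Classical in
/-- the summand of `Phi` -/
noncomputable def ph (a b f g : Hall F) (x : End F V) (N : Submodule F V × Submodule F V) : ℂ :=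
  if N.1 ⊓ N.2 = ⊥ then sv a x N.1 * sv b x N.2 * qv f x N.1 * qv g x N.2 else 0

theorem ph_of_left {a b f g : Hall F} {N : Submodule F V × Submodule F V} (h : sv a x N.1 = 0) :
    ph a b f g x N = 0 := by
  simp only [ph, h, zero_mul, ite_self]

theorem ph_of_right {a b f g : Hall F} {N : Submodule F V × Submodule F V} (h : sv b x N.2 = 0) :
    ph a b f g x N = 0 := by
  simp only [ph, h, zero_mul, mul_zero, ite_self]

theorem ph_map (a b f g : Hall F) (e : V ≃ₗ[F] W) (h : ∀ v, e (x v) = y (e v))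
    (N : Submodule F V × Submodule F V) :
    ph a b f g y (N.1.map (e : V →ₗ[F] W), N.2.map (e : V →ₗ[F] W)) = ph a b f g x N := by
  simp only [ph, sv_map _ e h, qv_map _ e h, ← Submodule.map_inf _ e.injective,
    Submodule.map_eq_bot_iff]

theorem Phi_cls (a b f g : Hall F) (x : End F V) : Phi a b f g (cls x) = ∑ N, ph a b f g x N := by
  obtain ⟨e, h⟩ := cls_eq_iff.1 (cls_rep (cls x))
  rw [Phi, sum_filter, ← Fintype.sum_equiv ((Submodule.orderIsoMapComap e).toEquiv.prodCongr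
    (Submodule.orderIsoMapComap e).toEquiv) _ _ fun N => (ph_map a b f g e h N).symm]
  refine Fintype.sum_of_injective (Prod.map Subtype.val Subtype.val)
    (Subtype.val_injective.prodMap Subtype.val_injective) _ _ (fun N hN => ?_) fun U => ?_
  · by_cases h1 : N.1 ≤ N.1.comap (cls x).rep
    · exact ph_of_right (sv_of_not b fun h2 => hN ⟨(⟨_, h1⟩, ⟨_, h2⟩), rfl⟩)
    · exact ph_of_left (sv_of_not a h1)
  · simp only [ph, Prod.map_fst, Prod.map_snd, sv_inv, qv_inv]

theorem unfold_orbit {G Ω : Type*} [Group G] [Finite G] [Fintype Ω] [MulAction G Ω] (ω : Ω) (H : Ω → ℂ)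
    (h1 : ∀ g : G, H (g • ω) = H ω) (h2 : ∀ ω', ω' ∉ MulAction.orbit G ω → H ω' = 0) :
    (Nat.card (MulAction.stabilizer G ω) : ℂ) * ∑ ω', H ω' = Nat.card G * H ω := by
  haveI := Fintype.ofFinite (MulAction.orbit G ω)
  rw [← Fintype.sum_of_injective Subtype.val Subtype.val_injective
    (fun _ : MulAction.orbit G ω => H ω) H (fun ω' h => h2 ω' fun e => h ⟨⟨_, e⟩, rfl⟩)
    (by rintro ⟨_, g, rfl⟩; exact (h1 g).symm), sum_const, card_univ, nsmul_eq_mul,
    Nat.card_congr (MulAction.orbitProdStabilizerEquivGroup G ω).symm, Nat.card_prod,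
    Nat.card_eq_fintype_card (α := MulAction.orbit G ω)]
  push_cast
  ring

variable {A B C : Type*} [AddCommGroup A] [Module F A] [Finite A] [AddCommGroup B] [Module F B]
  [Finite B] [AddCommGroup C] [Module F C] [Finite C]

/-- the block matrix `[[x₁,0,y₁],[0,x₂,y₂],[0,0,x₃]]` -/
def btri (p : (C →ₗ[F] C) × ((B →ₗ[F] B) × (C →ₗ[F] B)) × (A →ₗ[F] A) × (C →ₗ[F] A)) :
    End F (A × B × C) :=
  (p.2.2.1.coprod (p.2.2.2 ∘ₗ .snd F B C)).prod (ext p.2.1.1 p.1 p.2.1.2 ∘ₗ .snd F _ _)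

theorem btri_apply (p) (v : A × B × C) : btri (F := F) p v =
    (p.2.2.1 v.1 + p.2.2.2 v.2.2, p.2.1.1 v.2.1 + p.2.1.2 v.2.2, p.1 v.2.2) := rfl

variable (F A B C) in
/-- the standard pair of subspaces -/
def bstd : Submodule F (A × B × C) × Submodule F (A × B × C) :=
  (LinearMap.range (.inl F _ _), LinearMap.range (.inr F _ _ ∘ₗ .inl F _ _))

theorem btri_injective : Function.Injective (btri (F := F) (A := A) (B := B) (C := C)) := by
  rintro ⟨x₃, ⟨x₂, y₂⟩, x₁, y₁⟩ ⟨x₃', ⟨x₂', y₂'⟩, x₁', y₁'⟩ h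
  have h1 := fun v => LinearMap.congr_fun h (v, 0, 0)
  have h2 := fun v => LinearMap.congr_fun h (0, v, 0)
  have h3 := fun v => LinearMap.congr_fun h (0, 0, v)
  simp only [btri_apply, map_zero, add_zero, zero_add, Prod.mk.injEq, and_true, true_and]
    at h1 h2 h3 ⊢
  exact ⟨LinearMap.ext fun v => (h3 v).2.2, ⟨LinearMap.ext h2, LinearMap.ext fun v => (h3 v).2.1⟩,
    LinearMap.ext h1, LinearMap.ext fun v => (h3 v).1⟩

theorem btri_inv₁ (p) : (bstd F A B C).1 ≤ (bstd F A B C).1.comap (btri p) := by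
  rintro _ ⟨v, rfl⟩
  exact ⟨p.2.2.1 v, by simp [btri_apply, Prod.ext_iff]⟩

theorem btri_inv₂ (p) : (bstd F A B C).2 ≤ (bstd F A B C).2.comap (btri p) := by
  rintro _ ⟨v, rfl⟩
  exact ⟨p.2.1.1 v, by simp [btri_apply]⟩

theorem exists_btri {x : End F (A × B × C)} (h1 : (bstd F A B C).1 ≤ (bstd F A B C).1.comap x)
    (h2 : (bstd F A B C).2 ≤ (bstd F A B C).2.comap x) : ∃ p, btri p = x := by
  refine ⟨(.snd F _ _ ∘ₗ .snd F _ _ ∘ₗ x ∘ₗ .inr F _ _ ∘ₗ .inr F _ _,
    (.fst F _ _ ∘ₗ .snd F _ _ ∘ₗ x ∘ₗ .inr F _ _ ∘ₗ .inl F _ _,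
      .fst F _ _ ∘ₗ .snd F _ _ ∘ₗ x ∘ₗ .inr F _ _ ∘ₗ .inr F _ _),
    .fst F _ _ ∘ₗ x ∘ₗ .inl F _ _, .fst F _ _ ∘ₗ x ∘ₗ .inr F _ _ ∘ₗ .inr F _ _),
    LinearMap.ext fun ⟨u, v, w⟩ => ?_⟩
  obtain ⟨u', e1⟩ := h1 ⟨u, rfl⟩
  obtain ⟨v', e2⟩ := h2 ⟨v, rfl⟩
  have e3 : x (u, v, w) = x (u, 0, 0) + x (0, v, 0) + x (0, 0, w) := by
    rw [← map_add, ← map_add]; simp
  have e1' : x (u, 0) = (u', 0) := e1.symm
  have e1'' : x (u, 0, 0) = (u', 0) := e1.symm
  have e2' : x (0, v, 0) = (0, v', 0) := e2.symm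
  rw [e3, btri_apply]
  ext <;> simp [e1', e1'', e2']

theorem isUnit_btri (p) : IsUnit (btri (F := F) (A := A) (B := B) (C := C) p) ↔
    IsUnit p.1 ∧ IsUnit p.2.1.1 ∧ IsUnit p.2.2.1 := by
  obtain ⟨x₃, ⟨x₂, y₂⟩, x₁, y₁⟩ := p
  simp only [Module.End.isUnit_iff]
  constructor
  · intro h
    refine ⟨Finite.surjective_iff_bijective.1 fun w => ?_, Finite.injective_iff_bijective.1
      fun u v e => ?_, Finite.injective_iff_bijective.1 fun u v e => ?_⟩
    · obtain ⟨v, hv⟩ := h.2 (0, 0, w)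
      exact ⟨v.2.2, congrArg (·.2.2) hv⟩
    · exact congrArg (·.2.1) (h.1 (a₁ := (0, u, 0)) (a₂ := (0, v, 0)) (by simp [btri_apply, e]))
    · exact congrArg (·.1) (h.1 (a₁ := (u, 0, 0)) (a₂ := (v, 0, 0)) (by simp [btri_apply, e]))
  · rintro ⟨h3, h2, h1⟩
    refine Finite.injective_iff_bijective.1 fun ⟨u, v, w⟩ ⟨u', v', w'⟩ e => ?_
    simp only [btri_apply, Prod.mk.injEq] at e
    obtain rfl := h3.1 e.2.2
    rw [h1.1 (add_right_cancel e.1), h2.1 (add_right_cancel e.2.1)]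

theorem ph_btri (a b f g : Hall F) (p) : ph a b f g (btri p) (bstd F A B C) =
    b (cls p.2.1.1) * f (cls (ext p.2.1.1 p.1 p.2.1.2)) *
      (a (cls p.2.2.1) * g (cls (ext p.2.2.1 p.1 p.2.2.2))) := by
  have h0 : (bstd F A B C).1 ⊓ (bstd F A B C).2 = ⊥ := by
    refine eq_bot_iff.2 ?_
    rintro _ ⟨⟨u, rfl⟩, v, e⟩
    exact congrArg (fun u => (u, 0)) (congrArg Prod.fst e).symm
  rw [ph, if_pos h0, sv_inv a ⟨_, btri_inv₁ p⟩, sv_inv b ⟨_, btri_inv₂ p⟩, qv_inv f ⟨_, btri_inv₁ p⟩,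
    qv_inv g ⟨_, btri_inv₂ p⟩, cls_sub_eq _ (y := p.2.2.1) (.inl F _ _) LinearMap.inl_injective rfl
      fun w => by simp [btri_apply, Prod.ext_iff],
    cls_sub_eq _ (y := p.2.1.1) (.inr F _ _ ∘ₗ .inl F _ _)
      (LinearMap.inr_injective.comp LinearMap.inl_injective) rfl fun w => by simp [btri_apply],
    cls_quo_eq _ (y := ext p.2.1.1 p.1 p.2.1.2) (.snd F _ _) LinearMap.snd_surjective
      (LinearMap.ker_snd F _ _) fun _ => rfl,
    cls_quo_eq _ (y := ext p.2.2.1 p.1 p.2.2.2) (LinearMap.id.prodMap (.snd F _ _))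
      (fun v => ⟨(v.1, 0, v.2), rfl⟩) ?_ fun _ => rfl]
  · ring
  · ext ⟨u, v, w⟩
    simp [bstd, Prod.ext_iff, eq_comm]

open Pointwise

theorem glv_smul_sub (g : GLV F V) (N : Submodule F V) : g • N = N.map (g : End F V) := rfl

theorem glv_smul_eq_iff {g : GLV F V} : g • N = N ↔ N ≤ N.comap (g : End F V) := by
  rw [glv_smul_sub, ← Submodule.map_le_iff_le_comap]
  exact ⟨le_of_eq, fun h => Submodule.eq_of_le_of_finrank_le h
    ((LinearMap.GeneralLinearGroup.toLinearEquiv g).finrank_map_eq N).ge⟩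

theorem card_stab_bstd : Nat.card (MulAction.stabilizer (GLV F (A × B × C)) (bstd F A B C)) =
    Nat.card (GLV F C) * (Nat.card (GLV F B) * Nat.card (C →ₗ[F] B) *
      (Nat.card (GLV F A) * Nat.card (C →ₗ[F] A))) := by
  simp only [← Nat.card_prod]
  refine (Nat.card_congr (Equiv.ofBijective (fun p => ⟨((isUnit_btri
    (p.1.1, (p.2.1.1.1, p.2.1.2), p.2.2.1.1, p.2.2.2)).2
      ⟨p.1.isUnit, p.2.1.1.isUnit, p.2.2.1.isUnit⟩).unit, Prod.ext (glv_smul_eq_iff.2 (btri_inv₁ _))
        (glv_smul_eq_iff.2 (btri_inv₂ _))⟩) ⟨fun p q e => ?_, fun g => ?_⟩)).symm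
  · have := btri_injective (congrArg (fun g => g.1.1) e)
    simp only [Prod.mk.injEq, Units.val_inj] at this
    exact Prod.ext this.1 (Prod.ext (Prod.ext this.2.1.1 this.2.1.2)
      (Prod.ext this.2.2.1 this.2.2.2))
  · obtain ⟨p, hp⟩ := exists_btri (glv_smul_eq_iff.1 (congrArg Prod.fst g.2))
      (glv_smul_eq_iff.1 (congrArg Prod.snd g.2))
    obtain ⟨h1, h2, h3⟩ := (isUnit_btri p).1 (hp ▸ g.1.isUnit)
    exact ⟨(h1.unit, (h2.unit, p.2.1.2), h3.unit, p.2.2.2), Subtype.ext (Units.ext hp)⟩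

theorem mem_orbit_bstd {N : Submodule F (A × B × C) × Submodule F (A × B × C)} (h0 : N.1 ⊓ N.2 = ⊥)
    (h1 : finrank F N.1 = finrank F A) (h2 : finrank F N.2 = finrank F B) :
    N ∈ MulAction.orbit (GLV F (A × B × C)) (bstd F A B C) := by
  obtain ⟨K, hK⟩ := (N.1 ⊔ N.2).exists_isCompl
  have h3 : finrank F C = finrank F K := by
    have e1 := Submodule.finrank_add_eq_of_isCompl hK
    have e2 := N.1.finrank_sup_add_finrank_inf_eq N.2
    rw [h0, finrank_bot] at e2
    rw [finrank_prod, finrank_prod] at e1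
    omega
  let e₁ := LinearEquiv.ofFinrankEq _ _ h1.symm
  let e₂ := LinearEquiv.ofFinrankEq _ _ h2.symm
  let e₃ := LinearEquiv.ofFinrankEq _ _ h3
  let φ : End F (A × B × C) :=
    (N.1.subtype ∘ₗ e₁).coprod ((N.2.subtype ∘ₗ e₂).coprod (K.subtype ∘ₗ e₃))
  have hφ : IsUnit φ := (Module.End.isUnit_iff _).2 (Finite.surjective_iff_bijective.1
    (LinearMap.range_eq_top.1 (by
      simpa [φ, LinearMap.range_coprod, LinearMap.range_comp, ← sup_assoc] using hK.sup_eq_top)))
  refine ⟨hφ.unit, Prod.ext ?_ ?_⟩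
  · change Submodule.map φ _ = _
    simp [φ, bstd, ← LinearMap.range_comp]
  · change Submodule.map φ _ = _
    simp [φ, bstd, ← LinearMap.range_comp, ← LinearMap.comp_assoc]

theorem int_Phi {i j : ℕ} {a b : Hall F} (ha : a ∈ hom F i) (hb : b ∈ hom F j) (n : ℕ)
    (f g : Hall F) : int (i + j + n) (Phi a b f g) = bf n (adj j b f) (adj i a g) := by
  have key := unfold_orbit (G := GLV F ((Fin i → F) × (Fin j → F) × (Fin n → F))) (bstd F _ _ _)
    (fun N => ∑ x, ph a b f g x N) (fun k => (Fintype.sum_equiv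
      (LinearMap.GeneralLinearGroup.toLinearEquiv k).conj.toEquiv _ _ fun x => (ph_map a b f g
        (LinearMap.GeneralLinearGroup.toLinearEquiv k) (fun v => congrArg (fun w => k.1 (x w))
          ((LinearMap.GeneralLinearGroup.toLinearEquiv k).symm_apply_apply v).symm) _).symm).symm)
    fun N hN => sum_eq_zero fun x _ => by
      by_cases h0 : N.1 ⊓ N.2 = ⊥
      · by_cases h1 : finrank F N.1 = i
        · exact ph_of_right (sv_eq_zero hb fun h2 => hN (mem_orbit_bstd h0 (by simpa) (by simpa)))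
        · exact ph_of_left (sv_eq_zero ha h1)
      · exact if_neg h0
  rw [card_stab_bstd, ← Fintype.sum_of_injective btri btri_injective _ _ (fun x hx => by
    by_cases h1 : (bstd F (Fin i → F) (Fin j → F) (Fin n → F)).1 ≤ (bstd F _ _ _).1.comap x
    · exact ph_of_right (sv_of_not b fun h2 => hx (exists_btri h1 h2))
    · exact ph_of_left (sv_of_not a h1)) fun p => (ph_btri a b f g p).symm] at key
  rw [int_eq (V := (Fin i → F) × (Fin j → F) × (Fin n → F)) (by simp [add_assoc]), bf_def, int_def]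
  simp only [Phi_cls, pw_apply, adj_cls (finrank_fin_fun F), co]
  rw [sum_comm, inv_mul_eq_iff_eq_mul₀ card_GLV_ne]
  refine mul_left_cancel₀ (Nat.cast_ne_zero.2 ?_) (key.trans ?_)
  · rw [← card_stab_bstd]; exact Nat.card_pos.ne'
  · rw [Fintype.sum_prod_type, mul_sum, mul_sum, mul_sum, mul_sum]
    refine sum_congr rfl fun z _ => ?_
    simp only [Fintype.sum_prod_type, ← mul_sum, ← sum_mul, mul_left_comm (a _),
      mul_left_comm (b _)]
    push_cast
    have := card_GLV_ne (F := F) (V := Fin n → F)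
    have := card_GLV_ne (F := F) (V := Fin i → F)
    have := card_GLV_ne (F := F) (V := Fin j → F)
    field_simp [card_hom_ne]

theorem int_Phi_of_lt {i j n : ℕ} {a b : Hall F} (ha : a ∈ hom F i) (hb : b ∈ hom F j)
    (h : n < i + j) (f g : Hall F) : int n (Phi a b f g) = 0 := by
  refine int_eq_zero fun c hc => sum_eq_zero fun U hU => ?_
  by_cases h1 : finrank F U.1.1 = i
  · have e := U.1.1.finrank_sup_add_finrank_inf_eq U.2.1
    have e' := (U.1.1 ⊔ U.2.1).finrank_le
    rw [(mem_filter.1 hU).2, finrank_bot] at e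
    rw [finrank_fin_fun] at e'
    rw [hb (cls U.2.sub) (show finrank F U.2.1 ≠ j by omega)]
    simp
  · simp [ha (cls U.1.sub) h1]

theorem qv_bot (g : Hall F) (x : End F V) : qv g x ⊥ = g (cls x) :=
  (qv_inv g ⟨⊥, bot_le⟩).trans (congrArg g (cls_quo_eq _ LinearMap.id Function.surjective_id
    LinearMap.ker_id fun _ => rfl))

theorem Phi_one (a f g : Hall F) : Phi a 1 f g = pw (a * f) g := by
  ext c
  rw [← cls_rep c, Phi_cls, pw_apply, mul_cls', Fintype.sum_prod_type, sum_mul]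
  refine sum_congr rfl fun N _ => (sum_eq_single ⊥ (fun M _ h => ?_) (by simp)).trans ?_
  · exact ph_of_right (sv_eq_zero one_mem_hom (mt Submodule.finrank_eq_zero.1 h))
  · have : sv 1 c.rep ⊥ = 1 := (sv_inv 1 ⟨⊥, bot_le⟩).trans (if_pos (finrank_bot F _))
    simp [ph, this, qv_bot]

theorem bf_mul_left {i : ℕ} {a : Hall F} (ha : a ∈ hom F i) (n : ℕ) (f g : Hall F) :
    bf (i + n) (a * f) g = bf n f (adj i a g) := by
  rw [bf_def, ← Phi_one]
  refine (int_Phi ha one_mem_hom n f g).trans ?_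
  rw [adj_zero, Hall.one_apply, if_pos dim_zero, one_smul]

theorem bf_mul_left_of_lt {i n : ℕ} {a : Hall F} (ha : a ∈ hom F i) (h : n < i) (f g : Hall F) :
    bf n (a * f) g = 0 := by
  rw [bf_def, ← Phi_one]
  exact int_Phi_of_lt ha one_mem_hom h f g

theorem adj_apply_zero (i : ℕ) (a f : Hall F) : adj i a f 0 = bf i a f := by
  rw [adj_apply]
  exact int_congr fun d _ => by rw [co_of_right, cls_rep]; rfl

theorem int_mul' {i : ℕ} {a : Hall F} (ha : a ∈ hom F i) (j : ℕ) (b : Hall F) :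
    int (i + j) (a * b) = int i a * int j b := by
  let u : Hall F := fun _ => 1
  have h1 : ∀ c, adj i a u c = int i a := fun c => by
    rw [adj_apply]
    refine int_congr fun d _ => ?_
    rw [co, sum_const, card_univ, ← Nat.card_eq_fintype_card, nsmul_eq_mul, mul_one,
      inv_mul_cancel₀ card_hom_ne, mul_one]
  refine (int_congr fun c _ => (mul_one _).symm).trans ((bf_mul_left ha j b u).trans ?_)
  rw [← smul_eq_mul, ← map_smul]
  exact int_congr fun c _ => by rw [pw_apply, h1, mul_comm]; rfl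

theorem int_mul {i j : ℕ} {a b : Hall F} (ha : a ∈ hom F i) (hb : b ∈ hom F j) :
    int (i + j) (a * b) = int i a * int j b := int_mul' ha j b

theorem adj_mul {i j : ℕ} {a b : Hall F} (ha : a ∈ hom F i) (hb : b ∈ hom F j) (g : Hall F) :
    adj (i + j) (a * b) g = adj j b (adj i a g) :=
  ext_bf fun n u _ => by
    rw [← bf_mul_left (mul_mem_hom i j a ha b hb), ← bf_mul_left hb, ← bf_mul_left ha, add_assoc,
      mul_assoc]

theorem inv_comap_iff (I : Inv x) {M : Submodule F (V ⧸ I.1)} :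
    M.comap I.1.mkQ ≤ (M.comap I.1.mkQ).comap x ↔ M ≤ M.comap I.quo :=
  ⟨fun h m hm => by
    obtain ⟨v, rfl⟩ := I.1.mkQ_surjective m
    exact h hm, fun h v hv => h hv⟩

theorem qv_comap (f : Hall F) (I : Inv x) (M : Submodule F (V ⧸ I.1)) :
    qv f x (M.comap I.1.mkQ) = qv f I.quo M := by
  by_cases H : M ≤ M.comap I.quo
  · refine (qv_inv f ⟨_, (inv_comap_iff I).2 H⟩).trans (Eq.trans (congrArg f ?_)
      (qv_inv f ⟨M, H⟩).symm)
    exact cls_quo_eq _ (M.mkQ ∘ₗ I.1.mkQ) (M.mkQ_surjective.comp I.1.mkQ_surjective)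
      (by rw [LinearMap.ker_comp, Submodule.ker_mkQ]) fun _ => rfl
  · rw [qv_of_not f H, qv_of_not f fun H' => H ((inv_comap_iff I).1 H')]

theorem sv_comap {a : Hall F} (ha : Mult a) (i : ℕ) (I : Inv x) (M : Submodule F (V ⧸ I.1)) :
    sv (comp i a) x (M.comap I.1.mkQ) = if finrank F I.1 ≤ i then
      a (cls I.sub) * sv (comp (i - finrank F I.1) a) I.quo M else 0 := by
  by_cases H : M ≤ M.comap I.quo
  · let N : Inv x := ⟨_, (inv_comap_iff I).2 H⟩
    let J : Inv N.sub := ⟨I.1.comap N.1.subtype, fun v hv => I.2 hv⟩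
    have h1 : cls J.sub = cls I.sub := (cls_sub_eq I (N.1.subtype ∘ₗ J.1.subtype)
      (N.1.injective_subtype.comp J.1.injective_subtype) (by
        rw [LinearMap.range_comp, Submodule.range_subtype, Submodule.map_comap_subtype]
        exact inf_eq_right.2 (I.1.le_comap_mkQ M)) fun _ => rfl).symm
    have h2 : cls J.quo = cls (Inv.sub ⟨M, H⟩) :=
      cls_quo_eq J (I.1.mkQ.restrict fun _ h => h) (fun m => by
        obtain ⟨v, hv⟩ := I.1.mkQ_surjective m
        exact ⟨⟨v, show I.1.mkQ v ∈ M from hv ▸ m.2⟩, Subtype.ext hv⟩)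
        (by rw [LinearMap.ker_restrict, Submodule.ker_mkQ]) fun _ => rfl
    have h3 := dim_sub_add_dim_quo J
    rw [h1, h2, dim_cls] at h3
    rw [sv_inv _ N, sv_inv _ ⟨M, H⟩, comp_apply, comp_apply, ha.cls J, h1, h2, ← h3]
    split_ifs <;> first | rfl | omega | simp
  · rw [sv_of_not _ H, sv_of_not _ fun H' => H ((inv_comap_iff I).1 H')]
    simp

theorem pw_comp_mul {a b : Hall F} (ha : Mult a) (hb : Mult b) (i j : ℕ) (f g : Hall F) :
    pw (comp i a * f) (comp j b * g) = ∑ l ∈ range (min i j + 1),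
      comp l (pw a b) * Phi (comp (i - l) a) (comp (j - l) b) f g := by
  classical
  ext c
  rw [← cls_rep c]
  generalize c.rep = x
  rw [pw_apply, mul_cls', mul_cls', sum_mul_sum, ← Fintype.sum_prod_type', Hall.sum_apply,
    ← sum_fiberwise univ fun N => N.1 ⊓ N.2, ← sum_inv_sub_eq (x := x) _ fun I hI => sum_eq_zero
      fun N hN => ?_]
  · simp only [mul_cls]
    rw [sum_comm]
    refine sum_congr rfl fun I _ => ?_
    simp only [comp_apply, ite_mul, zero_mul, sum_ite_eq, mem_range, Phi_cls, ph,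
      ← sum_filter]
    simp only [dim_cls, pw_apply, mul_sum, Nat.lt_succ_iff, le_min_iff]
    rw [ite_sum_zero]
    symm
    have hs := I.1.mkQ_surjective
    have hN : ∀ {N : Submodule F _}, I.1 ≤ N → (N.map I.1.mkQ).comap I.1.mkQ = N := fun h => by
      rw [Submodule.comap_map_mkQ, sup_eq_right.2 h]
    refine sum_nbij' (fun M => (M.1.comap I.1.mkQ, M.2.comap I.1.mkQ))
      (fun N => (N.1.map I.1.mkQ, N.2.map I.1.mkQ)) (fun M hM => mem_filter.2 ⟨mem_univ _, ?_⟩)
      (fun N h => mem_filter.2 ⟨mem_univ _, Submodule.comap_injective_of_surjective hs ?_⟩)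
      (fun M _ => Prod.ext (Submodule.map_comap_eq_of_surjective hs _)
        (Submodule.map_comap_eq_of_surjective hs _))
      (fun N h => Prod.ext (hN ((mem_filter.1 h).2.ge.trans inf_le_left))
        (hN ((mem_filter.1 h).2.ge.trans inf_le_right))) fun M _ => ?_
    · rw [← Submodule.comap_inf, (mem_filter.1 hM).2, Submodule.comap_bot, Submodule.ker_mkQ]
    · have e := (mem_filter.1 h).2
      rw [Submodule.comap_inf, hN (e.ge.trans inf_le_left), hN (e.ge.trans inf_le_right), e,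
        Submodule.comap_bot, Submodule.ker_mkQ]
    · simp only [sv_comap ha, sv_comap hb, qv_comap]
      by_cases h1 : finrank F I.1 ≤ i <;> by_cases h2 : finrank F I.1 ≤ j <;> simp [h1, h2]
      ring
  · by_cases h1 : N.1 ≤ N.1.comap x
    · rw [sv_of_not (comp j b) fun h2 => hI ((mem_filter.1 hN).2 ▸ fun v hv => ⟨h1 hv.1, h2 hv.2⟩)]
      simp
    · simp [sv_of_not _ h1]

theorem heis {a b : Hall F} (ha : Mult a) (hb : Mult b) (i j : ℕ) (f : Hall F) :
    adj j b (comp i a * f) = ∑ l ∈ range (min i j + 1),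
      int l (pw a b) • (comp (i - l) a * adj (j - l) b f) := by
  refine ext_bf fun n u _ => ?_
  rw [← adj_comp, ← bf_mul_left (comp_mem j b), bf_comm, bf_def, pw_comp_mul ha hb, map_sum,
    map_sum]
  refine sum_congr rfl fun l hl => ?_
  have hl' := mem_range.1 hl
  rw [show j + n = l + (j - l + n) by omega, int_mul' (comp_mem l _), map_smul, smul_eq_mul,
    bf_comm]
  congr 1
  · exact int_congr fun c hc => if_pos hc
  by_cases h : i - l ≤ n
  · obtain ⟨m, rfl⟩ := Nat.exists_eq_add_of_le h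
    rw [bf_mul_left (comp_mem _ a), ← add_assoc, add_comm (j - l), int_Phi (comp_mem _ a)
      (comp_mem _ b), adj_comp]
  · rw [bf_mul_left_of_lt (comp_mem _ a) (not_le.1 h), int_Phi_of_lt (comp_mem _ a) (comp_mem _ b)
      (by omega)]

end Unfold

end Cfsg.Gln

set_option linter.all false in
theorem Cfsg.Rz.Gln_Unfold_0 : True := by
  have := @_root_.Cfsg.Gln.Phi.congr_simp.{0}
  have := @_root_.Cfsg.Gln.Phi.eq_def.{0}
  have := @_root_.Cfsg.Gln.Phi.eq_1.{0}
  have := @_root_.Cfsg.Gln.Phi.fun_cases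
  have := @_root_.Cfsg.Gln.fintypeHom.congr_simp.{0, 0, 0}
  have := @_root_.Cfsg.Gln.fintypeHom.eq_def.{0, 0, 0}
  have := @_root_.Cfsg.Gln.fintypeHom.eq_1.{0, 0, 0}
  have := @_root_.Cfsg.Gln.fintypeHom.fun_cases
  have := @_root_.Cfsg.Gln.IsInv.congr_simp.{0}
  have := @_root_.Cfsg.Gln.IsInv.eq_def.{0}
  have := @_root_.Cfsg.Gln.IsInv.eq_1.{0}
  have := @_root_.Cfsg.Gln.IsInv.fun_cases
  have := @_root_.Cfsg.Gln.bf.eq_def.{0}
  have := @_root_.Cfsg.Gln.bf.eq_1.{0}
  have := @_root_.Cfsg.Gln.bf.fun_cases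
  have := @_root_.Cfsg.Gln.co.congr_simp.{0, 0, 0}
  have := @_root_.Cfsg.Gln.co.eq_def.{0, 0, 0}
  have := @_root_.Cfsg.Gln.co.eq_1.{0, 0, 0}
  have := @_root_.Cfsg.Gln.co.fun_cases
  have := @_root_.Cfsg.Gln.int.eq_def.{0}
  have := @_root_.Cfsg.Gln.int.eq_1.{0}
  have := @_root_.Cfsg.Gln.int.fun_cases
  have := @_root_.Cfsg.Gln.adj.eq_def.{0}
  have := @_root_.Cfsg.Gln.adj.eq_1.{0}
  have := @_root_.Cfsg.Gln.adj.fun_cases
  have := @_root_.Cfsg.Gln.ext.eq_def.{0, 0, 0}
  have := @_root_.Cfsg.Gln.ext.eq_1.{0, 0, 0}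
  have := @_root_.Cfsg.Gln.ext.fun_cases
  trivial

set_option linter.all false in
theorem Cfsg.Rz.Gln_Unfold_1 : True := by
  have := @_root_.Cfsg.Gln.fintypeSub.congr_simp.{0, 0}
  have := @_root_.Cfsg.Gln.fintypeSub.eq_def.{0, 0}
  have := @_root_.Cfsg.Gln.fintypeSub.eq_1.{0, 0}
  have := @_root_.Cfsg.Gln.fintypeSub.fun_cases
  have := @_root_.Cfsg.Gln.bstd.eq_def.{0, 0, 0, 0}
  have := @_root_.Cfsg.Gln.bstd.fun_cases
  have := @_root_.Cfsg.Gln.qv.eq_def.{0, 0}
  have := @_root_.Cfsg.Gln.qv.eq_1.{0, 0}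
  have := @_root_.Cfsg.Gln.qv.fun_cases.{0, 0}
  have := @_root_.Cfsg.Gln.ph.eq_def.{0, 0}
  have := @_root_.Cfsg.Gln.ph.fun_cases.{0, 0}
  have := @_root_.Cfsg.Gln.sv.eq_def.{0, 0}
  have := @_root_.Cfsg.Gln.sv.eq_1.{0, 0}
  have := @_root_.Cfsg.Gln.sv.fun_cases.{0, 0}
  have := @_root_.Cfsg.Gln.btri.eq_def.{0, 0, 0, 0}
  have := @_root_.Cfsg.Gln.btri.eq_1.{0, 0, 0, 0}
  have := @_root_.Cfsg.Gln.btri.fun_cases
  trivial
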